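import Cfsg.Agent.H5.CFormInst
import Cfsg.Prelude.Def_GeometricClasses

set_option autoImplicit false

/-! Subalgebras of matrix algebras normalised by irreducible groups. -/

namespace CfsgH5.As

open Matrix Module Cfsg.Geo
open scoped Kronecker

universe u

variable {ι : Type} [Fintype ι] [DecidableEq ι] {F : Type u} [Field F]

/-- conjugation of matrices -/
def cj (g : GL ι F) : Matrix ι ι F ≃ₐ[F] Matrix ι ι F where
  toFun a := (g : Matrix ι ι F) * a * ((g⁻¹ : GL ι F) : Matrix ι ι F)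
  invFun a := ((g⁻¹ : GL ι F) : Matrix ι ι F) * a * (g : Matrix ι ι F)
  left_inv a := by simp only [mul_assoc, Units.inv_mul, mul_one, Units.inv_mul_cancel_left]
  right_inv a := by simp only [mul_assoc, Units.mul_inv, mul_one, Units.mul_inv_cancel_left]
  map_mul' a b := by simp only [mul_assoc, Units.inv_mul_cancel_left]
  map_add' a b := by rw [mul_add, add_mul]
  commutes' c := by rw [← Algebra.commutes, mul_assoc, Units.mul_inv, mul_one]

theorem cj_apply (g : GL ι F) (a : Matrix ι ι F) :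
    cj g a = (g : Matrix ι ι F) * a * ((g⁻¹ : GL ι F) : Matrix ι ι F) := rfl

theorem cj_mul (g h : GL ι F) (a : Matrix ι ι F) : cj (g * h) a = cj g (cj h a) := by
  simp only [cj_apply, _root_.mul_inv_rev, Units.val_mul, mul_assoc]

@[simp] theorem cj_one (a : Matrix ι ι F) : cj 1 a = a := by simp [cj_apply]

@[simp] theorem cj_inv_cj (g : GL ι F) (a : Matrix ι ι F) : cj g⁻¹ (cj g a) = a := by
  rw [← cj_mul, inv_mul_cancel, cj_one]

@[simp] theorem cj_cj_inv (g : GL ι F) (a : Matrix ι ι F) : cj g (cj g⁻¹ a) = a := by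
  rw [← cj_mul, mul_inv_cancel, cj_one]

theorem cj_coe (g x : GL ι F) : cj g (x : Matrix ι ι F) = ((g * x * g⁻¹ : GL ι F) : Matrix ι ι F) :=
  rfl

theorem cj_mul_coe (g : GL ι F) (a : Matrix ι ι F) : cj g a * g = g * a := by
  simp only [cj_apply, mul_assoc, Units.inv_mul, mul_one]

theorem cj_mulVec (g : GL ι F) (a : Matrix ι ι F) (v : ι → F) :
    cj g a *ᵥ ((g : Matrix ι ι F) *ᵥ v) = (g : Matrix ι ι F) *ᵥ (a *ᵥ v) := by
  rw [mulVec_mulVec, mulVec_mulVec, cj_mul_coe]

theorem cj_eq_self_iff {g : GL ι F} {a : Matrix ι ι F} : cj g a = a ↔ g * a = a * g := by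
  rw [← cj_mul_coe, Units.mul_left_inj]

theorem cj_of_scalar {g : GL ι F} (hg : g ∈ scalars ι F) (a : Matrix ι ι F) : cj g a = a := by
  obtain ⟨c, hc⟩ := (mem_scalars_iff g).1 hg
  rw [cj_eq_self_iff, hc]; simp

@[simp] theorem inv_mulVec_mulVec (g : GL ι F) (v : ι → F) :
    ((g⁻¹ : GL ι F) : Matrix ι ι F) *ᵥ ((g : Matrix ι ι F) *ᵥ v) = v := by
  rw [mulVec_mulVec, Units.inv_mul, one_mulVec]

@[simp] theorem mulVec_inv_mulVec (g : GL ι F) (v : ι → F) :
    (g : Matrix ι ι F) *ᵥ (((g⁻¹ : GL ι F) : Matrix ι ι F) *ᵥ v) = v := by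
  rw [mulVec_mulVec, Units.mul_inv, one_mulVec]

theorem gl_mulVec_eq_zero {g : GL ι F} {v : ι → F} : (g : Matrix ι ι F) *ᵥ v = 0 ↔ v = 0 :=
  ⟨fun h => by rw [← inv_mulVec_mulVec g v, h, mulVec_zero], fun h => by rw [h, mulVec_zero]⟩

theorem mem_scalars_of_eq {g : GL ι F} {c : F} [Nonempty ι] (h : (g : Matrix ι ι F) = c • 1) :
    g ∈ scalars ι F := by
  have : c ≠ 0 := by rintro rfl; exact g.ne_zero (by simpa using h)
  exact (mem_scalars_iff g).2 ⟨Units.mk0 c this, h⟩

theorem scalar_of_comm {a : Matrix ι ι F} (h : ∀ x, a * x = x * a) : ∃ c : F, a = c • 1 := by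
  obtain ⟨c, hc⟩ := Matrix.mem_range_scalar_of_commute_single (M := a) fun i j _ => (h _).symm
  exact ⟨c, by rw [← hc]; simp [smul_one_eq_diagonal]⟩

/-- irreducible matrix groups -/
def Irr (H : Subgroup (GL ι F)) : Prop := ∀ W : Submodule F (ι → F),
  (∀ g ∈ H, ∀ w ∈ W, (g : Matrix ι ι F) *ᵥ w ∈ W) → W = ⊥ ∨ W = ⊤

theorem Irr.mono {H K : Subgroup (GL ι F)} (h : Irr H) (hK : H ≤ K) : Irr K :=
  fun W hW => h W fun g hg => hW g (hK hg)

/-- `H` normalises the set of matrices `S` -/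
def Nz (H : Subgroup (GL ι F)) (S : Set (Matrix ι ι F)) : Prop := ∀ g ∈ H, ∀ x ∈ S, cj g x ∈ S

theorem Nz.mono {H K : Subgroup (GL ι F)} {S : Set (Matrix ι ι F)} (h : Nz K S) (hK : H ≤ K) :
    Nz H S := fun g hg => h g (hK hg)

theorem Nz.iff {H : Subgroup (GL ι F)} {S : Set (Matrix ι ι F)} (h : Nz H S) {g : GL ι F}
    (hg : g ∈ H) {x : Matrix ι ι F} : cj g x ∈ S ↔ x ∈ S :=
  ⟨fun hx => by simpa using h g⁻¹ (inv_mem hg) _ hx, h g hg x⟩

theorem Nz.le_normalizer {H : Subgroup (GL ι F)} {K : Subalgebra F (Matrix ι ι F)} (h : Nz H K) :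
    H ≤ subalgebraNormalizer K := fun _ hg _ => (h.iff hg).symm

theorem Irr.eq_zero {H : Subgroup (GL ι F)} (h : Irr H) {S : Set (Matrix ι ι F)} (hS : Nz H S)
    {y : Matrix ι ι F} (hy : y ≠ 0) (hk : ∀ x ∈ S, x * y = 0) : ∀ x ∈ S, x = 0 := by
  rcases h (⨅ x ∈ S, LinearMap.ker (toLin' x)) (fun g hg w hw => by
    simp only [Submodule.mem_iInf, LinearMap.mem_ker, toLin'_apply] at hw ⊢
    intro x hx
    rw [← cj_cj_inv g x, cj_mulVec, hw _ (hS _ (inv_mem hg) x hx), mulVec_zero]) with h1 | h1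
  · refine absurd (mat_ext_mulVec fun v => ?_) hy
    rw [zero_mulVec, ← Submodule.mem_bot F, ← h1]
    simp only [Submodule.mem_iInf, LinearMap.mem_ker, toLin'_apply]
    intro x hx
    rw [mulVec_mulVec, hk x hx, zero_mulVec]
  · intro x hx
    refine mat_ext_mulVec fun v => ?_
    have : v ∈ ⨅ x ∈ S, LinearMap.ker (toLin' x) := h1 ▸ Submodule.mem_top
    simp only [Submodule.mem_iInf, LinearMap.mem_ker, toLin'_apply] at this
    rw [this x hx, zero_mulVec]

theorem Irr.isSemisimpleRing [Finite F] [Nonempty ι] {H : Subgroup (GL ι F)} (h : Irr H)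
    {B : Subring (Matrix ι ι F)} (hB : Nz H B) : IsSemisimpleRing B := by
  classical
  rw [IsArtinianRing.isSemisimpleRing_iff_jacobson, eq_bot_iff]
  have hn : ∃ k, Ring.jacobson B ^ k = ⊥ := IsSemiprimaryRing.isNilpotent (R := B)
  have h0 : Nat.find hn ≠ 0 := fun e => by
    have := Nat.find_spec hn
    rw [e, Submodule.pow_zero, Ideal.one_eq_top] at this
    exact top_ne_bot this
  obtain ⟨k, hk⟩ := Nat.exists_eq_succ_of_ne_zero h0
  obtain ⟨y, hy, hy0⟩ := (Submodule.ne_bot_iff _).1 (Nat.find_min hn (m := k) (by omega))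
  intro x hx
  refine Subtype.ext (h.eq_zero (S := Subtype.val '' (Ring.jacobson B : Set B)) ?_ (y := y)
    (fun e => hy0 (Subtype.ext e)) ?_ _ ⟨x, hx, rfl⟩)
  · rintro g hg _ ⟨x, hx, rfl⟩
    let f : B →+* B := ((cj g : Matrix ι ι F →+* Matrix ι ι F).comp B.subtype).codRestrict B
      fun x => hB g hg _ x.2
    have : RingHomSurjective f := ⟨fun z => ⟨⟨_, hB g⁻¹ (inv_mem hg) _ z.2⟩,
      Subtype.ext (cj_cj_inv g _)⟩⟩
    exact ⟨f x, Ring.map_jacobson_le f ⟨x, hx, rfl⟩, rfl⟩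
  · rintro _ ⟨x, hx, rfl⟩
    have := Ideal.mul_mem_mul hx hy
    rw [← Ideal.IsTwoSided.pow_succ, ← Nat.succ_eq_add_one, ← hk, Nat.find_spec hn] at this
    exact congrArg Subtype.val (show x * y = 0 from this)

theorem isSimpleRing_of_center {R : Type*} [Ring R] [Nontrivial R] [IsSemisimpleRing R]
    (h : ∀ e : R, IsIdempotentElem e → (∀ x, e * x = x * e) → e = 0 ∨ e = 1) : IsSimpleRing R := by
  refine IsSimpleRing.of_eq_bot_or_eq_top fun I => ?_
  obtain ⟨e, he, hI⟩ := IsSemisimpleRing.ideal_eq_span_idempotent I.asIdeal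
  have mem : ∀ x, x ∈ I ↔ ∃ a, a * e = x := fun x => by
    rw [← TwoSidedIdeal.mem_asIdeal, hI, Ideal.mem_span_singleton']
  have eI : e ∈ I := (mem e).2 ⟨1, one_mul e⟩
  have h1 : ∀ a, e * a * (1 - e) = 0 := fun a => by
    obtain ⟨b, hb⟩ := (mem _).1 (I.mul_mem_right _ a eI)
    rw [← hb, mul_assoc, mul_sub, he.eq, mul_one, sub_self, mul_zero]
  have h2 : ∀ a, (1 - e) * a * e = 0 := fun a => by
    obtain ⟨f, hf, hJ⟩ := IsSemisimpleRing.ideal_eq_span_idempotent (Ideal.span {(1 - e) * a * e})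
    obtain ⟨b, hb⟩ := Ideal.mem_span_singleton'.1 (hJ ▸ Ideal.mem_span_singleton_self f)
    obtain ⟨c, hc⟩ := Ideal.mem_span_singleton'.1 (hJ ▸ Ideal.mem_span_singleton_self ((1 - e) * a * e))
    have : f = 0 := by
      rw [← hf.eq, ← hb]
      calc _ = b * ((1 - e) * a) * (e * b * (1 - e)) * (a * e) := by simp only [mul_assoc]
        _ = 0 := by rw [h1, mul_zero, zero_mul]
    rw [← hc, this, mul_zero]
  rcases h e he (fun x => by linear_combination (norm := noncomm_ring) h1 x - h2 x) with rfl | rfl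
  · exact .inl (eq_bot_iff.2 fun x hx => by obtain ⟨a, rfl⟩ := (mem x).1 hx; simp)
  · exact .inr (I.eq_top eI)

/-- a system of matrix units -/
structure MU {κ : Type} [Fintype κ] [DecidableEq κ] (U : κ → κ → Matrix ι ι F) : Prop where
  mul : ∀ a b c d, U a b * U c d = if b = c then U a d else 0
  sum : ∑ a, U a a = 1

/-- the algebra map of a system of matrix units -/
noncomputable def MU.hom {κ : Type} [Fintype κ] [DecidableEq κ] {U : κ → κ → Matrix ι ι F}
    (h : MU U) : Matrix κ κ F →ₐ[F] Matrix ι ι F :=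
  AlgHom.ofLinearMap ((Matrix.stdBasis F κ κ).constr F fun p => U p.1 p.2) (by
    rw [← h.sum, ← Matrix.sum_single_one, map_sum]
    exact Finset.sum_congr rfl fun a _ => by
      rw [← Matrix.stdBasis_eq_single, Basis.constr_basis]) (by
    rw [LinearMap.map_mul_iff]
    refine (Matrix.stdBasis F κ κ).ext fun ⟨a, b⟩ => (Matrix.stdBasis F κ κ).ext fun ⟨c, d⟩ => ?_
    simp only [LinearMap.compr₂_apply, LinearMap.mul_apply', LinearMap.compl₂_apply,
      LinearMap.comp_apply, Basis.constr_basis, h.mul]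
    rw [Matrix.stdBasis_eq_single, Matrix.stdBasis_eq_single]
    split_ifs with e
    · subst e; rw [single_mul_single_same, mul_one, ← Matrix.stdBasis_eq_single, Basis.constr_basis]
    · rw [single_mul_single_of_ne (h := e), map_zero])

theorem MU.hom_single {κ : Type} [Fintype κ] [DecidableEq κ] {U : κ → κ → Matrix ι ι F}
    (h : MU U) (a b : κ) : h.hom (single a b 1) = U a b := by
  rw [← Matrix.stdBasis_eq_single]
  exact (Matrix.stdBasis F κ κ).constr_basis F (fun p => U p.1 p.2) (a, b)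

theorem algHom_eq_sum {κ : Type} [Fintype κ] [DecidableEq κ] {M : Type*} [AddCommMonoid M]
    [Module F M] {Φ : Type*} [FunLike Φ (Matrix κ κ F) M] [LinearMapClass Φ F _ _] (φ : Φ)
    (X : Matrix κ κ F) : φ X = ∑ a, ∑ b, X a b • φ (single a b 1) := by
  conv_lhs => rw [matrix_eq_sum_single X]
  simp only [map_sum, ← map_smul, smul_single, smul_eq_mul, mul_one]

theorem Irr.exists_hom [Finite F] [Nonempty ι] {H : Subgroup (GL ι F)} (h : Irr H)
    {B : Subring (Matrix ι ι F)} (hB : Nz H B)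
    (hZ : ∀ z ∈ B, (∀ x ∈ B, z * x = x * z) → ∃ c : F, z = c • 1) :
    ∃ (k : ℕ) (φ : Matrix (Fin k) (Fin k) F →ₐ[F] Matrix ι ι F), 0 < k ∧
      (∀ a b, φ (single a b 1) ∈ B) ∧ ∀ x ∈ B, ∃ X : Matrix (Fin k) (Fin k) F,
        (∀ a b, X a b • (1 : Matrix ι ι F) ∈ B) ∧ φ X = x := by
  have := h.isSemisimpleRing hB
  have : IsSimpleRing B := isSimpleRing_of_center fun e he hc => by
    obtain ⟨c, h1⟩ := hZ e e.2 fun x hx => congrArg Subtype.val (hc ⟨x, hx⟩)
    have h2 : (e : Matrix ι ι F) * e = e := congrArg Subtype.val he.eq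
    rw [h1, smul_mul_smul, one_mul] at h2
    have h3 := smul_left_injective F (one_ne_zero' (Matrix ι ι F)) h2
    rcases (mul_right_eq_self₀.1 h3).symm with rfl | rfl
    · exact .inl (Subtype.ext (by simpa using h1))
    · exact .inr (Subtype.ext (by simpa using h1))
  obtain ⟨k, hk, D, _, ⟨e⟩⟩ := IsSimpleRing.exists_ringEquiv_matrix_divisionRing B
  have : Finite (Matrix (Fin k) (Fin k) D) := Finite.of_equiv _ e.toEquiv
  have : Finite D := Finite.of_injective (fun d : D => (scalar (Fin k) d : Matrix (Fin k) (Fin k) D))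
    fun a b h => scalar_inj.1 h
  have hU : MU fun a b => (e.symm (single a b 1) : Matrix ι ι F) := ⟨fun a b c d => by
    rw [← Subring.coe_mul, ← map_mul]
    split_ifs with h
    · subst h; rw [single_mul_single_same, mul_one]
    · rw [single_mul_single_of_ne (h := h), map_zero]; rfl, by
    rw [← AddSubmonoidClass.coe_finset_sum, ← map_sum, Matrix.sum_single_one, map_one]; rfl⟩
  have hc : ∀ d : D, ∃ c : F, (e.symm (scalar (Fin k) d) : Matrix ι ι F) = c • 1 := fun d =>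
    hZ _ (e.symm _).2 fun x hx => by
      have := (scalar_commute d (fun r => (littleWedderburn D).mul_comm d r) (e ⟨x, hx⟩)).eq
      apply_fun e.symm at this
      simpa using congrArg Subtype.val this
  choose c hc using hc
  refine ⟨k, hU.hom, Nat.pos_of_neZero k, fun a b => hU.hom_single a b ▸ (e.symm _).2,
    fun x hx => ⟨of fun a b => c (e ⟨x, hx⟩ a b), fun a b => by rw [of_apply, ← hc]; exact (e.symm _).2, ?_⟩⟩
  have := congrArg (fun y => (e.symm y : Matrix ι ι F)) (matrix_eq_sum_single (e ⟨x, hx⟩))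
  simp only [RingEquiv.symm_apply_apply, map_sum, AddSubmonoidClass.coe_finset_sum] at this
  rw [algHom_eq_sum]
  refine Eq.trans (Finset.sum_congr rfl fun a _ => Finset.sum_congr rfl fun b _ => ?_) this.symm
  rw [hU.hom_single, ← smul_one_mul, of_apply, ← hc, ← Subring.coe_mul, ← map_mul]
  congr 2
  rw [scalar_apply, ← smul_eq_diagonal_mul, smul_single, smul_eq_mul, mul_one]

/-- transport of matrices along a bijection of indices and a change of basis -/
def tp {κ : Type} [Fintype κ] [DecidableEq κ] (e : ι ≃ κ) (P : GL ι F) :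
    Matrix κ κ F ≃ₐ[F] Matrix ι ι F := (reindexAlgEquiv F F e.symm).trans (cj P)

theorem tp_mulVec {κ : Type} [Fintype κ] [DecidableEq κ] (e : ι ≃ κ) (P : GL ι F)
    (X : Matrix κ κ F) (x : κ → F) : tp e P X *ᵥ ((P : Matrix ι ι F) *ᵥ (x ∘ e)) =
      (P : Matrix ι ι F) *ᵥ ((X *ᵥ x) ∘ e) := by
  rw [tp, AlgEquiv.trans_apply, cj_mulVec]
  congr 1
  simp [submatrix_mulVec_equiv, Function.comp_assoc]

theorem exists_mulVec_comp {κ : Type} (e : ι ≃ κ) (P : GL ι F) (v : ι → F) :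
    ∃ x : κ → F, v = (P : Matrix ι ι F) *ᵥ (x ∘ e) :=
  ⟨(((P⁻¹ : GL ι F) : Matrix ι ι F) *ᵥ v) ∘ e.symm, by simp [Function.comp_assoc]⟩

theorem exists_tp_of_basis {κ : Type} [Fintype κ] [DecidableEq κ] (b : Basis κ F (ι → F)) :
    ∃ (e : ι ≃ κ) (P : GL ι F), ∀ x : κ → F, (P : Matrix ι ι F) *ᵥ (x ∘ e) = ∑ a, x a • b a := by
  let e : ι ≃ κ := (Pi.basisFun F ι).indexEquiv b
  refine ⟨e, glOfLin (b.reindex e.symm).equivFun.symm, fun x => ?_⟩
  rw [glOfLin_mulVec, Basis.equivFun_symm_apply, ← e.sum_comp]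
  simp

theorem exists_tp {κ : Type} [Fintype κ] [DecidableEq κ] [Nonempty κ]
    (φ : Matrix κ κ F →ₐ[F] Matrix ι ι F) : ∃ (l : ℕ) (e : ι ≃ κ × Fin l) (P : GL ι F),
    ∀ X, φ X = tp e P (X ⊗ₖ (1 : Matrix (Fin l) (Fin l) F)) := by
  obtain ⟨o⟩ := ‹Nonempty κ›
  set W := LinearMap.range (toLin' (φ (single o o 1)))
  let w := finBasis F W
  have hw : ∀ x : W, φ (single o o 1) *ᵥ x = x := by
    rintro ⟨_, y, rfl⟩
    simp only [toLin'_apply, mulVec_mulVec, ← map_mul, single_mul_single_same, mul_one]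
  let v : κ × Fin (finrank F W) → ι → F := fun p => φ (single p.1 o 1) *ᵥ w p.2
  have hv : ∀ c a j, φ (single o c 1) *ᵥ v (a, j) = if c = a then (w j : ι → F) else 0 := by
    intro c a j
    simp only [v, mulVec_mulVec, ← map_mul]
    split_ifs with h
    · subst h; rw [single_mul_single_same, mul_one, hw]
    · rw [single_mul_single_of_ne (h := h), map_zero, zero_mulVec]
  have li : LinearIndependent F v := by
    rw [Fintype.linearIndependent_iff]
    rintro g hg ⟨a, j⟩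
    have := congrArg (φ (single o a 1) *ᵥ ·) hg
    simp only [mulVec_sum, mulVec_smul, mulVec_zero, Fintype.sum_prod_type, hv, smul_ite,
      smul_zero, Finset.sum_ite_irrel, Finset.sum_const_zero, Finset.sum_ite_eq, Finset.mem_univ,
      if_true] at this
    exact Fintype.linearIndependent_iff.1 w.linearIndependent (fun j => g (a, j))
      (Subtype.ext (by simpa using this)) j
  have sp : ⊤ ≤ Submodule.span F (Set.range v) := fun y _ => by
    have : y = ∑ a, φ (single a o 1) *ᵥ (φ (single o o 1) *ᵥ (φ (single o a 1) *ᵥ y)) := by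
      simp only [mulVec_mulVec, ← map_mul, single_mul_single_same, mul_one]
      rw [← sum_mulVec, ← map_sum, Matrix.sum_single_one, map_one, one_mulVec]
    rw [this]
    refine Submodule.sum_mem _ fun a _ => ?_
    have : _ = φ (single o o 1) *ᵥ (φ (single o a 1) *ᵥ y) :=
      congrArg Subtype.val (w.sum_repr ⟨_, φ (single o a 1) *ᵥ y, rfl⟩)
    rw [← this, AddSubmonoidClass.coe_finset_sum, mulVec_sum]
    refine Submodule.sum_mem _ fun j _ => ?_
    rw [Submodule.coe_smul, mulVec_smul]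
    exact Submodule.smul_mem _ _ (Submodule.subset_span ⟨(a, j), rfl⟩)
  obtain ⟨e, P, hP⟩ := exists_tp_of_basis (Basis.mk li sp)
  refine ⟨_, e, P, fun X => mat_ext_mulVec fun y => ?_⟩
  obtain ⟨x, rfl⟩ := exists_mulVec_comp e P y
  rw [tp_mulVec, hP, hP]
  have : ∀ a j, φ X *ᵥ v (a, j) = ∑ c, X c a • v (c, j) := fun a j => by
    simp only [v, mulVec_mulVec, ← map_mul, ← smul_mulVec, ← map_smul, ← sum_mulVec, ← map_sum]
    congr 2
    ext r s
    by_cases h : o = s
    · subst h; simp [Matrix.sum_apply, single_apply]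
    · simp [Matrix.sum_apply, mul_apply, single_apply, h]
  simp only [Basis.coe_mk, mulVec_sum, mulVec_smul, Fintype.sum_prod_type, this, Finset.smul_sum,
    mulVec, dotProduct, kroneckerMap_apply, one_apply, mul_ite, mul_one, mul_zero, ite_mul,
    zero_mul, Finset.sum_ite_eq, Finset.mem_univ, if_true, Finset.sum_smul, smul_smul]
  rw [Finset.sum_comm]
  conv_rhs => rw [Finset.sum_comm]
  refine Finset.sum_congr rfl fun j _ => ?_
  rw [Finset.sum_comm]
  simp only [mul_comm]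

theorem exists_cj_of_algEquiv (θ : Matrix ι ι F ≃ₐ[F] Matrix ι ι F) :
    ∃ a : GL ι F, ∀ X, θ X = cj a X := by
  obtain ⟨T, hT⟩ := ((toLinAlgEquiv'.symm.trans θ).trans toLinAlgEquiv').eq_linearEquivConjAlgEquiv
  refine ⟨glOfLin T, fun X => mat_ext_mulVec fun v => ?_⟩
  obtain ⟨v, rfl⟩ := T.surjective v
  have := congrArg (fun f => f (toLinAlgEquiv' X) (T v)) hT
  rw [← glOfLin_mulVec, cj_mulVec, glOfLin_mulVec, glOfLin_mulVec]
  simpa [LinearEquiv.conjAlgEquiv_apply] using this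

/-- Skolem–Noether -/
theorem exists_cj_of_range_le {κ : Type} [Fintype κ] [DecidableEq κ] [Nonempty κ] [Nonempty ι]
    (φ ψ : Matrix κ κ F →ₐ[F] Matrix ι ι F) (h : ∀ X, φ X ∈ ψ.range) :
    ∃ a : GL κ F, ∀ X, φ X = ψ (cj a X) := by
  let θ := (AlgEquiv.ofInjective ψ ψ.toRingHom.injective).symm.toAlgHom.comp
    (φ.codRestrict _ h)
  have h1 : Function.Injective θ := θ.toRingHom.injective
  obtain ⟨a, ha⟩ := exists_cj_of_algEquiv (AlgEquiv.ofBijective θ ⟨h1,
    (LinearMap.injective_iff_surjective (f := θ.toLinearMap)).1 h1⟩)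
  refine ⟨a, fun X => ?_⟩
  rw [← ha]
  exact (congrArg Subtype.val ((AlgEquiv.ofInjective ψ ψ.toRingHom.injective).apply_symm_apply
    ⟨φ X, h X⟩)).symm

theorem exists_one_kronecker {κ μ : Type} [Fintype κ] [DecidableEq κ] [Nonempty κ] [Fintype μ]
    [DecidableEq μ] {Y : Matrix (κ × μ) (κ × μ) F}
    (h : ∀ X : Matrix κ κ F, Y * X ⊗ₖ (1 : Matrix μ μ F) = X ⊗ₖ (1 : Matrix μ μ F) * Y) :
    ∃ b : Matrix μ μ F, Y = (1 : Matrix κ κ F) ⊗ₖ b := by
  obtain ⟨o⟩ := ‹Nonempty κ›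
  refine ⟨of fun j j' => Y (o, j) (o, j'), ?_⟩
  ext ⟨c, j⟩ ⟨d, j'⟩
  have := congrFun (congrFun (h (single o c 1)) (o, j)) (d, j')
  simp only [mul_apply, Fintype.sum_prod_type, kroneckerMap_apply, single_apply, one_apply] at this ⊢
  by_cases e : c = d
  · simp_all [ite_and]
  · simp [ite_and, e] at this; simp [e, ← this]

end CfsgH5.As
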