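import Cfsg.Agent.H5.As1
import Cfsg.Agent.H5.SLBasic

set_option autoImplicit false

/-! Commutative invariant subalgebras: decompositions and extension fields. -/

namespace CfsgH5.As

open Matrix Module Cfsg.Geo

universe u

theorem exists_idem_pow {M : Type*} [Monoid M] [Finite M] (x : M) :
    ∃ m, 0 < m ∧ x ^ m * x ^ m = x ^ m := by
  obtain ⟨a, b, hab, h⟩ : ∃ a b : ℕ, a < b ∧ x ^ a = x ^ b := by
    obtain ⟨a, b, h1, h⟩ := Finite.exists_ne_map_eq_of_infinite (x ^ · : ℕ → M)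
    rcases lt_or_gt_of_ne h1 with h2 | h2
    exacts [⟨a, b, h2, h⟩, ⟨b, a, h2, h.symm⟩]
  obtain ⟨d, rfl⟩ := Nat.exists_eq_add_of_lt hab
  have key : ∀ k c, x ^ (a + c + k * (d + 1)) = x ^ (a + c) := fun k c => by
    induction k with
    | zero => simp
    | succ k ih => rw [← ih, show a + c + (k + 1) * (d + 1) = (a + d + 1) + (c + k * (d + 1)) by
        ring, pow_add, ← h, ← pow_add, add_assoc]
  refine ⟨(a + 1) * (d + 1), by positivity, ?_⟩
  rw [← pow_add, show (a + 1) * (d + 1) = a + (a * d + d + 1) by ring] 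
  conv_lhs => enter [2, 2]; rw [show a + (a * d + d + 1) = (a + 1) * (d + 1) by ring]
  exact key _ _

/-- fixed points of a power of the Frobenius map -/
noncomputable def fixPow (k K : Type*) [Field k] [Fintype k] [CommRing K] [Algebra k K] (s : ℕ) :
    Subalgebra k K := AlgHom.equalizer (FiniteField.frobeniusAlgHom k K ^ s) (AlgHom.id k K)

theorem mem_fixPow {k K : Type*} [Field k] [Fintype k] [CommRing K] [Algebra k K] {s : ℕ} {x : K} :
    x ∈ fixPow k K s ↔ x ^ Fintype.card k ^ s = x := by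
  simp [fixPow, AlgHom.coe_pow, FiniteField.coe_frobeniusAlgHom, pow_iterate]

theorem card_pow_eq_self {K : Type*} [Field K] [Finite K] {q s d : ℕ} (hq : 2 ≤ q)
    (h : Nat.card K = q ^ d) (hs : s ∣ d) : Nat.card {x : K // x ^ q ^ s = x} = q ^ s := by
  classical
  have hd : d ≠ 0 := by rintro rfl; exact (Finite.one_lt_card (α := K)).ne' (by simpa using h)
  have hs0 : s ≠ 0 := by rintro rfl; exact hd (by simpa using hs)
  have h1 : 1 < q ^ s := Nat.one_lt_pow hs0 hq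
  have : NeZero (q ^ s - 1) := ⟨by omega⟩
  have e := card_rootsOfUnity_finite (F := K) (q ^ s - 1)
  obtain ⟨c, rfl⟩ := hs
  rw [h, Nat.gcd_eq_left (by rw [pow_mul]; exact Nat.sub_one_dvd_pow_sub_one _ _)] at e
  rw [← Nat.card_congr (Equiv.optionSubtypeNe (⟨0, zero_pow (by omega)⟩ : {x : K // x ^ q ^ s = x})),
    Finite.card_option]
  refine Eq.trans ?_ (Nat.sub_add_cancel h1.le)
  rw [← e]
  congr 1
  have k : ∀ x : K, x ^ q ^ s = x ^ (q ^ s - 1) * x := fun x => by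
    rw [← pow_succ, Nat.sub_add_cancel h1.le]
  refine Nat.card_congr ⟨fun x => ⟨Units.mk0 x.1.1 fun h => x.2 (Subtype.ext h), Units.ext ?_⟩,
    fun x => ⟨⟨x.1, ?_⟩, fun h => x.1.ne_zero (congrArg Subtype.val h)⟩, fun _ => rfl,
    fun _ => Subtype.ext (Units.ext rfl)⟩
  · exact (mul_eq_right₀ fun h => x.2 (Subtype.ext h)).1 ((k _).symm.trans x.1.2)
  · rw [k, ← Units.val_pow_eq_pow_val, (mem_rootsOfUnity _ _).1 x.2, Units.val_one, one_mul]

theorem finrank_fixPow {k K : Type*} [Field k] [Fintype k] [Field K] [Finite K] [Algebra k K] {s : ℕ}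
    (hs : s ∣ finrank k K) : finrank k (fixPow k K s) = s := by
  have := card_pow_eq_self Fintype.one_lt_card (K := K)
    (by rw [Module.natCard_eq_pow_finrank (K := k), Nat.card_eq_fintype_card]) hs
  rw [← Nat.card_congr (Equiv.subtypeEquivRight fun x => mem_fixPow),
    Module.natCard_eq_pow_finrank (K := k), Nat.card_eq_fintype_card] at this
  exact Nat.pow_right_injective Fintype.one_lt_card this

theorem exists_prime_index_subfield {F : Type*} [Field F] [Fintype F] {F₀ : Subfield F}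
    (h : F₀ ≠ ⊤) : ∃ (F₁ : Subfield F) (r : ℕ), F₀ ≤ F₁ ∧ r.Prime ∧
      Fintype.card F = Nat.card F₁ ^ r := by
  classical
  have hd : finrank F₀ F ≠ 1 := fun e => h (eq_top_iff.2 fun x _ => by
    obtain ⟨c, hc⟩ := (finrank_eq_one_iff_of_nonzero' (1 : F) one_ne_zero).1 e x
    rw [← hc, Subfield.smul_def, smul_eq_mul, mul_one]; exact c.2)
  obtain ⟨r, hr, s, hs⟩ := Nat.exists_prime_and_dvd hd
  let A := fixPow F₀ F s
  refine ⟨A.toSubring.toSubfield fun x hx => mem_fixPow.2 (by rw [inv_pow, mem_fixPow.1 hx]), r,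
    fun x hx => A.algebraMap_mem ⟨x, hx⟩, hr, ?_⟩
  change _ = Nat.card A ^ r
  rw [Module.natCard_eq_pow_finrank (K := F₀), finrank_fixPow (Dvd.intro_left _ hs.symm), ← pow_mul,
    mul_comm, ← hs, ← Module.natCard_eq_pow_finrank, Nat.card_eq_fintype_card]

variable {ι : Type} [Fintype ι] [DecidableEq ι] {F : Type u} [Field F]

/-- a commutative subalgebra that is a field -/
structure Fld (K : Subalgebra F (Matrix ι ι F)) : Prop where
  comm : ∀ x ∈ K, ∀ y ∈ K, x * y = y * x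
  inv : ∀ x ∈ K, x ≠ 0 → ∃ y ∈ K, x * y = 1

theorem Fld.isField [Nonempty ι] {K : Subalgebra F (Matrix ι ι F)} (h : Fld K) : IsField K :=
  ⟨exists_pair_ne _, fun x y => Subtype.ext (h.comm _ x.2 _ y.2), fun {x} hx =>
    let ⟨y, h1, h2⟩ := h.inv x x.2 fun e => hx (Subtype.ext e); ⟨⟨y, h1⟩, Subtype.ext h2⟩⟩

theorem Fld.fs {K : Subalgebra F (Matrix ι ι F)} (h : Fld K) : IsFieldSubalgebra (finrank F K) K :=
  ⟨h.comm, h.inv, rfl⟩

theorem fld_of_fs {K : Subalgebra F (Matrix ι ι F)} {r : ℕ} (h : IsFieldSubalgebra r K) : Fld K :=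
  ⟨h.comm, h.inv⟩

theorem Fld.mono [Finite F] {K K' : Subalgebra F (Matrix ι ι F)} (h : Fld K) (hK : K' ≤ K) :
    Fld K' := by
  refine ⟨fun x hx y hy => h.comm x (hK hx) y (hK hy), fun x hx h0 => ?_⟩
  obtain ⟨y, -, hy⟩ := h.inv x (hK hx) h0
  obtain ⟨m, hm, h1⟩ := exists_idem_pow x
  obtain ⟨m, rfl⟩ : ∃ k, m = k + 1 := ⟨m - 1, by omega⟩
  have hu : IsUnit (x ^ (m + 1)) := (IsUnit.of_mul_eq_one y hy).pow _
  exact ⟨x ^ m, pow_mem hx _, by rw [← pow_succ']; exact hu.mul_eq_left.1 h1⟩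

theorem Fld.exists_sub [Fintype F] [Nonempty ι] {K : Subalgebra F (Matrix ι ι F)} (h : Fld K)
    {r : ℕ} (hr : r ∣ finrank F K) : ∃ K₀ : Subalgebra F (Matrix ι ι F), IsFieldSubalgebra r K₀ ∧
      ∀ x, x ∈ K₀ ↔ x ∈ K ∧ x ^ Fintype.card F ^ r = x := by
  letI := h.isField.toField
  have e : ∀ x, x ∈ (fixPow F K r).map K.val ↔ x ∈ K ∧ x ^ Fintype.card F ^ r = x := fun x =>
    ⟨fun ⟨y, h1, h2⟩ => h2 ▸ ⟨y.2, congrArg Subtype.val (mem_fixPow.1 h1)⟩,
      fun ⟨h1, h2⟩ => ⟨⟨x, h1⟩, mem_fixPow.2 (Subtype.ext h2), rfl⟩⟩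
  have := h.mono (K' := (fixPow F K r).map K.val) fun x hx => ((e x).1 hx).1
  exact ⟨_, ⟨this.comm, this.inv, (Subalgebra.equivMapOfInjective _ K.val
    Subtype.val_injective).toLinearEquiv.finrank_eq.symm.trans (finrank_fixPow hr)⟩, e⟩

theorem finrank_ne_one_of_ne_bot [Nonempty ι] {K : Subalgebra F (Matrix ι ι F)} (h : K ≠ ⊥) :
    finrank F K ≠ 1 := fun e => h (Subalgebra.finrank_eq_one_iff.1 e)

theorem Fld.exists_prime [Fintype F] [Nonempty ι] {K : Subalgebra F (Matrix ι ι F)} (h : Fld K)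
    (hK : K ≠ ⊥) {H : Subgroup (GL ι F)} (hH : Nz H K) : ∃ (r : ℕ) (K₀ : Subalgebra F (Matrix ι ι F)),
      r.Prime ∧ r ∣ finrank F K ∧ IsFieldSubalgebra r K₀ ∧ K₀ ≤ K ∧ Nz H K₀ ∧
      ∀ x, x ∈ K₀ ↔ x ∈ K ∧ x ^ Fintype.card F ^ r = x := by
  obtain ⟨r, hr, hd⟩ := Nat.exists_prime_and_dvd (finrank_ne_one_of_ne_bot hK)
  obtain ⟨K₀, h1, h2⟩ := h.exists_sub hd
  exact ⟨r, K₀, hr, hd, h1, fun x hx => ((h2 x).1 hx).1, fun g hg x hx =>
    (h2 _).2 ⟨hH g hg x ((h2 x).1 hx).1, by rw [← map_pow, ((h2 x).1 hx).2]⟩, h2⟩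

theorem Fld.mulVec_eq_zero {K : Subalgebra F (Matrix ι ι F)} (h : Fld K) {x : Matrix ι ι F}
    (hx : x ∈ K) {v : ι → F} (hv : v ≠ 0) (e : x *ᵥ v = 0) : x = 0 := by
  by_contra h0
  obtain ⟨y, hy, h1⟩ := h.inv x hx h0
  exact hv (by rw [← one_mulVec v, ← h1, h.comm x hx y hy, ← mulVec_mulVec, e, mulVec_zero])

theorem Fld.finrank_dvd [Finite F] [Nonempty ι] {K : Subalgebra F (Matrix ι ι F)} (h : Fld K) :
    finrank F K ∣ Fintype.card ι := by
  letI := h.isField.toField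
  letI : Module K (ι → F) := Module.compHom _ ((toLinAlgEquiv' (R := F)).toRingEquiv.toRingHom.comp
    K.val.toRingHom)
  have := Module.natCard_eq_pow_finrank (K := K) (V := ι → F)
  rw [Module.natCard_eq_pow_finrank (K := F) (V := K), ← pow_mul, Nat.card_fun,
    Nat.card_eq_fintype_card (α := ι)] at this
  exact ⟨_, Nat.pow_right_injective Finite.one_lt_card this⟩

/-- a transitively permuted system of primitive idempotents -/
structure IdemSys (H : Subgroup (GL ι F)) (K : Subalgebra F (Matrix ι ι F)) {t : ℕ}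
    (e : Fin t → Matrix ι ι F) : Prop where
  two_le : 2 ≤ t
  mem : ∀ i, e i ∈ K
  ne : ∀ i, e i ≠ 0
  idem : ∀ i, e i * e i = e i
  orth : ∀ i j, i ≠ j → e i * e j = 0
  sum : ∑ i, e i = 1
  prim : ∀ x ∈ K, x * x = x → ∀ i, x * e i = 0 ∨ x * e i = e i
  perm : ∀ g ∈ H, ∀ i, ∃ j, cj g (e i) = e j
  trans : ∀ i j, ∃ g ∈ H, cj g (e i) = e j

theorem Irr.fld_or_idem [Finite F] [Nonempty ι] {H : Subgroup (GL ι F)} (h : Irr H)
    {K : Subalgebra F (Matrix ι ι F)} (hK : Nz H K) (hc : ∀ x ∈ K, ∀ y ∈ K, x * y = y * x) :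
    Fld K ∨ ∃ (t : ℕ) (e : Fin t → Matrix ι ι F), IdemSys H K e := by
  classical
  obtain ⟨y, ⟨hy, hy0⟩, hmin⟩ := (measure fun x : Matrix ι ι F => finrank F (LinearMap.range
    (toLin' x))).wf.has_min {x | x ∈ K ∧ x ≠ 0} ⟨1, one_mem _, one_ne_zero⟩
  have hA : ∀ x ∈ K, x * y = 0 ∨ LinearMap.range (toLin' (x * y)) = LinearMap.range (toLin' y) :=
    fun x hx => or_iff_not_imp_left.2 fun h0 => Submodule.eq_of_le_of_finrank_le (by
      rw [hc x hx y hy, toLin'_mul]; exact LinearMap.range_comp_le_range _ _)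
      (not_lt.1 (hmin _ ⟨mul_mem hx hy, h0⟩))
  have hred := h.eq_zero (S := {x | x ∈ K ∧ IsNilpotent x})
    (fun g hg x hx => ⟨hK g hg x hx.1, hx.2.map _⟩) hy0 fun x ⟨hx, k, hk⟩ => by
      refine (hA x hx).resolve_right fun e => hy0 ?_
      have : ∀ j, LinearMap.range (toLin' (x ^ j * y)) = LinearMap.range (toLin' y) := fun j => by
        induction j with
        | zero => simp
        | succ j ih => rw [pow_succ', mul_assoc, toLin'_mul, LinearMap.range_comp, ih,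
            ← LinearMap.range_comp, ← toLin'_mul, e]
      have := this k
      rw [hk, zero_mul, map_zero, LinearMap.range_zero, eq_comm, LinearMap.range_eq_bot] at this
      exact toLin'.injective (by rw [this, map_zero])
  obtain ⟨m, hm, he⟩ := exists_idem_pow y
  have he0 : y ^ m ≠ 0 := fun e => hy0 (hred y ⟨hy, m, e⟩)
  have heK : y ^ m ∈ K := pow_mem hy m
  have hp : ∀ x ∈ K, x * x = x → x * y ^ m = 0 ∨ x * y ^ m = y ^ m := fun x hx hxx => by
    obtain ⟨m, rfl⟩ : ∃ k, m = k + 1 := ⟨m - 1, by omega⟩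
    refine (hA x hx).imp (fun h => by rw [pow_succ', ← mul_assoc, h, zero_mul]) fun h => ?_
    rw [pow_succ', ← mul_assoc]
    congr 1
    refine mat_ext_mulVec fun v => ?_
    obtain ⟨w, hw⟩ : toLin' y v ∈ LinearMap.range (toLin' (x * y)) := h ▸ ⟨v, rfl⟩
    simp only [toLin'_apply] at hw
    rw [← mulVec_mulVec, ← hw, mulVec_mulVec, ← mul_assoc, hxx]
  generalize y ^ m = e at he he0 heK hp
  have := Fintype.ofFinite F
  let O : Finset (Matrix ι ι F) := {x | ∃ g ∈ H, cj g e = x}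
  have mO : ∀ {x}, x ∈ O ↔ ∃ g ∈ H, cj g e = x := by simp [O]
  have o1 : ∀ x ∈ O, x ∈ K ∧ x ≠ 0 ∧ x * x = x ∧ ∀ z ∈ K, z * z = z → z * x = 0 ∨ z * x = x := by
    intro x hx
    obtain ⟨g, hg, rfl⟩ := mO.1 hx
    refine ⟨hK g hg e heK, by simpa using he0, by rw [← map_mul, he], fun z hz hzz => ?_⟩
    rw [← cj_cj_inv g z, ← map_mul, map_eq_zero_iff _ (cj g).injective, (cj g).injective.eq_iff]
    exact hp _ (hK _ (inv_mem hg) z hz) (by rw [← map_mul, hzz])
  have o2 : ∀ x ∈ O, ∀ z ∈ O, x ≠ z → x * z = 0 := fun x hx z hz hne => by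
    obtain ⟨a1, -, a2, a3⟩ := o1 x hx
    obtain ⟨b1, -, b2, b3⟩ := o1 z hz
    by_contra h0
    exact hne (((a3 z b1 b2).resolve_left (hc x a1 z b1 ▸ h0)).symm.trans
      ((hc z b1 x a1).trans ((b3 x a1 a2).resolve_left h0)))
  have o3 : ∀ g ∈ H, ∀ x ∈ O, cj g x ∈ O := fun g hg x hx => by
    obtain ⟨g', hg', rfl⟩ := mO.1 hx
    exact mO.2 ⟨g * g', mul_mem hg hg', cj_mul _ _ _⟩
  have eO : e ∈ O := mO.2 ⟨1, one_mem _, cj_one _⟩
  have o4 : ∑ x ∈ O, x = 1 := by
    refine (sub_eq_zero.1 (h.eq_zero (S := {1 - ∑ x ∈ O, x}) ?_ he0 ?_ _ rfl)).symm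
    · rintro g hg _ rfl
      rw [Set.mem_singleton_iff, map_sub, map_one, map_sum]
      congr 1
      exact Finset.sum_nbij' (cj g) (cj g⁻¹) (o3 g hg) (o3 _ (inv_mem hg)) (by simp) (by simp)
        (by simp)
    · rintro _ rfl
      rw [sub_mul, one_mul, Finset.sum_mul, Finset.sum_eq_single_of_mem e eO
        fun x hx hne => o2 x hx e eO hne, he, sub_self]
  by_cases ht : 2 ≤ O.card
  · refine .inr ⟨O.card, fun i => O.equivFin.symm i, ht, fun i => (o1 _ (Finset.coe_mem _)).1,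
      fun i => (o1 _ (Finset.coe_mem _)).2.1, fun i => (o1 _ (Finset.coe_mem _)).2.2.1,
      fun i j hij => o2 _ (Finset.coe_mem _) _ (Finset.coe_mem _) fun e =>
        hij (O.equivFin.symm.injective (Subtype.ext e)), ?_,
      fun x hx hxx i => (o1 _ (Finset.coe_mem _)).2.2.2 x hx hxx, fun g hg i =>
        ⟨O.equivFin ⟨_, o3 g hg _ (O.equivFin.symm i).2⟩, by simp⟩, fun i j => ?_⟩
    · rw [← o4, ← Finset.sum_coe_sort O]
      exact O.equivFin.symm.sum_comp Subtype.val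
    · obtain ⟨a, ha, a'⟩ := mO.1 (O.equivFin.symm i).2
      obtain ⟨b, hb, b'⟩ := mO.1 (O.equivFin.symm j).2
      exact ⟨b * a⁻¹, mul_mem hb (inv_mem ha), by rw [← a', ← b', cj_mul, cj_inv_cj]⟩
  · have : e = 1 := by
      rw [← o4, Finset.sum_eq_single_of_mem e eO fun x hx hne =>
        absurd (Finset.one_lt_card.2 ⟨x, hx, e, eO, hne⟩) ht]
    subst this
    refine .inl ⟨hc, fun x hx h0 => ?_⟩
    obtain ⟨m, hm, h1⟩ := exists_idem_pow x
    obtain ⟨m, rfl⟩ : ∃ k, m = k + 1 := ⟨m - 1, by omega⟩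
    refine ⟨x ^ m, pow_mem hx _, ?_⟩
    simpa [← pow_succ'] using (hp _ (pow_mem hx _) h1).resolve_left
      fun e => h0 (hred x ⟨hx, m + 1, by simpa using e⟩)

/-- the column space -/
abbrev rg (x : Matrix ι ι F) : Submodule F (ι → F) := LinearMap.range (toLin' x)

theorem mem_rg_of_idem {e : Matrix ι ι F} (h : e * e = e) {v : ι → F} : v ∈ rg e ↔ e *ᵥ v = v :=
  ⟨fun ⟨w, hw⟩ => by rw [← hw, toLin'_apply, mulVec_mulVec, h], fun h => ⟨v, h⟩⟩

theorem map_rg (g : GL ι F) (x : Matrix ι ι F) :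
    (rg x).map (toLin' (g : Matrix ι ι F)) = rg (cj g x) := by
  rw [← LinearMap.range_comp, ← toLin'_mul, ← cj_mul_coe, toLin'_mul, LinearMap.range_comp,
    LinearMap.range_eq_top.2 fun v => ⟨_, mulVec_inv_mulVec g v⟩, Submodule.map_top]

theorem finrank_map_gl (g : GL ι F) (W : Submodule F (ι → F)) :
    finrank F (W.map (toLin' (g : Matrix ι ι F))) = finrank F W :=
  (Submodule.equivMapOfInjective _ (fun u v h => by
    rw [← inv_mulVec_mulVec g u, ← inv_mulVec_mulVec g v]; exact congrArg _ h) W).finrank_eq.symm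

theorem mem_decomp_of_forall {t : ℕ} {D : Fin t → Submodule F (ι → F)}
    (hD : Function.Injective D) {g : GL ι F}
    (h : ∀ i, ∃ j, (D i).map (toLin' (g : Matrix ι ι F)) = D j) : g ∈ decompositionStabilizer D := by
  choose σ hσ using h
  refine ⟨Equiv.ofBijective σ (Finite.injective_iff_bijective.1 fun i j hij => hD ?_), hσ⟩
  have := (hσ i).trans (hij ▸ (hσ j).symm)
  exact Submodule.map_injective_of_injective (fun u v h => by
    rw [← inv_mulVec_mulVec g u, ← inv_mulVec_mulVec g v]; exact congrArg _ h) this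

/-- a complete system of orthogonal idempotents gives a decomposition -/
theorem decomp_of_idem {t : ℕ} {e : Fin t → Matrix ι ι F} (ht : 2 ≤ t) (ne : ∀ i, e i ≠ 0)
    (idem : ∀ i, e i * e i = e i) (orth : ∀ i j, i ≠ j → e i * e j = 0) (sum : ∑ i, e i = 1)
    (tr : ∀ i j, ∃ g : GL ι F, cj g (e i) = e j) :
    ∃ m, IsMDecomposition m fun i => rg (e i) := by
  let o : Fin t := ⟨0, by omega⟩
  refine ⟨finrank F (rg (e o)), ht, ?_, fun i => ?_, fun i => ?_, eq_top_iff.2 fun v _ => ?_⟩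
  · rw [finrank_pos_iff, Submodule.nontrivial_iff_ne_bot, Ne, LinearMap.range_eq_bot]
    exact fun h => ne o (toLin'.injective (by rw [h, map_zero]))
  · obtain ⟨g, hg⟩ := tr o i
    rw [← hg, ← map_rg, finrank_map_gl]
  · rw [Submodule.disjoint_def]
    intro v h1 h2
    rw [← (mem_rg_of_idem (idem i)).1 h1]
    refine (?_ : _ ≤ LinearMap.ker (toLin' (e i))) h2
    refine iSup₂_le fun j hj => ?_
    rw [LinearMap.range_le_ker_iff, ← toLin'_mul, orth i j (Ne.symm hj), map_zero]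
  · rw [← one_mulVec v, ← sum, sum_mulVec]
    exact Submodule.sum_mem _ fun i _ => Submodule.mem_iSup_of_mem i ⟨v, rfl⟩

theorem rg_injective {t : ℕ} {e : Fin t → Matrix ι ι F} (ne : ∀ i, e i ≠ 0)
    (idem : ∀ i, e i * e i = e i) (orth : ∀ i j, i ≠ j → e i * e j = 0) :
    Function.Injective fun i => rg (e i) := fun i j hij => by
  by_contra hne
  refine ne j (mat_ext_mulVec fun v => ?_)
  have : e j *ᵥ v ∈ rg (e i) := by rw [show rg (e i) = rg (e j) from hij]; exact ⟨v, rfl⟩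
  rw [← (mem_rg_of_idem (idem i)).1 this, mulVec_mulVec, orth i j hne]

theorem IdemSys.decomp {H : Subgroup (GL ι F)} {K : Subalgebra F (Matrix ι ι F)} {t : ℕ}
    {e : Fin t → Matrix ι ι F} (h : IdemSys H K e) :
    (∃ m, IsMDecomposition m fun i => rg (e i)) ∧ H ≤ decompositionStabilizer fun i => rg (e i) :=
  ⟨decomp_of_idem h.two_le h.ne h.idem h.orth h.sum fun i j => (h.trans i j).imp fun _ h => h.2,
    fun g hg => mem_decomp_of_forall (rg_injective h.ne h.idem h.orth) fun i =>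
      (h.perm g hg i).imp fun j hj => by rw [map_rg, hj]⟩

end CfsgH5.As
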