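import Cfsg.Agent.H5.As2

set_option autoImplicit false

/-! Enveloping algebras and tensor decompositions. -/

namespace CfsgH5.As

open Matrix Module Cfsg.Geo
open scoped Kronecker

universe u

variable {ι : Type} [Fintype ι] [DecidableEq ι] {F : Type u} [Field F]

/-- the enveloping algebra of a matrix group -/
def env (k : Type*) [CommRing k] [Algebra k F] (N : Subgroup (GL ι F)) :
    Subalgebra k (Matrix ι ι F) := Algebra.adjoin k (matrixSet N)

theorem mem_env {k : Type*} [CommRing k] [Algebra k F] {N : Subgroup (GL ι F)} {g : GL ι F}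
    (hg : g ∈ N) : (g : Matrix ι ι F) ∈ env k N := Algebra.subset_adjoin ⟨g, hg, rfl⟩

theorem env_mono {k : Type*} [CommRing k] [Algebra k F] {N N' : Subgroup (GL ι F)} (h : N ≤ N') :
    env k N ≤ env k N' := Algebra.adjoin_mono (Set.image_mono h)

theorem env_le {k : Type*} [CommRing k] [Algebra k F] {N : Subgroup (GL ι F)}
    {A : Subalgebra k (Matrix ι ι F)} (h : ∀ g ∈ N, (g : Matrix ι ι F) ∈ A) : env k N ≤ A :=
  Algebra.adjoin_le fun _ ⟨g, hg, e⟩ => e ▸ h g hg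

theorem env_induction {k : Type*} [CommRing k] [Algebra k F] {N : Subgroup (GL ι F)}
    {p : Matrix ι ι F → Prop} (h1 : ∀ g ∈ N, p g) (h0 : p 0) (ha : ∀ x y, p x → p y → p (x + y))
    (hs : ∀ (c : k) x, p x → p (c • x)) {x : Matrix ι ι F} (hx : x ∈ env k N) : p x := by
  have : x ∈ Submodule.span k (matrixSet N) := by
    have e : (Submonoid.closure (matrixSet N) : Set (Matrix ι ι F)) = matrixSet N :=
      congrArg SetLike.coe (Submonoid.closure_eq (N.toSubmonoid.map (Units.coeHom _)))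
    rw [← e, ← Algebra.adjoin_eq_span]; exact hx
  exact Submodule.span_induction (fun _ ⟨g, hg, e⟩ => e ▸ h1 g hg) h0 (fun x y _ _ => ha x y)
    (fun c x _ => hs c x) this

/-- `H` normalises `N` -/
def Nm (H N : Subgroup (GL ι F)) : Prop := ∀ g ∈ H, ∀ x ∈ N, g * x * g⁻¹ ∈ N

theorem Nm.self (N : Subgroup (GL ι F)) : Nm N N := fun _ hg _ hx =>
  mul_mem (mul_mem hg hx) (inv_mem hg)

theorem Nm.mono {H K N : Subgroup (GL ι F)} (h : Nm K N) (hK : H ≤ K) : Nm H N :=
  fun g hg => h g (hK hg)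

theorem cj_smul {k : Type*} [CommRing k] [Algebra k F] (g : GL ι F) (c : k) (x : Matrix ι ι F) :
    cj g (c • x) = c • cj g x := by simp [cj_apply]

theorem cj_mem_env {k : Type*} [CommRing k] [Algebra k F] {N N' : Subgroup (GL ι F)} {g : GL ι F}
    (h : ∀ x ∈ N, g * x * g⁻¹ ∈ N') {x : Matrix ι ι F} (hx : x ∈ env k N) : cj g x ∈ env k N' :=
  env_induction (p := fun x => cj g x ∈ env k N') (fun x hx => mem_env (h x hx)) (by simp)
    (fun x y a b => by rw [map_add]; exact add_mem a b)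
    (fun c x a => by rw [cj_smul]; exact Subalgebra.smul_mem _ a c) hx

theorem Nm.nz {k : Type*} [CommRing k] [Algebra k F] {H N : Subgroup (GL ι F)} (h : Nm H N) :
    Nz H (env k N) := fun g hg _ hx => cj_mem_env (h g hg) hx

theorem comm_env {k : Type*} [CommRing k] [Algebra k F] {N : Subgroup (GL ι F)} {z : Matrix ι ι F}
    (h : ∀ g ∈ N, z * g = g * z) {x : Matrix ι ι F} (hx : x ∈ env k N) : z * x = x * z :=
  env_induction (p := fun x => z * x = x * z) h (by simp)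
    (fun x y a b => by rw [mul_add, add_mul, a, b]) (fun c x a => by simp [a]) hx

theorem scalar_of_env {N : Subgroup (GL ι F)} (hN : env F N = ⊤) {z : Matrix ι ι F}
    (h : ∀ g ∈ N, z * g = g * z) : ∃ c : F, z = c • 1 :=
  scalar_of_comm fun _ => comm_env h (hN ▸ Algebra.mem_top)

theorem irr_of_env {N : Subgroup (GL ι F)} (hN : env F N = ⊤) : Irr N := fun W hW => by
  refine or_iff_not_imp_left.2 fun h0 => eq_top_iff.2 fun v _ => ?_
  obtain ⟨w, hw, hw0⟩ := (Submodule.ne_bot_iff _).1 h0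
  obtain ⟨i, hi⟩ := Function.ne_iff.1 hw0
  have := env_induction (p := fun x => x *ᵥ w ∈ W) (fun g hg => hW g hg w hw) (by simp)
    (fun x y a b => by rw [add_mulVec]; exact add_mem a b)
    (fun (c : F) x a => by rw [smul_mulVec]; exact W.smul_mem c a)
    (hN ▸ Algebra.mem_top (x := vecMulVec v (Pi.single i (w i)⁻¹)))
  simpa [vecMulVec_mulVec, inv_mul_cancel₀ (show w i ≠ 0 from hi)] using this

theorem absIrr_of_env {N : Subgroup (GL ι F)} (hN : env F N = ⊤) :
    ActsAbsolutelyIrreducibly (matrixSet N) :=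
  ⟨fun W hW => irr_of_env hN W fun g hg w hw => hW g ⟨g, hg, rfl⟩ ⟨w, hw, rfl⟩,
    fun _ h => scalar_of_env hN fun g hg => h g ⟨g, hg, rfl⟩⟩

theorem env_eq_bot_iff [Nonempty ι] {N : Subgroup (GL ι F)} : env F N = ⊥ ↔ N ≤ scalars ι F := by
  refine ⟨fun h g hg => ?_, fun h => eq_bot_iff.2 (env_le fun g hg => ?_)⟩
  · obtain ⟨c, hc⟩ := Algebra.mem_bot.1 (h ▸ mem_env (k := F) hg)
    exact mem_scalars_of_eq (c := c) (by rw [← hc, Algebra.algebraMap_eq_smul_one])
  · obtain ⟨c, hc⟩ := (mem_scalars_iff g).1 (h hg)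
    exact hc ▸ Subalgebra.smul_mem _ (one_mem _) _

/-- Burnside's theorem -/
theorem env_eq_top [Finite F] [Nonempty ι] {N : Subgroup (GL ι F)} (h : Irr N)
    (hZ : ∀ z : Matrix ι ι F, (∀ g ∈ N, z * g = g * z) → ∃ c : F, z = c • 1) : env F N = ⊤ := by
  obtain ⟨k, φ, hk, h1, h2⟩ := h.exists_hom (B := (env F N).toSubring) (Nm.self N).nz
    fun z _ hz => hZ z fun g hg => hz g (mem_env hg)
  have : Nonempty (Fin k) := ⟨⟨0, hk⟩⟩
  obtain ⟨l, e, P, hP⟩ := exists_tp φ
  have h3 : ∀ b : Matrix (Fin l) (Fin l) F, ∃ c : F, (1 : Matrix (Fin k) (Fin k) F) ⊗ₖ b = c • 1 :=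
    fun b => by
      obtain ⟨c, hc⟩ := hZ (tp e P (1 ⊗ₖ b)) fun g hg => by
        obtain ⟨X, -, hX⟩ := h2 g (mem_env hg)
        rw [← hX, hP, ← map_mul, ← map_mul, ← mul_kronecker_mul, ← mul_kronecker_mul]; simp
      exact ⟨c, (tp e P).injective (by rw [hc, map_smul, map_one])⟩
  have h4 : Subsingleton (Fin l) := ⟨fun i j => by
    by_contra hne
    obtain ⟨c, hc⟩ := h3 (single i j 1)
    simpa [hne] using congrFun (congrFun hc (⟨0, hk⟩, i)) (⟨0, hk⟩, j)⟩
  refine eq_top_iff.2 fun x _ => ?_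
  obtain ⟨x, rfl⟩ := (tp e P).surjective x
  obtain ⟨i⟩ := ‹Nonempty ι›
  have : x = of (fun a b => x (a, (e i).2) (b, (e i).2)) ⊗ₖ (1 : Matrix (Fin l) (Fin l) F) := by
    ext ⟨a, j⟩ ⟨b, j'⟩
    rw [Subsingleton.elim j (e i).2, Subsingleton.elim j' (e i).2]; simp
  rw [this, ← hP, algHom_eq_sum]
  exact sum_mem fun a _ => sum_mem fun b _ => Subalgebra.smul_mem _ (h1 a b) _

theorem env_of_absIrr [Finite F] [Nonempty ι] {N : Subgroup (GL ι F)}
    (h : ActsAbsolutelyIrreducibly (matrixSet N)) : env F N = ⊤ :=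
  env_eq_top (fun W hW => h.1 W (by rintro _ ⟨g, hg, rfl⟩ _ ⟨w, hw, rfl⟩; exact hW g hg w hw))
    fun z hz => h.2 z (by rintro _ ⟨g, hg, rfl⟩; exact hz g hg)

/-- transport of invertible matrices -/
def tpG {κ : Type} [Fintype κ] [DecidableEq κ] (e : ι ≃ κ) (P : GL ι F) : GL κ F ≃* GL ι F :=
  Units.mapEquiv (tp e P).toMulEquiv

@[simp] theorem tpG_coe {κ : Type} [Fintype κ] [DecidableEq κ] (e : ι ≃ κ) (P : GL ι F)
    (g : GL κ F) : (tpG e P g : Matrix ι ι F) = tp e P g := rfl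

theorem cj_tpG {κ : Type} [Fintype κ] [DecidableEq κ] (e : ι ≃ κ) (P : GL ι F) (g : GL κ F)
    (x : Matrix κ κ F) : cj (tpG e P g) (tp e P x) = tp e P (cj g x) := by
  rw [cj_apply, cj_apply, ← map_inv, tpG_coe, tpG_coe, map_mul, map_mul]

theorem tpG_mem_map {κ : Type} [Fintype κ] [DecidableEq κ] (e : ι ≃ κ) (P : GL ι F)
    {S : Subgroup (GL κ F)} {g : GL κ F} : tpG e P g ∈
      (S.map (glReindex e.symm).toMonoidHom).map (MulAut.conj P).toMonoidHom ↔ g ∈ S := by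
  have : (MulAut.conj P).toMonoidHom.comp (glReindex e.symm).toMonoidHom =
      (tpG e P).toMonoidHom := MonoidHom.ext fun g => Units.ext rfl
  rw [Subgroup.map_map, this]
  exact Subgroup.mem_map_iff_mem (f := (tpG e P).toMonoidHom) (tpG e P).injective

theorem mem_kron_of_nz {n₁ n₂ : ℕ} (h₁ : 0 < n₁) (h₂ : 0 < n₂) {g : GL (Fin n₁ × Fin n₂) F}
    (h : ∀ X : Matrix (Fin n₁) (Fin n₁) F, ∃ Y : Matrix (Fin n₁) (Fin n₁) F,
      Y ⊗ₖ (1 : Matrix (Fin n₂) (Fin n₂) F) = cj g (X ⊗ₖ 1)) : g ∈ kroneckerSubgroup n₁ n₂ F := by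
  have : Nonempty (Fin n₁) := ⟨⟨0, h₁⟩⟩
  have : Nonempty (Fin n₂) := ⟨⟨0, h₂⟩⟩
  let ψ : Matrix (Fin n₁) (Fin n₁) F →ₐ[F] Matrix (Fin n₁ × Fin n₂) (Fin n₁ × Fin n₂) F :=
    AlgHom.ofLinearMap ⟨⟨fun X => X ⊗ₖ (1 : Matrix (Fin n₂) (Fin n₂) F),
      fun _ _ => add_kronecker _ _ _⟩, fun _ _ => smul_kronecker _ _ _⟩
      one_kronecker_one fun x y => by simp [← mul_kronecker_mul]
  obtain ⟨a, ha⟩ := exists_cj_of_range_le ((cj g).toAlgHom.comp ψ) ψ h
  replace ha : ∀ X, cj g (X ⊗ₖ 1) = cj a X ⊗ₖ (1 : Matrix (Fin n₂) (Fin n₂) F) := ha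
  obtain ⟨b, hb⟩ := exists_one_kronecker (Y := ((a⁻¹ : GL (Fin n₁) F) : Matrix (Fin n₁) (Fin n₁) F) ⊗ₖ
    (1 : Matrix (Fin n₂) (Fin n₂) F) * (g : Matrix (Fin n₁ × Fin n₂) (Fin n₁ × Fin n₂) F)) fun X => by
      rw [mul_assoc, ← cj_mul_coe, ha, ← mul_assoc, ← mul_assoc, ← mul_kronecker_mul,
        ← mul_kronecker_mul, cj_apply, ← mul_assoc, ← mul_assoc, Units.inv_mul, one_mul]
  have e : (g : Matrix (Fin n₁ × Fin n₂) (Fin n₁ × Fin n₂) F) =
      (a : Matrix (Fin n₁) (Fin n₁) F) ⊗ₖ b := by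
    have := congrArg (((a : Matrix (Fin n₁) (Fin n₁) F) ⊗ₖ (1 : Matrix (Fin n₂) (Fin n₂) F)) * ·) hb
    simpa only [← mul_assoc, ← mul_kronecker_mul, Units.mul_inv, mul_one, one_mul,
      one_kronecker_one] using this
  have hd := (Matrix.isUnits_det_units g).ne_zero
  rw [e, det_kronecker] at hd
  exact ⟨a, GeneralLinearGroup.mkOfDetNeZero b fun h0 => hd (by simp [h0, h₁.ne']), e⟩

theorem tensor_swap {n₁ n₂ : ℕ} (e : ι ≃ Fin n₁ × Fin n₂) (P : GL ι F) :
    tensorProductSubgroup n₁ n₂ e P ≤ tensorProductSubgroup n₂ n₁ (e.trans (Equiv.prodComm _ _)) P := by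
  intro g hg
  obtain ⟨g, rfl⟩ := (tpG e P).surjective g
  obtain ⟨a, b, h⟩ := (tpG_mem_map e P).1 hg
  have : tpG e P g = tpG (e.trans (Equiv.prodComm _ _)) P (glReindex (Equiv.prodComm _ _) g) := rfl
  rw [this]
  refine (tpG_mem_map _ P).2 ⟨b, a, ?_⟩
  ext ⟨i, j⟩ ⟨k, l⟩
  simp [glReindex, h, mul_comm]

/-- pure tensors of matrices -/
def ptens {t : ℕ} {κ : Type} (X : Fin t → Matrix κ κ F) : Matrix (Fin t → κ) (Fin t → κ) F :=
  of fun x y => ∏ i, X i (x i) (y i)

theorem ptens_apply {t : ℕ} {κ : Type} (X : Fin t → Matrix κ κ F) (x y : Fin t → κ) :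
    ptens X x y = ∏ i, X i (x i) (y i) := rfl

section
variable {t : ℕ} {κ : Type} [Fintype κ] [DecidableEq κ]

theorem ptens_mul (X Y : Fin t → Matrix κ κ F) : ptens (X * Y) = ptens X * ptens Y := by
  ext x y
  simp only [ptens_apply, Pi.mul_apply, mul_apply, Finset.prod_univ_sum, Fintype.piFinset_univ,
    Finset.prod_mul_distrib]

theorem ptens_single (x y : Fin t → κ) :
    ptens (fun i => single (x i) (y i) (1 : F)) = single x y 1 := by
  ext a b
  simp [ptens_apply, single_apply, Finset.prod_ite_zero, funext_iff, forall_and]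

theorem ptens_one : ptens (1 : Fin t → Matrix κ κ F) = 1 := by
  ext a b
  simp [ptens_apply, one_apply, Finset.prod_ite_zero, funext_iff]

theorem pi_induction {M : Type*} [Monoid M] {p : (Fin t → M) → Prop} (h1 : p 1)
    (h : ∀ i x y, p y → p (Pi.mulSingle i x * y)) (X : Fin t → M) : p X := by
  have : ∀ s : Finset (Fin t), p (s.piecewise X 1) := fun s => by
    induction s using Finset.induction_on with
    | empty => simpa
    | insert i s hi ih =>
      convert h i (X i) _ ih using 1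
      funext j
      by_cases e : j = i
      · subst e; simp [hi]
      · simp [Finset.piecewise_insert_of_ne, e]
  simpa using this Finset.univ

theorem scalar_of_comm_ptens {Y : Matrix (Fin t → κ) (Fin t → κ) F}
    (h : ∀ i X, Y * ptens (Pi.mulSingle i X) = ptens (Pi.mulSingle i X) * Y) : ∃ c : F, Y = c • 1 := by
  have := pi_induction (p := fun X => Y * ptens X = ptens X * Y) (by simp [ptens_one])
    fun i x y hy => by rw [ptens_mul, ← mul_assoc, h, mul_assoc, hy, mul_assoc]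
  refine scalar_of_comm fun x => ?_
  rw [matrix_eq_sum_single x, Finset.mul_sum, Finset.sum_mul]
  refine Finset.sum_congr rfl fun a _ => ?_
  rw [Finset.mul_sum, Finset.sum_mul]
  refine Finset.sum_congr rfl fun b _ => ?_
  rw [show single a b (x a b) = x a b • single a b (1 : F) by simp, ← ptens_single, mul_smul_comm,
    this, smul_mul_assoc]

theorem exists_ptens_hom (φ : Fin t → (Matrix κ κ F →ₐ[F] Matrix ι ι F))
    (hc : ∀ i j, i ≠ j → ∀ X Y, φ i X * φ j Y = φ j Y * φ i X) :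
    ∃ Φ : Matrix (Fin t → κ) (Fin t → κ) F →ₐ[F] Matrix ι ι F,
      ∀ i X, Φ (ptens (Pi.mulSingle i X)) = φ i X := by
  let Ψ := MonoidHom.noncommPiCoprod (fun i => (φ i : Matrix κ κ F →* Matrix ι ι F))
    fun i j h => hc i j h
  have h1 : ∀ i X, Ψ (Pi.mulSingle i X) = φ i X := fun i X =>
    MonoidHom.noncommPiCoprod_mulSingle (fun i => (φ i : Matrix κ κ F →* Matrix ι ι F))
      (hcomm := fun i j h => hc i j h) i X
  have h2 : ∀ (m : Fin t → Matrix κ κ F) i x, Ψ (Function.update m i x) =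
      Ψ (Function.update m i 1) * φ i x := fun m i x => by
    rw [← h1, ← map_mul]; congr 1; funext j
    by_cases e : j = i
    · subst e; simp
    · simp [e]
  let Ψ' : MultilinearMap F (fun _ : Fin t => Matrix κ κ F) (Matrix ι ι F) :=
    MultilinearMap.mk' Ψ (fun m i x y => by rw [h2, h2 m i x, h2 m i y, map_add, mul_add])
      (fun m i c x => by rw [h2, h2 m i x, map_smul, mul_smul_comm])
  let L := (Matrix.stdBasis F (Fin t → κ) (Fin t → κ)).constr F
    fun p => Ψ fun i => single (p.1 i) (p.2 i) 1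
  have h3 : ∀ x y, L (single x y 1) = Ψ fun i => single (x i) (y i) 1 := fun x y => by
    rw [← Matrix.stdBasis_eq_single]; exact (Matrix.stdBasis F _ _).constr_basis F _ (x, y)
  have h4 : ∀ X, L (ptens X) = Ψ X := fun X => by
    have e : X = fun i => ∑ p : κ × κ, X i p.1 p.2 • single p.1 p.2 (1 : F) := funext fun i => by
      simpa [Fintype.sum_prod_type] using matrix_eq_sum_single (X i)
    have := Ψ'.map_sum fun i (p : κ × κ) => X i p.1 p.2 • single p.1 p.2 (1 : F)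
    rw [← e, ← (Equiv.arrowProdEquivProdArrow _ _ _).symm.sum_comp, Fintype.sum_prod_type] at this
    rw [algHom_eq_sum]
    refine Eq.trans (Finset.sum_congr rfl fun a _ => Finset.sum_congr rfl fun b _ => ?_) this.symm
    rw [Ψ'.map_smul_univ, h3]; rfl
  refine ⟨AlgHom.ofLinearMap L (by rw [← ptens_one, h4, map_one]) ?_, fun i X => (h4 _).trans (h1 i X)⟩
  rw [LinearMap.map_mul_iff]
  refine (Matrix.stdBasis F _ _).ext fun ⟨a, b⟩ => (Matrix.stdBasis F _ _).ext fun ⟨c, d⟩ => ?_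
  simp only [LinearMap.compr₂_apply, LinearMap.mul_apply', LinearMap.compl₂_apply,
    LinearMap.comp_apply, Matrix.stdBasis_eq_single, ← ptens_single, ← ptens_mul, h4, map_mul]

theorem exists_tp_of_surjective [Nonempty κ] [Nonempty ι] (φ : Matrix κ κ F →ₐ[F] Matrix ι ι F)
    (h : Function.Surjective φ) : ∃ (e : ι ≃ κ) (P : GL ι F), ∀ X, φ X = tp e P X := by
  have := (LinearEquiv.ofBijective φ.toLinearMap ⟨φ.toRingHom.injective, h⟩).finrank_eq
  simp only [Module.finrank_matrix, finrank_self, mul_one] at this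
  let e : ι ≃ κ := Fintype.equivOfCardEq (Nat.mul_self_inj.1 this).symm
  obtain ⟨a, ha⟩ := exists_cj_of_algEquiv ((reindexAlgEquiv F F e).trans
    (AlgEquiv.ofBijective φ ⟨φ.toRingHom.injective, h⟩))
  refine ⟨e, a, fun X => ?_⟩
  have h2 := ha (reindexAlgEquiv F F e.symm X)
  simp only [AlgEquiv.trans_apply, ← reindexAlgEquiv_symm, AlgEquiv.apply_symm_apply] at h2
  exact h2

theorem exists_tp_ptens [Nonempty κ] [Nonempty ι] (φ : Fin t → (Matrix κ κ F →ₐ[F] Matrix ι ι F))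
    (hc : ∀ i j, i ≠ j → ∀ X Y, φ i X * φ j Y = φ j Y * φ i X)
    (hs : ∀ A : Subalgebra F (Matrix ι ι F), (∀ i X, φ i X ∈ A) → A = ⊤) :
    ∃ (e : ι ≃ (Fin t → κ)) (P : GL ι F), ∀ i X, φ i X = tp e P (ptens (Pi.mulSingle i X)) := by
  obtain ⟨Φ, h⟩ := exists_ptens_hom φ hc
  obtain ⟨e, P, h1⟩ := exists_tp_of_surjective Φ ((AlgHom.range_eq_top _).1
    (hs _ fun i X => ⟨_, h i X⟩))
  exact ⟨e, P, fun i X => by rw [← h, h1]⟩

/-- an invertible pure tensor -/
def ptensG (a : Fin t → GL κ F) : GL (Fin t → κ) F :=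
  ⟨ptens fun i => a i, ptens fun i => ((a i)⁻¹ : GL κ F), by
    rw [← ptens_mul, ← ptens_one]; congr 1; funext i; exact (a i).mul_inv, by
    rw [← ptens_mul, ← ptens_one]; congr 1; funext i; exact (a i).inv_mul⟩

theorem cj_ptensG (a : Fin t → GL κ F) (X : Fin t → Matrix κ κ F) :
    cj (ptensG a) (ptens X) = ptens fun i => cj (a i) (X i) := by
  have : (fun i => cj (a i) (X i)) = (fun i => (a i : Matrix κ κ F)) * X *
    fun i => (((a i)⁻¹ : GL κ F) : Matrix κ κ F) := rfl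
  rw [this, ptens_mul, ptens_mul]; rfl

/-- a factor permutation matrix -/
def fperm (σ : Equiv.Perm (Fin t)) : Matrix (Fin t → κ) (Fin t → κ) F :=
  of fun x y => if y = x ∘ σ then 1 else 0

theorem fperm_mul (σ : Equiv.Perm (Fin t)) (M : Matrix (Fin t → κ) (Fin t → κ) F) (x y : Fin t → κ) :
    (fperm (F := F) (κ := κ) σ * M) x y = M (x ∘ σ) y := by simp [fperm, mul_apply]

theorem mul_fperm (σ : Equiv.Perm (Fin t)) (M : Matrix (Fin t → κ) (Fin t → κ) F) (x y : Fin t → κ) :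
    (M * fperm (F := F) (κ := κ) σ) x y = M x (y ∘ σ.symm) := by
  have : ∀ z : Fin t → κ, y = z ∘ σ ↔ z = y ∘ σ.symm := fun z =>
    ⟨fun h => by rw [h]; ext; simp, fun h => by rw [h]; ext; simp⟩
  simp [fperm, mul_apply, this]

/-- a factor permutation as an invertible matrix -/
def fpermG (σ : Equiv.Perm (Fin t)) : GL (Fin t → κ) F :=
  ⟨fperm σ, fperm σ.symm, by
    ext x y; rw [fperm_mul]; simp [fperm, one_apply, Function.comp_assoc, eq_comm], by
    ext x y; rw [fperm_mul]; simp [fperm, one_apply, Function.comp_assoc, eq_comm]⟩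

theorem cj_fpermG (σ : Equiv.Perm (Fin t)) (X : Fin t → Matrix κ κ F) :
    cj (fpermG σ) (ptens X) = ptens (X ∘ σ.symm) := by
  ext x y
  change (fperm (F := F) (κ := κ) σ * ptens X * fperm (F := F) (κ := κ) σ.symm) x y = _
  rw [mul_fperm, fperm_mul, ptens_apply, ptens_apply]
  exact Fintype.prod_equiv σ _ _ fun i => by simp

end

theorem mem_wreath_of_nz {t k : ℕ} (ht : 0 < t) (hk : 0 < k) {g : GL (Fin t → Fin k) F}
    (σ : Equiv.Perm (Fin t)) (a : Fin t → GL (Fin k) F) (h : ∀ i X,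
      cj g (ptens (Pi.mulSingle i X)) = ptens (Pi.mulSingle (σ i) (cj (a i) X))) :
    g ∈ tensorWreathStandard k t F := by
  have : Nonempty (Fin k) := ⟨⟨0, hk⟩⟩
  have h1 : ∀ i X, cj (fpermG σ * ptensG a) (ptens (Pi.mulSingle i X)) =
      ptens (Pi.mulSingle (σ i) (cj (a i) X)) := fun i X => by
    rw [cj_mul, cj_ptensG, cj_fpermG]
    congr 1
    funext j
    obtain ⟨j, rfl⟩ := σ.surjective j
    by_cases e : j = i
    · subst e; simp
    · simp [e]
  obtain ⟨c, hc⟩ := scalar_of_comm_ptens (Y := (((fpermG σ * ptensG a)⁻¹ * g :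
    GL (Fin t → Fin k) F) : Matrix (Fin t → Fin k) (Fin t → Fin k) F)) fun i X => cj_eq_self_iff.1 (by rw [cj_mul, h, ← h1, cj_inv_cj])
  obtain ⟨c, hc⟩ := (mem_scalars_iff _).1 (mem_scalars_of_eq hc)
  rw [← mul_inv_cancel_left (fpermG σ * ptensG a) g]
  refine mul_mem (mul_mem (Subgroup.subset_closure (.inr ⟨σ, fun _ _ => rfl⟩))
    (Subgroup.subset_closure (.inl ⟨a, fun _ _ => rfl⟩))) (Subgroup.subset_closure (.inl
      ⟨Pi.mulSingle ⟨0, ht⟩ (GeneralLinearGroup.scalar _ c), fun x y => ?_⟩))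
  rw [hc, ← Finset.mul_prod_erase _ _ (Finset.mem_univ ⟨0, ht⟩), Finset.prod_congr rfl
    (g := fun i => (1 : Matrix (Fin k) (Fin k) F) (x i) (y i)) fun i hi => by
      rw [Pi.mulSingle_eq_of_ne (Finset.ne_of_mem_erase hi), Units.val_one], ← ptens_one, Matrix.smul_apply,
    ptens_apply, ← Finset.mul_prod_erase _ _ (Finset.mem_univ ⟨0, ht⟩), smul_eq_mul, ← mul_assoc]
  simp [diagonal_apply, one_apply]

theorem exists_nz_of_mem_wreath {t k : ℕ} {g : GL (Fin t → Fin k) F}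
    (h : g ∈ tensorWreathStandard k t F) : ∃ (σ : Equiv.Perm (Fin t)) (a : Fin t → GL (Fin k) F),
    g = fpermG σ * ptensG a := by
  have e1 : ∀ a b : Fin t → GL (Fin k) F, ptensG a * ptensG b = ptensG (a * b) := fun a b =>
    Units.ext (ptens_mul _ _).symm
  have e2 : ∀ σ τ : Equiv.Perm (Fin t), (fpermG σ * fpermG τ : GL (Fin t → Fin k) F) =
      fpermG (σ * τ) := fun σ τ => Units.ext (by
    ext x y; exact (fperm_mul σ (fperm (F := F) τ) x y).trans rfl)
  have e3 : ∀ (σ : Equiv.Perm (Fin t)) (a : Fin t → GL (Fin k) F), ptensG a * fpermG σ =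
      fpermG σ * ptensG (a ∘ σ) := fun σ a => by
    have : fpermG σ * ptensG (a ∘ σ) * (fpermG σ)⁻¹ = ptensG fun i => a (σ (σ.symm i)) :=
      Units.ext (cj_fpermG σ fun i => (a (σ i) : Matrix (Fin k) (Fin k) F))
    rw [mul_inv_eq_iff_eq_mul.1 this]
    simp
  have e4 : (fpermG 1 : GL (Fin t → Fin k) F) = 1 := Units.ext (by
    ext x y; simp [fpermG, fperm, one_apply, eq_comm])
  have e5 : (ptensG 1 : GL (Fin t → Fin k) F) = 1 := Units.ext ptens_one
  induction h using Subgroup.closure_induction with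
  | mem x hx =>
    rcases hx with ⟨a, ha⟩ | ⟨σ, hσ⟩
    · exact ⟨1, a, by rw [e4, one_mul]; exact Units.ext (Matrix.ext ha)⟩
    · exact ⟨σ, 1, by rw [e5, mul_one]; exact Units.ext (Matrix.ext hσ)⟩
  | one => exact ⟨1, 1, by rw [e4, e5, mul_one]⟩
  | mul x y _ _ a b =>
    obtain ⟨σ, a, rfl⟩ := a
    obtain ⟨τ, b, rfl⟩ := b
    exact ⟨σ * τ, a ∘ τ * b, by rw [mul_assoc, ← mul_assoc (ptensG a), e3, ← e1, ← e2]; group⟩
  | inv x _ a =>
    obtain ⟨σ, a, rfl⟩ := a
    refine ⟨σ⁻¹, a⁻¹ ∘ ⇑σ⁻¹, ?_⟩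
    rw [← e3, inv_eq_iff_mul_eq_one, mul_assoc, ← mul_assoc (ptensG a), e1, mul_inv_cancel, e5,
      one_mul, e2, mul_inv_cancel, e4]

theorem kron_le_wreath {k : ℕ} (e : ι ≃ Fin k × Fin k) (P : GL ι F) :
    tensorProductSubgroup k k e P ≤
      tensorWreathSubgroup k 2 (e.trans (finTwoArrowEquiv _).symm) P := by
  intro g hg
  obtain ⟨g, rfl⟩ := (tpG e P).surjective g
  obtain ⟨a, b, h⟩ := (tpG_mem_map e P).1 hg
  have : tpG e P g = tpG (e.trans (finTwoArrowEquiv _).symm) P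
    (glReindex (finTwoArrowEquiv _).symm g) := by
    refine Units.ext ?_
    simp [tp, glReindex]
    rfl
  rw [this]
  refine (tpG_mem_map _ P).2 (Subgroup.subset_closure (.inl ⟨![a, b], fun x y => ?_⟩))
  simp [glReindex, h]

end CfsgH5.As
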