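import Cfsg.Agent.H5.As3
import Cfsg.Agent.H5.UField

set_option autoImplicit false

/-! Subfield structures and invariant Gram matrices. -/

namespace CfsgH5.As

open Matrix Module Cfsg.Geo

universe u

variable {ι : Type} [Fintype ι] [DecidableEq ι] {F : Type u} [Field F]

/-- matrices with entries in a subfield -/
def Ov (F₀ : Subfield F) : Subring (Matrix ι ι F) :=
  F₀.toSubring.matrix.copy {X | ∀ i j, X i j ∈ F₀} rfl

theorem mem_Ov {F₀ : Subfield F} {X : Matrix ι ι F} : X ∈ Ov F₀ ↔ ∀ i j, X i j ∈ F₀ := Iff.rfl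

theorem smul_mem_Ov {F₀ : Subfield F} {X : Matrix ι ι F} {c : F} (hc : c ∈ F₀) (h : X ∈ Ov F₀) :
    c • X ∈ Ov F₀ := fun i j => mul_mem hc (h i j)

theorem Ov_mono {F₀ F₁ : Subfield F} (h : F₀ ≤ F₁) {X : Matrix ι ι F} (hX : X ∈ Ov F₀) :
    X ∈ Ov F₁ := fun i j => h (hX i j)

theorem trace_mem_of_Ov {F₀ : Subfield F} {X : Matrix ι ι F} (h : X ∈ Ov F₀) : X.trace ∈ F₀ :=
  sum_mem fun i _ => h i i

theorem det_mem_of_Ov {F₀ : Subfield F} {X : Matrix ι ι F} (h : X ∈ Ov F₀) : X.det ∈ F₀ := by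
  rw [det_apply']
  exact sum_mem fun _ _ => mul_mem (intCast_mem _ _) (prod_mem fun i _ => h _ _)

theorem trace_cj (g : GL ι F) (x : Matrix ι ι F) : (cj g x).trace = x.trace :=
  trace_units_conj g x

theorem mem_subfieldSubgroup {F₀ : Subfield F} {P g : GL ι F} :
    g ∈ subfieldSubgroup F₀ P ↔ ∃ c : F, c ≠ 0 ∧ c • cj P⁻¹ (g : Matrix ι ι F) ∈ Ov F₀ := by
  constructor
  · rintro ⟨x, hx, rfl⟩
    obtain ⟨_, ⟨a, rfl⟩, z, hz, rfl⟩ := Subgroup.mem_sup_of_normal_right.1 hx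
    obtain ⟨c, hc⟩ := (mem_scalars_iff z).1 hz
    refine ⟨c⁻¹, inv_ne_zero c.ne_zero, fun i j => ?_⟩
    rw [MulEquiv.coe_toMonoidHom, MulAut.conj_apply, ← cj_coe, cj_inv_cj, Units.val_mul, hc]
    simp
  · rintro ⟨c, hc, h⟩
    let X : Matrix ι ι F₀ := of fun i j => ⟨_, h i j⟩
    have e : X.map F₀.subtype = c • cj P⁻¹ (g : Matrix ι ι F) := rfl
    have hd : X.det ≠ 0 := fun h0 => by
      have := F₀.subtype.map_det X
      rw [h0, map_zero, RingHom.mapMatrix_apply, e, det_smul, cj_coe] at this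
      exact mul_ne_zero (pow_ne_zero _ hc) (Matrix.isUnits_det_units _).ne_zero this.symm
    refine ⟨P⁻¹ * g * P, Subgroup.mem_sup_of_normal_right.2 ⟨_, ⟨GeneralLinearGroup.mkOfDetNeZero X hd,
      rfl⟩, GeneralLinearGroup.scalar ι (Units.mk0 c hc)⁻¹, ⟨_, rfl⟩, Units.ext ?_⟩, by
        simp [mul_assoc]⟩
    change X.map F₀.subtype * scalar ι c⁻¹ = cj P⁻¹ (g : Matrix ι ι F)
    rw [e, scalar_apply, ← smul_eq_mul_diagonal, smul_smul, inv_mul_cancel₀ hc, one_smul]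

theorem subfieldSubgroup_mono {F₀ F₁ : Subfield F} (h : F₀ ≤ F₁) (P : GL ι F) :
    subfieldSubgroup F₀ P ≤ subfieldSubgroup F₁ P := fun _ hg =>
  let ⟨c, hc, h1⟩ := mem_subfieldSubgroup.1 hg; mem_subfieldSubgroup.2 ⟨c, hc, Ov_mono h h1⟩

theorem exists_proj (F₀ : Subfield F) : ∃ π : F →ₗ[F₀] F₀, π 1 = 1 :=
  let ⟨π, h⟩ := (Algebra.linearMap F₀ F).exists_leftInverse_of_injective
    (LinearMap.ker_eq_bot.2 F₀.subtype.injective)
  ⟨π, by simpa using congrArg (· 1) h⟩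

theorem mem_env_of_Ov {F₀ : Subfield F} {N : Subgroup (GL ι F)} (hN : env F N = ⊤) {P : GL ι F}
    (h : ∀ x ∈ N, cj P⁻¹ (x : Matrix ι ι F) ∈ Ov F₀) {Y : Matrix ι ι F} (hY : Y ∈ Ov F₀) :
    cj P Y ∈ env F₀ N := by
  obtain ⟨π, h1⟩ := exists_proj F₀
  have k : ∀ (c : F) (X : Matrix ι ι F), X ∈ Ov F₀ → (c • X).map (fun a => (π a : F)) = π c • X :=
    fun c X hX => by
      ext i j
      have := π.map_smul ⟨_, hX i j⟩ c
      change (π (c * X i j) : F) = π c * X i j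
      rw [mul_comm c, mul_comm _ (X i j)]
      exact congrArg Subtype.val this
  have := env_induction (k := F) (p := fun x => ∀ c : F,
    cj P ((c • cj P⁻¹ x).map fun a => (π a : F)) ∈ env F₀ N) (fun x hx c => by
      rw [k c _ (h x hx), cj_smul, cj_cj_inv]; exact Subalgebra.smul_mem _ (mem_env hx) _)
    (fun c => by simp) (fun x y a b c => by
      rw [map_add, smul_add, Matrix.map_add _ (by simp), map_add]; exact add_mem (a c) (b c))
    (fun d x a c => by rw [map_smul, smul_smul]; exact a _) (hN ▸ Algebra.mem_top (x := cj P Y)) 1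
  rwa [cj_inv_cj, k 1 _ hY, h1, one_smul] at this

theorem env_le_Ov {F₀ : Subfield F} {N : Subgroup (GL ι F)} {P : GL ι F}
    (h : ∀ x ∈ N, cj P⁻¹ (x : Matrix ι ι F) ∈ Ov F₀) {x : Matrix ι ι F} (hx : x ∈ env F₀ N) :
    cj P⁻¹ x ∈ Ov F₀ :=
  env_induction (p := fun x => cj P⁻¹ x ∈ Ov F₀) h (by simp)
    (fun x y a b => by rw [map_add]; exact add_mem a b)
    (fun c x a => by rw [cj_smul]; exact smul_mem_Ov c.2 a) hx

theorem Nm.le_subfield [Nonempty ι] {F₀ : Subfield F} {H N : Subgroup (GL ι F)} (hH : Nm H N)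
    (hN : env F N = ⊤) {P : GL ι F} (h : ∀ x ∈ N, cj P⁻¹ (x : Matrix ι ι F) ∈ Ov F₀) :
    H ≤ subfieldSubgroup F₀ P := fun g hg => by
  obtain ⟨b, hb⟩ := Function.ne_iff.1 (P⁻¹ * g * P)⁻¹.ne_zero
  obtain ⟨j, hj⟩ := Function.ne_iff.1 hb
  refine mem_subfieldSubgroup.2 ⟨_, hj, fun i a => ?_⟩
  have := env_le_Ov h (hH.nz g hg _ (mem_env_of_Ov hN h (Y := single a b 1)
    fun i j => by rw [single_apply]; split_ifs; exacts [one_mem _, zero_mem _])) i j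
  rw [← cj_mul, ← cj_mul, cj_apply] at this
  convert this using 1
  rw [show cj P⁻¹ (g : Matrix ι ι F) = (P⁻¹ * g * P : GL ι F) by rw [cj_coe, inv_inv]]
  generalize P⁻¹ * g * P = x
  simp [mul_apply, single_apply, ite_and, mul_comm]

/-- a spanning group with traces in a subfield is realisable over it -/
theorem exists_Ov_of_trace [Finite F] [Nonempty ι] {F₀ : Subfield F} {N : Subgroup (GL ι F)}
    (hN : env F N = ⊤) (h : ∀ x ∈ N, (x : Matrix ι ι F).trace ∈ F₀) :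
    ∃ P : GL ι F, ∀ x ∈ N, cj P⁻¹ (x : Matrix ι ι F) ∈ Ov F₀ := by
  obtain ⟨k, φ, hk, h1, h2⟩ := (irr_of_env hN).exists_hom (B := (env F₀ N).toSubring)
    (Nm.self N).nz fun z _ hz => scalar_of_env hN fun g hg => hz g (mem_env hg)
  have : Nonempty (Fin k) := ⟨⟨0, hk⟩⟩
  obtain ⟨e, P, hP⟩ := exists_tp_of_surjective φ ((AlgHom.range_eq_top _).1 (eq_top_iff.2
    (hN ▸ env_le fun g hg => let ⟨X, _, hX⟩ := h2 g (mem_env hg); ⟨X, hX⟩)))
  have h3 : ∀ x ∈ env F₀ N, x.trace ∈ F₀ := fun x hx => env_induction (p := fun x => x.trace ∈ F₀)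
    h (by simp) (fun x y a b => by rw [trace_add]; exact add_mem a b)
    (fun c x a => by rw [trace_smul]; exact mul_mem c.2 a) hx
  refine ⟨P, fun x hx i j => ?_⟩
  obtain ⟨X, hX, e1⟩ := h2 x (mem_env hx)
  have := h3 _ (mul_mem (hX (e i) (e j)) (h1 ⟨0, hk⟩ ⟨0, hk⟩))
  rw [smul_one_mul, trace_smul, hP, tp, AlgEquiv.trans_apply, trace_cj] at this
  rw [← e1, hP, tp, AlgEquiv.trans_apply, cj_inv_cj]
  simpa [trace, single_apply] using this

theorem realisable_iff {F₀ : Subfield F} {N : Subgroup (GL ι F)} : RealisableOver F₀ (matrixSet N) ↔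
    ∃ P : GL ι F, ∀ x ∈ N, cj P⁻¹ (x : Matrix ι ι F) ∈ Ov F₀ :=
  ⟨fun ⟨B, h⟩ => ⟨B⁻¹, fun x hx => by rw [inv_inv]; exact h x ⟨x, hx, rfl⟩⟩,
    fun ⟨P, h⟩ => ⟨P⁻¹, by rintro _ ⟨x, hx, rfl⟩; exact h x hx⟩⟩

/-- the sesquilinear form with a given Gram matrix -/
def fm (σ : F →+* F) (Γ : Matrix ι ι F) (u v : ι → F) : F := u ⬝ᵥ Γ *ᵥ (σ ∘ v)

/-- the Gram matrix of the pulled back form -/
def pull {κ : Type} (σ : F →+* F) (Γ : Matrix ι ι F) (x : Matrix ι κ F) : Matrix κ κ F :=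
  xᵀ * Γ * x.map σ

variable {σ : F →+* F}

theorem fm_mulVec {κ : Type} [Fintype κ] (Γ : Matrix ι ι F) (x y : Matrix ι κ F) (u v : κ → F) :
    fm σ Γ (x *ᵥ u) (y *ᵥ v) = fm σ (xᵀ * Γ * y.map σ) u v := by
  have : σ ∘ (y *ᵥ v) = y.map σ *ᵥ (σ ∘ v) := funext fun i => RingHom.map_mulVec σ y v i
  rw [fm, fm, this, ← mulVec_mulVec, ← mulVec_mulVec, dotProduct_mulVec u, vecMul_transpose]

theorem fm_pull {κ : Type} [Fintype κ] (Γ : Matrix ι ι F) (x : Matrix ι κ F) (u v : κ → F) :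
    fm σ (pull σ Γ x) u v = fm σ Γ (x *ᵥ u) (x *ᵥ v) := (fm_mulVec _ _ _ _ _).symm

theorem fm_single (Γ : Matrix ι ι F) (a b : ι) :
    fm σ Γ (Pi.single a 1) (Pi.single b 1) = Γ a b := by
  have : σ ∘ (Pi.single b 1 : ι → F) = Pi.single b 1 := by
    ext i; simp [Pi.single_apply]
  simp [fm, this]

theorem fm_ext {Γ Γ' : Matrix ι ι F} (h : ∀ u v, fm σ Γ u v = fm σ Γ' u v) : Γ = Γ' := by
  ext a b; rw [← fm_single (σ := σ) Γ, h, fm_single]

theorem gram_fm (Γ : Matrix ι ι F) : gramMatrix (fm σ Γ) = Γ := by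
  ext a b; exact fm_single _ _ _

theorem fm_eq_sum (Γ : Matrix ι ι F) (u v : ι → F) :
    fm σ Γ u v = ∑ a, ∑ b, u a * Γ a b * σ (v b) := by
  simp [fm, dotProduct, mulVec, Finset.mul_sum, mul_assoc]

theorem fm_smul_gram (c : F) (Γ : Matrix ι ι F) (u v : ι → F) :
    fm σ (c • Γ) u v = c * fm σ Γ u v := by simp [fm, smul_mulVec]

theorem fm_add_gram (Γ Γ' : Matrix ι ι F) (u v : ι → F) :
    fm σ (Γ + Γ') u v = fm σ Γ u v + fm σ Γ' u v := by simp [fm, add_mulVec]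

theorem fm_add_left (Γ : Matrix ι ι F) (u u' v : ι → F) :
    fm σ Γ (u + u') v = fm σ Γ u v + fm σ Γ u' v := add_dotProduct _ _ _

theorem fm_smul_left (Γ : Matrix ι ι F) (c : F) (u v : ι → F) :
    fm σ Γ (c • u) v = c * fm σ Γ u v := smul_dotProduct _ _ _

theorem fm_add_right (Γ : Matrix ι ι F) (u v v' : ι → F) :
    fm σ Γ u (v + v') = fm σ Γ u v + fm σ Γ u v' := by
  simp [fm_eq_sum, mul_add, Finset.sum_add_distrib]

theorem fm_smul_right (Γ : Matrix ι ι F) (c : F) (u v : ι → F) :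
    fm σ Γ u (c • v) = σ c * fm σ Γ u v := by
  simp [fm_eq_sum, Finset.mul_sum, mul_left_comm]

@[simp] theorem fm_zero_left (Γ : Matrix ι ι F) (v : ι → F) : fm σ Γ 0 v = 0 := zero_dotProduct _

@[simp] theorem fm_zero_right (Γ : Matrix ι ι F) (v : ι → F) : fm σ Γ v 0 = 0 := by
  simp [fm_eq_sum]

theorem fm_transpose (h : ∀ a, σ (σ a) = a) (Γ : Matrix ι ι F) (u v : ι → F) :
    fm σ (Γ.map σ)ᵀ u v = σ (fm σ Γ v u) := by
  rw [fm_eq_sum, fm_eq_sum, Finset.sum_comm]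
  simp [h, mul_comm, mul_left_comm]

theorem eq_fm_gram {f : (ι → F) → (ι → F) → F} (h1 : ∀ x y v, f (x + y) v = f x v + f y v)
    (h2 : ∀ (c : F) x v, f (c • x) v = c * f x v) (h3 : ∀ v x y, f v (x + y) = f v x + f v y)
    (h4 : ∀ (c : F) v x, f v (c • x) = σ c * f v x) : f = fm σ (gramMatrix f) := by
  let L : (ι → F) →ₗ[F] (ι → F) →ₛₗ[σ] F := LinearMap.mk₂'ₛₗ (RingHom.id F) σ f h1 h2 h3 h4
  funext u v
  change L u v = _
  conv_lhs => rw [pi_eq_sum_univ' u, pi_eq_sum_univ' v]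
  simp only [map_sum, LinearMap.sum_apply, map_smulₛₗ, LinearMap.smul_apply, fm_eq_sum,
    Finset.smul_sum]
  rw [Finset.sum_comm]
  refine Finset.sum_congr rfl fun a _ => Finset.sum_congr rfl fun b _ => ?_
  simp only [RingHom.id_apply, smul_eq_mul]
  change _ * (_ * gramMatrix f a b) = _
  ring

theorem fm_left_eq_zero (Γ : GL ι F) {v : ι → F} (h : ∀ u, fm σ (Γ : Matrix ι ι F) u v = 0) :
    v = 0 := by
  have : (Γ : Matrix ι ι F) *ᵥ (σ ∘ v) = 0 := funext fun i => by simpa [fm] using h (Pi.single i 1)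
  exact funext fun i => (map_eq_zero σ).1 (congrFun (gl_mulVec_eq_zero.1 this) i)

theorem fm_right_eq_zero (Γ : GL ι F) {v : ι → F} (h : ∀ u, fm σ (Γ : Matrix ι ι F) v u = 0) :
    v = 0 := by
  have : v ᵥ* (Γ : Matrix ι ι F) = 0 := funext fun i => by
    have := h (Pi.single i 1)
    rw [fm_eq_sum] at this
    simpa [Pi.single_apply, apply_ite σ, vecMul, dotProduct] using this
  rw [← vecMul_one v, ← Γ.mul_inv, ← vecMul_vecMul, this, zero_vecMul]

theorem fm_nondeg (Γ : GL ι F) : IsNondegenerateForm (fm σ (Γ : Matrix ι ι F)) := fun _ hv =>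
  ⟨not_forall.1 fun h => hv (fm_left_eq_zero Γ h), not_forall.1 fun h => hv (fm_right_eq_zero Γ h)⟩

theorem exists_gl_of_nondeg {Γ : Matrix ι ι F} (h : ∀ v, (∀ u, fm σ Γ v u = 0) → v = 0) :
    ∃ Γ' : GL ι F, (Γ' : Matrix ι ι F) = Γ := by
  refine ⟨GeneralLinearGroup.mkOfDetNeZero Γ fun h0 => ?_, rfl⟩
  obtain ⟨v, hv, h1⟩ := exists_vecMul_eq_zero_iff.2 h0
  exact hv (h v fun u => by rw [fm, dotProduct_mulVec, h1, zero_dotProduct])

theorem pull_mul {κ μ : Type} [Fintype κ] (Γ : Matrix ι ι F) (x : Matrix ι κ F) (y : Matrix κ μ F) :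
    pull σ Γ (x * y) = pull σ (pull σ Γ x) y := by
  simp only [pull, transpose_mul, Matrix.map_mul, Matrix.mul_assoc]

@[simp] theorem pull_one (Γ : Matrix ι ι F) : pull σ Γ (1 : Matrix ι ι F) = Γ := by simp [pull]

theorem pull_smul_gram {κ : Type} (c : F) (Γ : Matrix ι ι F) (x : Matrix ι κ F) :
    pull σ (c • Γ) x = c • pull σ Γ x := by simp [pull]

theorem pull_smul {κ : Type} (c : F) (Γ : Matrix ι ι F) (x : Matrix ι κ F) :
    pull σ Γ (c • x) = (c * σ c) • pull σ Γ x := by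
  have : (c • x).map σ = σ c • x.map σ := by ext; simp
  simp [pull, this, smul_smul, mul_comm]

theorem pull_transpose {κ : Type} (h : ∀ a, σ (σ a) = a) (Γ : Matrix ι ι F) (x : Matrix ι κ F) :
    pull σ (Γ.map σ)ᵀ x = ((pull σ Γ x).map σ)ᵀ := by
  have : (x.map σ).map σ = x := by ext; simp [h]
  simp only [pull, Matrix.map_mul, transpose_mul, this, transpose_map, transpose_transpose,
    Matrix.mul_assoc]

theorem mem_sim_iff {Γ g : GL ι F} [Nonempty ι] : g ∈ similarityGroup (fm σ (Γ : Matrix ι ι F)) ↔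
    ∃ l : F, pull σ (Γ : Matrix ι ι F) (g : Matrix ι ι F) = l • (Γ : Matrix ι ι F) := by
  refine ⟨fun ⟨c, hc⟩ => ⟨c, fm_ext fun u v => by rw [fm_pull, hc, fm_smul_gram]⟩,
    fun ⟨l, hl⟩ => ⟨Units.mk0 l ?_, fun u v => by rw [← fm_pull, hl, fm_smul_gram]; rfl⟩⟩
  rintro rfl
  have := congrArg (pull σ · ((g⁻¹ : GL ι F) : Matrix ι ι F)) hl
  simp only [← pull_mul, Units.mul_inv, pull_one, zero_smul] at this
  exact Γ.ne_zero (by simpa [pull] using this)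

theorem fixes_iff {Γ : Matrix ι ι F} {N : Subgroup (GL ι F)} :
    FixesForm (matrixSet N) (fm σ Γ) ↔ ∀ x ∈ N, pull σ Γ (x : Matrix ι ι F) = Γ :=
  ⟨fun h x hx => fm_ext fun u v => by rw [fm_pull, h x ⟨x, hx, rfl⟩],
    fun h => by rintro _ ⟨x, hx, rfl⟩ u v; rw [← fm_pull, h x hx]⟩

theorem Irr.exists_gl {N : Subgroup (GL ι F)} (hN : Irr N) {Γ : Matrix ι ι F} (h0 : Γ ≠ 0)
    (h : ∀ x ∈ N, ∃ l : F, pull σ Γ (x : Matrix ι ι F) = l • Γ) :
    ∃ Γ' : GL ι F, (Γ' : Matrix ι ι F) = Γ := by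
  let W : Submodule F (ι → F) := ⟨⟨⟨{v | ∀ u, fm σ Γ v u = 0}, fun a b u => by
    rw [fm_add_left, a u, b u, add_zero]⟩, fun u => by simp⟩, fun c v a u => by
      rw [fm_smul_left, a u, mul_zero]⟩
  rcases hN W (fun g hg w hw u => by
    obtain ⟨l, hl⟩ := h g hg
    rw [← mulVec_inv_mulVec g u, ← fm_pull, hl, fm_smul_gram, hw, mul_zero]) with e | e
  · exact exists_gl_of_nondeg (σ := σ) fun v hv => (Submodule.mem_bot F).1 (e ▸ hv)
  · exact absurd (fm_ext fun u v => by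
      rw [(show u ∈ W from e ▸ Submodule.mem_top) v]; simp [fm]) h0

theorem gram_unique {N : Subgroup (GL ι F)} (hN : env F N = ⊤) {Γ : GL ι F} {Γ' : Matrix ι ι F}
    (h : ∀ x ∈ N, ∃ l : F, pull σ (Γ : Matrix ι ι F) (x : Matrix ι ι F) = l • (Γ : Matrix ι ι F) ∧
      pull σ Γ' (x : Matrix ι ι F) = l • Γ') : ∃ c : F, Γ' = c • (Γ : Matrix ι ι F) := by
  obtain ⟨c, hc⟩ := scalar_of_env hN (z := (Γ' * ((Γ⁻¹ : GL ι F) : Matrix ι ι F))ᵀ) fun x hx => by
    obtain ⟨l, h1, h2⟩ := h x hx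
    apply transpose_injective
    have u : IsUnit ((Γ : Matrix ι ι F) * (x : Matrix ι ι F).map σ) :=
      Γ.isUnit.mul (x.isUnit.map σ.mapMatrix)
    rw [transpose_mul _ (x : Matrix ι ι F), transpose_mul (x : Matrix ι ι F), transpose_transpose,
      ← u.mul_left_inj]
    simp only [pull, mul_assoc] at h1 h2
    simp only [mul_assoc, Units.inv_mul_cancel_left, h1, h2, mul_smul_comm, Units.inv_mul, mul_one]
  refine ⟨c, ?_⟩
  have := congrArg (·ᵀ * (Γ : Matrix ι ι F)) hc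
  simpa using this

theorem Nm.le_sim [Nonempty ι] {H N : Subgroup (GL ι F)} (hH : Nm H N) (hN : env F N = ⊤)
    {Γ : GL ι F} (h : ∀ x ∈ N, pull σ (Γ : Matrix ι ι F) (x : Matrix ι ι F) = Γ) :
    H ≤ similarityGroup (fm σ (Γ : Matrix ι ι F)) := fun g hg =>
  mem_sim_iff.2 (gram_unique hN fun x hx => ⟨1, by rw [h x hx, one_smul], by
    rw [← pull_mul, ← cj_mul_coe, pull_mul, cj_coe, h _ (hH g hg x hx), one_smul]⟩)

theorem exists_inv_gram [Finite F] {R : Subgroup (GL ι F)}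
    (h1 : ∀ x ∈ R, x ∉ scalars ι F → (x : Matrix ι ι F).trace = 0)
    (h2 : ∀ x ∈ R, ∀ c : F, (x : Matrix ι ι F) = c • 1 → c * σ c = 1)
    (h3 : (Fintype.card ι : F) ≠ 0) (h4 : (Nat.card ((scalars ι F).subgroupOf R) : F) ≠ 0) :
    ∃ Γ : Matrix ι ι F, Γ ≠ 0 ∧ ∀ x ∈ R, pull σ Γ (x : Matrix ι ι F) = Γ := by
  classical
  have := Fintype.ofFinite R
  let T : Matrix ι ι F → Matrix ι ι F := fun M => ∑ x : R, pull σ M (x.1 : Matrix ι ι F)
  have hT : ∀ M, ∀ x ∈ R, pull σ (T M) (x : Matrix ι ι F) = T M := fun M x hx => by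
    refine Eq.trans ?_ (Equiv.sum_comp (Equiv.mulRight (⟨x, hx⟩ : R))
      fun x : R => pull σ M (x.1 : Matrix ι ι F))
    simp only [T, pull, Finset.mul_sum, Finset.sum_mul]
    exact Finset.sum_congr rfl fun y _ => (pull_mul M _ _).symm
  by_contra hc
  push Not at hc
  have h0 : ∀ a b, T (single a b 1) a b = 0 := fun a b => by
    by_contra h0
    obtain ⟨x, hx, h⟩ := hc (T (single a b 1)) fun e => h0 (by rw [e]; rfl)
    exact h (hT _ x hx)
  have : ∑ x : R, (x.1 : Matrix ι ι F).trace * σ (x.1 : Matrix ι ι F).trace = 0 := by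
    rw [← Finset.sum_eq_zero fun a _ => Finset.sum_eq_zero fun b _ => h0 a b]
    simp only [T, Matrix.sum_apply, trace, map_sum, Finset.sum_mul_sum]
    rw [Finset.sum_comm]
    refine Finset.sum_congr rfl fun a _ => ?_
    rw [Finset.sum_comm]
    refine Finset.sum_congr rfl fun b _ => Finset.sum_congr rfl fun x _ => ?_
    simp [pull, mul_apply, single_apply, ite_and]
  rw [Finset.sum_congr rfl (g := fun x => if x ∈ (scalars ι F).subgroupOf R then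
    (Fintype.card ι : F) ^ 2 else 0) fun x _ => by
      split_ifs with h
      · obtain ⟨c, hc⟩ := (mem_scalars_iff x.1).1 h
        rw [hc, trace_smul, trace_one, smul_eq_mul, map_mul, map_natCast]
        linear_combination (Fintype.card ι : F) ^ 2 * h2 _ x.2 c hc
      · rw [h1 _ x.2 h, zero_mul], ← Finset.sum_filter, Finset.sum_const, nsmul_eq_mul,
    ← Fintype.card_subtype, ← Nat.card_eq_fintype_card] at this
  exact mul_ne_zero h4 (pow_ne_zero _ h3) this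

/-- an `ε`-hermitian invertible Gram matrix -/
structure HF (σ : F →+* F) (ε : F) (Γ : GL ι F) : Prop where
  invol : ∀ a, σ (σ a) = a
  eps : ε = 1 ∨ ε = -1
  symm : ((Γ : Matrix ι ι F).map σ)ᵀ = ε • (Γ : Matrix ι ι F)

theorem exists_HF_of_smul [Nonempty ι] (h : ∀ a, σ (σ a) = a) {Γ : GL ι F} {c : F}
    (hc : ((Γ : Matrix ι ι F).map σ)ᵀ = c • (Γ : Matrix ι ι F)) : ∃ (ε d : F) (Γ' : GL ι F),
      HF σ ε Γ' ∧ (σ ≠ RingHom.id F → ε = 1) ∧ d ≠ 0 ∧ (Γ' : Matrix ι ι F) = d • (Γ : Matrix ι ι F) := by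
  have h1 : σ c * c = 1 := by
    have := congrArg (fun X => (X.map σ)ᵀ) hc
    simp only [show (c • (Γ : Matrix ι ι F)).map σ = σ c • (Γ : Matrix ι ι F).map σ by ext; simp,
      transpose_smul] at this
    rw [show (((Γ : Matrix ι ι F).map σ)ᵀ.map σ)ᵀ = Γ by ext; simp [h], hc, smul_smul] at this
    exact smul_left_injective F Γ.ne_zero (this.symm.trans (one_smul _ _).symm)
  by_cases hσ : σ = RingHom.id F
  · subst hσ
    exact ⟨c, 1, Γ, ⟨h, mul_self_eq_one_iff.1 h1, hc⟩, fun e => absurd rfl e, one_ne_zero, by simp⟩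
  · obtain ⟨l, hl, e⟩ := exists_div_σ hσ h (mul_comm c _ ▸ h1)
    refine ⟨1, l, GeneralLinearGroup.scalar ι (Units.mk0 l hl) * Γ, ⟨h, .inl rfl, ?_⟩, fun _ => rfl,
      hl, ?_⟩
    · rw [Units.val_mul, show ((GeneralLinearGroup.scalar ι (Units.mk0 l hl) : GL ι F) : Matrix ι ι F)
        = l • 1 by simp [smul_one_eq_diagonal], smul_one_mul,
        show (l • (Γ : Matrix ι ι F)).map σ = σ l • (Γ : Matrix ι ι F).map σ by ext; simp,
        transpose_smul, hc, smul_smul, one_smul, ← e, mul_left_comm,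
        mul_inv_cancel₀ ((map_ne_zero σ).2 hl), mul_one]
    · simp [← smul_eq_diagonal_mul]

theorem exists_HF [Nonempty ι] (h : ∀ a, σ (σ a) = a) {N : Subgroup (GL ι F)} (hN : env F N = ⊤)
    {Γ : Matrix ι ι F} (h0 : Γ ≠ 0) (hΓ : ∀ x ∈ N, pull σ Γ (x : Matrix ι ι F) = Γ) :
    ∃ (ε : F) (Γ' : GL ι F), HF σ ε Γ' ∧ (σ ≠ RingHom.id F → ε = 1) ∧
      ∀ x ∈ N, pull σ (Γ' : Matrix ι ι F) (x : Matrix ι ι F) = Γ' := by
  obtain ⟨Γ, rfl⟩ := (irr_of_env hN).exists_gl h0 fun x hx => ⟨1, by rw [hΓ x hx, one_smul]⟩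
  obtain ⟨c, hc⟩ := gram_unique hN (Γ := Γ) (Γ' := ((Γ : Matrix ι ι F).map σ)ᵀ) fun x hx =>
    ⟨1, by rw [hΓ x hx, one_smul], by rw [pull_transpose h, hΓ x hx, one_smul]⟩
  obtain ⟨ε, d, Γ', h1, h2, -, h3⟩ := exists_HF_of_smul h hc
  exact ⟨ε, Γ', h1, h2, fun x hx => by rw [h3, pull_smul_gram, hΓ x hx]⟩

end CfsgH5.As
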