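import Cfsg.Agent.H5.Oe10

set_option autoImplicit false

/-!
Even-dimensional orthogonal groups, part 11: split outer automorphism groups.
-/

namespace CfsgH5.Oe

open Module Au Au.Γ CForm Fm DihedralGroup

theorem prod_equiv' {O B C : Type*} [Group O] [Group B] [Group C] [Finite O] (ε : B →* O) (hε : Function.Injective ε)
    (φ : O →* C) (h0 : ∀ b, φ (ε b) = 1) {y : O} {n : ℕ} (h1 : orderOf (φ y) = n) (h2 : y ^ n = 1)
    (hc : ∀ b, Commute (ε b) y) (h : Nat.card O = Nat.card B * n) : Nonempty (O ≃* B × Multiplicative (ZMod n)) := by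
  refine prod_equiv ε hε (Nat.dvd_antisymm (orderOf_dvd_of_pow_eq_one h2) (h1 ▸ orderOf_map_dvd _ _)) hc ?_ h
  rintro x ⟨i, k⟩
  have := congrArg φ k
  rw [map_zpow, h0, ← orderOf_dvd_iff_zpow_eq_one, h1] at this
  obtain ⟨i, rfl⟩ := this
  simp only [zpow_mul, zpow_natCast, h2, one_zpow] at k
  exact (map_eq_one_iff _ hε).1 k.symm

theorem d8_fix (α : DihedralGroup 4 →* DihedralGroup 4) (h : ∀ p, α (eO p) = eO p) :
    ∃ s, s * s = 1 ∧ α s = s ∧ ∀ x, α x = s * x * s := by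
  have a : ∀ x, α x = match x with | r i => α (r 1) ^ i.val | sr i => α (sr 0) * α (r 1) ^ i.val := by
    rintro (i | i)
    · simp [← _root_.map_pow]
    · simp [← _root_.map_pow, ← _root_.map_mul]
  have b : α (r 1) * α (r 1) = r 2 := by
    rw [← _root_.map_mul, show r 1 * r 1 = eO (1, -1) by decide, h]; decide
  have c : α (sr 0) = sr 0 := by rw [show sr 0 = eO (-1, 1) by decide, h]
  rw [show (α : _ → _) = _ from funext a, c]
  revert b
  generalize α (r 1) = s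
  revert s; decide

theorem out_card {F : Type*} [Field F] [Finite F] {V : Type*} [AddCommGroup V] [Module F V] {P : FP F} {f : CForm P V}
    (hP : Cm P) {S : Type*} [Group S] (e : S ≃* f.E) (hK : KS f.E) (hs : Function.Surjective (ΨS hP e))
    (h : ∀ ρ, ∃ θ : Sim f hP, θ.1.σ = ρ) {B : Type*} [Group B] (D : LS f hP →* B)
    (hD : Function.Surjective D) (h1 : ∀ g, πS hP e g ∈ Cfsg.Inn _ ↔ D g = 1) :
    Nat.card (Cfsg.Out (S ⧸ Subgroup.center S)) = Nat.card B * Nat.card (F ≃+* F) := by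
  obtain ⟨φ, hφ⟩ := exists_out_σ hP e hK hs
  obtain ⟨ε, a, b⟩ := exists_eps ((toOut _).comp (πS hP e)) D hD fun g => (QuotientGroup.eq_one_iff _).trans (h1 g)
  rw [card_eq_card_mul_ker φ fun ρ => let ⟨θ, k⟩ := h ρ; ⟨_, (hφ θ).trans k⟩, mul_comm,
    ← Subgroup.card_top (G := B), ← Subgroup.card_map_of_injective a, ← MonoidHom.range_eq_map]
  congr 3
  ext x
  constructor
  · intro k
    obtain ⟨β, rfl⟩ := QuotientGroup.mk'_surjective _ x
    obtain ⟨⟨θ, l⟩, rfl⟩ := hs β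
    obtain ⟨g, rfl⟩ := exists_lin ((hφ _).symm.trans k)
    exact ⟨_, b ⟨g, l⟩⟩
  · rintro ⟨x, rfl⟩
    obtain ⟨g, rfl⟩ := hD x
    exact (congrArg φ (b g)).trans (hφ ⟨_, g.2⟩)

variable {F : Type*} [Field F] {V : Type*} [AddCommGroup V] [Module F V] {f : CForm (FP.orth F) V} {m : ℕ}
  [Finite F] [FiniteDimensional F V] (E : EV f m) {S : Type*} [Group S] (e : S ≃* f.E)
  (hs : Function.Surjective (ΨS cm_orth e)) {n : ℕ} (hn : Nat.card (F ≃+* F) = n) {θ : Sim f cm_orth}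
  (h1 : orderOf θ.1.σ = n) (h2 : θ ^ n = 1)
include E hs hn h1 h2

theorem EV.out_ab {B : Type*} [CommGroup B] [Finite B] (D : GO f →* B) (hD : Function.Surjective D)
    (h : ∀ g, πS cm_orth e g ∈ Cfsg.Inn _ ↔ D g = 1) (k : ∀ g, D ⟨_, cj_mem_LS _ θ.2 g⟩ = D g) :
    Nonempty (Cfsg.Out (S ⧸ Subgroup.center S) ≃* B × Multiplicative (ZMod n)) := by
  obtain ⟨ε, φ, a, b, c, d⟩ := E.out_pack e hs (surj_σ hn h1) D hD h
  rw [hn] at d
  have n0 : 0 < n := hn ▸ Nat.card_pos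
  have : Finite (Cfsg.Out (S ⧸ Subgroup.center S)) :=
    Nat.finite_of_card_ne_zero (by rw [d]; exact mul_ne_zero Nat.card_pos.ne' n0.ne')
  refine prod_equiv' ε a φ (fun x => ?_) (y := toOut _ (ΨS cm_orth e θ)) (by rw [c, h1])
    (by rw [← _root_.map_pow, ← _root_.map_pow, h2, _root_.map_one, _root_.map_one]) (fun x => ?_) d <;>
    obtain ⟨g, rfl⟩ := hD x
  · rw [b, ← EV.Ψ_gs, c, gs_coe, lin_σ]
  · change _ * _ = _ * _
    conv_rhs => rw [b, ← _root_.map_mul, ΨS_mul_πS, _root_.map_mul, ← b, k]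

theorem EV.out_two' (h : (2 : F) = 0) :
    Nonempty (Cfsg.Out (S ⧸ Subgroup.center S) ≃* Multiplicative (ZMod 2 × ZMod n)) := by
  obtain ⟨ψ⟩ := E.out_ab e hs hn h1 h2 E.dk (fun x => by
      obtain ⟨s, rfl⟩ := dick_surjective E.nd E.spl (by have := E.six; omega) x
      exact ⟨iso s, E.dk_iso s⟩) (fun g => by simp [E.inn_iff_of e (.inl h), E.sq_two h])
    fun g => (E.dk_cj θ.2 rfl).1
  exact ⟨ψ.trans (((MulEquiv.ofBijective _ e2_bij).prodCongr (.refl _)).symm.trans (MulEquiv.prodMultiplicative _ _).symm)⟩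

theorem EV.out_V4' (h : (2 : F) ≠ 0) (l : E.sn ng ≠ 1) :
    Nonempty (Cfsg.Out (S ⧸ Subgroup.center S) ≃* Multiplicative (ZMod 2 × ZMod 2 × ZMod n)) := by
  obtain ⟨ψ⟩ := E.out_ab e hs hn h1 h2 (E.dk.prod E.sq)
    (fun _ => let ⟨g, a, b⟩ := E.exists_go h _ _; ⟨g, Prod.ext a b⟩)
    (fun g => by simp [E.inn_iff_of e (.inr l), Prod.ext_iff])
    fun g => Prod.ext (E.dk_cj θ.2 rfl).1 (E.dk_cj θ.2 rfl).2
  exact ⟨ψ.trans (((MulEquiv.ofBijective _ e22_bij).prodCongr (.refl _)).symm.trans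
    ((MulEquiv.prodMultiplicative _ _).symm.trans AddEquiv.prodAssoc.toMultiplicative))⟩

theorem EV.out_D8' (h : (2 : F) ≠ 0) (l : E.sn ng = 1) (h3 : IsSim f θ.1 1) :
    Nonempty (Cfsg.Out (S ⧸ Subgroup.center S) ≃* DihedralGroup 4 × Multiplicative (ZMod n)) := by
  obtain ⟨D, s, d1, -, -, -, d2⟩ := E.exists_D8 e h l
  obtain ⟨ε, φ, a, b, c, d⟩ := E.out_pack e hs (surj_σ hn h1) D s d1
  rw [hn] at d
  have n0 : 0 < n := hn ▸ Nat.card_pos
  have : Finite (Cfsg.Out (S ⧸ Subgroup.center S)) :=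
    Nat.finite_of_card_ne_zero (by rw [d]; exact mul_ne_zero Nat.card_pos.ne' n0.ne')
  set y := toOut _ (ΨS cm_orth e θ) with hy
  have k : y ^ n = 1 := by rw [hy, ← _root_.map_pow, ← _root_.map_pow, h2, _root_.map_one, _root_.map_one]
  have t : ∀ g, y * ε (D g) * y⁻¹ = ε (D ⟨_, cj_mem_LS _ θ.2 g⟩) := fun g => by
    rw [b, b, hy, ← _root_.map_mul, ΨS_mul_πS]; simp
  obtain ⟨α, hα⟩ := exists_hom_of_rel (fun x z : DihedralGroup 4 => y * ε x * y⁻¹ = ε z)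
    (fun x => let ⟨g, k⟩ := s x; ⟨_, k ▸ t g⟩) (fun _ _ _ p q => a (p.symm.trans q))
    fun _ _ _ _ p q => by rw [_root_.map_mul, _root_.map_mul, ← p, ← q]; group
  have u : ∀ x, y * ε x = ε (α x) * y := fun x => mul_inv_eq_iff_eq_mul.1 ((hα _ _).1 rfl)
  obtain ⟨z, z1, z2, z3⟩ := d8_fix α fun ⟨p, q⟩ => by
    obtain ⟨g, g1, g2⟩ := E.exists_is h p q
    rw [← g1, ← g2, ← d2, (hα _ _).2 (t _), d2]
    exact (d2 (cjI h3 g)).trans (by rw [E.sn_cj, show E.di (cjI h3 g) = E.di g from dick_cj _ _ _ _]; simp [sgnHom])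
  have h0 : ∀ x, φ (ε x) = 1 := fun x => by
    obtain ⟨g, rfl⟩ := s x
    rw [b, ← EV.Ψ_gs, c, gs_coe, lin_σ]
  have z4 : ∀ x, z * (z * x) = x := fun x => by rw [← mul_assoc, z1, one_mul]
  obtain ⟨i, rfl⟩ | o := n.even_or_odd
  · refine prod_equiv' ε a φ h0 (y := ε z * y) (by rw [_root_.map_mul, h0, one_mul, c, h1]) ?_ (fun x => ?_) d
    · rw [Commute.mul_pow (by have := u z; rw [z2] at this; exact this.symm), k, ← two_mul, pow_mul, ← _root_.map_pow,
        pow_two, z1]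
      simp
    · change _ * _ = _ * _
      rw [mul_assoc, u, z3, ← mul_assoc, ← mul_assoc, ← _root_.map_mul, ← _root_.map_mul, mul_assoc z x, z4]
  · refine prod_equiv' ε a φ h0 (y := y ^ 2) (by
      rw [_root_.map_pow, c, Nat.Coprime.orderOf_pow (h1 ▸ o.coprime_two_right), h1])
      (by rw [← pow_mul, mul_comm, pow_mul, k, one_pow]) (fun x => ?_) d
    change _ * _ = _ * _
    rw [pow_two, mul_assoc y, u, ← mul_assoc y, u, z3, z3]
    simp only [mul_assoc, z4, z1, mul_one]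

end CfsgH5.Oe
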