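import Cfsg.Agent.H5.Op3
import Cfsg.Agent.H5.Oe11

set_option autoImplicit false

/-!
The `p'`-core of the centralizer of an automorphism, part 4: field automorphisms of groups with a form.
-/

namespace CfsgH5.Op

open Module Au Au.Γ CForm

theorem eq_one_of_coprime {A : Type*} [Group A] {y : A} {p : ℕ} (h : y ^ p = 1) (k : p.Coprime (orderOf y)) : y = 1 :=
  orderOf_eq_one_iff.1 (Nat.Coprime.eq_one_of_dvd k.symm (orderOf_dvd_of_pow_eq_one h))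

variable {F : Type*} [Field F] [Finite F] {F₀ : Type*} [Field F₀] {j : F₀ →+* F} {ρ : F ≃+* F} {P : FP F} {P₀ : FP F₀}
  {ι : Type} [Fintype ι] [DecidableEq ι] [Nonempty ι] {f : CForm P (ι → F)} {f₀ : CForm P₀ (ι → F₀)}
  {g : (ι → F) ≃ₗ[F] (ι → F)} {μ : F} {hμ : P.σ μ = μ}

omit [Finite F] [Nonempty ι] in
theorem exC_eq {a : (ι → F₀) ≃ₗ[F₀] (ι → F₀)} {b : (ι → F) ≃ₗ[F] (ι → F)} (h : ∀ v, b (g (j ∘ v)) = g (j ∘ a v)) :
    exC j g a = b := by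
  have : lin (b * g) = lin (g * exL j a) := Γ.ext_span (span_emb (j := j)) rfl (by
    rintro _ ⟨v, rfl⟩
    simpa [exL_apply] using h v)
  exact (eq_mul_inv_of_mul_eq (lin_injective this)).symm

omit [Finite F] [Nonempty ι] in
theorem exC_mem_E (C : FPE P P₀ j) (h0 : μ ≠ 0) (X : IsExt j f₀ (tw f g μ hμ)) : ∀ a ∈ f₀.E, exC j g a ∈ f.E := by
  refine fun _ h => E_le (S := f.E.comap (exC j g)) (fun a x y c k => ?_) h
  have B : ∀ u v, μ * f.B (g (j ∘ u)) (g (j ∘ v)) = j (f₀.B u v) := fun u v => (X.1 u v).symm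
  have Q : ∀ u, μ * f.Q (g (j ∘ u)) = j (f₀.Q u) := fun u => (X.2 u).symm
  obtain ⟨b, hb⟩ := exists_eich (f := f) (x := g (j ∘ x)) (a := μ • g (j ∘ y)) (c := μ * j c)
    (mul_left_cancel₀ h0 (by simp [Q, k.hx])) (by simp [B, k.ha])
    (by rw [P.t_fix _ _ hμ, ← C.t, k.hc, f.Q_smul, hμ, mul_assoc, Q])
  rw [Subgroup.mem_comap, exC_eq (b := b) fun v => ?_]
  · exact hb.mem_E
  have : j ∘ a v = j ∘ v + j (f₀.B v y) • j ∘ x - (P.ε * j (f₀.B v x)) • j ∘ y - (P.ε * j c * j (f₀.B v x)) • j ∘ x :=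
    funext fun i => by simp [k.app, C.ε]
  simp only [this, hb.app, _root_.map_sub, _root_.map_add, _root_.map_smul, B_smul_right, hμ, ← B, smul_smul]
  module

omit [Finite F] in
theorem of_exC (C : FPE P P₀ j) (hP : Cm P) (hP₀ : Cm P₀) (hf : f.Nondeg) (h0 : μ ≠ 0) (X : IsExt j f₀ (tw f g μ hμ))
    {a : (ι → F₀) ≃ₗ[F₀] (ι → F₀)} (h : exC j g a ∈ LS f hP) : a ∈ LS f₀ hP₀ := by
  obtain ⟨a, rfl⟩ := gl_surjective a
  obtain ⟨κ, h⟩ := h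
  obtain ⟨l, -, k⟩ := X.of_sim_ex C (tw_nondeg hf g hμ h0) (e := a) (κ := κ) ⟨h.ne, h.fix,
    fun u v => by simp [tw, ← exL_gl, ← exC_apply, h.lin_B, mul_left_comm],
    fun v => by simp [tw, ← exL_gl, ← exC_apply, h.lin_Q, mul_left_comm]⟩
  exact ⟨l, k⟩

theorem form_co (C : FPE P P₀ j) (hP : Cm P) (hP₀ : Cm P₀) (h : Emb j ρ) (hf : f.Nondeg) {S : Type*} [Group S] [Finite S]
    (e : S ≃* f.E) (hK : KS f.E) {θ : Sim f hP} (hρ : θ.1.σ = ρ) {p : ℕ} [Fact p.Prime] (hp : orderOf ρ = p)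
    (ho : ΨS hP e θ ^ p = 1) (H : ∀ f₀ : CForm P₀ (ι → F₀), f₀.Nondeg → KS f₀.E ∧ (∃ a ∈ f₀.E, ¬ IsSc a) ∧
      ∀ a ∈ LS f₀ hP₀, ¬ IsSc a → IsSc (a ^ p) → NP p f₀.E) :
    C2 p (ΨS hP e θ) ∧ ∀ η, Commute (ΨS hP e η) (ΨS hP e θ) → (∀ n ∈ NC (ΨS hP e θ), Commute (ΨS hP e η) n) →
      ΨS hP e η ^ p = 1 := by
  subst hp
  obtain ⟨c, g, hg⟩ := (pj_ΨS hP e hK).pow_desc (θ := θ) (hρ ▸ ho)
  simp only [Subgroup.coe_subtype, hρ] at hg
  obtain ⟨κ, hκ⟩ := θ.2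
  obtain ⟨μ, h0, hμ, f₀, X⟩ := exists_desc_form C hP h hf ((isSim_scal c).mul hP hκ) (by simp [hρ]) hg
  obtain ⟨k1, k2, k3⟩ := H f₀ (X.nondeg (tw_nondeg hf g hμ h0))
  exact ⟨fld_c2 e hK h (θ := ⟨_, Sim_le hP θ.2⟩) hρ hg (exC_mem_E C h0 X) k1 (fun d a k => of_exC C hP hP₀ hf h0 X
      ((Subgroup.mul_mem_cancel_left _ (scal_mem_LS hP d)).1 (Isom_le_LS hP (E_le_Isom k))))
      (fun a k b l => cj_lin a b ▸ (Sim_le hP₀ k b).1 l) k2 k3,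
    fun η => fld_c1 e hK h (θ := ⟨_, Sim_le hP θ.2⟩) hρ hg (exC_mem_E C h0 X) k1 (η := ⟨_, Sim_le hP η.2⟩)⟩

theorem exists_nsc {F V : Type*} [Field F] [AddCommGroup V] [Module F V] {P : FP F} {f : CForm P V} (hr : f.Rich)
    {x y : V} (h : f.IsHyp x y) : ∃ a ∈ f.E, ¬ IsSc a :=
  let ⟨b, h, k⟩ := exists_swap hr h; ⟨b, h, by simpa using k 1 (by simp)⟩

omit [Nonempty ι] in
theorem orth_H {p r : ℕ} [Fact p.Prime] [CharP F r] (hp : p.Coprime r) (h5 : 5 ≤ Fintype.card ι)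
    (f : CForm (FP.orth F) (ι → F)) (hf : f.Nondeg) : KS f.E ∧ (∃ a ∈ f.E, ¬ IsSc a) ∧
      ∀ a ∈ LS f cm_orth, ¬ IsSc a → IsSc (a ^ p) → NP p f.E := by
  have n : 5 ≤ finrank F (ι → F) := by simpa
  obtain ⟨x, y, h⟩ := orth_exists_hyp hf (by omega)
  have hr := rich_of_finrank hf (by omega)
  exact ⟨KS_orth hf (by omega), exists_nsc hr h, fun a ⟨κ, k⟩ a1 a2 => np_form hf hr (rich2_of_finrank hf n) h hp k a1 a2
    (orth_sq_mem hf (split_of_finrank hf (by omega)) (by omega))⟩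

omit [Nonempty ι] in
theorem symp_H {p r : ℕ} [Fact p.Prime] [CharP F r] (hp : p.Coprime r) (h3 : 3 ≤ Fintype.card ι)
    (f : CForm (FP.symp F) (ι → F)) (hf : f.Nondeg) : KS f.E ∧ (∃ a ∈ f.E, ¬ IsSc a) ∧
      ∀ a ∈ LS f cm_symp, ¬ IsSc a → IsSc (a ^ p) → NP p f.E := by
  have n : 3 ≤ finrank F (ι → F) := by simpa
  obtain ⟨x, y, h⟩ := symp_exists_hyp hf (by omega)
  have hr : f.Rich := rich_of_ker symp_ker
  exact ⟨KS_E hf hr h n, exists_nsc hr h, fun a ⟨κ, k⟩ a1 a2 => np_form hf hr (rich2_of_ker symp_ker) h hp k a1 a2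
    fun s k => symp_Isom_eq_E hf ▸ mul_mem k k⟩

/-- the field part of a semisimilarity inducing an automorphism of prime order -/
theorem ord_σ {V : Type*} [AddCommGroup V] [Module F V] {f : CForm P V} (hP : Cm P) {S : Type*} [Group S]
    (e : S ≃* f.E) (hK : KS f.E) {θ : Sim f hP} (h : θ.1.σ ≠ 1) {p : ℕ} [Fact p.Prime]
    (k : orderOf (ΨS hP e θ) = p) : orderOf θ.1.σ = p :=
  orderOf_eq_prime (by
    rw [← Γ.pow_σ]
    exact ((pj_ΨS hP e hK (θ ^ p)).1 (by rw [_root_.map_pow, ← k, pow_orderOf_eq_one])).1) h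

theorem charP_emb (j : F₀ →+* F) (r : ℕ) [CharP F r] : CharP F₀ r := j.charP j.injective r

omit [Nonempty ι] [Finite F] in
theorem decomp_std (hP : Cm P) {S : Type*} [Group S] (e : S ≃* f.E) (θ : Sim f hP) (hs : IsSim f (std ι θ.1.σ) 1) :
    ∃ δ ∈ (πS hP e).range, ΨS hP e θ = δ * ΨS hP e ⟨_, 1, hs⟩ := by
  obtain ⟨g, hg⟩ := exists_lin (θ := (θ * ⟨_, 1, hs⟩⁻¹).1) (by simp)
  exact ⟨_, ⟨⟨g, show lin g ∈ Sim f hP from hg ▸ Subtype.prop _⟩, rfl⟩, by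
    simp only [πS_def, hg, Subtype.coe_eta, ← _root_.map_mul, inv_mul_cancel_right]⟩

omit [Nonempty ι] in
theorem orth_core {f : CForm (FP.orth F) (ι → F)} (hf : f.Nondeg) (h5 : 5 ≤ Fintype.card ι) {S : Type*} [Group S]
    [Finite S] (e : S ≃* f.E) {θ : Sim f cm_orth} (h : θ.1.σ ≠ 1) {p r : ℕ} [Fact p.Prime] [Fact r.Prime] [CharP F r]
    (hp : p ≠ r) (ho : orderOf (ΨS cm_orth e θ) = p) : C2 p (ΨS cm_orth e θ) ∧
      (Function.Surjective (ΨS cm_orth e) → C1 p (ΨS cm_orth e θ)) := by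
  have : Nonempty ι := Fintype.card_pos_iff.1 (by omega)
  have hK := KS_orth hf (by simp; omega)
  obtain ⟨K, _, _, j, E, -⟩ := exists_fix' θ.1.σ
  have := charP_emb j r
  obtain ⟨a, b⟩ := form_co (fpe_orth j) cm_orth cm_orth E hf e hK rfl (ord_σ _ e hK h ho) (ho ▸ pow_orderOf_eq_one _)
    (orth_H ((Nat.coprime_primes Fact.out Fact.out).2 hp) h5)
  exact ⟨a, fun s y c d => by obtain ⟨η, rfl⟩ := s y; exact eq_one_of_coprime (b η c d)⟩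

omit [Nonempty ι] in
theorem symp_core {f : CForm (FP.symp F) (ι → F)} (hf : f.Nondeg) (h3 : 3 ≤ Fintype.card ι) {S : Type*} [Group S]
    [Finite S] (e : S ≃* f.E) {θ : Sim f cm_symp} (h : θ.1.σ ≠ 1) {p r : ℕ} [Fact p.Prime] [Fact r.Prime] [CharP F r]
    (hp : p ≠ r) (ho : orderOf (ΨS cm_symp e θ) = p) : C2 p (ΨS cm_symp e θ) ∧
      ∀ η, Commute (ΨS cm_symp e η) (ΨS cm_symp e θ) → (∀ n ∈ NC (ΨS cm_symp e θ), Commute (ΨS cm_symp e η) n) →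
        ΨS cm_symp e η ^ p = 1 := by
  have : Nonempty ι := Fintype.card_pos_iff.1 (by omega)
  have hK := (symp_H (p := p) ((Nat.coprime_primes Fact.out Fact.out).2 hp) h3 f hf).1
  obtain ⟨K, _, _, j, E, -⟩ := exists_fix' θ.1.σ
  have := charP_emb j r
  exact form_co (fpe_symp j) cm_symp cm_symp E hf e hK rfl (ord_σ _ e hK h ho) (ho ▸ pow_orderOf_eq_one _)
    (symp_H ((Nat.coprime_primes Fact.out Fact.out).2 hp) h3)

end CfsgH5.Op
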