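import Cfsg.Agent.H5.Ch6
import Cfsg.Agent.H5.Op4

set_option autoImplicit false

/-!
Matrix representations of Chevalley groups, part 9: the automorphisms of `Sp₄(2^f)`.
-/

namespace CfsgH5.Ch

open Cfsg.Lie CfsgH6 Au Au.Γ Op CForm

variable {F : Type*} [Field F]

theorem OK.x_std {ι : Type} [Fintype ι] [DecidableEq ι] {T : Tab ι} {D : ChevalleyDatum} (h : OK T D) (σ : F ≃+* F)
    (r : Fin D.nroots) (t : F) (v : ι → F) : h.x r (σ t) (std ι σ v) = std ι σ (h.x r t v) := by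
  rw [h.x_apply, h.x_apply, Γ.map_add]
  congr 1
  induction T r with
  | nil => simp
  | cons m l ih =>
    simp only [List.map_cons, List.sum_cons, Γ.map_add, ih]
    congr 1
    ext i
    simp [Pi.single_apply, apply_ite σ]

theorem sp4_aut [Finite F] (h2 : (2 : F) = 0) : ∃ γ : MulAut (Cfsg.PSp 2 F),
    (∀ β, β ∈ (ΨSp 2).range ∨ β * γ⁻¹ ∈ (ΨSp 2).range) ∧ ∀ θ σ,
      ¬ ∀ n ∈ NC (ΨSp 2 ⟨std _ σ, 1, isSim_std_sp 2 σ⟩), Commute (ΨSp 2 θ * γ) n := by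
  have : CharP F 2 := (CharP.charP_iff_prime_eq_zero Nat.prime_two).2 h2
  have A := autB2 (F := F) 2
  obtain ⟨φ, hφ⟩ := exists_iso_C4 (F := F)
  choose s hs using fun r t => (spE (F := F) 2).surjective ⟨_, xC4_mem r t⟩
  replace hs : ∀ r t, (spE 2 (s r t)).1 = okC4.x r t := fun r t => congrArg Subtype.val (hs r t)
  replace hφ := fun r t => hφ r t _ (hs r t)
  have st : ∀ σ r t, ΨSp 2 ⟨std _ σ, 1, isSim_std_sp 2 σ⟩ (QuotientGroup.mk (s r t)) = QuotientGroup.mk (s r (σ t)) :=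
    fun σ r t => Ψ_mk _ _ fun v => by rw [hs, hs]; exact okC4.x_std σ r t v
  have k0 : ∀ β, toOut _ β = 1 → MulAut.congr φ β ∈ (ΨSp 2).range := fun β h => by
    obtain ⟨g, k⟩ := inn_le_πS cm_symp (spE 2) ((QuotientGroup.eq_one_iff _).1
      ((outCongr_mk φ β).symm.trans (by rw [h, map_one])))
    exact ⟨_, k⟩
  have o : Odd (Nat.card Fˣ) := by
    have := Fintype.ofFinite F
    obtain ⟨n, -, l⟩ := FiniteField.card F 2
    rw [Nat.card_units, Nat.card_eq_fintype_card, l]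
    exact Nat.Even.sub_odd Nat.one_le_two_pow (Nat.even_pow.2 ⟨even_two, n.ne_zero⟩) odd_one
  have k1 : ∀ θ : goodB2.AA F, goodB2.aperm F θ = 1 → MulAut.congr φ θ.1 ∈ (ΨSp 2).range := fun θ h => by
    obtain ⟨c, σ, k⟩ := goodB2.exists_diag_field connB2' θ h
    rw [k, map_mul]
    refine mul_mem (k0 _ ((inn_iff goodB2 (θ := dg _ c)).2 ?_)) ⟨⟨std _ σ, 1, isSim_std_sp 2 σ⟩, ?_⟩
    · obtain ⟨d, rfl⟩ := Finite.surjective_of_injective ((MonoidHom.ker_eq_bot_iff (pw Fˣ (cartanM chevB2))).1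
        (Subgroup.card_eq_one.1 ((card_ker_B2 Fˣ).trans (Nat.coprime_two_left.2 o)))) c
      exact ⟨d, rfl⟩
    · have : ∀ r t, (MulAut.congr φ).symm (ΨSp 2 ⟨std _ σ, 1, isSim_std_sp 2 σ⟩) ((goodB2.grp F).x r t) =
          goodB2.fieldAut F σ ((goodB2.grp F).x r t) := fun r t => by
        change φ.symm (ΨSp 2 _ (φ _)) = _
        rw [hφ, st, ← hφ, goodB2.fieldAut_x, φ.symm_apply_apply]
      exact (MulEquiv.symm_apply_eq _).1 (goodB2.autm_ext (fun _ _ => this _ _) fun _ _ => this _ _)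
  have := Finite.one_lt_card_iff_nontrivial.1 (A.2.ge.trans_lt' (by simp))
  obtain ⟨⟨π, h⟩, h1⟩ := exists_ne (1 : (goodB2.aperm F).range)
  replace h1 : π ≠ 1 := fun e => h1 (Subtype.ext e)
  obtain ⟨γ, a, b⟩ := (A.1 π h).2
  refine ⟨MulAut.congr φ γ, fun β => ?_, fun θ σ c => ?_⟩
  · obtain ⟨β, rfl⟩ := (MulAut.congr φ).surjective β
    obtain ⟨θ, k⟩ := Twist.out_surjective (goodB2.tw0_G1 F) (goodB2.gl_R3 F) (toOut _ β)
    have k' := k0 (β * θ.1⁻¹) (by rw [map_mul, map_inv, mul_inv_eq_one]; exact k.symm)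
    by_cases l : goodB2.aperm F θ = 1
    · exact .inl (by simpa only [← map_mul, inv_mul_cancel_right] using mul_mem k' (k1 θ l))
    refine .inr (by
      simpa only [← map_mul, ← map_inv, Subgroup.coe_mul, Subgroup.coe_inv, mul_assoc, inv_mul_cancel_left] using
        mul_mem k' (k1 (θ * ⟨γ, a⟩⁻¹) (by
        rw [map_mul, map_inv, show goodB2.aperm F ⟨γ, a⟩ = π from Equiv.ext fun i => goodB2.aperm_eq _ (b i 1).1,
          mul_inv_eq_one]
        exact (by decide +kernel : ∀ a b : Equiv.Perm (Fin chevB2.rank), a ≠ 1 → b ≠ 1 → a = b) _ _ l h1)))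
  obtain ⟨i, i1, i2⟩ := (by decide +kernel : ∀ π : Equiv.Perm (Fin chevB2.rank), π ≠ 1 → ∃ i,
    tC4 (goodB2.sm i) = (.inl 1, none, 1) ∧ tC4 (goodB2.sm (π i)) = (.inl 0, some (.inr 1), 1)) π h1
  have cj : ∀ (x : MulAut (Cfsg.PSp 2 F)) g, x * MulAut.conj g * x⁻¹ = MulAut.conj (x g) := fun x g => by ext; simp
  have e := mul_inv_eq_iff_eq_mul.2 (c (MulAut.conj (QuotientGroup.mk (s (goodB2.sm i) 1))) (mem_NC.2 ⟨⟨_, rfl⟩,
    (mul_inv_eq_iff_eq_mul.1 ((cj _ _).trans (by rw [st, map_one]))).symm⟩))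
  obtain ⟨s', hs'⟩ := exists_cj (spE 2) ⟨θ.1, Sim_le _ θ.2⟩ (s (goodB2.sm (π i)) 1)
  rw [cj, MulAut.mul_apply, ← hφ, show MulAut.congr φ γ (φ _) = φ (γ _) from congrArg (φ <| γ ·) (φ.symm_apply_apply _),
    (b i 1).1, one_pow, hφ, hφ, show ΨSp 2 θ _ = _ from Ψ_mk _ _ hs', ← Ψ_lin (spE 2), ← Ψ_lin (spE 2),
    PJ.eq_iff (u := (NN _).subtype) fun _ => (KS_sp le_rfl).Ψ_eq_one _] at e
  obtain ⟨-, l, e⟩ := e
  replace e : ∀ v, θ.1 (okC4.x (goodB2.sm (π i)) 1 v) = l • okC4.x (goodB2.sm i) 1 (θ.1 v) := fun v => by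
    rw [← hs, ← hs, ← hs']; exact e _
  simp only [OK.x_apply, TC4, i1, i2, Option.elim, List.map_cons, List.map_nil, List.sum_cons, List.sum_nil, add_zero,
    Γ.map_add] at e
  obtain ⟨Y, hY⟩ := θ.1.surj (Pi.single (.inl 1) 1)
  have u : ∀ {v : Fin 2 ⊕ Fin 2 → F} {c d : F}, c ≠ 0 → c • θ.1 v = Pi.single (.inl 1) d → ∃ a : F, v = a • Y :=
    fun {v c d} c0 k => ⟨θ.1.σ⁻¹ (c⁻¹ * d), θ.1.inj (by
      rw [Γ.map_smul, σ_σ_inv, hY, mul_smul, ← Pi.single_smul, smul_eq_mul, mul_one, ← k, inv_smul_smul₀ c0])⟩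
  obtain ⟨⟨a, ha⟩, b, hb⟩ : (∃ a : F, Pi.single (.inl 0) 1 = a • Y) ∧ ∃ a : F, Pi.single (.inr 1) 1 = a • Y := by
    obtain rfl | l1 := eq_or_ne l 1
    · exact ⟨u (neg_ne_zero.2 one_ne_zero) (by simpa [sg, Pi.single_neg] using e (Pi.single (.inl 1) 1)),
        u one_ne_zero (by simpa [sg] using e (Pi.single (.inr 0) 1))⟩
    · have w : ∀ v, θ.1 v = l • (θ.1 v + Pi.single (.inl 1) (θ.1 v (.inr 1))) → ∃ a : F, v = a • Y := fun v k =>
        u (sub_ne_zero.2 l1.symm) (d := l • θ.1 v (.inr 1)) (by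
          rw [sub_smul, one_smul, sub_eq_iff_eq_add', Pi.single_smul, ← smul_add]; exact k)
      exact ⟨w _ (by simpa [sg] using e (Pi.single (.inl 0) 1)), w _ (by simpa [sg] using e (Pi.single (.inr 1) 1))⟩
  have a1 := congrFun ha (.inl 0)
  have b1 := congrFun hb (.inl 0)
  have b2 := congrFun hb (.inr 1)
  simp at a1 b1 b2
  grind

end CfsgH5.Ch
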