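import Mathlib

/-! Groups in which every nontrivial element has exactly two fixed points. -/

namespace CfsgH5.Dk
open MulAction

variable {H X : Type*} [Group H] [Finite H] [MulAction H X]

theorem dvd_sum (Y : Finset X) (hY : ∀ (h : H), ∀ x ∈ Y, h • x ∈ Y) :
    Nat.card H ∣ ∑ x ∈ Y, Nat.card (stabilizer H x) := by
  classical
  rw [← Finset.sum_fiberwise_of_maps_to (t := Y.image (Quotient.mk (orbitRel H X)))
    (g := Quotient.mk (orbitRel H X)) fun x hx => Finset.mem_image_of_mem _ hx]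
  refine Finset.dvd_sum fun w hw => ?_
  obtain ⟨y, hy, rfl⟩ := Finset.mem_image.1 hw
  have e : ∀ x, x ∈ Y.filter (fun x => Quotient.mk (orbitRel H X) x = Quotient.mk (orbitRel H X) y) ↔
      x ∈ orbit H y := fun x => by
    rw [Finset.mem_filter, Quotient.eq, orbitRel_apply]
    exact ⟨fun h => h.2, fun h => ⟨by obtain ⟨g, rfl⟩ := h; exact hY g y hy, h⟩⟩
  rw [Finset.sum_congr rfl (g := fun _ => Nat.card (stabilizer H y)), Finset.sum_const, smul_eq_mul]
  · have : (Y.filter (fun x => Quotient.mk (orbitRel H X) x = Quotient.mk (orbitRel H X) y)).card =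
        (stabilizer H y).index := by
      rw [index_stabilizer, ← Set.ncard_coe_finset]
      congr 1
      ext x; exact e x
    rw [this, Subgroup.index_mul_card]
  · intro x hx
    exact Nat.card_congr (stabilizerEquivStabilizerOfOrbitRel ((e x).1 hx)).toEquiv

theorem count (h2 : ∀ h : H, h ≠ 1 → (fixedBy X h).ncard = 2) (S : Finset X) :
    ((∀ x ∈ S, 6 ≤ Nat.card (stabilizer H x)) → S.card ≤ 2) ∧
      ((∀ x ∈ S, 4 ≤ Nat.card (stabilizer H x)) → S.card ≤ 12) := by
  classical
  haveI := Fintype.ofFinite H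
  have f : ∀ h : H, h ≠ 1 → (fixedBy X h).Finite := fun h e => Set.finite_of_ncard_ne_zero (by rw [h2 h e]; norm_num)
  let F : H → Finset X := fun h => if e : h = 1 then ∅ else (f h e).toFinset
  have mF : ∀ h x, x ∈ F h ↔ h ≠ 1 ∧ h • x = x := fun h x => by
    by_cases e : h = 1 <;> simp [F, e]
  let Y : Finset X := Finset.univ.biUnion F
  let e : X → ℕ := fun x => Nat.card (stabilizer H x)
  have mY : ∀ x, x ∈ Y ↔ 2 ≤ e x := fun x => by
    simp only [Y, Finset.mem_biUnion, Finset.mem_univ, true_and, mF, e]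
    rw [show (2 ≤ Nat.card (stabilizer H x)) = (1 < Nat.card (stabilizer H x)) from rfl,
      Subgroup.one_lt_card_iff_ne_bot, Subgroup.ne_bot_iff_exists_ne_one]
    exact ⟨fun ⟨h, a, b⟩ => ⟨⟨h, b⟩, fun k => a (congrArg Subtype.val k)⟩,
      fun ⟨h, a⟩ => ⟨h.1, fun k => a (Subtype.ext k), h.2⟩⟩
  have inv : ∀ (h : H) x, e (h • x) = e x := fun h x =>
    Nat.card_congr (stabilizerEquivStabilizerOfOrbitRel ⟨h, rfl⟩).toEquiv
  have dc : ∑ x ∈ Y, (e x - 1) = 2 * (Nat.card H - 1) := by
    have := Finset.sum_card_bipartiteAbove_eq_sum_card_bipartiteBelow (s := Y) (t := Finset.univ.erase (1 : H))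
      (r := fun x h => h • x = x)
    rw [Finset.sum_congr rfl (g := fun x => e x - 1), Finset.sum_congr (s₁ := Finset.univ.erase (1 : H)) rfl (g := fun _ => 2)] at this
    · rw [this, Finset.sum_const, smul_eq_mul, Finset.card_erase_of_mem (Finset.mem_univ _), Finset.card_univ,
        Nat.card_eq_fintype_card, mul_comm]
    · intro h hh
      have h1 := Finset.ne_of_mem_erase hh
      rw [← h2 h h1, ← Set.ncard_coe_finset]
      congr 1
      ext x
      simp only [Finset.bipartiteBelow, Finset.coe_filter, Set.mem_setOf_eq, mem_fixedBy]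
      exact ⟨fun k => k.2, fun k => ⟨Finset.mem_biUnion.2 ⟨h, Finset.mem_univ _, (mF h x).2 ⟨h1, k⟩⟩, k⟩⟩
    · intro x _
      have : (Finset.univ.erase (1 : H)).bipartiteAbove (fun x h => h • x = x) x =
          (Finset.univ.filter (· ∈ stabilizer H x)).erase 1 := by
        ext h; simp [Finset.bipartiteAbove]
      rw [this, Finset.card_erase_of_mem (by simp), ← Fintype.card_subtype, ← Nat.card_eq_fintype_card]
  have dv : ∀ (q : ℕ → Prop) [DecidablePred q], ∃ k, ∑ x ∈ Y.filter (fun x => q (e x)), e x = Nat.card H * k := fun q _ =>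
    dvd_sum _ fun h x hx => by
      rw [Finset.mem_filter, mY] at hx ⊢
      rwa [inv]
  have cs : ∀ j, ∑ x ∈ Y.filter (fun x => e x = j), e x = j * (Y.filter (fun x => e x = j)).card := fun j => by
    rw [Finset.sum_congr rfl (g := fun _ => j) fun x hx => (Finset.mem_filter.1 hx).2, Finset.sum_const,
      smul_eq_mul, mul_comm]
  obtain ⟨k2, e2⟩ := dv (· = 2)
  obtain ⟨k3, e3⟩ := dv (· = 3)
  obtain ⟨k4, e4⟩ := dv (· = 4)
  obtain ⟨k5, e5⟩ := dv (· = 5)
  obtain ⟨k6, e6⟩ := dv (6 ≤ ·)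
  have l6 : 6 * (Y.filter (fun x => 6 ≤ e x)).card ≤ ∑ x ∈ Y.filter (fun x => 6 ≤ e x), e x := by
    rw [mul_comm, ← smul_eq_mul]
    exact Finset.card_nsmul_le_sum _ _ _ fun x hx => (Finset.mem_filter.1 hx).2
  have sp : ∀ g : X → ℕ, ∑ x ∈ Y, g x = ∑ x ∈ Y.filter (fun x => e x = 2), g x +
      ∑ x ∈ Y.filter (fun x => e x = 3), g x + ∑ x ∈ Y.filter (fun x => e x = 4), g x +
      ∑ x ∈ Y.filter (fun x => e x = 5), g x + ∑ x ∈ Y.filter (fun x => 6 ≤ e x), g x := fun g => by
    simp only [Finset.sum_filter, ← Finset.sum_add_distrib]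
    refine Finset.sum_congr rfl fun x hx => ?_
    have := (mY x).1 hx
    split_ifs <;> omega
  have s1 : ∑ x ∈ Y, (e x - 1) + ∑ x ∈ Y, 1 = ∑ x ∈ Y, e x := by
    rw [← Finset.sum_add_distrib]
    refine Finset.sum_congr rfl fun x hx => ?_
    have := (mY x).1 hx
    omega
  rw [dc, sp e, sp fun _ => 1, e2, e3, e4, e5, e6] at s1
  simp only [Finset.sum_const, smul_eq_mul, mul_one] at s1
  rw [cs] at e2 e3 e4 e5
  rw [e6] at l6
  have a6 : (∀ x ∈ S, 6 ≤ e x) → S.card ≤ (Y.filter (fun x => 6 ≤ e x)).card := fun h =>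
    Finset.card_le_card fun x hx => Finset.mem_filter.2 ⟨(mY x).2 (by have := h x hx; omega), h x hx⟩
  have a4 : (∀ x ∈ S, 4 ≤ e x) → S.card ≤ (Y.filter (fun x => e x = 4)).card +
      (Y.filter (fun x => e x = 5)).card + (Y.filter (fun x => 6 ≤ e x)).card := fun h => by
    refine le_trans (Finset.card_le_card (t := Y.filter (fun x => e x = 4) ∪ Y.filter (fun x => e x = 5) ∪
      Y.filter (fun x => 6 ≤ e x)) fun x hx => ?_) ((Finset.card_union_le _ _).trans
        (Nat.add_le_add_right (Finset.card_union_le _ _) _))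
    have := h x hx
    have y := (mY x).2 (by omega)
    simp only [Finset.mem_union, Finset.mem_filter, y, true_and]
    omega
  have N0 : 0 < Nat.card H := Nat.card_pos
  generalize Nat.card H = N at *
  generalize (Y.filter (fun x => e x = 2)).card = n2 at *
  generalize (Y.filter (fun x => e x = 3)).card = n3 at *
  generalize (Y.filter (fun x => e x = 4)).card = n4 at *
  generalize (Y.filter (fun x => e x = 5)).card = n5 at *
  generalize (Y.filter (fun x => 6 ≤ e x)).card = n6 at *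
  have b : 30 * k2 + 40 * k3 + 45 * k4 + 48 * k5 + 50 * k6 < 120 := by
    refine Nat.lt_of_mul_lt_mul_left (a := N) ?_
    have : N * (30 * k2 + 40 * k3 + 45 * k4 + 48 * k5 + 50 * k6) =
      30 * (N * k2) + 40 * (N * k3) + 45 * (N * k4) + 48 * (N * k5) + 50 * (N * k6) := by ring
    omega
  have key : n6 ≤ 2 ∧ n4 + n5 + n6 ≤ 12 := by
    have : k2 ≤ 3 := by omega
    have : k3 ≤ 2 := by omega
    have : k4 ≤ 2 := by omega
    have : k5 ≤ 2 := by omega
    have : k6 ≤ 2 := by omega
    clear a4 a6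
    interval_cases k2 <;> interval_cases k3 <;> interval_cases k4 <;> interval_cases k5 <;>
      interval_cases k6 <;> omega
  exact ⟨fun h => (a6 h).trans key.1, fun h => (a4 h).trans key.2⟩

end CfsgH5.Dk
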