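import Cfsg.Agent.H5.Dk1

/-! Fixed points on the projective line. -/

namespace CfsgH5.Dk
open MulAction Matrix OnePoint

section
variable {K : Type*} [Field K] [DecidableEq K]

theorem fix_coe (g : GL (Fin 2) K) (c : K) :
    g • (c : OnePoint K) = c ↔ g 1 0 * c ^ 2 + (g 1 1 - g 0 0) * c - g 0 1 = 0 := by
  rw [← GeneralLinearGroup.fixpointPolynomial_aeval_eq_zero_iff]
  simp [GeneralLinearGroup.fixpointPolynomial]

theorem triv_iff (g : GL (Fin 2) K) :
    (∀ x : OnePoint K, g • x = x) ↔ g 0 1 = 0 ∧ g 1 0 = 0 ∧ g 1 1 = g 0 0 := by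
  constructor
  · intro h
    have a := smul_infty_eq_self_iff.1 (h ∞)
    have b := (fix_coe g 0).1 (h _)
    have c := (fix_coe g 1).1 (h _)
    refine ⟨by linear_combination -b, a, by linear_combination c - a - b⟩
  · rintro ⟨a, b, c⟩ x
    cases x with
    | infty => exact smul_infty_eq_self_iff.2 b
    | coe x => rw [fix_coe, a, b, c]; ring

theorem fix2 [IsAlgClosed K] {p : ℕ} [hp : Fact p.Prime] [CharP K p] (h2 : p ≠ 2) (g : GL (Fin 2) K)
    (h : ¬ ∀ x : OnePoint K, g ^ p • x = x) : (fixedBy (OnePoint K) g).ncard = 2 := by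
  have two : (2 : K) ≠ 0 := fun e => h2 ((Nat.prime_dvd_prime_iff_eq hp.out Nat.prime_two).1
    ((CharP.cast_eq_zero_iff K p 2).1 (by exact_mod_cast e)))
  have D : (g 0 0 - g 1 1) ^ 2 + 4 * g 0 1 * g 1 0 ≠ 0 := fun D => h (by
    set l := (g 0 0 + g 1 1) / 2 with hl
    set N : Matrix (Fin 2) (Fin 2) K := (g : Matrix (Fin 2) (Fin 2) K) - l • 1 with hN
    have n2 : N ^ 2 = 0 := by
      ext i j
      fin_cases i <;> fin_cases j <;> simp [hN, sq, Matrix.mul_apply, Fin.sum_univ_two, hl] <;>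
        field_simp <;> first | linear_combination D | ring
    have e : (g : Matrix (Fin 2) (Fin 2) K) ^ p = l ^ p • 1 := by
      have e0 : (g : Matrix (Fin 2) (Fin 2) K) = l • 1 + N := by rw [hN]; abel
      obtain ⟨k, hk⟩ : ∃ k, p = 2 + k := ⟨p - 2, by have := hp.out.two_le; omega⟩
      have np : N ^ p = 0 := by rw [hk, pow_add, n2, zero_mul]
      rw [e0, add_pow_char_of_commute p ((Commute.one_left N).smul_left l), np, add_zero, smul_pow, one_pow]
    rw [triv_iff]
    have e' : ∀ i j, (g ^ p) i j = (l ^ p • (1 : Matrix (Fin 2) (Fin 2) K)) i j := fun i j => by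
      rw [← e]; simp
    simp [e'])
  by_cases c : g 1 0 = 0
  · have ad : g 1 1 - g 0 0 ≠ 0 := fun e => D (by rw [c]; linear_combination (g 1 1 - g 0 0) * e)
    rw [show fixedBy (OnePoint K) g = {∞, ((g 0 1 / (g 1 1 - g 0 0) : K) : OnePoint K)} from ?_,
      Set.ncard_pair (infty_ne_coe _)]
    ext x
    cases x with
    | infty => simp [smul_infty_eq_self_iff, c]
    | coe x =>
      simp only [mem_fixedBy, fix_coe, c, Set.mem_insert_iff, coe_ne_infty, Set.mem_singleton_iff, coe_eq_coe,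
        false_or, eq_div_iff ad]
      constructor <;> intro e <;> linear_combination e
  · obtain ⟨s, hs⟩ := IsAlgClosed.exists_pow_nat_eq ((g 0 0 - g 1 1) ^ 2 + 4 * g 0 1 * g 1 0) two_pos
    have s0 : s ≠ 0 := fun e => D (by rw [← hs, e]; ring)
    have c2 : 2 * g 1 0 ≠ 0 := mul_ne_zero two c
    rw [show fixedBy (OnePoint K) g = {(((g 0 0 - g 1 1 + s) / (2 * g 1 0) : K) : OnePoint K),
      (((g 0 0 - g 1 1 - s) / (2 * g 1 0) : K) : OnePoint K)} from ?_, Set.ncard_pair]
    · rw [Ne, coe_eq_coe, div_left_inj' c2]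
      intro e
      exact mul_ne_zero two s0 (by linear_combination e)
    ext x
    cases x with
    | infty => simp [smul_infty_eq_self_iff, c]
    | coe x =>
      simp only [mem_fixedBy, fix_coe, Set.mem_insert_iff, Set.mem_singleton_iff, coe_eq_coe, eq_div_iff c2]
      rw [← sub_eq_zero (a := x * (2 * g 1 0)), ← sub_eq_zero (a := x * (2 * g 1 0)) (b := g 0 0 - g 1 1 - s),
        ← mul_eq_zero]
      constructor
      · intro e; linear_combination 4 * g 1 0 * e - hs
      · intro e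
        exact mul_left_cancel₀ (mul_ne_zero two c2) (by linear_combination e + hs)

end

theorem geo {p : ℕ} [hp : Fact p.Prime] (h2 : p ≠ 2) {N : Type*} [Group N] [Finite N]
    (ρ : N →* GL (Fin 2) (ZMod p)) (P : Subgroup N) (hP : ¬ p ∣ P.index) (hρ : ∀ n ∈ P, ρ n = 1)
    {ι : Type*} (S : Finset ι) (v : ι → Fin 2 → ZMod p) (v0 : ∀ i ∈ S, v i ≠ 0)
    (vd : ∀ i ∈ S, ∀ j ∈ S, v i 0 * v j 1 - v i 1 * v j 0 = 0 → i = j)
    (ht : ∀ t : (ZMod p)ˣ, ∀ i ∈ S, ∃ n, (ρ n : Matrix (Fin 2) (Fin 2) (ZMod p)) *ᵥ v i = (t⁻¹ : (ZMod p)ˣ) • v i ∧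
      (ρ n : Matrix (Fin 2) (Fin 2) (ZMod p)).det = t) :
    (17 ≤ p ∨ p = 11 → S.card ≤ 2) ∧ (p = 13 → S.card ≤ 12) := by
  classical
  let K := AlgebraicClosure (ZMod p)
  let f : ZMod p →+* K := algebraMap _ _
  have fi : Function.Injective f := f.injective
  let σ : N →* GL (Fin 2) K := (GeneralLinearGroup.map f).comp ρ
  let φ : N →* Equiv.Perm (OnePoint K) := (toPermHom (GL (Fin 2) K) (OnePoint K)).comp σ
  have φa : ∀ n x, φ n x = σ n • x := fun _ _ => rfl
  haveI : Finite φ.range := Finite.of_surjective _ φ.rangeRestrict_surjective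
  have cH : ¬ p ∣ Nat.card φ.range := fun e => hP (e.trans (by
    rw [← Subgroup.index_ker]
    exact Subgroup.index_dvd_of_le fun n hn => by
      rw [MonoidHom.mem_ker]; ext x; simp [φa, σ, hρ n hn]))
  have cnt := count (H := φ.range) (X := OnePoint K) fun h h1 => by
    obtain ⟨_, n, rfl⟩ := h
    refine fix2 h2 (σ n) fun e => h1 ?_
    have e1 : (⟨φ n, n, rfl⟩ : φ.range) ^ p = 1 := Subtype.ext (Equiv.ext fun x => by
      change (φ n ^ p) x = x
      rw [← map_pow, φa, map_pow, e])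
    rw [← orderOf_eq_one_iff]
    exact ((Nat.dvd_prime hp.out).1 (orderOf_dvd_of_pow_eq_one e1)).resolve_right
      fun k => cH (k ▸ orderOf_dvd_natCard _)
  let pt : ι → OnePoint K := fun i => if v i 1 = 0 then ∞ else ((f (v i 0 / v i 1) : K) : OnePoint K)
  have v1 : ∀ i ∈ S, v i 1 = 0 → v i 0 ≠ 0 := fun i hi a b => v0 i hi (by ext j; fin_cases j <;> simp [a, b])
  have pi : Set.InjOn pt S := fun i hi j hj e => by
    refine vd i hi j hj ?_
    by_cases a : v i 1 = 0 <;> by_cases b : v j 1 = 0 <;> simp only [pt, a, b, if_true, if_false] at e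
    · rw [a, b]; ring
    · exact absurd e (infty_ne_coe _)
    · exact absurd e (coe_ne_infty _)
    · have := fi (coe_eq_coe.1 e)
      rw [div_eq_div_iff a b] at this
      linear_combination this
  obtain ⟨t, hto⟩ := IsCyclic.exists_ofOrder_eq_natCard (α := (ZMod p)ˣ)
  rw [Nat.card_eq_fintype_card, ZMod.card_units] at hto
  have key : ∀ i ∈ S, ∃ r, 0 < r ∧ p - 1 ∣ 3 * r ∧ r ≤ Nat.card (stabilizer φ.range (pt i)) := fun i hi => by
    obtain ⟨n, h1, h3⟩ := ht t i hi
    have a0 := congrFun h1 0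
    have a1 := congrFun h1 1
    simp only [mulVec_fin_two, Pi.smul_apply, Units.smul_def, smul_eq_mul, cons_val_zero, cons_val_one] at a0 a1
    have se : ∀ m i j, (σ m) i j = f ((ρ m) i j) := fun _ _ _ => rfl
    have fx : σ n • pt i = pt i := by
      by_cases a : v i 1 = 0
      · simp only [pt, a, if_true, smul_infty_eq_self_iff, se]
        rw [a, mul_zero, mul_zero, add_zero] at a1
        rw [(mul_eq_zero.1 a1).resolve_right (v1 i hi a), map_zero]
      · simp only [pt, a, if_false, fix_coe, se]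
        rw [← map_pow, ← map_mul, ← map_sub, ← map_mul, ← map_add, ← map_sub, map_eq_zero_iff f fi]
        field_simp
        linear_combination v i 0 * a1 - v i 1 * a0
    let h : stabilizer φ.range (pt i) := ⟨⟨φ n, n, rfl⟩, fx⟩
    refine ⟨orderOf h, orderOf_pos h, ?_, orderOf_le_card⟩
    set r := orderOf h
    have e : ∀ x, σ (n ^ r) • x = x := fun x => by
      have := congrArg (fun u : stabilizer φ.range (pt i) => (u.1.1 : Equiv.Perm (OnePoint K)) x) (pow_orderOf_eq_one h)
      rw [← φa, map_pow]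
      exact this
    obtain ⟨b1, b2, b3⟩ := (triv_iff _).1 e
    rw [se, map_eq_zero_iff f fi] at b1 b2
    rw [se, se] at b3
    replace b3 := fi b3
    have d : (ρ (n ^ r) : Matrix (Fin 2) (Fin 2) (ZMod p)).det = (t : ZMod p) ^ r := by
      rw [map_pow, Units.val_pow_eq_pow_val, det_pow, h3]
    have m : ∀ k : ℕ, (ρ (n ^ k) : Matrix (Fin 2) (Fin 2) (ZMod p)) *ᵥ v i = ((t⁻¹ : (ZMod p)ˣ) ^ k) • v i := fun k => by
      induction k with
      | zero => simp
      | succ k ih =>
        rw [pow_succ, map_mul, Units.val_mul, ← mulVec_mulVec, h1, Units.smul_def, mulVec_smul, ih, pow_succ',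
          mul_smul, Units.smul_def t⁻¹]
    have m0 := congrFun (m r) 0
    have m1 := congrFun (m r) 1
    simp only [mulVec_fin_two, Pi.smul_apply, Units.smul_def, smul_eq_mul, cons_val_zero, cons_val_one] at m0 m1
    rw [det_fin_two] at d
    have l : ρ (n ^ r) 0 0 = ((t⁻¹ ^ r : (ZMod p)ˣ) : ZMod p) := by
      by_cases a : v i 1 = 0
      · exact mul_right_cancel₀ (v1 i hi a) (by rw [← m0, b1]; ring)
      · exact mul_right_cancel₀ a (by rw [← m1, b2, b3]; ring)
    rw [← hto, orderOf_dvd_iff_pow_eq_one]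
    have : (t ^ r : (ZMod p)ˣ) = t⁻¹ ^ r * t⁻¹ ^ r := Units.ext (by
      rw [Units.val_mul, ← l, Units.val_pow_eq_pow_val, ← d, b1, b3]; ring)
    calc t ^ (3 * r) = t ^ r * (t ^ r * t ^ r) := by rw [← pow_add, ← pow_add]; congr 1; ring
      _ = 1 := by nth_rw 1 [this]; rw [inv_pow]; group
  have c := cnt (S.image pt)
  rw [Finset.card_image_of_injOn pi] at c
  refine ⟨fun hp' => c.1 fun x hx => ?_, fun hp' => c.2 fun x hx => ?_⟩
  · obtain ⟨i, hi, rfl⟩ := Finset.mem_image.1 hx
    obtain ⟨r, r0, r1, r2⟩ := key i hi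
    rcases hp' with e | e
    · have := Nat.le_of_dvd (by omega) r1
      omega
    · rw [e] at r1
      omega
  · obtain ⟨i, hi, rfl⟩ := Finset.mem_image.1 hx
    obtain ⟨r, r0, r1, r2⟩ := key i hi
    rw [hp'] at r1
    omega

end CfsgH5.Dk
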