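import Cfsg.Agent.H5.Dk2
import Cfsg.Agent.S3053

/-! Radical subgroups of an extraspecial Sylow subgroup of order `p ^ 3`. -/

namespace CfsgH5.Dk
open Subgroup Function CfsgH2 Matrix
open scoped commutatorElement

variable {G : Type*} [Group G] {p : ℕ} [hp : Fact p.Prime] {Q : Subgroup G} {x y z u v w a : G}

open Classical in
/-- Discrete logarithm. -/
noncomputable def L (p : ℕ) (z w : G) : ZMod p := if h : ∃ k : ℤ, z ^ k = w then (h.choose : ZMod p) else 0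

theorem L_zpow (hz : orderOf z = p) (k : ℤ) : L p z (z ^ k) = k := by
  have h : ∃ j : ℤ, z ^ j = z ^ k := ⟨k, rfl⟩
  rw [L, dif_pos h, ZMod.intCast_eq_intCast_iff, ← hz, ← zpow_eq_zpow_iff_modEq]
  exact h.choose_spec

theorem pw (hw : w ^ p = 1) {m n : ℕ} (h : (m : ZMod p) = n) : w ^ m = w ^ n :=
  pow_eq_pow_iff_modEq.2 (((ZMod.natCast_eq_natCast_iff _ _ _).1 h).of_dvd (orderOf_dvd_of_pow_eq_one hw))

structure XS (p : ℕ) (Q : Subgroup G) (x y : G) : Prop where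
  w : Wx p Q
  card : Nat.card Q = p ^ 3
  ex : ∀ u ∈ Q, u ^ p = 1
  hx : x ∈ Q
  hy : y ∈ Q
  nc : ¬ Commute x y

/-- The commutator form. -/
noncomputable def bt (p : ℕ) (x y u v : G) : ZMod p := L p ⁅x, y⁆ ⁅u, v⁆

/-- Coordinates. -/
noncomputable def cd (p : ℕ) (x y u : G) : Fin 2 → ZMod p := ![bt p x y u y, bt p x y x u]

variable [Finite G]

namespace XS
variable (h : XS p Q x y)
include h

omit hp [Finite G] in
theorem cz (hu : u ∈ Q) (hv : v ∈ Q) : ⁅u, v⁆ ∈ Z[Q] := h.w.der (commutator_mem_commutator hu hv)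

omit hp [Finite G] in
theorem z0 : ⁅x, y⁆ ≠ 1 := fun e => h.nc (commutatorElement_eq_one_iff_commute.1 e)

theorem zz : zpowers ⁅x, y⁆ = Z[Q] := zpowers_eq_of_prime (h.w.cardZ ▸ hp.out) (h.cz h.hx h.hy) h.z0

theorem oz : orderOf ⁅x, y⁆ = p := by rw [← Nat.card_zpowers, h.zz, h.w.cardZ]

theorem exz (hw : w ∈ Z[Q]) : ∃ k : ℤ, ⁅x, y⁆ ^ k = w := mem_zpowers_iff.1 (h.zz.ge hw)

theorem L_mul (hw : w ∈ Z[Q]) (hv : v ∈ Z[Q]) : L p ⁅x, y⁆ (w * v) = L p ⁅x, y⁆ w + L p ⁅x, y⁆ v := by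
  obtain ⟨k, rfl⟩ := h.exz hw
  obtain ⟨j, rfl⟩ := h.exz hv
  rw [← _root_.zpow_add, L_zpow h.oz, L_zpow h.oz, L_zpow h.oz, Int.cast_add]

theorem L_one : L p ⁅x, y⁆ 1 = 0 := by simpa using L_zpow h.oz 0

theorem L_zero (hw : w ∈ Z[Q]) (e : L p ⁅x, y⁆ w = 0) : w = 1 := by
  obtain ⟨k, rfl⟩ := h.exz hw
  rw [L_zpow h.oz, ZMod.intCast_zmod_eq_zero_iff_dvd, ← h.oz] at e
  exact orderOf_dvd_iff_zpow_eq_one.1 e

theorem bt_left (hu : u ∈ Q) (hw : w ∈ Q) (hv : v ∈ Q) :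
    bt p x y (u * w) v = bt p x y u v + bt p x y w v := by
  rw [bt, commutator_mul_left', ← (commute_of_mem_cent (h.cz hw hv).2 hu).eq, mul_inv_cancel_right,
    h.L_mul (h.cz hw hv) (h.cz hu hv), add_comm]; rfl

theorem bt_right (hu : u ∈ Q) (hw : w ∈ Q) (hv : v ∈ Q) :
    bt p x y v (u * w) = bt p x y v u + bt p x y v w := by
  rw [bt, commutator_mul_right', ← (commute_of_mem_cent (h.cz hv hw).2 hu).eq, mul_inv_cancel_right,
    h.L_mul (h.cz hv hu) (h.cz hv hw)]; rfl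

theorem bt_comm (c : Commute u v) : bt p x y u v = 0 := by
  rw [bt, commutatorElement_eq_one_iff_commute.2 c, h.L_one]

theorem bt_xy : bt p x y x y = 1 := by simpa [bt] using L_zpow h.oz 1

theorem bt_yx : bt p x y y x = -1 := by
  have := L_zpow h.oz (-1)
  rwa [_root_.zpow_neg_one, commutatorElement_inv, Int.cast_neg, Int.cast_one] at this

theorem bt_powl (hu : u ∈ Q) (hv : v ∈ Q) (k : ℕ) : bt p x y (u ^ k) v = k * bt p x y u v := by
  induction k with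
  | zero => simpa using h.bt_comm (Commute.one_left v)
  | succ k ih => rw [pow_succ, h.bt_left (pow_mem hu k) hu hv, ih]; push_cast; ring

theorem bt_powr (hu : u ∈ Q) (hv : v ∈ Q) (k : ℕ) : bt p x y v (u ^ k) = k * bt p x y v u := by
  induction k with
  | zero => simpa using h.bt_comm (Commute.one_right v)
  | succ k ih => rw [pow_succ, h.bt_right (pow_mem hu k) hu hv, ih]; push_cast; ring

theorem cd_mul (hu : u ∈ Q) (hv : v ∈ Q) : cd p x y (u * v) = cd p x y u + cd p x y v := by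
  ext i; fin_cases i <;> simp [cd, h.bt_left hu hv h.hy, h.bt_right hu hv h.hx]

theorem cd_pow (hu : u ∈ Q) (k : ℕ) : cd p x y (u ^ k) = (k : ZMod p) • cd p x y u := by
  ext i; fin_cases i <;> simp [cd, h.bt_powl hu h.hy, h.bt_powr hu h.hx]

theorem cd_Z (hw : w ∈ Z[Q]) : cd p x y w = 0 := by
  ext i; fin_cases i <;>
    simp [cd, h.bt_comm (commute_of_mem_cent hw.2 h.hy), h.bt_comm (commute_of_mem_cent hw.2 h.hx).symm]

theorem cd_x : cd p x y x = ![1, 0] := by simp [cd, h.bt_xy, h.bt_comm (Commute.refl x)]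

theorem cd_y : cd p x y y = ![0, 1] := by simp [cd, h.bt_xy, h.bt_comm (Commute.refl y)]

theorem card_sup (ha : a ∈ Q) (h1 : a ∉ Z[Q]) : Nat.card (Z[Q] ⊔ zpowers a : Subgroup G) = p ^ 2 := by
  rw [card_sup_zpowers_prime hp.out (cent_le_norm _ (le_cent_center ha)) (h.ex a ha ▸ one_mem _) h1, h.w.cardZ, sq]

theorem comm_sup (ha : a ∈ Q) : Z[Q] ⊔ zpowers a ≤ C1[a] :=
  sup_le (fun w hw => mem_centralizer_singleton_iff.2 (commute_of_mem_cent hw.2 ha).eq)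
    (zpowers_le.2 (self_mem_cent1 a))

theorem gen : Z[Q] ⊔ zpowers x ⊔ zpowers y = Q := by
  have xn : x ∉ Z[Q] := fun k => h.nc (commute_of_mem_cent k.2 h.hy)
  have l : Z[Q] ⊔ zpowers x ≤ Q := sup_le inf_le_left (zpowers_le.2 h.hx)
  have i : (Z[Q] ⊔ zpowers x).relIndex Q = p := by
    have := card_mul_relIndex l
    rw [h.card_sup h.hx xn, h.card, pow_succ p 2] at this
    exact Nat.eq_of_mul_eq_mul_left (pow_pos hp.out.pos 2) this
  refine (eq_or_eq_of_relIndex_prime (i ▸ hp.out) le_sup_left (sup_le l (zpowers_le.2 h.hy))).resolve_left fun e => ?_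
  exact h.nc (mem_centralizer_singleton_iff.1 (h.comm_sup h.hx (e.le (mem_sup_right (mem_zpowers y))))).symm

theorem ker (hu : u ∈ Q) (e : cd p x y u = 0) : u ∈ Z[Q] := by
  have a := h.L_zero (h.cz hu h.hy) (congrFun e 0)
  have b := h.L_zero (h.cz h.hx hu) (congrFun e 1)
  rw [commutatorElement_eq_one_iff_mul_comm] at a b
  have : Q ≤ C1[u] := by
    rw [← h.gen]
    exact sup_le (sup_le (fun w hw => mem_centralizer_singleton_iff.2 (commute_of_mem_cent hw.2 hu).eq)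
      (zpowers_le.2 (mem_centralizer_singleton_iff.2 b))) (zpowers_le.2 (mem_centralizer_singleton_iff.2 a.symm))
  exact ⟨hu, mem_cent_iff.2 fun v hv => mem_centralizer_singleton_iff.1 (this hv)⟩

theorem cd_inv (hu : u ∈ Q) : cd p x y u⁻¹ = -cd p x y u := by
  have := h.cd_mul (inv_mem hu) hu
  rw [inv_mul_cancel, h.cd_Z (one_mem _)] at this
  exact eq_neg_of_add_eq_zero_left this.symm

theorem dec (hu : u ∈ Q) : ∃ w ∈ Z[Q], u = x ^ (cd p x y u 0).val * y ^ (cd p x y u 1).val * w := by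
  have m : x ^ (cd p x y u 0).val * y ^ (cd p x y u 1).val ∈ Q := mul_mem (pow_mem h.hx _) (pow_mem h.hy _)
  refine ⟨(x ^ (cd p x y u 0).val * y ^ (cd p x y u 1).val)⁻¹ * u, h.ker (mul_mem (inv_mem m) hu) ?_, by group⟩
  rw [h.cd_mul (inv_mem m) hu, h.cd_inv m, h.cd_mul (pow_mem h.hx _) (pow_mem h.hy _), h.cd_pow h.hx,
    h.cd_pow h.hy, h.cd_x, h.cd_y]
  ext i; fin_cases i <;> simp

theorem bt_eq (hu : u ∈ Q) (hv : v ∈ Q) :
    bt p x y u v = cd p x y u 0 * cd p x y v 1 - cd p x y u 1 * cd p x y v 0 := by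
  obtain ⟨w, hw, e⟩ := h.dec hu
  have a : bt p x y y v = -cd p x y v 0 := by
    obtain ⟨w, hw, e⟩ := h.dec hv
    nth_rw 1 [e]
    rw [h.bt_right (mul_mem (pow_mem h.hx _) (pow_mem h.hy _)) hw.1 h.hy,
      h.bt_right (pow_mem h.hx _) (pow_mem h.hy _) h.hy, h.bt_powr h.hx h.hy, h.bt_powr h.hy h.hy, h.bt_yx,
      h.bt_comm (Commute.refl y), h.bt_comm (commute_of_mem_cent hw.2 h.hy).symm]
    simp
  nth_rw 1 [e]
  rw [h.bt_left (mul_mem (pow_mem h.hx _) (pow_mem h.hy _)) hw.1 hv,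
    h.bt_left (pow_mem h.hx _) (pow_mem h.hy _) hv, h.bt_powl h.hx hv, h.bt_powl h.hy hv, a,
    h.bt_comm (commute_of_mem_cent hw.2 hv)]
  have : bt p x y x v = cd p x y v 1 := rfl
  simp only [this, ZMod.natCast_val, ZMod.cast_id', id_eq]
  ring

omit hp h in
theorem conjZ {n : G} (hn : n ∈ N[Q]) (hw : w ∈ Z[Q]) : n * w * n⁻¹ ∈ Z[Q] :=
  ⟨conj_mem_of_norm hn hw.1, conj_mem_of_norm (norm_le_norm_cent Q hn) hw.2⟩

end XS

/-- The matrix of a normalizing element. -/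
noncomputable def mt (p : ℕ) (x y n : G) : Matrix (Fin 2) (Fin 2) (ZMod p) :=
  !![cd p x y (n * x * n⁻¹) 0, cd p x y (n * y * n⁻¹) 0; cd p x y (n * x * n⁻¹) 1, cd p x y (n * y * n⁻¹) 1]

namespace XS
variable (h : XS p Q x y)
include h

theorem mt_vec {n : G} (hn : n ∈ N[Q]) (hu : u ∈ Q) :
    mt p x y n *ᵥ cd p x y u = cd p x y (n * u * n⁻¹) := by
  obtain ⟨w, hw, e⟩ := h.dec hu
  have a := conj_mem_of_norm hn h.hx
  have b := conj_mem_of_norm hn h.hy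
  have : n * u * n⁻¹ = (n * x * n⁻¹) ^ (cd p x y u 0).val * (n * y * n⁻¹) ^ (cd p x y u 1).val * (n * w * n⁻¹) := by
    rw [conj_pow, conj_pow]; nth_rw 1 [e]; group
  rw [this, h.cd_mul (mul_mem (pow_mem a _) (pow_mem b _)) (conjZ hn hw).1, h.cd_mul (pow_mem a _) (pow_mem b _),
    h.cd_pow a, h.cd_pow b, h.cd_Z (conjZ hn hw)]
  ext i; fin_cases i <;> simp [mt, mulVec, dotProduct, Fin.sum_univ_two] <;> ring

theorem mt_one : mt p x y 1 = 1 := by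
  ext i j; fin_cases i <;> fin_cases j <;> simp [mt, h.cd_x, h.cd_y]

theorem mt_mul {n m : G} (hn : n ∈ N[Q]) (hm : m ∈ N[Q]) : mt p x y (n * m) = mt p x y n * mt p x y m := by
  have a := h.mt_vec hn (conj_mem_of_norm hm h.hx)
  have b := h.mt_vec hn (conj_mem_of_norm hm h.hy)
  have e : ∀ u, n * (m * u * m⁻¹) * n⁻¹ = n * m * u * (n * m)⁻¹ := fun u => by group
  rw [e] at a b
  ext i j
  fin_cases i <;> fin_cases j <;>
    simp only [mt, ← a, ← b, mulVec, dotProduct, Matrix.mul_apply, Fin.sum_univ_two] <;> simp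

theorem mt_Q (hu : u ∈ Q) : mt p x y u = 1 := by
  have e : ∀ v ∈ Q, cd p x y (u * v * u⁻¹) = cd p x y v := fun v hv => by
    rw [h.cd_mul (mul_mem hu hv) (inv_mem hu), h.cd_mul hu hv, h.cd_inv hu]; abel
  ext i j; fin_cases i <;> fin_cases j <;> simp [mt, e x h.hx, e y h.hy, h.cd_x, h.cd_y]

theorem mt_det {n : G} (hn : n ∈ N[Q]) : (mt p x y n).det = L p ⁅x, y⁆ (n * ⁅x, y⁆ * n⁻¹) := by
  rw [det_fin_two, conjugate_commutatorElement]
  have := h.bt_eq (conj_mem_of_norm hn h.hx) (conj_mem_of_norm hn h.hy)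
  rw [bt] at this
  rw [this]; simp [mt]; ring

end XS

/-- The second transvection. -/
def Opp (z a : G) : Prop := ∃ g : G, g * z * g⁻¹ = z * a ∧ g * a * g⁻¹ = a

omit hp [Finite G] in
theorem conj_it {g : G} (h1 : g * z * g⁻¹ = z * a) (h2 : g * a * g⁻¹ = a) (k : ℕ) :
    g ^ k * z * (g ^ k)⁻¹ = z * a ^ k ∧ g ^ k * a * (g ^ k)⁻¹ = a := by
  induction k with
  | zero => simp
  | succ k ih =>
    have e : ∀ u, g ^ (k + 1) * u * (g ^ (k + 1))⁻¹ = g * (g ^ k * u * (g ^ k)⁻¹) * g⁻¹ := fun u => by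
      rw [pow_succ']; group
    rw [e, e, ih.1, ih.2, h2, ← conj_mul, ← conj_pow, h1, h2, pow_succ', mul_assoc]
    exact ⟨rfl, rfl⟩

namespace XS
variable (h : XS p Q x y)
include h

theorem diag (ha : a ∈ Q) (h1 : a ∉ Z[Q]) (o : Opp ⁅x, y⁆ a) (t : (ZMod p)ˣ) :
    ∃ g : G, g * ⁅x, y⁆ * g⁻¹ = ⁅x, y⁆ ^ (t : ZMod p).val ∧
      ∃ k : ℕ, g * a * g⁻¹ = ⁅x, y⁆ ^ k * a ^ ((t⁻¹ : (ZMod p)ˣ) : ZMod p).val := by
  obtain ⟨g, g1, g2⟩ := o
  have hz := h.cz h.hx h.hy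
  set z := ⁅x, y⁆
  obtain ⟨u, hu, u1⟩ := Cfsg.Agent.S3053.surj h.w ha (fun k => h1 ⟨ha, k⟩) hz
  have c : Commute z a := commute_of_mem_cent hz.2 ha
  have u2 : u * z * u⁻¹ = z := by rw [← (commute_of_mem_cent hz.2 hu).eq, mul_inv_cancel_right]
  set s := ((t : ZMod p) - 1).val
  set r := (-((t⁻¹ : (ZMod p)ˣ) : ZMod p)).val
  obtain ⟨a1, a2⟩ := conj_it u1 u2 s
  obtain ⟨b1, b2⟩ := conj_it g1 g2 r
  have e : ∀ w, g ^ r * u ^ s * g * w * (g ^ r * u ^ s * g)⁻¹ =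
      g ^ r * (u ^ s * (g * w * g⁻¹) * (u ^ s)⁻¹) * (g ^ r)⁻¹ := fun w => by group
  have cr : Commute z (a ^ r) := c.pow_right r
  have cm : ∀ g a b : G, g * (a * b) * g⁻¹ = g * a * g⁻¹ * (g * b * g⁻¹) := fun _ _ _ => by group
  have hs : (s : ZMod p) = t - 1 := ZMod.natCast_zmod_val _
  have hr : (r : ZMod p) = -((t⁻¹ : (ZMod p)ˣ) : ZMod p) := ZMod.natCast_zmod_val _
  have ti : (t : ZMod p) * ((t⁻¹ : (ZMod p)ˣ) : ZMod p) = 1 := t.mul_inv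
  refine ⟨g ^ r * u ^ s * g, ?_, s, ?_⟩
  · rw [e, g1, cm (u ^ s), a1, a2, cm (g ^ r), cm (g ^ r), ← conj_pow, b1, b2, cr.mul_pow, ← pow_mul]
    have : z * a ^ r * (a * (z ^ s * a ^ (r * s))) = z ^ (1 + s) * a ^ (r + 1 + r * s) := by
      rw [pow_add, pow_add, pow_add, pow_one, pow_one, ← mul_assoc a, ← (c.pow_left s).eq]
      simp only [mul_assoc]
      rw [← mul_assoc (a ^ r), ← (c.pow_pow s r).eq, mul_assoc]
    rw [this, pw (h.ex z hz.1) (n := (t : ZMod p).val) (by push_cast; rw [hs, ZMod.natCast_zmod_val]; ring),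
      pw (h.ex a ha) (n := 0) (by push_cast; rw [hs, hr]; linear_combination -ti), pow_zero, mul_one]
  · rw [e, g2, a1, cm (g ^ r), ← conj_pow, b1, b2, cr.mul_pow, ← pow_mul, ← mul_assoc, ← (c.pow_left s).eq,
      mul_assoc, ← pow_succ', pw (h.ex a ha) (m := r * s + 1) (n := ((t⁻¹ : (ZMod p)ˣ) : ZMod p).val)
        (by rw [ZMod.natCast_zmod_val, Nat.cast_add, Nat.cast_mul, Nat.cast_one, hs, hr]; linear_combination -ti)]

theorem rad (sy : Syl p Q ⊤) (ha : a ∈ Q) (h1 : a ∉ Z[Q]) (o : Opp ⁅x, y⁆ a) (t : (ZMod p)ˣ) :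
    ∃ n ∈ N[Q], mt p x y n *ᵥ cd p x y a = (t⁻¹ : (ZMod p)ˣ) • cd p x y a ∧ (mt p x y n).det = t := by
  obtain ⟨g, g1, k, g2⟩ := h.diag ha h1 o t
  have hz := h.cz h.hx h.hy
  set A := Z[Q] ⊔ zpowers a
  have AQ : A ≤ Q := sup_le inf_le_left (zpowers_le.2 ha)
  have gZ : g ∈ N[Z[Q]] := mem_norm_of_map_le (by
    rw [← h.zz, MonoidHom.map_zpowers, zpowers_le, cj_apply, g1]; exact pow_mem (mem_zpowers _) _)
  have mA : ⁅x, y⁆ ^ k * a ^ ((t⁻¹ : (ZMod p)ˣ) : ZMod p).val ∈ A :=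
    mul_mem (mem_sup_left (pow_mem hz _)) (mem_sup_right (pow_mem (mem_zpowers a) _))
  have gA : g ∈ N[A] := mem_norm_of_map_le (by
    rw [Subgroup.map_sup, MonoidHom.map_zpowers, sup_le_iff, zpowers_le, cj_apply, g2]
    exact ⟨(map_cj_le_iff'.2 fun w hw => conj_mem_of_norm gZ hw).trans le_sup_left, mA⟩)
  let M : Subgroup G :=
    { carrier := {m | (∀ w ∈ Z[Q], m * w * m⁻¹ = w) ∧ ∀ b ∈ A, m * b * m⁻¹ * b⁻¹ ∈ Z[Q]}
      one_mem' := ⟨fun w _ => by simp, fun b _ => by simp [one_mem]⟩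
      mul_mem' := fun {m n} hm hn => ⟨fun w hw => by
        rw [show m * n * w * (m * n)⁻¹ = m * (n * w * n⁻¹) * m⁻¹ by group, hn.1 w hw, hm.1 w hw], fun b hb => by
        rw [show m * n * b * (m * n)⁻¹ * b⁻¹ = m * (n * b * n⁻¹ * b⁻¹) * m⁻¹ * (m * b * m⁻¹ * b⁻¹) by group,
          hm.1 _ (hn.2 b hb)]
        exact mul_mem (hn.2 b hb) (hm.2 b hb)⟩
      inv_mem' := fun {m} hm => ⟨fun w hw => by
        nth_rw 1 [← hm.1 w hw]; group, fun b hb => by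
        have e := hm.1 _ (hm.2 b hb)
        have : m⁻¹ * b * m⁻¹⁻¹ * b⁻¹ = (m * b * m⁻¹ * b⁻¹)⁻¹ := by
          calc m⁻¹ * b * m⁻¹⁻¹ * b⁻¹ = m⁻¹ * (m * b * m⁻¹ * b⁻¹)⁻¹ * m := by group
            _ = _ := by nth_rw 1 [← e]; group
        rw [this]; exact inv_mem (hm.2 b hb)⟩ }
  have QM : Q ≤ M := fun u hu => ⟨fun w hw => by
    rw [← (commute_of_mem_cent hw.2 hu).eq, mul_inv_cancel_right], fun b hb => h.cz hu (AQ hb)⟩
  have gM : Q.map (cj g) ≤ M := map_cj_le_iff'.2 fun u hu => ⟨fun w hw => by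
    rw [show g * u * g⁻¹ * w * (g * u * g⁻¹)⁻¹ = g * (u * (g⁻¹ * w * g) * u⁻¹) * g⁻¹ by group,
      (QM hu).1 _ (conj_mem_of_norm' gZ hw)]; group, fun b hb => by
    rw [show g * u * g⁻¹ * b * (g * u * g⁻¹)⁻¹ * b⁻¹ =
      g * (u * (g⁻¹ * b * g) * u⁻¹ * (g⁻¹ * b * g)⁻¹) * g⁻¹ by group]
    exact conj_mem_of_norm gZ ((QM hu).2 _ (conj_mem_of_norm' gA hb))⟩
  obtain ⟨c, cM, l⟩ := (sy.mono QM le_top).exists_conj_le (h.w.pg.map (cj g)) gM
  rw [map_cj_cj] at l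
  have n := mem_norm_of_map_le l
  have e : ∀ w, c * g * w * (c * g)⁻¹ = c * (g * w * g⁻¹) * c⁻¹ := fun w => by group
  refine ⟨c * g, n, ?_, ?_⟩
  · have m := cM.2 _ mA
    rw [h.mt_vec n ha, e, g2, ← inv_mul_cancel_right (c * _ * c⁻¹) (⁅x, y⁆ ^ k * a ^ ((t⁻¹ : (ZMod p)ˣ) : ZMod p).val),
      h.cd_mul m.1 (AQ mA), h.cd_Z m, h.cd_mul (pow_mem hz.1 _) (pow_mem ha _), h.cd_Z (pow_mem hz _),
      h.cd_pow ha, ZMod.natCast_zmod_val, zero_add, zero_add, Units.smul_def]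
  · rw [h.mt_det n, e, g1, cM.1 _ (pow_mem hz _), ← zpow_natCast, L_zpow h.oz]
    simp

theorem bound (h2 : p ≠ 2) (sy : Syl p Q ⊤) {ι : Type*} (S : Finset ι) (b : ι → G) (bQ : ∀ i ∈ S, b i ∈ Q)
    (bZ : ∀ i ∈ S, b i ∉ Z[Q]) (bc : ∀ i ∈ S, ∀ j ∈ S, Commute (b i) (b j) → i = j)
    (o : ∀ i ∈ S, Opp ⁅x, y⁆ (b i)) : (17 ≤ p ∨ p = 11 → S.card ≤ 2) ∧ (p = 13 → S.card ≤ 12) := by
  let ρ0 : N[Q] →* Matrix (Fin 2) (Fin 2) (ZMod p) :=
    { toFun := fun n => mt p x y n.1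
      map_one' := h.mt_one
      map_mul' := fun n m => h.mt_mul n.2 m.2 }
  refine geo h2 ρ0.toHomUnits (Q.subgroupOf N[Q]) (sy.mono le_normalizer le_top).nd
    (fun n hn => Units.ext (h.mt_Q hn)) S (fun i => cd p x y (b i))
    (fun i hi e => bZ i hi (h.ker (bQ i hi) e)) (fun i hi j hj e => bc i hi j hj ?_) fun t i hi => ?_
  · rw [← h.bt_eq (bQ i hi) (bQ j hj)] at e
    exact commutatorElement_eq_one_iff_commute.1 (h.L_zero (h.cz (bQ i hi) (bQ j hj)) e)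
  · obtain ⟨n, hn, a1, a2⟩ := h.rad sy (bQ i hi) (bZ i hi) (o i hi) t
    exact ⟨⟨n, hn⟩, a1, a2⟩

end XS

theorem exists_xs (P : Sylow p G) (hE : Cfsg.IsExtraspecial p ↥P) (hcard : Nat.card P = p ^ 3)
    (hexp : Monoid.exponent ↥P = p) : ∃ x y, XS p (P : Subgroup G) x y := by
  obtain ⟨w, nab⟩ := extraspecial_iff.1 hE
  obtain ⟨x, hx, y, hy, c⟩ := exists_not_commute nab
  refine ⟨x, y, w, hcard, fun u hu => ?_, hx, hy, c⟩
  have := Monoid.pow_exponent_eq_one (⟨u, hu⟩ : P)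
  rw [hexp] at this
  exact congrArg Subtype.val this

end CfsgH5.Dk
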