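import Cfsg.Agent.H5.Mx1

set_option autoImplicit false

/-!
Maximal subgroups of classical groups, part 2: non-degenerate subspaces, points.
-/

namespace CfsgH5.Mx

open Module CForm

universe u v

variable {F : Type u} [Field F] {P : FP F} {V : Type v} [AddCommGroup V] [Module F V]
  [FiniteDimensional F V] {f : CForm P V}

variable (f) in
/-- isometries can be moved into `E` inside any non-degenerate plane -/
def Adj : Prop := ∀ x y, f.IsHyp x y → ∀ g ∈ f.Isom, ∃ h ∈ f.Isom,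
  (∀ v, f.B v x = 0 → f.B v y = 0 → h v = v) ∧ g * h ∈ f.E

variable (f) in
/-- the isometry group is irreducible -/
def Irr : Prop := ∀ M : Submodule F V, (∀ g ∈ f.Isom, ∀ m ∈ M, g m ∈ M) → M = ⊥ ∨ M = ⊤

omit [FiniteDimensional F V] in
theorem res_eich {Y : Submodule F V} {g : Y ≃ₗ[F] Y} {z b : Y} {c : F} (h : (f.res Y).IsEich g z b c) :
    ∃ g', f.IsEich g' z b c ∧ ∀ u : Y, (g u : V) = g' u := by
  obtain ⟨g', hg⟩ := exists_eich (f := f) h.hx h.ha h.hc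
  exact ⟨g', hg, fun u => by simp [h.app, hg.app]⟩

omit [FiniteDimensional F V] in
theorem res_hyp {Y : Submodule F V} {x y : Y} (h : (f.res Y).IsHyp x y) : f.IsHyp x y := ⟨h.hx, h.hy, h.hxy⟩

theorem irred_in (h3 : I3 f) {Y : Submodule F V} (hY : Y ⊓ f.perp Y = ⊥) (hd : 7 ≤ finrank F Y)
    (A : AddSubgroup V) {u : V} (h0 : u ∈ A) (hu : u ∈ Y) (hu0 : u ≠ 0)
    (hA : ∀ g z b c, f.IsEich g z b c → z ∈ Y → b ∈ Y → ∀ v ∈ A, g v ∈ A) (v : V) (hv : v ∈ Y) : v ∈ A :=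
  span_perp (h3.res Y) ((f.res_nondeg_iff Y).2 hY) ⊥ (by simpa using hd) (A.comap Y.subtype.toAddMonoidHom)
    (u₀ := ⟨u, hu⟩) h0 (by simpa using hu0) (fun w hw g z b c hg _ _ => by
      obtain ⟨g', k1, k2⟩ := res_eich hg
      change (g w : V) ∈ A
      rw [k2]; exact hA _ _ _ _ k1 z.2 b.2 _ hw) ⟨v, hv⟩ (by simp)

theorem sing_span (h3 : I3 f) {Y : Submodule F V} (hY : Y ⊓ f.perp Y = ⊥) (hd : 7 ≤ finrank F Y)
    (A : AddSubgroup V) (hA : ∀ z ∈ Y, f.Q z = 0 → z ∈ A) (v : V) (hv : v ∈ Y) : v ∈ A := by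
  obtain ⟨u, hu, h0, h1⟩ := h3 Y (by omega)
  exact conn (h3.res Y) ((f.res_nondeg_iff Y).2 hY) ⊥ (by simpa using hd) (A.comap Y.subtype.toAddMonoidHom)
    (u₀ := ⟨u, hu⟩) (hA u hu h1) (by simpa using h0) (fun _ _ _ z hz _ _ _ => hA z z.2 hz) ⟨v, hv⟩ (by simp)

theorem eich_stab {X : Submodule F V} {g : V ≃ₗ[F] V} {x a : V} {c : F} (h : f.IsEich g x a c) (hx : x ∈ X)
    (ha : a ∈ X) : g ∈ stabS F (X : Set V) := mem_stabS_of_le fun w hw => by
  rw [h.app]; exact X.sub_mem (X.sub_mem (X.add_mem hw (X.smul_mem _ hx)) (X.smul_mem _ ha)) (X.smul_mem _ hx)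

variable {K : Subgroup (V ≃ₗ[F] V)}

theorem E_le_of_full_in (hf : f.Nondeg) {X : Submodule F V} (hX : X ⊓ f.perp X = ⊥) (hd : 3 ≤ finrank F X)
    (hK : stabS F (X : Set V) ⊓ f.E ≤ K) {z : V} (hz : z ∈ X) (h0 : z ≠ 0) (hQ : f.Q z = 0)
    (h : Full f K z) : f.E ≤ K := by
  have hX' := (f.res_nondeg_iff X).2 hX
  obtain ⟨y, hy⟩ := hX'.exists_hyp' (x := ⟨z, hz⟩) hQ (by simpa using h0)
  obtain ⟨a, c, k1, k2, k3, k4⟩ := rich_of_finrank hX' hd _ _ hy
  obtain ⟨s, hs, k⟩ := exists_move (res_hyp hy) k1 k2 k3 k4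
  exact E_le_of_full hf h (h.map (hK ⟨eich_stab hs y.2 a.2, hs.mem_E⟩) hs.mem_Isom) hQ
    (by rw [f.Isom_Q hs.mem_Isom, hQ]) k

omit [FiniteDimensional F V] in
theorem conj_eich_mem {g : V ≃ₗ[F] V} (hg : g ∈ K) (hg' : g ∈ f.Isom) {r : V ≃ₗ[F] V} {x a : V} {c : F}
    (h : f.IsEich r (g x) (g a) c) (k : ∀ s, f.IsEich s x a c → s ∈ K) : r ∈ K :=
  mem_of_conj_mem (inv_mem hg) (k _ (by simpa using h.conj (inv_mem hg')))

theorem exists_bad (h3 : I3 f) (hf : f.Nondeg) {X Y : Submodule F V} (hY : Y ⊓ f.perp Y = ⊥)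
    (hd : 7 ≤ finrank F Y) (he : finrank F X = finrank F Y) (hd' : finrank F V ≤ 2 * finrank F X)
    (h1 : Y ≠ X) (h2 : Y ≠ f.perp X) :
    ∃ r y b c, f.IsEich r y b c ∧ y ∈ Y ∧ b ∈ Y ∧ ∃ v ∈ X, r v ∉ X := by
  by_contra hc
  push Not at hc
  by_cases h : X ⊓ Y = ⊥
  · refine h2 (Submodule.eq_of_le_of_finrank_le (fun y hy => f.mem_perp'.2 fun v hv => ?_)
      (by have := hf.finrank_perp X; omega))
    refine mem_perp_single.1 (sing_span h3 hY hd (f.perp (F ∙ v)).toAddSubgroup (fun z hz hQ => ?_) y hy)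
      |> f.B_zero_symm
    obtain ⟨b, hb, k⟩ := exists_not_mem (W := Y ⊓ f.perp (F ∙ z)) (U := F ∙ z) (by
      have := fr_perp hf Y (F ∙ z); have := Au.finrank_line_le (F := F) z; omega)
    obtain ⟨c, hc'⟩ := f.exists_t b
    obtain ⟨r, hr⟩ := exists_eich hQ (mem_perp_single.1 hb.2) hc'
    have : r v - v ∈ X ⊓ Y := ⟨X.sub_mem (hc r z b c hr hz hb.1 v hv) hv, by
      rw [hr.app, show ∀ p q s : V, v + p - q - s - v = p - q - s from fun _ _ _ => by abel]
      exact Y.sub_mem (Y.sub_mem (Y.smul_mem _ hz) (Y.smul_mem _ hb.1)) (Y.smul_mem _ hz)⟩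
    rw [h, Submodule.mem_bot, hr.app] at this
    refine mem_perp_single.2 (f.B_zero_symm (by_contra fun e => k (Submodule.mem_span_singleton.2
      ⟨(P.ε * f.B v z)⁻¹ * (f.B v b - P.ε * c * f.B v z), ?_⟩)))
    rw [mul_smul, inv_smul_eq_iff₀ (mul_ne_zero P.ε_ne e)]
    linear_combination (norm := module) this
  · obtain ⟨u, hu, h0⟩ := (Submodule.ne_bot_iff _).1 h
    exact h1 (Submodule.eq_of_le_of_finrank_le (fun y hy => irred_in h3 hY hd X.toAddSubgroup hu.1 hu.2 h0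
      (fun g z b c hg hz hb v hv => hc g z b c hg hz hb v hv) y hy) he.le)

/-- stabilisers of non-degenerate subspaces -/
theorem max_nondeg (h3 : I3 f) (hA : Adj f) (hf : f.Nondeg) {X : Submodule F V} (hX : X ⊓ f.perp X = ⊥)
    (hd : 7 ≤ finrank F X) (hd' : finrank F V ≤ 2 * finrank F X) (hI : Irr (f.res (f.perp X)))
    (hK : stabS F (X : Set V) ⊓ f.E ≤ K) {g : V ≃ₗ[F] V} (hg : g ∈ K) (hg' : g ∈ f.Isom)
    (hn : X.map g.toLinearMap ≠ X) (hn' : X.map g.toLinearMap ≠ f.perp X) : f.E ≤ K := by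
  have hc := hf.isCompl_perp hX
  have hX' := (f.res_nondeg_iff X).2 hX
  obtain ⟨r, y, b, c, hr, ⟨x, hx, rfl⟩, ⟨a, ha, rfl⟩, v, hv, hv'⟩ := exists_bad h3 hf (X := X)
    (Y := X.map g.toLinearMap) (by rw [← map_perp hg', ← Submodule.map_inf _ g.injective, hX]; simp)
    (by rwa [LinearEquiv.finrank_map_eq]) (LinearEquiv.finrank_map_eq _ _).symm hd' hn hn'
  have hrK : r ∈ K := conj_eich_mem hg hg' hr fun s hs => hK ⟨eich_stab hs hx ha, hs.mem_E⟩
  have := fr_line ((F ∙ g x) ⊔ F ∙ g a) v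
  have := fr_line (F ∙ g x) (g a)
  have := Au.finrank_line_le (F := F) (g x)
  obtain ⟨z, hz, h0, hQ, h4⟩ := h3.sing hf X (((F ∙ g x) ⊔ F ∙ g a) ⊔ F ∙ v) ⊥ (by simp; omega)
  rw [perp_sup_line, perp_sup_line, perp_line] at h4
  have hrz : r z = z := hr.fix (f.B_zero_symm h4.1.1) (f.B_zero_symm h4.1.2)
  have hin : ∀ u ∈ X, f.B u z = 0 → u ∈ RA f K z hQ := fun u hu k =>
    mem_RA hQ k fun s _ hs => hK ⟨eich_stab hs hz hu, hs.mem_E⟩
  have hpr : ∀ (u : X) (w : f.perp X), f.B (u + w) z = 0 → f.B u z = 0 := fun u w k => by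
    simpa [w.2 z hz] using k
  let M : Submodule F (f.perp X) :=
    { carrier := {w | ∀ l : F, l • (w : V) ∈ RA f K z hQ}
      add_mem' := fun h1 h2 l => by simpa using add_mem (h1 l) (h2 l)
      zero_mem' := fun l => by simp
      smul_mem' := fun a w h l => by simpa [smul_smul] using h (l * a) }
  obtain ⟨e, e', he, k1, k2⟩ := (h3.res X).hyp hX' (F ∙ ⟨z, hz⟩) (by
    have := Au.finrank_line_le (F := F) (⟨z, hz⟩ : X); omega)
  rw [perp_line] at k1 k2
  have hM : M = ⊤ := by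
    refine (hI M fun φ hφ w hw l => ?_).resolve_left fun hM => ?_
    · obtain ⟨h, h1, h2, h5⟩ := hA _ _ (res_hyp he) _ ((sumHom_mem_Isom hc (p := (1, φ))).2 ⟨one_mem _, hφ⟩)
      have h6 : ∀ w : f.perp X, h w = w := fun w => h2 w (w.2 _ e.2) (w.2 _ e'.2)
      have h7 : h ∈ stabS F (X : Set V) := by
        rw [← hf.perp_perp X]; exact stabS_perp h1 (fixS_le_stabS _ fun w hw => h6 ⟨w, hw⟩)
      have := RA_map (hw l) (hK ⟨mul_mem (sumHom_mem_stabS hc _) h7, h5⟩) (E_le_Isom h5) (by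
        rw [LinearEquiv.mul_apply, h2 z k1 k2]; exact sumHom_left hc _ ⟨z, hz⟩)
      rwa [LinearEquiv.mul_apply, map_smul, h6, map_smul, sumHom_right] at this
    · obtain ⟨u, w, e⟩ := exists_add_of_isCompl hc (r v)
      have hu := hpr u w (by rw [← e, ← hrz, f.Isom_B hr.mem_Isom, h4.2])
      have : w ∈ M := fun l => by
        have := sub_mem (RA_map (hin (l • v) (X.smul_mem l hv) (by simp [h4.2])) hrK hr.mem_Isom hrz)
          (hin (l • u) (X.smul_mem l u.2) (by simp [hu]))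
        simpa [e] using this
      rw [hM, Submodule.mem_bot] at this
      exact hv' (by rw [e, this]; simp)
  refine E_le_of_full_in hf hX (by omega) hK hz (by simpa using h0) hQ (full_of hQ (fun a ha => ?_)
    fun s c hs => hK ⟨eich_stab hs hz X.zero_mem, hs.mem_E⟩)
  obtain ⟨u, w, rfl⟩ := exists_add_of_isCompl hc a
  exact add_mem (hin u u.2 (hpr u w ha)) (by simpa using (hM.ge (Submodule.mem_top (x := w))) 1)

/-- stabilisers of points -/
theorem max_point (h3 : I3 f) (hf : f.Nondeg) (hd : 7 ≤ finrank F V) {v : V} (hv : v ≠ 0)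
    (hK : stabS F ((F ∙ v : Submodule F V) : Set V) ⊓ f.E ≤ K) {g : V ≃ₗ[F] V} (hg : g ∈ K)
    (hg' : g ∈ f.Isom) (hn : g ∉ stabS F ((F ∙ v : Submodule F V) : Set V)) : f.E ≤ K := by
  have h1 : g v ∉ F ∙ v := fun h => hn (mem_stabS_of_le fun w hw => by
    obtain ⟨a, rfl⟩ := Submodule.mem_span_singleton.1 hw
    rw [map_smul]; exact Submodule.smul_mem _ _ h)
  have := fr_line (F ∙ v) (g v)
  have := Au.finrank_line_le (F := F) v
  obtain ⟨x, y, h, k1, k2⟩ := h3.hyp hf ((F ∙ v) ⊔ F ∙ g v) (by omega)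
  rw [perp_sup_line, perp_line] at k1 k2
  have h2 : ∀ s z a c, f.IsEich s z a c → f.B v z = 0 → f.B v a = 0 → s ∈ K := fun s z a c hs e1 e2 =>
    hK ⟨fixS_le_stabS _ (mem_fixS_span.2 (by simpa using hs.fix e1 e2)), hs.mem_E⟩
  have key : ∀ x y, f.IsHyp x y → f.B v x = 0 → f.B (g v) x = 0 → f.B v y = 0 → f.B (g v) y = 0 →
      Full f K x := fun x y h e1 e2 e3 e4 => by
    refine full_of h.hx (fun a ha => ?_) fun s c hs => h2 _ _ _ _ hs e1 (by simp)
    obtain ⟨b, k3, k4⟩ := hf.exists_dual (W := (F ∙ g v) ⊔ F ∙ x) (x := v) fun k => by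
      obtain ⟨_, k5, _, k6, e⟩ := Submodule.mem_sup.1 k
      obtain ⟨α, rfl⟩ := Submodule.mem_span_singleton.1 k5
      obtain ⟨β, rfl⟩ := Submodule.mem_span_singleton.1 k6
      have := congrArg (f.B · y) e
      simp only [f.B_add_left, f.B_smul_left, e4, e3, h.hxy, mul_zero, zero_add, mul_one] at this
      exact h1 (Au.line_symm hv (Submodule.mem_span_singleton.2 ⟨α, by simpa [this] using e⟩))
    rw [perp_sup_line, perp_line] at k4
    have k5 := f.B_zero_symm k4.2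
    rw [← sub_add_cancel a (P.σ (f.B v a) • b)]
    refine add_mem (mem_RA h.hx (by simp [ha, k5]) fun s c hs => h2 _ _ _ _ hs e1 (by simp [k3]))
      (mem_RA h.hx (by simp [k5]) fun s c hs => ?_)
    refine conj_eich_mem hg hg' (x := g⁻¹ x) (a := g⁻¹ (P.σ (f.B v a) • b)) (by simpa using hs)
      fun s' hs' => h2 _ _ _ _ hs' ?_ ?_
    · rw [← f.Isom_B_inv hg', e2]
    · rw [← f.Isom_B_inv hg']; simp [k4.1]
  exact E_le_of_full hf (key x y h k1.1 k1.2 k2.1 k2.2)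
    (key y _ h.symm k2.1 k2.2 (by simp [k1.1]) (by simp [k1.2])) h.hx h.hy (by simp [h.hxy])

section Inst

omit [FiniteDimensional F V] in
theorem exists_not_mem_two {M N : Submodule F V} (h1 : M ≠ ⊤) (h2 : N ≠ ⊤) : ∃ p, p ∉ M ∧ p ∉ N := by
  obtain ⟨a, -, ha⟩ := SetLike.exists_of_lt (lt_top_iff_ne_top.2 h1)
  obtain ⟨b, -, hb⟩ := SetLike.exists_of_lt (lt_top_iff_ne_top.2 h2)
  by_cases h3 : a ∈ N
  · by_cases h4 : b ∈ M
    · exact ⟨a + b, by rwa [M.add_mem_iff_left h4], by rwa [N.add_mem_iff_right h3]⟩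
    · exact ⟨b, h4, hb⟩
  · exact ⟨a, ha, h3⟩

omit [FiniteDimensional F V] in
theorem mem_or_perp {M : Submodule F V} (hM : ∀ g ∈ f.Isom, ∀ m ∈ M, g m ∈ M) {d : V} {k : F} (hk : k ≠ 0)
    (hd : P.t k = f.Q d) : d ∈ M ∨ d ∈ f.perp M := by
  obtain ⟨g, hg⟩ := exists_refl hk hd
  refine or_iff_not_imp_left.2 fun h => f.mem_perp'.2 fun m hm => by_contra fun e => h ?_
  have := hM g hg.mem_Isom m hm
  rw [hg.app, sub_eq_add_neg, M.add_mem_iff_right hm, neg_mem_iff] at this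
  exact (M.smul_mem_iff (mul_ne_zero (inv_ne_zero hk) e)).1 this

theorem perp_ne_top (hf : f.Nondeg) {M : Submodule F V} (h : M ≠ ⊥) : f.perp M ≠ ⊤ := fun e =>
  h (by rw [← hf.perp_perp M, e, hf.perp_top])

theorem irr_ker (hf : f.Nondeg) (hk : ∃ c, c ≠ 0 ∧ P.t c = 0) : Irr f := fun M hM => by
  by_contra hc
  push Not at hc
  obtain ⟨p, h1, h2⟩ := exists_not_mem_two hc.2 (perp_ne_top hf hc.1)
  obtain ⟨c, h3, h4⟩ := hk
  obtain ⟨k, h5⟩ := f.exists_t p
  by_cases h6 : k = 0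
  · exact (mem_or_perp hM h3 (by rw [h4, ← h5, h6, map_zero])).elim h1 h2
  · exact (mem_or_perp hM h6 h5).elim h1 h2

theorem finrank_le_one_of_sing (hf : f.Nondeg) {M : Submodule F V} (hM : ∀ g ∈ f.Isom, ∀ m ∈ M, g m ∈ M)
    {x : V} (hx : f.Q x = 0) (h : x ∉ M) : finrank F M ≤ 1 := by
  have := fr_perp hf M (F ∙ x)
  have := Au.finrank_line_le (F := F) x
  have : M ⊓ f.perp (F ∙ x) = ⊥ := (Submodule.eq_bot_iff _).2 fun m hm => by_contra fun h0 => by
    obtain ⟨a, k1, k2⟩ := hf.exists_dual (W := F ∙ x) (x := m) fun k =>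
      h ((Submodule.span_singleton_le_iff_mem _ _).2 hm.1 (Au.line_symm h0 k))
    obtain ⟨c, hc⟩ := f.exists_t a
    obtain ⟨g, hg⟩ := exists_eich hx (f.B_zero_symm (perp_line.1 k2)) hc
    have := hM g hg.mem_Isom m hm.1
    rw [hg.app_perp (mem_perp_single.1 hm.2), k1, one_smul, M.add_mem_iff_right hm.1] at this
    exact h this
  have k := congrArg (fun N : Submodule F V => finrank F N) this
  simp only [finrank_bot] at k
  omega

theorem irr_orth [Fintype F] {f : CForm (FP.orth F) V} (hf : f.Nondeg)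
    (h : ¬ (Fintype.card F ≤ 3 ∧ finrank F V = 2 ∧ f.IsPlus)) : Irr f := fun M hM => by
  by_contra hc
  push Not at hc
  obtain ⟨x, h1, h2⟩ := exists_not_mem_two hc.2 (perp_ne_top hf hc.1)
  have hx : f.Q x = 0 := by_contra fun e => (mem_or_perp hM e rfl).elim h1 h2
  have k1 := finrank_le_one_of_sing hf hM hx h1
  have k2 := finrank_le_one_of_sing hf (M := f.perp M)
    (fun g hg m hm => (stabS_perp hg (mem_stabS_of_le (hM g hg)) m).1 hm) hx h2
  have k3 := hf.finrank_perp M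
  have hx0 : x ≠ 0 := by rintro rfl; simp at h1
  obtain ⟨y, hy⟩ := hf.exists_hyp' hx hx0
  have k4 := hy.finrank_perp
  refine h ⟨?_, by omega, F ∙ x, TS_orth.2 fun w hw => ?_, by rw [finrank_span_singleton hx0]; omega⟩
  swap
  · obtain ⟨a, rfl⟩ := Submodule.mem_span_singleton.1 hw
    rw [orth_Q_smul, hx, mul_zero]
  have key : ∀ N : Submodule F V, finrank F N ≤ 1 → ∀ l l' : F, x + l • y ∈ N → x + l' • y ∈ N → l = l' :=
    fun N hN l l' e1 e2 => by_contra fun e => by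
      have e3 : y ∈ N := (N.smul_mem_iff (sub_ne_zero.2 e)).1 (by simpa [sub_smul] using N.sub_mem e1 e2)
      have := Submodule.finrank_mono ((Submodule.span_le (s := {x, y})).2 (by
        rintro _ (rfl | rfl)
        exacts [(N.add_mem_iff_left (N.smul_mem l e3)).1 e1, e3]))
      rw [hy.finrank_span] at this
      omega
  classical
  have : Fintype.card Fˣ ≤ Fintype.card Prop := Fintype.card_le_of_injective (fun l => x + (l : F) • y ∈ M)
    fun l l' e => Units.ext (by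
      have k : ∀ l : Fˣ, x + (l : F) • y ∈ M ∨ x + (l : F) • y ∈ f.perp M := fun l =>
        mem_or_perp hM l.ne_zero (by simp [orth_Q_add, orth_Q_smul, hy.hx, hy.hy, hy.hxy])
      by_cases e' : x + (l : F) • y ∈ M
      · exact key M k1 _ _ e' (e.mp e')
      · exact key _ k2 _ _ ((k l).resolve_left e') ((k l').resolve_left (mt e.mpr e')))
  rw [Fintype.card_units, Fintype.card_prop] at this
  omega

omit [FiniteDimensional F V] in
theorem i3_symp (f : CForm (FP.symp F) V) : I3 f := fun W hW => by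
  obtain ⟨z, hz, h⟩ := (Submodule.ne_bot_iff W).1 (by rintro rfl; simp at hW)
  exact ⟨z, hz, h, by simp⟩

theorem i3_orth [Finite F] (f : CForm (FP.orth F) V) : I3 f := fun W hW => by
  obtain ⟨z, h1, h2⟩ := orth_exists_sing (f.res W) hW
  exact ⟨z, z.2, by simpa using h1, h2⟩

theorem i3_unit {σ : F →+* F} {q : ℕ} {h : ∀ a, σ (σ a) = a} (H : UF σ q) (f : CForm (FP.unit σ h) V) :
    I3 f := fun W hW => by
  by_cases k : (f.res W).Nondeg
  · obtain ⟨x, y, hx⟩ := unit_exists_hyp H k (by omega)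
    exact ⟨x, x.2, by simpa using hx.x_ne, hx.hx⟩
  · rw [res_nondeg_iff] at k
    obtain ⟨z, hz, h0⟩ := (Submodule.ne_bot_iff _).1 k
    exact ⟨z, hz.1, h0, by rw [unit_Q]; exact hz.2 z hz.1⟩

theorem adj_ker (hf : f.Nondeg) (hk : ∃ c, c ≠ 0 ∧ P.t c = 0) : Adj f := fun x y h g hg => by
  rw [h.Isom_eq_E_sup_Tor hf hk, mem_E_sup h.Tor_le] at hg
  obtain ⟨e, he, a, ⟨l, ha⟩, rfl⟩ := hg
  exact ⟨a⁻¹, ha.inv.mem_Isom, fun v => ha.inv.fix, by simpa using he⟩

theorem adj_orth [Finite F] {f : CForm (FP.orth F) V} (hf : f.Nondeg) (h5 : 5 ≤ finrank F V) : Adj f :=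
  fun x y h g hg => by
    obtain ⟨k, h1, h2⟩ := Fm.adjust_univ hf (split_of_finrank hf (by omega))
      (H := fixS F {v | f.B v x = 0 ∧ f.B v y = 0}) (fun c hc => ⟨x + c • y, by
        simp [orth_Q_add, orth_Q_smul, h.hx, h.hy, h.hxy], fun v hv => rf_fix (by simp [hv.1, hv.2])⟩) ⟨g, hg⟩
    exact ⟨k, k.2, fun v e1 e2 => h1 v ⟨e1, e2⟩, (Au.mem_E_iff_comm hf h5 _).2 h2⟩

end Inst

end CfsgH5.Mx
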