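import Cfsg.Agent.H5.Mx2

set_option autoImplicit false

/-!
Maximal subgroups of classical groups, part 3: pairs of singular subspaces, orthogonal in symplectic,
imprimitive symplectic groups.
-/

namespace CfsgH5.Mx

open Module CForm

universe u v

variable {F : Type u} [Field F] {P : FP F} {V : Type v} [AddCommGroup V] [Module F V]
  [FiniteDimensional F V] {f : CForm P V} {K : Subgroup (V ≃ₗ[F] V)}

variable (f) in
/-- a pair of complementary totally singular subspaces -/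
structure Pr (W W' : Submodule F V) : Prop where
  ts : f.TS W
  ts' : f.TS W'
  compl : IsCompl W W'
  dim : 6 ≤ finrank F W
  dim' : 6 ≤ finrank F W'

variable {W W' : Submodule F V}

omit [FiniteDimensional F V] in
theorem Pr.symm (h : Pr f W W') : Pr f W' W := ⟨h.ts', h.ts, h.compl.symm, h.dim', h.dim⟩

omit [FiniteDimensional F V] in
theorem Pr.map (h : Pr f W W') {g : V ≃ₗ[F] V} (hg : g ∈ f.Isom) :
    Pr f (W.map g.toLinearMap) (W'.map g.toLinearMap) :=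
  ⟨h.ts.map hg, h.ts'.map hg, (Submodule.orderIsoMapComap g).isCompl h.compl,
    by rw [LinearEquiv.finrank_map_eq]; exact h.dim, by rw [LinearEquiv.finrank_map_eq]; exact h.dim'⟩

theorem Pr.dual (h : Pr f W W') (hf : f.Nondeg) {U : Submodule F V} (hU : U ≤ W) {w : V} (hw : w ∈ W)
    (h0 : w ∉ U) : ∃ y ∈ W', f.B w y = 1 ∧ ∀ u ∈ U, f.B u y = 0 := by
  obtain ⟨y, h1, h2⟩ := hf.exists_dual h0
  obtain ⟨a, b, rfl⟩ := exists_add_of_isCompl h.compl y
  exact ⟨b, b.2, by simpa [h.ts.2 w hw a a.2] using h1,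
    fun u hu => by simpa [h.ts.2 u (hU hu) a a.2] using h2 u hu⟩

omit [FiniteDimensional F V] in
theorem eich_swap {g : V ≃ₗ[F] V} {a b : V} (h : f.IsEich g a b 0) : f.IsEich g b (-P.ε • a) 0 :=
  ⟨by rw [← h.hc, map_zero], by simp [h.hxa], by simp [f.Q_smul, h.hx], fun v => by
    rw [h.app]; simp [smul_smul, mul_comm, mul_left_comm, P.εε]; abel⟩

theorem Pr.stab (h : Pr f W W') {g : V ≃ₗ[F] V} {e y : V} (hg : f.IsEich g e y 0) (he : e ∈ W) (hy : y ∈ W') :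
    g ∈ stabS F (W : Set V) ⊓ stabS F (W' : Set V) :=
  ⟨mem_stabS_of_le fun w hw => by
    rw [hg.app_perp (h.ts.2 w hw e he)]; exact W.add_mem hw (W.smul_mem _ he),
   mem_stabS_of_le fun w hw => by
    rw [(eich_swap hg).app_perp (h.ts'.2 w hw y hy)]; exact W'.add_mem hw (W'.smul_mem _ hy)⟩

theorem Pr.span (h : Pr f W W') (hf : f.Nondeg) {z w : V} (hz : z ∈ W) (A : AddSubgroup V) (hw : w ∈ A)
    (hw' : w ∈ W) (h0 : w ∉ F ∙ z)
    (hA : ∀ g e y, f.IsEich g e y 0 → e ∈ W → y ∈ W' → f.B z y = 0 → ∀ u ∈ A, g u ∈ A) (e : V) (he : e ∈ W) :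
    e ∈ A := by
  have key : ∀ e ∈ W, w ∉ (F ∙ z) ⊔ F ∙ e → e ∈ A := fun e he k => by
    obtain ⟨y, h1, h2, h3⟩ := h.dual hf (by simp [hz, he]) hw' k
    rw [perp_sup_line, perp_line] at h3
    obtain ⟨g, hg⟩ := exists_eich (c := 0) (h.ts.1 e he) (f.B_zero_symm h3.2) (by simp [h.ts'.1 y h1])
    have := hA g e y hg he h1 h3.1 w hw
    rw [hg.app_perp (h.ts.2 w hw' e he), h2, one_smul] at this
    exact (A.add_mem_cancel_left hw).1 this
  obtain ⟨e', h1, h2⟩ := exists_not_mem (W := W) (U := ((F ∙ z) ⊔ F ∙ w) ⊔ F ∙ e) (by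
    have := fr_line ((F ∙ z) ⊔ F ∙ w) e; have := fr_line (F ∙ z) w
    have := Au.finrank_line_le (F := F) z; have := h.dim; omega)
  have := sub_mem (key _ (W.add_mem he h1) fun k => h2 ((Submodule.add_mem_iff_right _
    (Submodule.mem_sup_right (Submodule.mem_span_singleton_self e))).1 (Submodule.mem_sup_left (exchange h0 k))))
    (key e' h1 fun k => h2 (Submodule.mem_sup_left (exchange h0 k)))
  simpa using this

theorem Pr.le_or (h : Pr f W W') (hf : f.Nondeg) {T : Submodule F V}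
    (hT : ∀ g e y, f.IsEich g e y 0 → e ∈ W → y ∈ W' → ∀ u ∈ T, g u ∈ T) : W ≤ T ∨ T ≤ W' := by
  refine or_iff_not_imp_right.2 fun k => ?_
  obtain ⟨v, hv, hv'⟩ := SetLike.not_le_iff_exists.1 k
  obtain ⟨p, p', rfl⟩ := exists_add_of_isCompl h.compl v
  have hp : (p : V) ≠ 0 := fun e => hv' (by simp [e])
  obtain ⟨e, he, h1⟩ := exists_not_mem (W := W ⊓ f.perp (F ∙ (p' : V))) (U := F ∙ (p : V)) (by
    have := fr_perp hf W (F ∙ (p' : V)); have := Au.finrank_line_le (F := F) (p : V)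
    have := Au.finrank_line_le (F := F) (p' : V); have := h.dim; omega)
  obtain ⟨y, h2, h3, h4⟩ := h.dual hf (U := F ∙ e) (by simpa using he.1) p.2 fun k => h1 (Au.line_symm hp k)
  obtain ⟨g, hg⟩ := exists_eich (c := 0) (h.ts.1 e he.1) (f.B_zero_symm (perp_line.1 h4)) (by simp [h.ts'.1 y h2])
  have := hT g e y hg he.1 h2 _ hv
  rw [hg.app_perp (by simp [h.ts.2 _ p.2 e he.1, f.B_zero_symm (mem_perp_single.1 he.2)]), f.B_add_left, h3,
    h.ts'.2 _ p'.2 y h2, add_zero, one_smul, T.add_mem_iff_right hv] at this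
  exact fun w hw => h.span hf W.zero_mem T.toAddSubgroup this he.1
    (by simpa using fun e0 : e = 0 => h1 (by simp [e0])) (fun g e y hg he hy _ => hT g e y hg he hy) w hw

theorem Pr.full (h : Pr f W W') (hf : f.Nondeg) (hZ : ∀ c, P.t c = 0 → ∃ b, c = b - P.ε * P.σ b)
    (hK : stabS F (W : Set V) ⊓ stabS F (W' : Set V) ⊓ f.E ≤ K) {r : V ≃ₗ[F] V} {y b : V} {c : F}
    (hr : f.IsEich r y b c) (hrK : r ∈ K) {v : V} (hv : v ∈ W') (hv' : r v ∉ W') :
    ∃ z ∈ W, z ≠ 0 ∧ Full f K z := by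
  obtain ⟨w, u, e⟩ := exists_add_of_isCompl h.compl (r v)
  have hw : (w : V) ≠ 0 := fun e0 => hv' (by simp [e, e0])
  obtain ⟨z, hz, h0⟩ := exists_not_mem (W := W ⊓ f.perp (((F ∙ y) ⊔ F ∙ b) ⊔ F ∙ v)) (U := F ∙ (w : V)) (by
    have := fr_perp hf W (((F ∙ y) ⊔ F ∙ b) ⊔ F ∙ v); have := fr_line ((F ∙ y) ⊔ F ∙ b) v
    have := fr_line (F ∙ y) b; have := Au.finrank_line_le (F := F) y
    have := Au.finrank_line_le (F := F) (w : V); have := h.dim; omega)
  have h4 := f.mem_perp'.1 hz.2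
  rw [perp_sup_line, perp_sup_line, perp_line] at h4
  have hQ := h.ts.1 z hz.1
  have hrz : r z = z := hr.fix (f.B_zero_symm h4.1.1) (f.B_zero_symm h4.1.2)
  have hin : ∀ u ∈ W', f.B u z = 0 → u ∈ RA f K z hQ := fun u hu k => by
    obtain ⟨g, hg⟩ := exists_eich (c := 0) hQ k (by simp [h.ts'.1 u hu])
    exact ⟨g, hK ⟨h.stab hg hz.1 hu, hg.mem_E⟩, 0, hg⟩
  have hu : f.B u z = 0 := by
    have := f.Isom_B hr.mem_Isom v z
    rwa [e, hrz, h4.2, f.B_add_left, h.ts.2 _ w.2 z hz.1, zero_add] at this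
  have hW : ∀ e ∈ W, e ∈ RA f K z hQ := h.span hf hz.1 _
    (by simpa [e] using sub_mem (RA_map (hin v hv h4.2) hrK hr.mem_Isom hrz) (hin u u.2 hu)) w.2
    (fun k => h0 (Au.line_symm hw k)) fun g e y hg he hy k u hu =>
      RA_map hu (hK ⟨h.stab hg he hy, hg.mem_E⟩) hg.mem_Isom (hg.fix (h.ts.2 z hz.1 e he) k)
  refine ⟨z, hz.1, fun e0 => h0 (by simp [e0]), full_of hQ (fun a ha => ?_) fun g c hg => ?_⟩
  · obtain ⟨a, a', rfl⟩ := exists_add_of_isCompl h.compl a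
    exact add_mem (hW a a.2) (hin a' a'.2 (by simpa [h.ts.2 _ a.2 z hz.1] using ha))
  · obtain ⟨β, hβ⟩ := hZ c (by simpa using hg.hc)
    obtain ⟨y, k1, k2, k3⟩ := h.dual hf (U := F ∙ z) (by simpa using hz.1) w.2 fun k => h0 (Au.line_symm hw k)
    obtain ⟨s, k4, _, k5⟩ := hW _ (W.smul_mem (P.ε * P.σ β) w.2)
    obtain ⟨t, k6, _, k7⟩ := hin y k1 (f.B_zero_symm (perp_line.1 k3))
    have := k5.commutator k7
    simp only [B_smul_right, f.B_smul_left, k2, f.B_one_symm k2, map_mul, P.σε, P.σσ', mul_one] at this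
    rw [show P.ε * β * P.ε = β by rw [mul_right_comm, P.εε, one_mul], ← hβ] at this
    rw [hg.unique this, commutatorElement_def]
    exact mul_mem (mul_mem (mul_mem k4 k6) (inv_mem k4)) (inv_mem k6)

theorem Pr.E_le (h : Pr f W W') (hf : f.Nondeg) (hK : stabS F (W : Set V) ⊓ stabS F (W' : Set V) ⊓ f.E ≤ K)
    {s : V ≃ₗ[F] V} (hs : s ∈ K) (hs' : s ∈ f.Isom) (hsW : ∀ w ∈ W, s w ∈ W') {z : V} (hz : z ∈ W)
    (h0 : z ≠ 0) (k : Full f K z) : f.E ≤ K := by
  have hQ := h.ts.1 z hz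
  have h1 := k.map hs hs'
  have h2 := hsW z hz
  by_cases h3 : f.B z (s z) = 0
  swap
  · exact E_le_of_full hf k h1 hQ (h.ts'.1 _ h2) h3
  obtain ⟨e, k1, k2, -⟩ := h.symm.dual hf (U := ⊥) bot_le h2 (by simpa using h0)
  obtain ⟨y, k3, k4, k5⟩ := h.dual hf (U := F ∙ e) (by simp [k1]) hz fun k => by
    obtain ⟨a, rfl⟩ := Submodule.mem_span_singleton.1 k
    have := f.B_zero_symm h3
    rw [B_smul_right, k2, mul_one, P.σ_eq_zero] at this
    simp [this] at h0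
  obtain ⟨g, hg⟩ := exists_eich (c := 0) (h.ts'.1 y k3) (perp_line.1 k5) (by simp [h.ts.1 e k1])
  refine E_le_of_full hf k (h1.map (hK ⟨?_, hg.mem_E⟩) hg.mem_Isom) hQ
    (by rw [f.Isom_Q hg.mem_Isom, h.ts'.1 _ h2]) ?_
  · exact (h.symm.stab hg k3 k1).symm
  · simp [hg.app_perp (h.ts'.2 _ h2 y k3), h3, k2, k4]

/-- stabilisers of pairs of complementary totally singular subspaces -/
theorem max_pair (h : Pr f W W') (hf : f.Nondeg) (hZ : ∀ c, P.t c = 0 → ∃ b, c = b - P.ε * P.σ b)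
    (hK : stabS F (W : Set V) ⊓ stabS F (W' : Set V) ⊓ f.E ≤ K)
    {s : V ≃ₗ[F] V} (hs : s ∈ K) (hs' : s ∈ f.Isom) (hsW : ∀ w ∈ W, s w ∈ W') (hsW' : ∀ w ∈ W', s w ∈ W)
    {g : V ≃ₗ[F] V} (hg : g ∈ K) (hg' : g ∈ f.Isom)
    (hn : ¬ (W.map g.toLinearMap = W ∧ W'.map g.toLinearMap = W'))
    (hn' : ¬ (W.map g.toLinearMap = W' ∧ W'.map g.toLinearMap = W)) : f.E ≤ K := by
  have hK' : stabS F (W' : Set V) ⊓ stabS F (W : Set V) ⊓ f.E ≤ K := by rwa [inf_comm (stabS F (W' : Set V))]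
  have h1 : ∀ r e y, f.IsEich r e y 0 → e ∈ W.map g.toLinearMap → y ∈ W'.map g.toLinearMap → r ∈ K := by
    rintro r _ _ hr ⟨e, he, rfl⟩ ⟨y, hy, rfl⟩
    exact conj_eich_mem hg hg' hr fun s hs => hK ⟨h.stab hs he hy, hs.mem_E⟩
  by_contra hc
  have h2 : ∀ r e y, f.IsEich r e y 0 → e ∈ W.map g.toLinearMap → y ∈ W'.map g.toLinearMap →
      ∀ u ∈ W', r u ∈ W' := fun r e y hr he hy u hu => by_contra fun k => by
    obtain ⟨z, k1, k2, k3⟩ := h.full hf hZ hK hr (h1 r e y hr he hy) hu k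
    exact hc (h.E_le hf hK hs hs' hsW k1 k2 k3)
  have h3 : ∀ r e y, f.IsEich r e y 0 → e ∈ W.map g.toLinearMap → y ∈ W'.map g.toLinearMap →
      ∀ u ∈ W, r u ∈ W := fun r e y hr he hy u hu => by_contra fun k => by
    obtain ⟨z, k1, k2, k3⟩ := h.symm.full hf hZ hK' hr (h1 r e y hr he hy) hu k
    exact hc (h.symm.E_le hf hK' hs hs' hsW' k1 k2 k3)
  have e1 := h.ts.two_mul_finrank_le hf
  have e2 := h.ts'.two_mul_finrank_le hf
  have e3 := Submodule.finrank_add_eq_of_isCompl h.compl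
  have e4 := LinearEquiv.finrank_map_eq g W
  have e5 := LinearEquiv.finrank_map_eq g W'
  have hne : W ≠ W' := fun e => by
    have := h.compl.inf_eq_bot
    rw [← e, inf_idem] at this
    have k := h.dim
    rw [this, finrank_bot] at k
    omega
  have k1 : W.map g.toLinearMap = W ∨ W'.map g.toLinearMap = W := ((h.map hg').le_or hf h3).imp
    (fun k => Submodule.eq_of_le_of_finrank_le k (by omega))
    fun k => (Submodule.eq_of_le_of_finrank_le k (by omega)).symm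
  have k2 : W.map g.toLinearMap = W' ∨ W'.map g.toLinearMap = W' := ((h.map hg').le_or hf h2).imp
    (fun k => Submodule.eq_of_le_of_finrank_le k (by omega))
    fun k => (Submodule.eq_of_le_of_finrank_le k (by omega)).symm
  rcases k1 with k1 | k1 <;> rcases k2 with k2 | k2
  exacts [hne (k1.symm.trans k2), hn ⟨k1, k2⟩, hn' ⟨k2, k1⟩, hne (k1.symm.trans k2)]

theorem Pr.exists_swap (h : Pr f W W') (hf : f.Nondeg) :
    ∃ s ∈ f.Isom, (∀ w ∈ W, s w ∈ W') ∧ ∀ w ∈ W', s w ∈ W := by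
  have e1 := h.ts.two_mul_finrank_le hf
  have e2 := h.ts'.two_mul_finrank_le hf
  have e3 := Submodule.finrank_add_eq_of_isCompl h.compl
  obtain ⟨g, hg, k⟩ := h.ts.exists_map_eq hf h.ts' (by omega)
  have h' := h.map hg
  rw [k] at h'
  let φ : V →ₗ[F] V := W'.projection _ h'.compl + W.projection _ h.compl
  have hφ : ∀ (y : W') (a : W'.map g.toLinearMap), ∃ (w : W) (y' : W'), φ (y + a) = y + w ∧ (a : V) = w + y' :=
    fun y a => by
      obtain ⟨w, y', e⟩ := exists_add_of_isCompl h.compl a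
      refine ⟨w, y', ?_, e⟩
      simp only [φ, LinearMap.add_apply, map_add, Submodule.projection_apply_left,
        Submodule.projection_apply_right]
      simp [e]
  have hB : ∀ u v, f.B (φ u) (φ v) = f.B u v := fun u v => by
    obtain ⟨y, a, rfl⟩ := exists_add_of_isCompl h'.compl u
    obtain ⟨z, b, rfl⟩ := exists_add_of_isCompl h'.compl v
    obtain ⟨w, y', k1, k2⟩ := hφ y a
    obtain ⟨x, z', k3, k4⟩ := hφ z b
    have := h'.ts'.2 _ a.2 _ b.2
    rw [k1, k3]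
    simp only [B_add_right, f.B_add_left, this, h.ts.2 _ w.2 _ x.2]
    simp [k2, k4, h.ts'.2 _ y.2 _ z'.2, h.ts'.2 _ y'.2 _ z.2]
  obtain ⟨t, ht, k5⟩ := witt hf ⊤ (φ ∘ₗ Submodule.subtype _) ((injective_iff_map_eq_zero _).2 fun v hv =>
    Subtype.ext (hf _ fun u => by rw [← hB, show φ v = 0 from hv]; simp)) (fun u v => hB _ _) fun v => by
      obtain ⟨y, a, e⟩ := exists_add_of_isCompl h'.compl v
      obtain ⟨w, y', k1, k2⟩ := hφ y a
      change f.Q (φ v) = _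
      rw [e, k1, f.Q_add, f.Q_add, h'.ts'.1 _ a.2, h.ts.1 _ w.2, k2]
      simp [h.ts'.2 _ y.2 _ y'.2]
  refine ⟨t * g, mul_mem ht hg, fun w hw => ?_, fun w hw => ?_⟩
  · obtain ⟨x, y', k1, k2⟩ := hφ ⟨g w, k ▸ Submodule.mem_map_of_mem hw⟩ 0
    have : (x : V) ∈ W ⊓ W' := ⟨x.2, by rw [eq_neg_of_add_eq_zero_left k2.symm]; exact neg_mem y'.2⟩
    rw [LinearEquiv.mul_apply, k5 ⟨_, trivial⟩, show (φ ∘ₗ Submodule.subtype ⊤) ⟨g w, trivial⟩ = g w + x by
      simpa using k1]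
    exact add_mem (k ▸ Submodule.mem_map_of_mem hw) this.2
  · obtain ⟨x, y', k1, -⟩ := hφ 0 ⟨g w, Submodule.mem_map_of_mem hw⟩
    rw [LinearEquiv.mul_apply, k5 ⟨_, trivial⟩, show (φ ∘ₗ Submodule.subtype ⊤) ⟨g w, trivial⟩ = x by
      simpa using k1]
    exact x.2

/-- orthogonal groups in symplectic groups -/
theorem max_orth_symp [Finite F] (h2 : (2 : F) = 0) {fo : CForm (FP.orth F) V} {fs : CForm (FP.symp F) V}
    (hf : fo.Nondeg) (hd : 5 ≤ finrank F V) (hB : ∀ u v, fs.B u v = fo.B u v) (hK : fo.Isom ≤ K)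
    {g : V ≃ₗ[F] V} (hg : g ∈ K) (hg' : g ∈ fs.Isom) (hn : g ∉ fo.Isom) : fs.E ≤ K := by
  have hfs : fs.Nondeg := fun v hv => hf v fun u => (hB u v).symm.trans (hv u)
  have hneg : ∀ a : F, -a = a := fun a => by linear_combination (-a) * h2
  have tr : ∀ s x a, fo.IsEich s x a (fo.Q a) → fs.IsEich s x a (fo.Q a) := fun s x a hs =>
    ⟨by simp, (hB _ _).trans hs.ha, by simp, fun v => by simp [hs.app, hB, hneg]⟩
  have hg1 : ∀ u v, fo.B (g⁻¹ u) (g⁻¹ v) = fo.B u v := fun u v => by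
    rw [← hB, ← hB, fs.Isom_B (inv_mem hg')]
  obtain ⟨a, ha⟩ : ∃ a, fo.Q (g⁻¹ a) - fo.Q a ≠ 0 := by
    by_contra hc; push Not at hc
    exact hn (inv_mem_iff.1 (mem_Isom_orth.2 fun v => sub_eq_zero.1 (hc v)))
  let D : Submodule F V :=
    { carrier := {v | fo.Q (g⁻¹ v) = fo.Q v}
      add_mem' := fun h1 h2 => by simp only [Set.mem_setOf_eq, map_add, orth_Q_add, hg1] at *; rw [h1, h2]
      zero_mem' := by simp
      smul_mem' := fun c v h => by simp only [Set.mem_setOf_eq, map_smul, orth_Q_smul] at *; rw [h] }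
  have hD : D ⊔ F ∙ a = ⊤ := eq_top_iff.2 fun v _ => by
    obtain ⟨l, hl⟩ := exists_sq_of_two_eq_zero h2 ((fo.Q (g⁻¹ v) - fo.Q v) / (fo.Q (g⁻¹ a) - fo.Q a))
    refine Submodule.mem_sup.2 ⟨v + l • a, ?_, -(l • a), neg_mem (Submodule.smul_mem _ _
      (Submodule.mem_span_singleton_self a)), by simp⟩
    change fo.Q (g⁻¹ (v + l • a)) = fo.Q (v + l • a)
    rw [map_add, orth_Q_add, orth_Q_add, hg1, map_smul, orth_Q_smul, orth_Q_smul]
    rw [eq_div_iff ha] at hl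
    linear_combination hl + (fo.Q (g⁻¹ v) - fo.Q v) * h2
  have := fr_line D a
  have := Au.finrank_line_le (F := F) a
  rw [hD, finrank_top] at *
  obtain ⟨x, hx, h0, hQ, h4⟩ := (i3_orth fo).sing hf D (F ∙ a) ⊥ (by simp; omega)
  have h5 := perp_line.1 h4
  have key : Full fs K x := by
    refine full_of (by simp) (fun b hb => ?_) fun s c hs => ?_
    · obtain ⟨t, ht⟩ := orth_exists_eich hQ ((hB _ _).symm.trans hb)
      exact ⟨t, hK ht.mem_Isom, _, tr _ _ _ ht⟩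
    · obtain ⟨l, hl⟩ := exists_sq_of_two_eq_zero h2 (c / (fo.Q (g⁻¹ a) - fo.Q a))
      obtain ⟨t, ht⟩ := orth_exists_eich (a := l • a) hQ (by simp [h5])
      obtain ⟨t', ht'⟩ := orth_exists_eich (x := g⁻¹ x) (a := g⁻¹ (l • a)) (hx.trans hQ) (by rw [hg1]; simp [h5])
      have := ((tr _ _ _ ht').conj hg').mul (by simpa using (tr _ _ _ ht).inv)
      simp only [LinearEquiv.apply_symm_apply, LinearEquiv.coe_inv, add_neg_cancel, B_neg_left, symp_B_self,
        neg_zero, add_zero, FP.symp_ε, FP.symp_σ, map_smul, orth_Q_smul, hl] at this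
      rw [← sub_eq_add_neg, ← mul_sub, div_mul_cancel₀ _ (show fo.Q (g.symm a) - fo.Q a ≠ 0 from ha)] at this
      rw [hs.unique this]
      exact mul_mem (mul_mem (mul_mem hg (hK ht'.mem_Isom)) (inv_mem hg)) (inv_mem (hK ht.mem_Isom))
  obtain ⟨y, hy⟩ := hf.exists_hyp' hQ (by simpa using h0)
  obtain ⟨k, hk, e⟩ := witt_one hf hy.x_ne hy.y_ne (hy.hy.trans hQ.symm)
  exact E_le_of_full hfs key (e ▸ key.map (hK hk) (mem_Isom_symp.2 fun u v => by rw [hB, hB, fo.Isom_B hk]))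
    (by simp) (by simp) (by simp [hB, hy.hxy])

end CfsgH5.Mx
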