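import Cfsg.Agent.H5.Mx3
import Cfsg.Agent.H5.Au19

set_option autoImplicit false

/-!
Maximal subgroups of classical groups, part 4: packaged maximality statements and the passage to matrices.
-/

namespace CfsgH5.Mx

open Module CForm Au Cfsg.Geo Matrix

universe u v

/-- `H ⊓ G` is maximal in `G` -/
def MI {A : Type*} [Group A] (G H : Subgroup A) : Prop :=
  ¬ G ≤ H ∧ ∀ K, H ⊓ G ≤ K → K ≤ G → ∀ g ∈ K, g ∉ H → G ≤ K

theorem MI.congr {A : Type*} [Group A] {G H H' : Subgroup A} (h : MI G H) (e : ∀ g ∈ G, g ∈ H ↔ g ∈ H') :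
    MI G H' :=
  ⟨fun k => h.1 fun g hg => (e g hg).2 (k hg), fun K h1 h2 g hg hn =>
    h.2 K (fun x hx => h1 ⟨(e x hx.2).1 hx.1, hx.2⟩) h2 g hg fun k => hn ((e g (h2 hg)).1 k)⟩

theorem MI.isMax {A : Type*} [Group A] {G H : Subgroup A} (h : MI G H) : IsMaximalIn G (H ⊓ G) := by
  refine ⟨lt_of_le_of_ne inf_le_right fun e => h.1 (e ▸ inf_le_left), fun M h1 h2 => ?_⟩
  by_cases k : M ≤ H
  · exact .inl (le_antisymm (le_inf k h2) h1)
  · obtain ⟨g, hg, hn⟩ := SetLike.not_le_iff_exists.1 k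
    exact .inr (le_antisymm h2 (h.2 M h1 h2 g hg hn))

theorem MI.comap {A B : Type*} [Group A] [Group B] {φ : A →* B} (hφ : Function.Bijective φ) {G' H' : Subgroup B}
    (h : MI G' H') {G H : Subgroup A} (hG : ∀ g, g ∈ G ↔ φ g ∈ G') (hH : ∀ g ∈ G, g ∈ H ↔ φ g ∈ H') : MI G H := by
  refine ⟨fun k => h.1 fun x hx => ?_, fun K h1 h2 g hg hn x hx => ?_⟩
  · obtain ⟨g, rfl⟩ := hφ.2 x
    exact (hH g ((hG g).2 hx)).1 (k ((hG g).2 hx))
  · obtain ⟨y, hy, e⟩ := h.2 (K.map φ) (fun x hx => by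
      obtain ⟨g, rfl⟩ := hφ.2 x
      exact ⟨g, h1 ⟨(hH g ((hG g).2 hx.2)).2 hx.1, (hG g).2 hx.2⟩, rfl⟩)
      (by rintro _ ⟨g, hg, rfl⟩; exact (hG g).1 (h2 hg)) _ ⟨g, hg, rfl⟩
      (fun k => hn ((hH g (h2 hg)).2 k)) ((hG x).1 hx)
    exact hφ.1 e ▸ hy

section
variable {F : Type u} [Field F] {P : FP F} {V : Type v} [AddCommGroup V] [Module F V]
  [FiniteDimensional F V] {f : CForm P V}

/-- the stabiliser of a family of subspaces -/
def dS {t : ℕ} (D : Fin t → Submodule F V) : Subgroup (V ≃ₗ[F] V) where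
  carrier := {g | ∃ σ : Equiv.Perm (Fin t), ∀ i, (D i).map g.toLinearMap = D (σ i)}
  mul_mem' {a b} := fun ⟨σ, hσ⟩ ⟨τ, hτ⟩ => ⟨τ.trans σ, fun i => by
    rw [Equiv.trans_apply, ← hσ, ← hτ, ← Submodule.map_comp]; rfl⟩
  one_mem' := ⟨1, fun i => Submodule.map_id _⟩
  inv_mem' {a} := fun ⟨σ, hσ⟩ => ⟨σ.symm, fun i => by
    have h := hσ (σ.symm i)
    rw [Equiv.apply_symm_apply] at h
    rw [← h, ← Submodule.map_comp]
    exact (congrArg (fun x : V ≃ₗ[F] V => (D (σ.symm i)).map x.toLinearMap) (inv_mul_cancel a)).trans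
      (Submodule.map_id _)⟩

omit [FiniteDimensional F V] in
theorem mem_dS_two {D : Fin 2 → Submodule F V} {g : V ≃ₗ[F] V} : g ∈ dS D ↔
    ((D 0).map g.toLinearMap = D 0 ∧ (D 1).map g.toLinearMap = D 1) ∨
      ((D 0).map g.toLinearMap = D 1 ∧ (D 1).map g.toLinearMap = D 0) := by
  refine ⟨fun ⟨σ, h⟩ => ?_, ?_⟩
  · have : (σ 0 = 0 ∧ σ 1 = 1) ∨ (σ 0 = 1 ∧ σ 1 = 0) := by clear h; revert σ; decide
    rw [h, h]
    rcases this with ⟨a, b⟩ | ⟨a, b⟩ <;> simp [a, b]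
  · rintro (⟨a, b⟩ | ⟨a, b⟩)
    · exact ⟨1, Fin.forall_fin_two.2 ⟨a, b⟩⟩
    · exact ⟨Equiv.swap 0 1, Fin.forall_fin_two.2 ⟨by simpa using a, by simpa using b⟩⟩

theorem TS_ne_top (hf : f.Nondeg) (hd : 0 < finrank F V) {W : Submodule F V} (hW : f.TS W) : W ≠ ⊤ := by
  rintro rfl
  have := hW.two_mul_finrank_le hf
  rw [finrank_top] at this
  omega

theorem mi_TS (h3 : I3 f) (hf : f.Nondeg) (hd : 7 ≤ finrank F V) {W : Submodule F V} (hW : f.TS W) (h0 : W ≠ ⊥)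
    (hr : (∃ c, c ≠ 0 ∧ P.t c = 0) ∨ ∀ U, f.TS U → finrank F U = finrank F W + 1 → 2 * finrank F U ≠ finrank F V) :
    MI f.E (stabS F (W : Set V)) := by
  refine ⟨not_stab h3 hf hd h0 (TS_ne_top hf (by omega) hW), fun K h1 h2 g hg hn =>
    max_TS hf hW (fun u y h hu hy => ?_) h1 hg (E_le_Isom (h2 hg)) hn⟩
  rcases hr with ⟨c, h1, h2⟩ | hr
  · exact ⟨0, c, h1, by simp [h2], by simp, by simp, by simp⟩
  have hU : ¬ f.perp (Submodule.span F {u, y} ⊔ W) ≤ f.perp (f.perp (Submodule.span F {u, y} ⊔ W)) := fun k => by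
    rw [hf.perp_perp] at k
    have e1 := hf.finrank_perp (Submodule.span F {u, y} ⊔ W)
    have e2 := h.finrank_sup hu hy
    have e3 : f.perp (Submodule.span F {u, y} ⊔ W) ≤ W := fun v hv => by
      obtain ⟨a, ha, w, hw, e⟩ := Submodule.mem_sup.1 (k hv)
      obtain ⟨α, β, rfl⟩ := Submodule.mem_span_pair.1 ha
      rw [perp_sup] at hv
      obtain ⟨k1, k2⟩ := IsHyp.mem_perp.1 hv.1
      rw [← e] at k1 k2 ⊢
      simp [h.hxx, h.hyx, h.hxy, h.hyy, hu w hw, hy w hw, P.ε_ne] at k1 k2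
      simpa [k1, k2] using hw
    have e4 := Submodule.finrank_mono e3
    have hn : u ∉ W := fun k => by simpa [h.hxy] using hy u k
    have e5 := (hW.sup_span h.hx hu).two_mul_finrank_le hf
    have e6 : finrank F (W ⊔ F ∙ u : Submodule F V) = finrank F W + 1 := by
      have := Submodule.finrank_sup_add_finrank_inf_eq W (F ∙ u)
      rw [(Submodule.disjoint_span_singleton' h.x_ne |>.2 hn).eq_bot, finrank_bot, finrank_span_singleton h.x_ne] at this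
      omega
    exact hr _ (hW.sup_span h.hx hu) e6 (by omega)
  obtain ⟨a, ha, c, k1, k2⟩ := exists_datum_of_not_le_perp hU
  rw [perp_sup] at ha
  obtain ⟨k3, k4⟩ := IsHyp.mem_perp.1 ha.1
  exact ⟨a, c, k1, k2, k3, k4, f.mem_perp'.1 ha.2⟩

theorem stab_perp_iff (hf : f.Nondeg) {g : V ≃ₗ[F] V} (hg : g ∈ f.Isom) {W : Submodule F V} :
    g ∈ stabS F (f.perp W : Set V) ↔ g ∈ stabS F (W : Set V) :=
  ⟨fun h => by simpa [hf.perp_perp] using stabS_perp hg h, stabS_perp hg⟩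

theorem mi_nd (h3 : I3 f) (hA : Adj f) (hf : f.Nondeg) (hd : 13 ≤ finrank F V) {W : Submodule F V}
    (hW : W ⊓ f.perp W = ⊥) (h0 : W ≠ ⊥) (h1 : W ≠ ⊤) (hI : Irr (f.res W)) (hI' : Irr (f.res (f.perp W)))
    (hn : ∀ g ∈ f.Isom, W.map g.toLinearMap ≠ f.perp W) : MI f.E (stabS F (W : Set V)) := by
  have e1 := hf.finrank_perp W
  refine ⟨not_stab h3 hf (by omega) h0 h1, fun K k1 k2 g hg k3 => ?_⟩
  have hg' := E_le_Isom (k2 hg)
  by_cases c : finrank F V ≤ 2 * finrank F W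
  · exact max_nondeg h3 hA hf hW (by omega) c hI' k1 hg hg' (fun e => k3 (mem_stabS_iff_map.2 e)) (hn g hg')
  · refine max_nondeg (X := f.perp W) h3 hA hf (by rw [hf.perp_perp, inf_comm, hW]) (by omega) (by omega)
      (by rw [hf.perp_perp]; exact hI) (fun x hx => k1 ⟨(stab_perp_iff hf (E_le_Isom hx.2)).1 hx.1, hx.2⟩) hg hg'
      (fun e => k3 ((stab_perp_iff hf hg').1 (mem_stabS_iff_map.2 e))) fun e => ?_
    have := LinearEquiv.finrank_map_eq g (f.perp W)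
    rw [e, hf.perp_perp] at this
    omega

theorem ne_perp_of_dim (hf : f.Nondeg) {W : Submodule F V} (h : 2 * finrank F W ≠ finrank F V) (g : V ≃ₗ[F] V) :
    W.map g.toLinearMap ≠ f.perp W := fun e => by
  have := LinearEquiv.finrank_map_eq g W
  have e1 := hf.finrank_perp W
  rw [e] at this
  omega

theorem mi_point (h3 : I3 f) (hf : f.Nondeg) (hd : 7 ≤ finrank F V) {v : V} (hv : v ≠ 0) :
    MI f.E (stabS F ((F ∙ v : Submodule F V) : Set V)) :=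
  ⟨not_stab h3 hf hd (by simpa using hv) fun e => by
    have := finrank_span_singleton (K := F) hv
    rw [e, finrank_top] at this
    omega, fun K h1 h2 g hg hn => max_point h3 hf hd hv h1 hg (E_le_Isom (h2 hg)) hn⟩

theorem Pr.tor_stab {W W' : Submodule F V} (h : Pr f W W') {x y : V} (hx : x ∈ W) (hy : y ∈ W') {g : V ≃ₗ[F] V}
    {l : F} (hg : f.IsTor g x y l) : g ∈ stabS F (W : Set V) ⊓ stabS F (W' : Set V) :=
  ⟨mem_stabS_of_le fun w hw => by
    rw [hg.app, h.ts.2 w hw x hx]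
    simpa using add_mem hw (W.smul_mem _ hx), mem_stabS_of_le fun w hw => by
    rw [hg.app, h.ts'.2 w hw y hy]
    simpa using add_mem hw (W'.smul_mem _ hy)⟩

theorem Pr.hyp {W W' : Submodule F V} (h : Pr f W W') (hf : f.Nondeg) : ∃ x ∈ W, ∃ y ∈ W', f.IsHyp x y := by
  obtain ⟨x, hx, h0⟩ := exists_not_mem (W := W) (U := ⊥) (by have := h.dim; rw [finrank_bot]; omega)
  obtain ⟨y, hy, k, -⟩ := h.dual hf bot_le hx h0
  exact ⟨x, hx, y, hy, h.ts.1 x hx, h.ts'.1 y hy, k⟩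

theorem mi_pair {D : Fin 2 → Submodule F V} (h : Pr f (D 0) (D 1)) (hf : f.Nondeg)
    (hZ : ∀ c, P.t c = 0 → ∃ b, c = b - P.ε * P.σ b)
    (hs : ∀ s ∈ f.Isom, (D 0).map s.toLinearMap = D 1 →
      ∃ t ∈ stabS F (D 0 : Set V) ⊓ stabS F (D 1 : Set V), s * t ∈ f.E) : MI f.E (dS D) := by
  have hne : D 0 ≠ D 1 := fun e => by
    have k := h.compl.disjoint
    have := h.dim
    rw [← e, disjoint_self] at k
    rw [show D 0 = ⊥ from k, finrank_bot] at this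
    omega
  have e1 := h.ts.two_mul_finrank_le hf
  have e2 := h.ts'.two_mul_finrank_le hf
  have e3 := Submodule.finrank_add_eq_of_isCompl h.compl
  refine ⟨fun k => ?_, fun K k1 k2 g hg hn => ?_⟩
  · obtain ⟨a, ha, h0⟩ := exists_not_mem (W := D 0) (U := ⊥) (by have := h.dim; rw [finrank_bot]; omega)
    have h0' : a ≠ 0 := by simpa using h0
    obtain ⟨x, hx, hxa⟩ := exists_not_mem (W := D 0) (U := F ∙ a)
      (by have := h.dim; rw [finrank_span_singleton h0']; omega)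
    obtain ⟨y, hy, k1, k2⟩ := h.dual hf ((Submodule.span_singleton_le_iff_mem _ _).2 ha) hx hxa
    obtain ⟨r, hr⟩ := exists_eich (c := 0) (h.ts.1 x hx) (h.ts.2 a ha x hx) (by simp [h.ts.1 a ha])
    have k3 : (D 0).map r.toLinearMap = D 0 := mem_stabS_iff_map.1 (mem_stabS_of_le fun w hw => by
      rwa [hr.fix (h.ts.2 w hw x hx) (h.ts.2 w hw a ha)])
    rcases mem_dS_two.1 (k hr.mem_E) with ⟨-, k4⟩ | ⟨k4, -⟩
    · have k5 : r y ∈ D 1 := k4 ▸ Submodule.mem_map_of_mem hy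
      rw [hr.app, f.B_zero_symm (k2 a (Submodule.mem_span_singleton_self a)), f.B_one_symm k1] at k5
      simp only [zero_smul, add_zero, P.εε, one_smul, mul_zero, zero_mul, sub_zero] at k5
      have : a ∈ D 0 ⊓ D 1 := ⟨ha, by simpa using sub_mem hy k5⟩
      rw [h.compl.inf_eq_bot] at this
      exact h0 this
    · exact hne (k3.symm.trans k4)
  · obtain ⟨s, s1, s2, s3⟩ := h.exists_swap hf
    have s4 : (D 0).map s.toLinearMap = D 1 := Submodule.eq_of_le_of_finrank_eq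
      (by rintro _ ⟨w, hw, rfl⟩; exact s2 w hw) (by rw [LinearEquiv.finrank_map_eq]; omega)
    have s5 : (D 1).map s.toLinearMap = D 0 := Submodule.eq_of_le_of_finrank_eq
      (by rintro _ ⟨w, hw, rfl⟩; exact s3 w hw) (by rw [LinearEquiv.finrank_map_eq]; omega)
    obtain ⟨t, ⟨t1, t2⟩, t3⟩ := hs s s1 s4
    rw [mem_dS_two, not_or] at hn
    exact max_pair h hf hZ (fun x hx => k1 ⟨mem_dS_two.2 (.inl ⟨mem_stabS_iff_map.1 hx.1.1,
      mem_stabS_iff_map.1 hx.1.2⟩), hx.2⟩) (k1 ⟨mem_dS_two.2 (.inr ⟨(Fm.map_mul_stab s t1).trans s4,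
      (Fm.map_mul_stab s t2).trans s5⟩), t3⟩) (E_le_Isom t3) (fun w hw => s2 _ ((mem_stabS.1 t1 w).1 hw))
      (fun w hw => s3 _ ((mem_stabS.1 t2 w).1 hw)) hg (E_le_Isom (k2 hg)) hn.1 hn.2

theorem mi_pair_ker {D : Fin 2 → Submodule F V} (h : Pr f (D 0) (D 1)) (hf : f.Nondeg)
    (hZ : ∀ c, P.t c = 0 → ∃ b, c = b - P.ε * P.σ b) (hk : ∃ c, c ≠ 0 ∧ P.t c = 0) : MI f.E (dS D) := by
  refine mi_pair h hf hZ fun s hs _ => ?_
  obtain ⟨x, hx, y, hy, k⟩ := h.hyp hf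
  rw [k.Isom_eq_E_sup_Tor hf hk, mem_E_sup k.Tor_le] at hs
  obtain ⟨e, he, t, ⟨l, ht⟩, rfl⟩ := hs
  exact ⟨t⁻¹, inv_mem (h.tor_stab hx hy ht), by simpa using he⟩

theorem mem_E_iff [Finite F] {f : CForm (FP.orth F) V} (hf : f.Nondeg) (h5 : 5 ≤ finrank F V) {g : f.Isom} :
    g.1 ∈ f.E ↔ g ∈ commutator f.Isom := by
  rw [mem_commutator_subtype, comm_eq_E hf (split_of_finrank hf (by omega)) (by omega)]

theorem mi_pair_orth [Finite F] {f : CForm (FP.orth F) V} {D : Fin 2 → Submodule F V} (h : Pr f (D 0) (D 1))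
    (hf : f.Nondeg) (he : Even (finrank F (D 0))) : MI f.E (dS D) := by
  refine mi_pair h hf (fun c hc => ⟨0, by simpa using hc⟩) fun s hs e => ?_
  obtain ⟨x, hx, y, hy, k⟩ := h.hyp hf
  have e1 := h.ts.two_mul_finrank_le hf
  have e2 := h.ts'.two_mul_finrank_le hf
  have e3 := Submodule.finrank_add_eq_of_isCompl h.compl
  have e4 := h.dim
  have hs' := split_of_finrank hf (by omega)
  obtain ⟨t, t1, t2⟩ := Fm.adjust hf hs' _ (Fm.adjust_tor hf hs' k fun g l hg => h.tor_stab hx hy hg)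
    (g := ⟨s, hs⟩) ((Fm.dick_iff_par hf hs' (by omega) h.ts rfl _).1 (by
      change Even (_ - finrank F (D 0 ⊓ (D 0).map s.toLinearMap : Submodule F V))
      rwa [e, h.compl.inf_eq_bot, finrank_bot]))
  exact ⟨t, t1, (mem_E_iff hf (by omega)).2 t2⟩

theorem isPlus_of_map [Finite F] {f : CForm (FP.orth F) V} (hf : f.Nondeg) {W : Submodule F V}
    (hW : W ⊓ f.perp W = ⊥) (he : Even (finrank F W)) {g : V ≃ₗ[F] V} (hg : g ∈ f.Isom)
    (e : W.map g.toLinearMap = f.perp W) : f.IsPlus := by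
  obtain ⟨m, hm⟩ := he
  have h1 := (f.res_nondeg_iff W).2 hW
  obtain ⟨a, ha⟩ := orth_exists_isIso_even m (scale_nondeg h1 (c := -1) (by simp)) h1 (by omega) (by omega)
    (scale_isPlus (by simp))
  have k (w : W) : g (a w) ∈ f.perp W := e ▸ Submodule.mem_map_of_mem (a w).2
  let φ : W →ₗ[F] V := W.subtype + g.toLinearMap ∘ₗ W.subtype ∘ₗ a.toLinearMap
  have hφ : Function.Injective φ := (injective_iff_map_eq_zero _).2 fun w hw => by
    have : (w : V) ∈ W ⊓ f.perp W := ⟨w.2, by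
      rw [show (w : V) = - g (a w) from eq_neg_of_add_eq_zero_left hw]; exact neg_mem (k w)⟩
    rw [hW] at this
    exact Subtype.ext this
  refine ⟨LinearMap.range φ, TS_orth.2 ?_, ?_⟩
  · rintro _ ⟨w, rfl⟩
    change f.Q (w + g (a w)) = 0
    rw [f.Q_add_of_perp (f.mem_perp'.1 (k w) _ w.2), f.Isom_Q hg]
    have := ha.2 w
    simp only [scale, res_Q] at this
    rw [this]; ring
  · have e1 := hf.finrank_perp W
    have e2 := LinearEquiv.finrank_map_eq g W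
    rw [e] at e2
    rw [LinearMap.finrank_range_of_inj hφ]
    omega

end

variable {ι : Type} [Fintype ι] [DecidableEq ι] {F : Type u} [Field F]

theorem MI.gl {G' H' : Subgroup ((ι → F) ≃ₗ[F] (ι → F))} (h : MI G' H') {G H : Subgroup (GL ι F)}
    (hG : ∀ g, g ∈ G ↔ gl g ∈ G') (hH : ∀ g ∈ G, g ∈ H ↔ gl g ∈ H') : IsMaximalIn G (H ⊓ G) :=
  (h.comap ⟨gl_injective, gl_surjective⟩ hG hH).isMax

theorem mem_subStab {W : Submodule F (ι → F)} {g : GL ι F} :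
    g ∈ subspaceStabilizer W ↔ gl g ∈ stabS F (W : Set (ι → F)) := Iff.rfl

theorem mem_decStab {t : ℕ} {D : Fin t → Submodule F (ι → F)} {g : GL ι F} :
    g ∈ decompositionStabilizer D ↔ gl g ∈ dS D := Iff.rfl

theorem mem_SL {g : GL ι F} : g ∈ specialLinear ι F ↔ gl g ∈ LinearEquiv.det.ker := by
  rw [MonoidHom.mem_ker, det_gl]; rfl

theorem mem_spGL' {m : ℕ} {g : GL (Fin m ⊕ Fin m) F} : g ∈ Cfsg.spGL m F ↔ gl g ∈ (spForm F m).Isom :=
  (mem_Isom_symp (f := spForm F m) (g := gl g)).symm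

theorem mem_spGL {m : ℕ} (g : GL (Fin m ⊕ Fin m) F) : g ∈ Cfsg.spGL m F ↔ gl g ∈ (spForm F m).E := by
  rw [← symp_Isom_eq_E (spForm_nondeg m), mem_spGL']

theorem mem_SU {σ : F →+* F} {q : ℕ} (H : UF σ q) {n : ℕ} (hn : 2 ≤ n) (g : GL (Fin n) F) :
    g ∈ Cfsg.GU n F q ⊓ specialLinear (Fin n) F ↔ gl g ∈ (hermC H n).E := by
  rw [← herm_SIsom H hn, Subgroup.mem_inf, mem_GU H, mem_SL]; rfl

theorem mem_omegaGL [Finite F] {Q : QuadraticForm F (ι → F)} (hf : (ofQuad Q).Nondeg) (h5 : 5 ≤ Fintype.card ι)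
    (g : GL ι F) : g ∈ omegaGL Q ↔ gl g ∈ (ofQuad Q).E := by
  refine ⟨?_, fun h => ⟨⟨g, mem_O.2 (E_le_Isom h)⟩, (Fm.mem_Omega _).2 ((mem_E_iff hf (by simpa)).1 h), rfl⟩⟩
  rintro ⟨g, hg, rfl⟩
  exact (mem_E_iff hf (by simpa)).2 ((Fm.mem_Omega _).1 hg)

theorem exists_quad {Q : (ι → F) → F} (h : IsNondegenerateQuadraticForm Q) :
    ∃ Q' : QuadraticForm F (ι → F), ⇑Q' = Q ∧ (ofQuad Q').Nondeg :=
  ⟨QuadraticMap.ofPolar Q (fun a x => by rw [h.smul, sq, smul_eq_mul]) h.polar_bilinear.add_left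
    h.polar_bilinear.smul_left, rfl, fun v hv => by
    by_contra k
    obtain ⟨x, hx⟩ := (h.nondegenerate v k).1
    exact hx (hv x)⟩

theorem nd_of_on {P : FP F} (f : CForm P (ι → F)) {W : Submodule F (ι → F)} (h : IsNondegenerateOn f.B W) :
    W ⊓ f.perp W = ⊥ := eq_bot_iff.2 fun w hw => by
  by_contra k
  obtain ⟨x, hx, e⟩ := (h w hw.1 k).2
  exact e (hw.2 x hx)

theorem on_of_nd {P : FP F} (f : CForm P (ι → F)) {W : Submodule F (ι → F)} (h : W ⊓ f.perp W = ⊥) :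
    IsNondegenerateOn f.B W := fun w hw k => by
  have : ¬ w ∈ f.perp W := fun e => k (by have : w ∈ W ⊓ f.perp W := ⟨hw, e⟩; rwa [h] at this)
  refine ⟨?_, by simpa [mem_perp] using this⟩
  simpa [mem_perp'] using this

theorem isPlus_res_iff {Q : QuadraticForm F (ι → F)} {W : Submodule F (ι → F)} :
    ((ofQuad Q).res W).IsPlus ↔ IsPlusTypeOn Q W := by
  refine ⟨fun ⟨U, h1, h2⟩ => ⟨U.map W.subtype, Submodule.map_subtype_le _ _, (TS_map_subtype h1).1, by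
    rwa [Submodule.finrank_map_subtype_eq]⟩, fun ⟨U, h1, h2, h3⟩ =>
    ⟨U.comap W.subtype, TS_orth.2 fun w hw => h2 _ hw, ?_⟩⟩
  rwa [(Submodule.comapSubtypeEquivOfLe h1).finrank_eq]

theorem isPlus_iff {Q : QuadraticForm F (ι → F)} : (ofQuad Q).IsPlus ↔ IsPlusTypeOn Q ⊤ :=
  ⟨fun ⟨U, h1, h2⟩ => ⟨U, le_top, h1.1, by rwa [finrank_top]⟩, fun ⟨U, _, h2, h3⟩ =>
    ⟨U, TS_orth.2 h2, by rwa [finrank_top] at h3⟩⟩

theorem isCompl_of_dec {m : ℕ} {D : Fin 2 → Submodule F (ι → F)} (h : IsMDecomposition m D) :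
    IsCompl (D 0) (D 1) := by
  refine ⟨h.indep.pairwiseDisjoint (by decide), codisjoint_iff.2 ?_⟩
  rw [← h.iSup_eq_top]
  exact le_antisymm (sup_le (le_iSup D 0) (le_iSup D 1))
    (iSup_le (Fin.forall_fin_two.2 ⟨le_sup_left, le_sup_right⟩))

end CfsgH5.Mx
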