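import Cfsg.Agent.H5.Mx4

set_option autoImplicit false

/-!
Maximal subgroups of classical groups, part 5: an orbit lemma and rational structures.
-/

namespace CfsgH5.Mx

open Module CForm

universe u v w

theorem card_eq_zero_of_add {F : Type*} [Field F] {T : Finset F} {κ : F} (hκ : κ ≠ 0) (h : ∀ s ∈ T, s + κ ∈ T) :
    (T.card : F) = 0 := by
  classical
  have h1 : T.image (· + κ) = T := Finset.eq_of_subset_of_card_le
    (fun x hx => by obtain ⟨s, hs, rfl⟩ := Finset.mem_image.1 hx; exact h s hs)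
    (by rw [Finset.card_image_of_injective _ (add_left_injective κ)])
  have h2 : ∑ s ∈ T, (s + κ) = ∑ s ∈ T, s := by
    conv_rhs => rw [← h1, Finset.sum_image fun a _ b _ e => add_left_injective κ e]
  rw [Finset.sum_add_distrib, Finset.sum_const, nsmul_eq_mul, add_eq_left] at h2
  exact (mul_eq_zero.1 h2).resolve_right hκ

theorem proj_orbit {F : Type*} [Field F] [Finite F] {κ : F} (hκ : κ ≠ 0) (S : F → F → Prop) (h0 : S 1 0)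
    (h00 : ¬ S 0 0) (h1 : ∀ a b, S a b → S (a + κ * b) b) (h2 : ∀ a b, S a b → S a (b + a)) :
    ∃ b, b ≠ 0 ∧ S 0 b := by
  classical
  by_contra hc
  have hn : ∀ a b, S a b → a ≠ 0 := fun a b h e => hc ⟨b, fun e' => h00 (by simpa [e, e'] using h), e ▸ h⟩
  have := Fintype.ofFinite F
  let T : Finset F := Finset.univ.filter fun s => ∃ a, S a (s * a)
  have e1 := card_eq_zero_of_add (T := T) one_ne_zero fun s hs => by
    simp only [T, Finset.mem_filter, Finset.mem_univ, true_and] at hs ⊢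
    exact hs.imp fun a ha => by simpa [add_mul] using h2 _ _ ha
  have e2 := card_eq_zero_of_add (T := (T.erase 0).image (·⁻¹)) hκ fun s hs => by
    simp only [T, Finset.mem_image, Finset.mem_erase, Finset.mem_filter, Finset.mem_univ, true_and] at hs ⊢
    obtain ⟨s, ⟨hs, a, ha⟩, rfl⟩ := hs
    have k1 := hn _ _ ha
    have k2 := hn _ _ (h1 _ _ ha)
    have k3 : s⁻¹ + κ = (a + κ * (s * a)) / (s * a) := by field_simp
    refine ⟨(s⁻¹ + κ)⁻¹, ⟨inv_ne_zero (k3 ▸ div_ne_zero k2 (mul_ne_zero hs k1)), a + κ * (s * a), ?_⟩, inv_inv _⟩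
    rw [k3, inv_div, div_mul_cancel₀ _ k2]
    exact h1 _ _ ha
  have e3 : (0 : F) ∈ T := by simpa [T] using ⟨1, h0⟩
  rw [Finset.card_image_of_injective _ inv_injective, Finset.card_erase_of_mem e3,
    Nat.cast_sub (Finset.card_pos.2 ⟨_, e3⟩), e1] at e2
  simp at e2

variable {F : Type u} [Field F] {P : FP F} {V : Type v} [AddCommGroup V] [Module F V]

theorem orb [Finite F] {D : Subgroup (V ≃ₗ[F] V)} {t ρ : V ≃ₗ[F] V} (ht : t ∈ D) (hρ : ρ ∈ D) {M : Set V} {κ : F}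
    (hκ : κ ≠ 0) (h1 : ∀ v ∈ M, t v = v) (h2 : ∀ v ∈ M, ρ (ρ v - v) = ρ v - v)
    (h3 : ∀ v ∈ M, t (ρ v - v) = ρ v - v + κ • v) {v₀ : V} (h0 : v₀ ∈ M) (h0' : v₀ ≠ 0) :
    ∃ w ∈ D, ∃ β : F, β ≠ 0 ∧ ∀ v ∈ M, w v = β • (ρ v - v) := by
  obtain ⟨β, k1, w, k2, k3⟩ := proj_orbit hκ (fun a b => ∃ w ∈ D, ∀ v ∈ M, w v = a • v + b • (ρ v - v))
    ⟨1, one_mem _, fun v _ => by simp⟩ (fun ⟨w, _, k⟩ => h0' (w.injective (by simpa using k v₀ h0)))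
    (fun a b ⟨w, k1, k2⟩ => ⟨t * w, mul_mem ht k1, fun v hv => by
      rw [LinearEquiv.mul_apply, k2 v hv, map_add, map_smul, map_smul, h1 v hv, h3 v hv]; module⟩)
    (fun a b ⟨w, k1, k2⟩ => ⟨ρ * w, mul_mem hρ k1, fun v hv => by
      rw [LinearEquiv.mul_apply, k2 v hv, map_add, map_smul, map_smul, h2 v hv]; module⟩)
  exact ⟨w, k2, β, k1, fun v hv => by simpa using k3 v hv⟩

/-- the maps acting trivially modulo `U` -/
def mv (U : Submodule F V) : Subgroup (V ≃ₗ[F] V) where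
  carrier := {g | ∀ v, g v - v ∈ U}
  mul_mem' {a b} ha hb v := by simpa using add_mem (ha (b v)) (hb v)
  one_mem' v := by simp
  inv_mem' {a} ha v := by simpa using neg_mem (ha (a⁻¹ v))

variable {f : CForm P V} {K : Subgroup (V ≃ₗ[F] V)}

theorem RA_conj {x a : V} {hx : f.Q x = 0} (ha : a ∈ RA f K x hx) {k : V ≃ₗ[F] V} (hk : k ∈ K) (hk' : k ∈ f.Isom)
    {y : V} (hy : f.Q y = 0) {c : F} (hc : c ≠ 0) (e : k x = c • y) : P.σ c • k a ∈ RA f K y hy := by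
  obtain ⟨g, h1, d, h2⟩ := ha
  have := h2.conj hk'
  rw [e] at this
  exact ⟨_, mul_mem (mul_mem hk h1) (inv_mem hk), _, this.smul hy (by simpa [hc] using this.ha)⟩

theorem RA_move {x a : V} {hx : f.Q x = 0} (ha : a ∈ RA f K x hx) {k : V ≃ₗ[F] V} (hk : k ∈ K)
    {z b : V} {c : F} (h : f.IsEich k z b c) (h1 : f.B x z = 0) (h2 : f.B x b = 0) : k a - a ∈ RA f K x hx :=
  sub_mem (RA_map ha hk h.mem_Isom (h.fix h1 h2)) ha

variable {F₀ : Subfield F} {P₀ : FP F₀} {V₀ : Type w} [AddCommGroup V₀] [Module F₀ V₀]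

/-- the stabiliser of a rational structure up to scalars -/
def ratS [Finite V] (φ : V₀ →ₗ[F₀] V) : Subgroup (V ≃ₗ[F] V) where
  carrier := {g | ∃ c : F, c ≠ 0 ∧ ∀ u, ∃ u', g (φ u) = c • φ u'}
  mul_mem' {a b} := fun ⟨c, h1, h2⟩ ⟨d, h3, h4⟩ => ⟨d * c, mul_ne_zero h3 h1, fun u => by
    obtain ⟨u', e⟩ := h4 u
    obtain ⟨u'', e'⟩ := h2 u'
    exact ⟨u'', by rw [LinearEquiv.mul_apply, e, map_smul, e', mul_smul]⟩⟩
  one_mem' := ⟨1, one_ne_zero, fun u => ⟨u, by simp⟩⟩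
  inv_mem' {a} := fun ⟨c, h1, h2⟩ => by
    have : Finite (V ≃ₗ[F] V) := Finite.of_injective _ (DFunLike.coe_injective (F := V ≃ₗ[F] V))
    obtain ⟨n, hn⟩ := (Submonoid.mem_powers_iff _ _).1 (mem_powers_iff_mem_zpowers.2 (inv_mem (Subgroup.mem_zpowers a)))
    rw [← hn]
    refine ⟨c ^ n, pow_ne_zero _ h1, fun u => ?_⟩
    clear hn
    induction n generalizing u with
    | zero => exact ⟨u, by simp⟩
    | succ n ih =>
      obtain ⟨u', e⟩ := h2 u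
      obtain ⟨u'', e'⟩ := ih u'
      exact ⟨u'', by rw [pow_succ, LinearEquiv.mul_apply, e, map_smul, e', pow_succ', mul_smul]⟩

variable (f) in
/-- a rational structure of a form -/
structure Sf (f₀ : CForm P₀ V₀) (φ : V₀ →ₗ[F₀] V) (ζ : F) : Prop where
  nd : f.Nondeg
  nd₀ : f₀.Nondeg
  i3 : I3 f₀
  dim : 9 ≤ finrank F₀ V₀
  hζ : ζ ≠ 0
  hB : ∀ u v, f.B (φ u) (φ v) = ζ⁻¹ * (f₀.B u v : F₀)
  hσ : ∀ a ∈ F₀, P.σ a ∈ F₀
  hε : P.σ ζ * P.ε = (P₀.ε : F) * ζ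
  hQ : ∀ b c, P₀.t c = f₀.Q b → P.t (P.σ ζ * c) = f.Q (P.σ ζ • φ b)
  hQ' : ∀ b, f.Q (φ b) = 0 → f₀.Q b = 0
  span : Submodule.span F (Set.range φ) = ⊤
  max : ∀ L : Subring F, (∀ a ∈ F₀, a ∈ L) → (∀ a ∈ L, a ∈ F₀) ∨ L = ⊤

variable {f₀ : CForm P₀ V₀} {φ : V₀ →ₗ[F₀] V} {ζ : F}

namespace Sf

theorem smul (φ : V₀ →ₗ[F₀] V) (c : F₀) (u : V₀) : φ (c • u) = (c : F) • φ u := φ.map_smul c u

theorem μ_ne (h : Sf f f₀ φ ζ) : P.σ ζ ≠ 0 := by simp [h.hζ]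

theorem σ_mem (h : Sf f f₀ φ ζ) {a : F} : P.σ a ∈ F₀ ↔ a ∈ F₀ :=
  ⟨fun k => by simpa using h.hσ _ k, h.hσ a⟩

theorem sing (h : Sf f f₀ φ ζ) {e : V₀} (he : f₀.Q e = 0) : f.Q (φ e) = 0 := by
  have := h.hQ e 0 (by simp [he])
  simpa [f.Q_smul, h.hζ] using this

theorem perp (h : Sf f f₀ φ ζ) {u v : V₀} : f.B (φ u) (φ v) = 0 ↔ f₀.B u v = 0 := by simp [h.hB, h.hζ]

theorem eq_zero (h : Sf f f₀ φ ζ) {w : V} (k : ∀ u, f.B (φ u) w = 0) : w = 0 := h.nd w fun v => by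
  have : Submodule.span F (Set.range φ) ≤ LinearMap.ker (f.left w) := Submodule.span_le.2 (by
    rintro _ ⟨u, rfl⟩; exact k u)
  exact this (h.span ▸ Submodule.mem_top)

theorem ext (h : Sf f f₀ φ ζ) {g₀ : V₀ ≃ₗ[F₀] V₀} {z b : V₀} {c : F₀} (hg : f₀.IsEich g₀ z b c) :
    ∃ g, f.IsEich g (φ z) (P.σ ζ • φ b) (P.σ ζ * c) ∧ ∀ u, g (φ u) = φ (g₀ u) := by
  obtain ⟨g, k⟩ := exists_eich (h.sing hg.hx) (a := P.σ ζ • φ b) (by simp [h.perp.2 hg.ha]) (h.hQ b c hg.hc)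
  refine ⟨g, k, fun u => ?_⟩
  have := h.hζ
  have e : (P₀.ε : F) = P.σ ζ * P.ε / ζ := by rw [h.hε]; field_simp
  rw [k.app, hg.app]
  simp only [map_sub, map_add, smul, B_smul_right, h.hB, P.σσ', Subfield.coe_mul, e, smul_smul]
  match_scalars <;> field_simp

variable [FiniteDimensional F₀ V₀]

theorem inj (h : Sf f f₀ φ ζ) {u : V₀} (e : φ u = 0) : u = 0 :=
  h.nd₀ u fun v => h.perp.1 (by simp [e])

theorem coef (h : Sf f f₀ φ ζ) {u e : V₀} (he : e ≠ 0) {κ : F} (k : φ u = κ • φ e) : κ ∈ F₀ := by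
  obtain ⟨y, hy⟩ := h.nd₀.exists_B_eq_one he
  have := congrArg (f.B · (φ y)) k
  simp only [f.B_smul_left, h.hB, hy, OneMemClass.coe_one, mul_one, mul_comm κ, mul_eq_mul_left_iff,
    inv_eq_zero, h.hζ, or_false] at this
  exact this ▸ (f₀.B u y).2

theorem rat (h : Sf f f₀ φ ζ) {w : V} (k : ∀ u, ζ * f.B (φ u) w ∈ F₀) : ∃ w₀, φ w₀ = w := by
  let ψ : V₀ →ₗ[F₀] F₀ :=
    { toFun := fun u => ⟨_, k u⟩
      map_add' := fun u v => Subtype.ext (by simp [mul_add])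
      map_smul' := fun c u => Subtype.ext (by simp [Subfield.smul_def, mul_left_comm]) }
  obtain ⟨w₀, hw⟩ := h.nd₀.riesz ψ
  refine ⟨w₀, sub_eq_zero.1 (h.eq_zero fun u => ?_)⟩
  have := h.hζ
  rw [B_sub_right, h.hB, hw]
  simp [ψ, this]

theorem exS (h : Sf f f₀ φ ζ) (U X : Submodule F₀ V₀) (hd : finrank F₀ U + finrank F₀ X ≤ 6) :
    ∃ z, z ∉ X ∧ f₀.Q z = 0 ∧ ∀ u ∈ U, f₀.B u z = 0 := by
  have := h.dim
  simpa using h.i3.sing h.nd₀ ⊤ U X (by rw [finrank_top]; omega)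

theorem rat_mod (h : Sf f f₀ φ ζ) {e : V₀} (he : f₀.Q e = 0) (h0 : e ≠ 0) {a : V}
    (k : ∀ y, f₀.Q y = 0 → f₀.B e y = 0 → f.B (φ y) a ∈ F₀) : ∃ b, ∃ ν : F, a = P.σ ζ • φ b + ν • φ e := by
  have := h.dim
  have hζ := h.hζ
  have e1 := finrank_span_singleton (K := F₀) h0
  obtain ⟨z, k1, k2, k3⟩ := h.exS (F₀ ∙ e) (F₀ ∙ e) (by omega)
  have k4 := conn h.i3 h.nd₀ (F₀ ∙ e) (by omega)
    (F₀.toAddSubgroup.comap ((f.left a).toAddMonoidHom.comp φ.toAddMonoidHom)) (k z k2 (perp_line.1 k3)) k1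
    fun _ _ _ z hz k' _ _ => k z hz (perp_line.1 k')
  obtain ⟨u, hu⟩ := h.nd₀.exists_B_eq_one h0
  have hu' := f₀.B_one_symm hu
  obtain ⟨b, hb⟩ := h.rat (w := (P.σ ζ)⁻¹ • a - P.σ (P₀.ε * f.B (φ u) a) • φ e) fun v => by
    have k5 : f.B (φ (v - (P₀.ε * f₀.B v e) • u)) a ∈ F₀ := k4 _ (perp_line.2 (f₀.B_zero_symm (by
      simp only [B_sub_left, f₀.B_smul_left, hu']; rw [mul_right_comm, P₀.εε, one_mul, sub_self])))
    convert k5 using 1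
    simp only [B_sub_right, B_smul_right, map_inv₀, P.σσ', h.hB, map_sub, smul, B_sub_left, f.B_smul_left,
      Subfield.coe_mul]
    field_simp
  exact ⟨b, P.σ ζ * P.σ (P₀.ε * f.B (φ u) a), by
    rw [hb, smul_sub, smul_smul, mul_inv_cancel₀ h.μ_ne, one_smul, smul_smul, sub_add_cancel]⟩

variable [Finite V]

omit [FiniteDimensional F₀ V₀] in
theorem extK (h : Sf f f₀ φ ζ) (hK : ratS φ ⊓ f.E ≤ K) {g₀ : V₀ ≃ₗ[F₀] V₀} {z b : V₀} {c : F₀}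
    (hg : f₀.IsEich g₀ z b c) :
    ∃ g ∈ K, f.IsEich g (φ z) (P.σ ζ • φ b) (P.σ ζ * c) ∧ ∀ u, g (φ u) = φ (g₀ u) := by
  obtain ⟨g, k1, k2⟩ := h.ext hg
  exact ⟨g, hK ⟨⟨1, one_ne_zero, fun u => ⟨_, by rw [k2, one_smul]⟩⟩, k1.mem_E⟩, k1, k2⟩

omit [FiniteDimensional F₀ V₀] in
theorem exK (h : Sf f f₀ φ ζ) (hK : ratS φ ⊓ f.E ≤ K) {z b : V₀} (hz : f₀.Q z = 0) (hb : f₀.B b z = 0) :
    ∃ g ∈ K, ∃ c : F₀, f.IsEich g (φ z) (P.σ ζ • φ b) (P.σ ζ * c) := by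
  obtain ⟨c, hc⟩ := f₀.exists_t b
  obtain ⟨g₀, hg⟩ := exists_eich hz hb hc
  obtain ⟨g, k1, k2, -⟩ := h.extK hK hg
  exact ⟨g, k1, c, k2⟩

omit [FiniteDimensional F₀ V₀] in
theorem exK0 (h : Sf f f₀ φ ζ) (hK : ratS φ ⊓ f.E ≤ K) {z b : V₀} (hz : f₀.Q z = 0) (hb : f₀.B b z = 0)
    (hb' : f₀.Q b = 0) : ∃ g ∈ K, f.IsEich g (φ z) (P.σ ζ • φ b) 0 := by
  obtain ⟨g₀, hg⟩ := exists_eich hz hb (c := 0) (by simp [hb'])
  obtain ⟨g, k1, k2, -⟩ := h.extK hK hg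
  exact ⟨g, k1, by simpa using k2⟩

omit [FiniteDimensional F₀ V₀] in
theorem extE (h : Sf f f₀ φ ζ) (hK : ratS φ ⊓ f.E ≤ K) {g₀ : V₀ ≃ₗ[F₀] V₀} (hg : g₀ ∈ f₀.E) :
    ∃ g ∈ K, g ∈ f.Isom ∧ ∀ u, g (φ u) = φ (g₀ u) := by
  induction hg using Subgroup.closure_induction with
  | mem g hg =>
    obtain ⟨x, a, c, hg⟩ := hg
    obtain ⟨g, k1, k2, k3⟩ := h.extK hK hg
    exact ⟨g, k1, k2.mem_Isom, k3⟩
  | one => exact ⟨1, one_mem _, one_mem _, fun _ => rfl⟩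
  | mul a b _ _ ha hb =>
    obtain ⟨a, k1, k2, k3⟩ := ha
    obtain ⟨b, k4, k5, k6⟩ := hb
    exact ⟨a * b, mul_mem k1 k4, mul_mem k2 k5, fun u => by simp [k3, k6]⟩
  | inv a _ ha =>
    obtain ⟨g, k1, k2, k3⟩ := ha
    exact ⟨g⁻¹, inv_mem k1, inv_mem k2, fun u => g.injective (by simp [k3])⟩

variable (K) in
/-- the scalars by which rational root data may be multiplied inside `K` -/
def L (h : Sf f f₀ φ ζ) (l : F) : Prop :=
  ∀ e (he : f₀.Q e = 0), e ≠ 0 → ∀ b, f₀.B b e = 0 → (l * P.σ ζ) • φ b ∈ RA f K (φ e) (h.sing he)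

theorem L_of (h : Sf f f₀ φ ζ) (hK : ratS φ ⊓ f.E ≤ K) {l : F} {e z : V₀} (he : f₀.Q e = 0) (h0 : e ≠ 0)
    (hz : z ∉ F₀ ∙ e) (k : (l * P.σ ζ) • φ z ∈ RA f K (φ e) (h.sing he)) : h.L K l := by
  have := h.dim
  have e1 := finrank_span_singleton (K := F₀) h0
  have k1 := span_perp h.i3 h.nd₀ (F₀ ∙ e) (by omega) ((RA f K (φ e) (h.sing he)).comap
    ((DistribSMul.toAddMonoidHom V (l * P.σ ζ)).comp φ.toAddMonoidHom)) k hz fun u hu g z b c hg k1 k2 => by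
      obtain ⟨g', k3, k4, k5⟩ := h.extK hK hg
      have := RA_map (hx := h.sing he) hu k3 k4.mem_Isom (by rw [k5, hg.fix (perp_line.1 k1) (perp_line.1 k2)])
      simpa [k5] using this
  intro e' he' h0' b hb
  obtain ⟨y, hy⟩ := h.nd₀.exists_hyp' he h0
  obtain ⟨y', hy'⟩ := h.nd₀.exists_hyp' he' h0'
  obtain ⟨s, s1, m, s2, s3, -⟩ := (rich_of_finrank h.nd₀ (by omega)).exists_E_hyp hy' hy
  obtain ⟨g, k2, k3, k4⟩ := h.extE hK s1
  let m' : F₀ := ⟨_, h.hσ _ m.2⟩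
  have k5 : (l * P.σ ζ) • φ (m'⁻¹ • s⁻¹ b) ∈ RA f K (φ e) (h.sing he) := k1 _ (perp_line.2 (f₀.B_zero_symm (by
    have := f₀.Isom_B (E_le_Isom s1) (s⁻¹ b) e
    rw [s3] at this
    rw [f₀.B_smul_left, ← this]
    simp [hb])))
  have := RA_conj k5 k2 k3 (h.sing he') (c := m) (by simpa using s2) (by rw [k4, s3, smul])
  convert this using 1
  have : P.σ m ≠ 0 := by simpa using s2
  simp only [map_smul g, k4, smul, m', smul_smul, Subfield.coe_inv, LinearEquiv.coe_inv, LinearEquiv.apply_symm_apply]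
  congr 1; field_simp

theorem L.mul {h : Sf f f₀ φ ζ} (hK : ratS φ ⊓ f.E ≤ K) {l m : F} (hl : h.L K l) (hm : h.L K m) :
    h.L K (l * P.σ m) := fun e he h0 => by
  have := h.dim
  have e1 := finrank_span_singleton (K := F₀) h0
  obtain ⟨z, k1, k2, k3⟩ := h.exS (F₀ ∙ e) (F₀ ∙ e) (by omega)
  have := fr_line (F₀ ∙ e) z
  obtain ⟨b, y, k4, k5, k6⟩ := h.i3.hyp h.nd₀ ((F₀ ∙ e) ⊔ F₀ ∙ z) (by omega)
  rw [perp_sup_line, perp_line] at k5 k6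
  obtain ⟨g, k7, c, k8⟩ := hm z k2 (fun e => k1 (by simp [e])) y (f₀.B_zero_symm k6.2)
  have := RA_move (hl e he h0 b (f₀.B_zero_symm k5.1)) k7 k8 (h.perp.2 (perp_line.1 k3)) (by simp [h.perp.2 k6.1])
  refine h.L_of hK he h0 k1 ?_ e he h0
  convert this using 1
  have := h.hζ
  rw [map_smul, k8.app_perp (h.perp.2 (f₀.B_zero_symm k5.2))]
  simp only [B_smul_right, h.hB, k4.hxy, map_mul, P.σσ', OneMemClass.coe_one]
  match_scalars <;> field_simp <;> ring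

theorem L_rat (h : Sf f f₀ φ ζ) (hK : ratS φ ⊓ f.E ≤ K) {l : F} (hl : l ∈ F₀) : h.L K l := fun e he _ b hb => by
  obtain ⟨g, k1, c, k2⟩ := h.exK hK he (b := (⟨l, hl⟩ : F₀) • b) (by simp [hb])
  exact ⟨g, k1, _, by simpa [Subfield.smul_def, smul_smul, mul_comm l] using k2⟩

theorem L_all (h : Sf f f₀ φ ζ) (hK : ratS φ ⊓ f.E ≤ K) {l : F} (hl : h.L K l) (hn : l ∉ F₀) (m : F) : h.L K m := by
  let S : Subring F :=
    { carrier := {l | h.L K l}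
      mul_mem' := fun ha hb => by simpa using ha.mul hK ((h.L_rat hK (one_mem _)).mul hK hb)
      one_mem' := h.L_rat hK (one_mem _)
      add_mem' := fun ha hb e he h0 b k => by simpa [add_mul, add_smul] using add_mem (ha e he h0 b k) (hb e he h0 b k)
      zero_mem' := h.L_rat hK (zero_mem _)
      neg_mem' := fun ha e he h0 b k => by simpa using neg_mem (ha e he h0 b k) }
  have : m ∈ S := ((h.max S fun a ha => h.L_rat hK ha).resolve_left fun k => hn (k l hl)) ▸ Subring.mem_top m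
  exact this

theorem rat_or_L (h : Sf f f₀ φ ζ) (hK : ratS φ ⊓ f.E ≤ K) {e : V₀} (he : f₀.Q e = 0) (h0 : e ≠ 0) {a : V}
    (ha : a ∈ RA f K (φ e) (h.sing he)) : (∃ b, ∃ ν : F, a = P.σ ζ • φ b + ν • φ e) ∨ ∀ l, h.L K l := by
  by_cases k : ∀ y, f₀.Q y = 0 → f₀.B e y = 0 → f.B (φ y) a ∈ F₀
  · exact .inl (h.rat_mod he h0 k)
  push Not at k
  obtain ⟨y, k1, k2, k3⟩ := k
  have e1 := finrank_span_singleton (K := F₀) h0
  have := fr_line (F₀ ∙ e) y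
  obtain ⟨z, z1, z2, z3⟩ := h.exS ((F₀ ∙ e) ⊔ F₀ ∙ y) ((F₀ ∙ e) ⊔ F₀ ∙ y) (by omega)
  obtain ⟨y', y1, y2⟩ := h.nd₀.exists_dual z1
  have := fr_line ((F₀ ∙ e) ⊔ F₀ ∙ y) z
  have := fr_line (((F₀ ∙ e) ⊔ F₀ ∙ y) ⊔ F₀ ∙ z) y'
  obtain ⟨x, x1, x2, x3⟩ := h.exS ((((F₀ ∙ e) ⊔ F₀ ∙ y) ⊔ F₀ ∙ z) ⊔ F₀ ∙ y') (F₀ ∙ e) (by omega)
  simp only [perp_sup_line, perp_line] at z3 y2 x3
  obtain ⟨g, g1, g2⟩ := h.exK0 hK z2 z3.2 k1
  obtain ⟨g', g3, c, g4⟩ := h.exK hK x2 x3.2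
  have := RA_move (RA_move ha g1 g2 (h.perp.2 z3.1) (by simp [h.perp.2 k2])) g3 g4 (h.perp.2 x3.1.1.1)
    (by simp [h.perp.2 y2.1])
  refine .inr (h.L_all hK (l := P₀.ε * P.σ (f.B (φ y) a)) (h.L_of hK he h0 x1 ?_) fun k => k3 (h.σ_mem.1 ?_))
  · convert this using 1
    have := h.hζ
    have e : P.σ ζ = P₀.ε * ζ * P.ε := by rw [← h.hε, mul_assoc, P.εε, mul_one]
    have e' : (P₀.ε : F) ^ 2 = 1 := by rw [sq, ← Subfield.coe_mul, P₀.εε]; rfl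
    rw [g2.app, g4.app_perp (by simp [h.perp.2 x3.1.2, h.perp.2 x3.1.1.2])]
    simp only [add_sub_cancel_left, B_sub_left, f.B_add_left, f.B_smul_left, B_smul_right, h.hB, y1, y2.2,
      P.σσ', OneMemClass.coe_one, ZeroMemClass.coe_zero, f.B_symm (φ y) a]
    congr 1
    rw [e]
    field_simp
    linear_combination (P.σ (f.B (φ y) a) * ζ * P.ε) * e'
  · have := mul_mem P₀.ε.2 k
    rwa [← mul_assoc, ← Subfield.coe_mul, P₀.εε, OneMemClass.coe_one, one_mul] at this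

end Sf

end CfsgH5.Mx
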