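import Cfsg.Agent.H5.Mx5

set_option autoImplicit false

/-!
Maximal subgroups of classical groups, part 6: subfield subgroups.
-/

namespace CfsgH5.Mx

open Module CForm

universe u v w

variable {F : Type u} [Field F] {P : FP F} {V : Type v} [AddCommGroup V] [Module F V] [FiniteDimensional F V]
  {f : CForm P V} {K : Subgroup (V ≃ₗ[F] V)} {F₀ : Subfield F} {P₀ : FP F₀} {V₀ : Type w} [AddCommGroup V₀]
  [Module F₀ V₀] [FiniteDimensional F₀ V₀] {f₀ : CForm P₀ V₀} {φ : V₀ →ₗ[F₀] V} {ζ : F} [Finite V]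

namespace Sf

theorem E_le (h : Sf f f₀ φ ζ) (hK : ratS φ ⊓ f.E ≤ K)
    (hZ : ∀ c, P.t c = 0 → (∃ b, c = b - P.ε * P.σ b) ∨
      ∃ l, ∃ c₀ : F₀, l ≠ 0 ∧ P₀.t c₀ = 0 ∧ c = l * P.σ l * (P.σ ζ * c₀))
    (hL : ∀ l, h.L K l) : f.E ≤ K := by
  have := h.dim
  have hζ := h.hζ
  have hμ := h.μ_ne
  have k1 : ∀ e (he : f₀.Q e = 0), e ≠ 0 → ∀ a, f.B a (φ e) = 0 → a ∈ RA f K (φ e) (h.sing he) := fun e he h0 a ha => by
    obtain ⟨u, hu⟩ := h.nd₀.exists_B_eq_one h0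
    have hu' := f₀.B_one_symm hu
    have : ∀ v ∈ Submodule.span F (Set.range φ), ∀ l : F,
        l • (v - (P₀.ε * ζ * f.B v (φ e)) • φ u) ∈ RA f K (φ e) (h.sing he) := fun v hv => by
      induction hv using Submodule.span_induction with
      | mem v hv =>
        obtain ⟨v, rfl⟩ := hv
        intro l
        convert hL (l / P.σ ζ) e he h0 (v - (P₀.ε * f₀.B v e) • u) (by
          simp only [B_sub_left, f₀.B_smul_left, hu']; rw [mul_right_comm, P₀.εε, one_mul, sub_self]) using 1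
        simp only [h.hB, map_sub, smul, Subfield.coe_mul]
        match_scalars <;> field_simp
      | zero => intro l; simp
      | add v w _ _ hv hw =>
        intro l
        convert add_mem (hv l) (hw l) using 1
        rw [f.B_add_left]; module
      | smul c v _ hv =>
        intro l
        convert hv (l * c) using 1
        rw [f.B_smul_left]; module
    simpa [ha] using this a (h.span ▸ Submodule.mem_top) 1
  have k2 : ∀ e, f₀.Q e = 0 → e ≠ 0 → Full f K (φ e) := fun e he h0 => full_of (h.sing he) (k1 e he h0) fun g c hg => by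
    have e1 := finrank_span_singleton (K := F₀) h0
    obtain ⟨b, y, k4, k5, k6⟩ := h.i3.hyp h.nd₀ (F₀ ∙ e) (by omega)
    rw [perp_line] at k5 k6
    have k5' := h.perp.2 (f₀.B_zero_symm k5)
    have k6' := h.perp.2 (f₀.B_zero_symm k6)
    rcases hZ c (by simpa using hg.hc) with ⟨β, hβ⟩ | ⟨l, c₀, hl, h1, rfl⟩
    · obtain ⟨s, k7, _, k8⟩ := k1 e he h0 (φ y) k6'
      obtain ⟨t, k9, _, k10⟩ := k1 e he h0 ((β * ζ) • φ b) (by simp [k5'])
      have := k8.commutator k10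
      rw [f.B_symm ((β * ζ) • φ b) (φ y), f.B_smul_left, h.hB, k4.hxy, OneMemClass.coe_one,
        show β * ζ * (ζ⁻¹ * 1) = β by field_simp, ← hβ] at this
      rw [hg.unique this, commutatorElement_def]
      exact mul_mem (mul_mem (mul_mem k7 k9) (inv_mem k7)) (inv_mem k9)
    · obtain ⟨s, k7, _, k8⟩ := k1 e he h0 (P.σ (l * ζ) • φ y) (by simp [k6'])
      obtain ⟨y', y1, y2⟩ := h.nd₀.exists_dual (x := e) (W := F₀ ∙ b) fun k => by
        obtain ⟨m, rfl⟩ := Submodule.mem_span_singleton.1 k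
        simp [k4.hxy] at k6; simp [k6] at h0
      rw [perp_line] at y2
      obtain ⟨t, k9, _, k10⟩ := k1 b k4.hx k4.x_ne (P.σ (- ζ / l) • φ y') (by simp [h.perp.2 (f₀.B_zero_symm y2)])
      obtain ⟨g₀, g1⟩ := exists_eich k4.hx (a := 0) (c := c₀) (by simp) (by simp [h1])
      obtain ⟨r, r1, r2, -⟩ := h.extK hK g1
      have e2 : (t * s) (φ b) = l • φ e := by
        rw [LinearEquiv.mul_apply, k8.app_perp k5', map_add, map_smul, k10.fix_x, k10.app_perp (h.perp.2 k5)]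
        simp only [B_smul_right, P.σσ', h.hB, k4.hxy, y1, OneMemClass.coe_one]
        match_scalars <;> field_simp
        ring
      have := r2.conj (mul_mem k10.mem_Isom k8.mem_Isom)
      rw [e2] at this
      have := this.smul (h.sing he) (by simp)
      simp only [map_zero, smul_zero] at this
      rw [hg.unique this]
      exact mul_mem (mul_mem (mul_mem k9 k7) r1) (inv_mem (mul_mem k9 k7))
  obtain ⟨x, y, k, -⟩ := h.i3.hyp h.nd₀ ⊥ (by rw [finrank_bot]; omega)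
  exact E_le_of_full h.nd (k2 x k.hx k.x_ne) (k2 y k.hy k.y_ne) (h.sing k.hx) (h.sing k.hy)
    (by simp [h.perp, k.hxy])

omit [FiniteDimensional F V] in
theorem step (h : Sf f f₀ φ ζ) (hK : ratS φ ⊓ f.E ≤ K) (hL : ¬ ∀ l, h.L K l) {k : V ≃ₗ[F] V} (hk : k ∈ K)
    (hk' : k ∈ f.Isom) {e e' : V₀} (he : f₀.Q e = 0) (he' : f₀.Q e' = 0) (h0 : e ≠ 0) {c : F} (hc : c ≠ 0)
    (ke : k (φ e') = c • φ e) {z : V₀} (hz : f₀.Q z = 0) (h1 : f₀.B e' z = 0) (h2 : z ∉ F₀ ∙ e') :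
    ∃ z₁, k (φ z) = c • φ z₁ := by
  have hζ := h.hζ
  have hμ := h.μ_ne
  have hc' : P.σ c ≠ 0 := by simpa using hc
  have T : ∀ b, f₀.B e' b = 0 → ∃ b₁, ∃ ν : F, P.σ c • k (φ b) = φ b₁ + ν • φ e ∧ f₀.B e b₁ = 0 := fun b hb => by
    obtain ⟨g, g1, d, g2⟩ := h.exK hK he' (f₀.B_zero_symm hb)
    obtain ⟨b₁, ν, k1⟩ := (h.rat_or_L hK he h0 (RA_conj (hx := h.sing he') ⟨g, g1, _, g2⟩ hk hk' (h.sing he) hc
      ke)).resolve_right hL
    have k2 : P.σ c • k (φ b) = φ b₁ + (ν / P.σ ζ) • φ e := smul_right_injective V hμ (by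
      simp only [smul_add, smul_smul, mul_div_cancel₀ _ hμ, ← k1, map_smul, mul_comm])
    refine ⟨b₁, _, k2, h.perp.1 ?_⟩
    have k3 : f.B (c • φ e) (P.σ c • k (φ b)) = 0 := by rw [← ke]; simp [f.Isom_B hk', h.perp.2 hb]
    simpa [k2, hc, f.B_self_of_Q_zero (h.sing he)] using k3
  have TB : ∀ {b b₁ b' b₁' : V₀} {ν ν' : F}, P.σ c • k (φ b) = φ b₁ + ν • φ e → f₀.B e b₁ = 0 →
      P.σ c • k (φ b') = φ b₁' + ν' • φ e → f₀.B e b₁' = 0 → (f₀.B b₁ b₁' : F) = c * P.σ c * f₀.B b b' :=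
    fun {b b₁ b' b₁' ν ν'} e1 e2 e3 e4 => by
      have := congrArg₂ f.B e1 e3
      simp only [f.B_smul_left, B_smul_right, f.Isom_B hk', f.B_add_left, B_add_right, h.hB, e4, f₀.B_zero_symm e2,
        f₀.B_self_of_Q_zero he, P.σσ', ZeroMemClass.coe_zero, mul_zero, add_zero] at this
      field_simp at this
      linear_combination -this
  have TQ : ∀ {b b₁ : V₀} {ν : F}, P.σ c • k (φ b) = φ b₁ + ν • φ e → f₀.B e b₁ = 0 → f₀.Q b = 0 → f₀.Q b₁ = 0 :=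
    fun {b b₁ ν} e1 e2 e3 => h.hQ' _ (by
      have := congrArg f.Q e1
      rw [f.Q_add_of_perp (by simp [h.perp.2 (f₀.B_zero_symm e2)])] at this
      simpa [f.Q_smul, f.Isom_Q hk', h.sing e3, h.sing he] using this.symm)
  have := fr_line (F := F₀) ⊥ e'
  rw [bot_sup_eq, finrank_bot] at this
  have := fr_line (F₀ ∙ e') z
  obtain ⟨y, y1, y2, y3⟩ := h.exS ((F₀ ∙ e') ⊔ F₀ ∙ z) ((F₀ ∙ e') ⊔ F₀ ∙ z) (by omega)
  obtain ⟨y', y4, y5⟩ := h.nd₀.exists_dual y1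
  obtain ⟨z', z4, z5⟩ := h.nd₀.exists_dual (x := z) (W := (F₀ ∙ e') ⊔ F₀ ∙ y) fun k => y1 (exchange h2 k)
  simp only [perp_sup_line, perp_line] at y3 y5 z5
  obtain ⟨z₁, ν, z6, z7⟩ := T z h1
  obtain ⟨y₁, ν', y6, y7⟩ := T y y3.1
  obtain ⟨z₂, _, z8, z9⟩ := T z' z5.1
  obtain ⟨y₂, _, y8, y9⟩ := T y' y5.1
  have n1 := TB z6 z7 z8 z9
  have n2 := TB y6 y7 y8 y9
  have n3 := TB z6 z7 y8 y9
  have n4 := TB y6 y7 z8 z9
  have n5 := TB y6 y7 z6 z7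
  simp only [z4, y4, y5.2, z5.2, f₀.B_zero_symm y3.2, OneMemClass.coe_one, mul_one, ZeroMemClass.coe_zero, mul_zero,
    ZeroMemClass.coe_eq_zero] at n1 n2 n3 n4 n5
  obtain ⟨N, eN⟩ : ∃ N : F₀, N = f₀.B z₁ z₂ := ⟨_, rfl⟩
  have n0 := n1
  rw [← eN] at n1
  have hN : P.σ N = N := by rw [n1]; simp [mul_comm]
  have hN0 : (N : F) ≠ 0 := n1 ▸ mul_ne_zero hc hc'
  obtain ⟨r, r1, r2⟩ := h.exK0 hK hz (f₀.B_zero_symm y3.2) y2
  obtain ⟨t, t1, t2⟩ := h.exK0 hK (TQ z6 z7 hz) (b := N⁻¹ • y₁) (by simp [n5]) (by simp [f₀.Q_smul, TQ y6 y7 y2])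
  obtain ⟨d, hd⟩ := f.exists_t (P.σ (ν * ζ / N) • φ z₂ + P.σ (ν' * ζ / N) • φ y₂)
  obtain ⟨s, s1⟩ := exists_eich (h.sing he) (by simp [h.perp.2 (f₀.B_zero_symm z9), h.perp.2 (f₀.B_zero_symm y9)]) hd
  have s2 : s (φ z₁) = P.σ c • k (φ z) := by
    rw [z6, s1.app_perp (h.perp.2 (f₀.B_zero_symm z7))]
    simp only [B_add_right, B_smul_right, P.σσ', h.hB, n3, ZeroMemClass.coe_zero, n1, n0]
    congr 2; field_simp; ring
  have s3 : s (φ y₁) = P.σ c • k (φ y) := by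
    rw [y6, s1.app_perp (h.perp.2 (f₀.B_zero_symm y7))]
    simp only [B_add_right, B_smul_right, P.σσ', h.hB, n4, ZeroMemClass.coe_zero, n2, n1]
    congr 2; field_simp; ring
  have s4 := t2.conj s1.mem_Isom
  rw [s2] at s4
  have s5 := s4.smul (by rw [f.Isom_Q hk', h.sing hz]) (by simpa [hc] using s4.ha)
  have s6 : s * t * s⁻¹ = k * r * k⁻¹ := s5.unique (by
    convert r2.conj hk' using 1
    · simp only [Subfield.smul_def, map_smul, s3, Subfield.coe_inv, n1, smul_smul, P.σσ']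
      congr 1; field_simp
    · simp)
  have s7 := s1.comm_of_smul t2.mem_Isom one_ne_zero (by
    rw [one_smul, t2.fix (h.perp.2 z7) (by simp [Subfield.smul_def, h.perp.2 y7])])
  obtain ⟨b, κ, s8⟩ := (h.rat_or_L hK he h0 ⟨_, (by
    rw [commutatorElement_def, show t * s * t⁻¹ * s⁻¹ = t * (s * t * s⁻¹)⁻¹ by group, s6]
    exact mul_mem t1 (inv_mem (mul_mem (mul_mem hk r1) (inv_mem hk)))), _, s7⟩).resolve_right hL
  have s9 := congrArg (f.B · (φ y₂)) s8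
  rw [map_one, one_smul, t2.app, f.B_symm (φ z₁)] at s9
  simp only [B_sub_left, f.B_add_left, B_add_right, f.B_smul_left, B_smul_right, h.hB, n3, n2, ← n1, y9, P.σσ', smul,
    ZeroMemClass.coe_zero, Subfield.coe_inv, mul_zero, zero_mul, add_zero, P.εε_mul] at s9
  have s10 : P.σ ν = - f₀.B b y₂ := by
    rw [← eN, show ν * ζ / N * (ζ⁻¹ * N) = ν by field_simp] at s9
    field_simp at s9
    exact mul_right_cancel₀ hμ (by linear_combination -s9)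
  have s11 : ν ∈ F₀ := h.σ_mem.1 (s10 ▸ neg_mem (f₀.B b y₂).2)
  refine ⟨N⁻¹ • (z₁ + (⟨ν, s11⟩ : F₀) • e), smul_right_injective V hc' ?_⟩
  simp only [z6, smul, map_add, Subfield.coe_inv, n1]
  match_scalars <;> field_simp

omit [FiniteDimensional F V] in
theorem pres (h : Sf f f₀ φ ζ) (hK : ratS φ ⊓ f.E ≤ K) (hL : ¬ ∀ l, h.L K l) {k : V ≃ₗ[F] V} (hk : k ∈ K)
    (hk' : k ∈ f.Isom) {e e' : V₀} (he' : f₀.Q e' = 0) (h0 : e' ≠ 0) {c : F}
    (ke : k (φ e') = c • φ e) (u : V₀) : ∃ u₁, k (φ u) = c • φ u₁ := by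
  have := h.dim
  have hc : c ≠ 0 := by rintro rfl; exact h0 (h.inj (k.injective (by simpa using ke)))
  let A : AddSubgroup V₀ :=
    { carrier := {u | ∃ u₁, k (φ u) = c • φ u₁}
      add_mem' := fun ⟨a, ha⟩ ⟨b, hb⟩ => ⟨a + b, by simp [ha, hb]⟩
      zero_mem' := ⟨0, by simp⟩
      neg_mem' := fun ⟨a, ha⟩ => ⟨-a, by simp [ha]⟩ }
  refine conn h.i3 h.nd₀ ⊥ (by rw [finrank_bot]; omega) A ⟨e, ke⟩ (by simpa using h0)
    (fun u ⟨u₁, hu⟩ k1 z k2 _ k3 k4 => ?_) u (by simp)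
  have k1 : f₀.Q u = 0 := k1.elim (fun e => e ▸ he') id
  by_cases k5 : z ∈ F₀ ∙ u
  · obtain ⟨m, rfl⟩ := Submodule.mem_span_singleton.1 k5
    exact ⟨m • u₁, by simp only [Subfield.smul_def, map_smul, hu, smul_comm c]⟩
  refine h.step hK hL hk hk' (h.hQ' _ ?_) k1 ?_ hc hu k2 k3 k5
  · have := congrArg f.Q hu
    simpa [f.Isom_Q hk', h.sing k1, f.Q_smul, hc] using this.symm
  · rintro rfl
    rw [h.inj (u := u) (k.injective (by simpa using hu))] at k4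
    exact k4 (zero_mem _)

omit [FiniteDimensional F V] in
theorem not_le (h : Sf f f₀ φ ζ) (h0 : F₀ ≠ ⊤) : ¬ f.E ≤ ratS φ := fun k => by
  have := h.dim
  have hζ := h.hζ
  obtain ⟨l, hl⟩ : ∃ l, l ∉ F₀ := by
    by_contra c; push Not at c; exact h0 (eq_top_iff.2 fun x _ => c x)
  obtain ⟨e, e1, e2, -⟩ := h.exS ⊥ ⊥ (by simp)
  have e1 : e ≠ 0 := by simpa using e1
  obtain ⟨y, b, k4, k5, k6⟩ := h.i3.hyp h.nd₀ (F₀ ∙ e) (by rw [finrank_span_singleton e1]; omega)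
  rw [perp_line] at k5 k6
  obtain ⟨d, hd⟩ := f.exists_t (P.σ (l * ζ) • φ b)
  obtain ⟨g, hg⟩ := exists_eich (h.sing e2) (by simp [h.perp.2 (f₀.B_zero_symm k6)]) hd
  obtain ⟨c, c0, hc⟩ := k hg.mem_E
  obtain ⟨e', k1⟩ := hc e
  obtain ⟨y', k2⟩ := hc y
  rw [hg.fix_x] at k1
  have k3 := h.coef (u := e) (e := e') (by rintro rfl; exact e1 (h.inj (by simpa using k1))) k1
  rw [hg.app_perp (h.perp.2 (f₀.B_zero_symm k5))] at k2
  refine hl (h.coef (u := (⟨c, k3⟩ : F₀) • y' - y) e1 ?_)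
  simp only [map_sub, smul, ← k2, B_smul_right, P.σσ', h.hB, k4.hxy, OneMemClass.coe_one]
  match_scalars <;> field_simp
  ring

omit [FiniteDimensional F V] in
theorem max_tv [Finite F] (h : Sf f f₀ φ ζ) (hK : ratS φ ⊓ f.E ≤ K) (hK' : K ≤ f.Isom) (hL : ¬ ∀ l, h.L K l)
    {c₀ : F₀} (h0 : c₀ ≠ 0) (h1 : P₀.t c₀ = 0) : K ≤ ratS φ := fun g hg => by
  by_contra hn
  have := h.dim
  have hμ := h.μ_ne
  have hc : P.ε * (P.σ ζ * c₀) ≠ 0 := by simp [P.ε_ne, h.hζ, h0]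
  have T : ∀ e, f₀.Q e = 0 → ∃ t ∈ K, f.IsEich t (φ e) 0 (P.σ ζ * c₀) := fun e he => by
    obtain ⟨g₀, g1⟩ := exists_eich he (a := 0) (c := c₀) (by simp) (by simp [h1])
    obtain ⟨r, r1, r2, -⟩ := h.extK hK g1
    exact ⟨r, r1, by simpa using r2⟩
  obtain ⟨e, e1, e2, -⟩ := h.exS ⊥ ⊥ (by simp)
  have e1 : e ≠ 0 := by simpa using e1
  have e3 := finrank_span_singleton (K := F₀) e1
  obtain ⟨e', e4, e5, e6⟩ := h.exS (F₀ ∙ e) (F₀ ∙ e) (by omega)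
  rw [perp_line] at e6
  have e7 : e' ≠ 0 := fun k => e4 (by simp [k])
  obtain ⟨r, r1, r2⟩ := T e e2
  have r3 := r2.conj (hK' hg)
  have r4 := mul_mem (mul_mem hg r1) (inv_mem hg)
  rw [map_zero] at r3
  generalize g * r * g⁻¹ = ρ at r3 r4
  have G : ∀ z, f₀.Q z = 0 → z ≠ 0 → f.B (φ z) (g (φ e)) ≠ 0 := fun z z1 z2 z3 => by
    obtain ⟨u, hu⟩ : ∃ u, f.B (φ u) (g (φ e)) ≠ 0 := by
      by_contra c; push Not at c
      exact e1 (h.inj (g.injective (by simpa using h.eq_zero c)))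
    obtain ⟨u', k⟩ := h.pres hK hL r4 (hK' r4) z1 z2 (c := 1) (e := z) (by rw [one_smul, r3.fix z3 (by simp)]) u
    have k' : g (φ e) = (P.ε * (P.σ ζ * c₀) * f.B (φ u) (g (φ e)))⁻¹ • φ (u - u') := by
      rw [eq_inv_smul_iff₀ (mul_ne_zero hc hu), map_sub, ← one_smul F (φ u'), ← k, r3.app]; simp
    exact hn ⟨_, inv_ne_zero (mul_ne_zero hc hu), h.pres hK hL hg (hK' hg) e2 e1 k'⟩
  generalize g (φ e) = x at r3 G
  have O : ∀ z, f₀.Q z = 0 → z ≠ 0 → ∃ w ∈ K ⊓ mv (Submodule.span F {φ e, φ e', x}), z = e ∨ z = e' →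
      ∃ β : F, β ≠ 0 ∧ w (φ z) = β • x := fun z z1 z2 => by
    by_cases z3 : z = e ∨ z = e'
    swap
    · exact ⟨1, one_mem _, fun k => (z3 k).elim⟩
    obtain ⟨t, t1, t2⟩ := T z z1
    have G1 := G z z1 z2
    have G2 : f.B x (φ z) ≠ 0 := fun k => G1 (f.B_zero_symm k)
    obtain ⟨w, w1, β, w2, w3⟩ := orb (D := K ⊓ mv (Submodule.span F {φ e, φ e', x})) (t := t) (ρ := ρ)
      ⟨t1, fun v => by
        rw [t2.app]
        simpa using Submodule.smul_mem _ _ (Submodule.subset_span (by rcases z3 with rfl | rfl <;> simp))⟩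
      ⟨r4, fun v => by
        rw [r3.app]
        simpa using Submodule.smul_mem _ _ (Submodule.subset_span (by simp))⟩ (M := {φ z})
      (mul_ne_zero (mul_ne_zero hc G1) (mul_ne_zero hc G2)) (by rintro _ rfl; exact t2.fix_x)
      (by rintro _ rfl; simp [r3.app (φ z), r3.fix_x])
      (by rintro _ rfl; simp only [r3.app (φ z), t2.app, B_zero_right, zero_smul, add_zero, smul_zero, sub_zero,
            sub_sub_cancel_left, B_neg_left, f.B_smul_left]; module) rfl (fun k => z2 (h.inj k))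
    refine ⟨w, w1, fun _ => ⟨_, neg_ne_zero.2 (mul_ne_zero w2 (mul_ne_zero hc G1)), ?_⟩⟩
    rw [w3 _ rfl, r3.app]; simp [smul_smul]
  obtain ⟨w, w1, w2⟩ := O e e2 e1
  obtain ⟨w', w3, w4⟩ := O e' e5 e7
  obtain ⟨β, w5, w2⟩ := w2 (.inl rfl)
  obtain ⟨β', w6, w4⟩ := w4 (.inr rfl)
  have k1 := mul_mem (inv_mem w1) w3
  have k2 : (w⁻¹ * w') (φ e') = (β' / β) • φ e := w.injective (by
    simp [w2, w4, smul_smul, w5])
  generalize w⁻¹ * w' = k at k1 k2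
  have k3 : φ e' - k⁻¹ (φ e') = 0 := h.eq_zero fun u => by
    obtain ⟨u₁, k3⟩ := h.pres hK hL k1.1 (hK' k1.1) e5 e7 k2 u
    obtain ⟨α, α', γ, k4⟩ := Submodule.mem_span_triple.1 (k1.2 (φ u))
    have := fr_line (F₀ ∙ e) e'
    have := fr_line ((F₀ ∙ e) ⊔ F₀ ∙ e') u
    have := fr_line (((F₀ ∙ e) ⊔ F₀ ∙ e') ⊔ F₀ ∙ u) u₁
    obtain ⟨z, z1, z2, z3⟩ := h.exS ((((F₀ ∙ e) ⊔ F₀ ∙ e') ⊔ F₀ ∙ u) ⊔ F₀ ∙ u₁) ⊥ (by rw [finrank_bot]; omega)
    simp only [perp_sup_line, perp_line] at z3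
    have k5 := congrArg (f.B (φ z)) k4
    simp only [k3, B_add_right, B_sub_right, B_smul_right, h.perp.2 (f₀.B_zero_symm z3.1.1.1),
      h.perp.2 (f₀.B_zero_symm z3.1.1.2), h.perp.2 (f₀.B_zero_symm z3.1.2), h.perp.2 (f₀.B_zero_symm z3.2),
      mul_zero, zero_add, sub_zero, mul_eq_zero, G z z2 (by simpa using z1), or_false, P.σ_eq_zero] at k5
    rw [B_sub_right, ← f.Isom_B_inv (hK' k1.1), ← neg_eq_zero, neg_sub, ← B_sub_left, ← k4]
    simp [k5, h.perp.2 e6, f.B_self_of_Q_zero (h.sing e5)]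
  have k4 : φ e' = (β' / β) • φ e := by
    rw [← k2]; conv_rhs => rw [sub_eq_zero.1 k3]
    simp
  exact e4 (Submodule.mem_span_singleton.2 ⟨⟨_, h.coef e1 k4⟩, sub_eq_zero.1 (h.inj (by simp [Subfield.smul_def, k4]))⟩)

omit [FiniteDimensional F V] in
theorem generic (h : Sf f f₀ φ ζ) (hK : ratS φ ⊓ f.E ≤ K) (hK' : K ≤ f.Isom) (hL : ¬ ∀ l, h.L K l)
    {g : V ≃ₗ[F] V} (hg : g ∈ K) (hn : g ∉ ratS φ) : ∃ x a, (∀ α β : F, α • x + β • a = 0 → α = 0 ∧ β = 0) ∧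
      f.Q a = 0 ∧ (∃ ρ ∈ K, f.IsEich ρ x (P.σ ζ • a) 0) ∧
        ∀ z, f₀.Q z = 0 → f.B (φ z) x = 0 → f.B (φ z) a = 0 → z = 0 := by
  have := h.dim
  have hμ := h.μ_ne
  have hζ := h.hζ
  have hg' := hK' hg
  obtain ⟨e, e1, e2, -⟩ := h.exS ⊥ ⊥ (by simp)
  have e1 : e ≠ 0 := by simpa using e1
  obtain ⟨b, b', k4, k5, k6⟩ := h.i3.hyp h.nd₀ (F₀ ∙ e) (by rw [finrank_span_singleton e1]; omega)
  rw [perp_line] at k5 k6
  have A : ∀ b b', f₀.Q b = 0 → f₀.B e b = 0 → f₀.B e b' = 0 → f₀.B b b' ≠ 0 →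
      (∃ x a, (∀ α β : F, α • x + β • a = 0 → α = 0 ∧ β = 0) ∧ f.Q a = 0 ∧ (∃ ρ ∈ K, f.IsEich ρ x (P.σ ζ • a) 0) ∧
        ∀ z, f₀.Q z = 0 → f.B (φ z) x = 0 → f.B (φ z) a = 0 → z = 0) ∨
      ∃ ρ, f.IsEich ρ (g (φ e)) (P.σ ζ • g (φ b)) 0 ∧ ∀ u, ∃ u', ρ (φ u) = φ u' := fun b b' h1 h2 h3 h4 => by
    obtain ⟨r, r1, r2⟩ := h.exK0 hK e2 (f₀.B_zero_symm h2) h1
    have r3 := r2.conj hg'
    have r4 := mul_mem (mul_mem hg r1) (inv_mem hg)
    rw [map_smul] at r3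
    by_cases G : ∀ z, f₀.Q z = 0 → f.B (φ z) (g (φ e)) = 0 → f.B (φ z) (g (φ b)) = 0 → z = 0
    · refine .inl ⟨_, _, fun α β k => ?_, by rw [f.Isom_Q hg', h.sing h1], ⟨_, r4, r3⟩, G⟩
      have := congrArg (f.B · (g (φ b'))) k
      simp [f.Isom_B hg', h.perp.2 h3, h.perp, h4] at this
      simp only [this, zero_smul, add_zero, smul_eq_zero, map_eq_zero_iff g g.injective] at k
      exact ⟨k.resolve_right fun k => e1 (h.inj k), this⟩
    · push Not at G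
      obtain ⟨z, z1, z2, z3, z4⟩ := G
      exact .inr ⟨_, r3, by simpa using h.pres hK hL r4 (hK' r4) z1 z4 (c := 1) (e := z) (by
        rw [one_smul, r3.fix z2 (by simp [z3])])⟩
  refine (A b b' k4.hx k5 k6 (by simp [k4.hxy])).elim id fun ⟨ρ, r1, r2⟩ => (A b' b k4.hy k6 k5
    (by simp [k4.hyx, P₀.ε_ne])).elim id fun ⟨ρ', r3, r4⟩ => (hn ?_).elim
  obtain ⟨u, hu⟩ : ∃ u, f.B (φ u) (g (φ e)) ≠ 0 := by
    by_contra c; push Not at c
    exact e1 (h.inj (g.injective (by simpa using h.eq_zero c)))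
  obtain ⟨u', k⟩ := r2 u
  obtain ⟨v, k'⟩ := r4 (u' - u)
  have k1 : φ (u' - u) = f.B (φ u) (P.σ ζ • g (φ b)) • g (φ e) - (P.ε * f.B (φ u) (g (φ e))) • P.σ ζ • g (φ b) := by
    rw [map_sub, ← k, r1.app]; module
  rw [r3.app_perp (by rw [k1]; simp [f.Isom_B hg', h.perp.2 (f₀.B_zero_symm k5), f.B_self_of_Q_zero (h.sing e2)])] at k'
  have k2 : f.B (φ (u' - u)) (P.σ ζ • g (φ b')) ≠ 0 := by
    rw [k1]; simp [f.Isom_B hg', h.perp.2 k6, h.hB, k4.hxy, hζ, hu, P.ε_ne]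
  exact ⟨_, inv_ne_zero k2, h.pres hK hL hg hg' e2 e1 (e := v - (u' - u)) (by
    rw [eq_inv_smul_iff₀ k2, map_sub φ v, ← k', add_sub_cancel_left])⟩

omit [FiniteDimensional F V] in
theorem max_line [Finite F] (h : Sf f f₀ φ ζ) (hK : ratS φ ⊓ f.E ≤ K) (hK' : K ≤ f.Isom) (hL : ¬ ∀ l, h.L K l)
    (hσ : ∀ a, P.σ a = a) (hε : P.ε = 1) : K ≤ ratS φ := fun g hg => by
  by_contra hn
  have := h.dim
  have hζ := h.hζ
  obtain ⟨x, a, I, ha, ⟨ρ, r1, r2⟩, G⟩ := h.generic hK hK' hL hg hn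
  have sy : ∀ u v, f.B u v = f.B v u := fun u v => by rw [f.B_symm, hσ, hε, one_mul]
  let Δ : V₀ → V₀ → F := fun u v => f.B (φ u) x * f.B (φ v) a - f.B (φ u) a * f.B (φ v) x
  obtain ⟨e, b, e1, b1, e2, e3⟩ : ∃ e b, f₀.Q e = 0 ∧ f₀.Q b = 0 ∧ f₀.B e b = 0 ∧ Δ e b ≠ 0 := by
    by_contra c; push Not at c
    obtain ⟨e, e1, e2, -⟩ := h.exS ⊥ ⊥ (by simp)
    let A : AddSubgroup V₀ := (AddMonoidHom.ker ((f.left (f.B (φ e) x • a - f.B (φ e) a • x)).toAddMonoidHom.comp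
      φ.toAddMonoidHom))
    have hA : ∀ v, v ∈ A ↔ Δ e v = 0 := fun v => by simp [A, Δ, hσ]
    have k := I (- f.B (φ e) a) (f.B (φ e) x) (h.eq_zero fun u => by
      have := conn h.i3 h.nd₀ ⊥ (by rw [finrank_bot]; omega) A ((hA e).2 (by simp [Δ, mul_comm])) e1
        (fun u hu k1 z k2 _ k3 k4 => (hA z).2 (by
          have k1 : f₀.Q u = 0 := k1.elim (fun e => e ▸ e2) id
          have k5 := c u z k1 k2 k3
          rw [hA] at hu
          by_contra k6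
          refine k4 (G u k1 (mul_left_cancel₀ k6 ?_) (mul_left_cancel₀ k6 ?_) ▸ zero_mem _)
          · simp only [Δ] at *; linear_combination f.B (φ e) x * k5 + f.B (φ z) x * hu
          · simp only [Δ] at *; linear_combination f.B (φ e) a * k5 + f.B (φ z) a * hu)) u (by simp)
      rw [hA] at this
      simp only [B_add_right, B_smul_right, hσ]
      linear_combination this)
    exact e1 (G e e2 k.2 (neg_eq_zero.1 k.1))
  have e0 : e ≠ 0 := by rintro rfl; simp [Δ] at e3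
  have O : ∀ b, f₀.Q b = 0 → f₀.B e b = 0 → Δ e b ≠ 0 → ∃ w ∈ K, ∃ β : F, β ≠ 0 ∧
      w (φ e) = β • (ρ (φ e) - φ e) ∧ w (φ b) = β • (ρ (φ b) - φ b) := fun b b1 b2 b3 => by
    obtain ⟨t, t1, t2⟩ := h.exK0 hK e1 (f₀.B_zero_symm b2) b1
    obtain ⟨w, w1, β, w2, w3⟩ := orb t1 r1 (M := {φ e, φ b}) (neg_ne_zero.2 (mul_ne_zero (mul_ne_zero hζ hζ) b3))
      (by
        rintro _ (rfl | rfl)
        · exact t2.fix_x
        · exact t2.fix (h.perp.2 (f₀.B_zero_symm b2)) (by simp [f.B_self_of_Q_zero (h.sing b1)]))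
      (fun v _ => r2.fix (by simp [r2.app, r2.hxx, show f.B a x = 0 by simpa [hζ] using r2.ha])
        (by simp [r2.app, f.B_self_of_Q_zero ha, show f.B x a = 0 by simpa [hζ] using r2.hxa]))
      (by
        rintro _ (rfl | rfl) <;>
        · simp only [r2.app, t2.app, B_smul_right, hσ, hε, B_sub_left, f.B_add_left, f.B_smul_left, sy x, sy a, Δ,
            h.perp.2 b2, h.perp.2 (f₀.B_zero_symm b2), f.B_self_of_Q_zero (h.sing b1), f.B_self_of_Q_zero (h.sing e1)]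
          module) (.inl rfl) (fun k => e0 (h.inj k))
    exact ⟨w, w1, β, w2, w3 _ (.inl rfl), w3 _ (.inr rfl)⟩
  have := fr_line (F₀ ∙ e) b
  rw [finrank_span_singleton e0] at this
  obtain ⟨b', b2, b3, b4, b5, b6⟩ : ∃ b', b' ∉ (F₀ ∙ e) ⊔ F₀ ∙ b ∧ f₀.Q b' = 0 ∧ f₀.B e b' = 0 ∧ f₀.B b b' = 0 ∧
      Δ e b' ≠ 0 := by
    obtain ⟨y, y1, y2, y3⟩ := h.exS ((F₀ ∙ e) ⊔ F₀ ∙ b) ((F₀ ∙ e) ⊔ F₀ ∙ b) (by omega)
    simp only [perp_sup_line, perp_line] at y3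
    by_cases c : Δ e y = 0
    · refine ⟨b + y, fun k => y1 ((Submodule.add_mem_iff_right _ (Submodule.mem_sup_right
        (Submodule.mem_span_singleton_self b))).1 k), by rw [f₀.Q_add_of_perp y3.2, b1, y2, add_zero],
        by simp [e2, y3.1], by simp [y3.2, f₀.B_self_of_Q_zero b1], fun k => e3 ?_⟩
      simp only [Δ, map_add, f.B_add_left] at *
      linear_combination k - c
    · exact ⟨y, y1, y2, y3.1, y3.2, c⟩
  obtain ⟨w, w1, β, w2, w3, w4⟩ := O b b1 e2 e3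
  obtain ⟨w', w5, β', w6, w7, w8⟩ := O b' b3 b4 b6
  obtain ⟨b₁, k⟩ := h.pres hK hL (mul_mem (inv_mem w1) w5) (hK' (mul_mem (inv_mem w1) w5)) e1 e0 (c := β' / β) (e := e)
    (w.injective (by simp [w3, w7, smul_smul, w2, -smul_sub])) b'
  have k1 : φ b₁ = (Δ b' b / Δ e b) • φ e + (Δ e b' / Δ e b) • φ b :=
    smul_right_injective V (div_ne_zero w6 w2) (w.injective (by
      simp only [← k, LinearEquiv.mul_apply, LinearEquiv.coe_inv, LinearEquiv.apply_symm_apply, w8, map_smul, map_add,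
        w3, w4, r2.app, B_smul_right, hσ, hε]
      match_scalars <;> field_simp <;> (try simp only [Δ]) <;> ring))
  obtain ⟨y, y1, y2⟩ := h.nd₀.exists_dual b2
  simp only [perp_sup_line, perp_line] at y2
  have k2 := G (b' - b₁) (h.hQ' _ (by
    rw [map_sub, k1, f.Q_sub, f.Q_add_of_perp (by simp [h.perp.2 e2])]
    simp [f.Q_smul, h.sing e1, h.sing b1, h.sing b3, h.perp.2 (f₀.B_zero_symm b4), h.perp.2 (f₀.B_zero_symm b5)]))
    (by simp only [map_sub, k1, B_sub_left, f.B_add_left, f.B_smul_left]; field_simp; simp only [Δ]; ring)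
    (by simp only [map_sub, k1, B_sub_left, f.B_add_left, f.B_smul_left]; field_simp; simp only [Δ]; ring)
  have := congrArg (f.B · (φ y)) k1
  simp [← sub_eq_zero.1 k2, h.perp.2 y2.1, h.perp.2 y2.2, h.perp, y1] at this

theorem mi [Finite F] (h : Sf f f₀ φ ζ) (h0 : F₀ ≠ ⊤)
    (hZ : ∀ c, P.t c = 0 → (∃ b, c = b - P.ε * P.σ b) ∨
      ∃ l, ∃ c₀ : F₀, l ≠ 0 ∧ P₀.t c₀ = 0 ∧ c = l * P.σ l * (P.σ ζ * c₀))
    (hc : (∃ c₀ : F₀, c₀ ≠ 0 ∧ P₀.t c₀ = 0) ∨ ((∀ a, P.σ a = a) ∧ P.ε = 1) ∨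
      ∀ x a, ∃ z, z ≠ 0 ∧ f₀.Q z = 0 ∧ f.B (φ z) x = 0 ∧ f.B (φ z) a = 0) : MI f.E (ratS φ) := by
  refine ⟨h.not_le h0, fun K k1 k2 g hg hn => h.E_le k1 hZ (by_contra fun hL => ?_)⟩
  have k3 := k2.trans E_le_Isom
  rcases hc with ⟨c, c1, c2⟩ | ⟨c1, c2⟩ | c
  · exact hn (h.max_tv k1 k3 hL c1 c2 hg)
  · exact hn (h.max_line k1 k3 hL c1 c2 hg)
  · obtain ⟨x, a, -, -, -, G⟩ := h.generic k1 k3 hL hg hn
    obtain ⟨z, z1, z2, z3, z4⟩ := c x a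
    exact z1 (G z z2 z3 z4)

end Sf

end CfsgH5.Mx
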