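import Cfsg.Agent.H5.Mx6
import Cfsg.Agent.H5.As4

set_option autoImplicit false

/-!
Maximal subgroups of classical groups, part 7: subfield subgroups of matrix groups.
-/

namespace CfsgH5.Mx

open Module CForm Au Cfsg.Geo Matrix

universe u

variable {ι : Type} [Fintype ι] [DecidableEq ι] {F : Type u} [Field F]

/-- the rational structure given by the columns of `P` -/
def phiP (F₀ : Subfield F) (P : GL ι F) : (ι → F₀) →ₗ[F₀] (ι → F) where
  toFun u := P.1 *ᵥ fun i => (u i : F)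
  map_add' u v := by rw [← mulVec_add]; rfl
  map_smul' c u := by rw [RingHom.id_apply, Subfield.smul_def, ← mulVec_smul]; rfl

variable {F₀ : Subfield F} {P : GL ι F}

theorem phiP_apply (u : ι → F₀) : phiP F₀ P u = P.1 *ᵥ fun i => (u i : F) := rfl

theorem phiP_single (j : ι) : phiP F₀ P (Pi.single j 1) = P.1 *ᵥ Pi.single j 1 := by
  rw [phiP_apply]; congr 1; ext i; by_cases h : i = j <;> simp [h]

theorem phiP_inj {u : ι → F₀} (h : phiP F₀ P u = 0) : u = 0 := by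
  have := (gl P).injective (a₁ := fun i => (u i : F)) (a₂ := 0) (h.trans (map_zero _).symm)
  ext i; simpa using congrFun this i

theorem phiP_span : Submodule.span F (Set.range (phiP F₀ P)) = ⊤ := eq_top_iff.2 fun v _ => by
  obtain ⟨w, rfl⟩ := (gl P).surjective v
  rw [pi_eq_sum_univ' w, map_sum]
  exact Submodule.sum_mem _ fun i _ => by
    rw [map_smul]; exact Submodule.smul_mem _ _ (Submodule.subset_span ⟨_, phiP_single i⟩)

theorem mem_subS [Finite F] {g : GL ι F} : g ∈ subfieldSubgroup F₀ P ↔ gl g ∈ ratS (phiP F₀ P) := by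
  have e : ∀ (c : F) v, P.1 *ᵥ ((c • As.cj P⁻¹ g.1) *ᵥ v) = c • g.1 *ᵥ (P.1 *ᵥ v) := fun c v => by
    simp [As.cj, smul_mulVec, mulVec_smul, ← mul_assoc]
  rw [As.mem_subfieldSubgroup]
  refine ⟨fun ⟨c, h1, h2⟩ => ⟨c⁻¹, inv_ne_zero h1, fun u => ⟨fun i => ⟨((c • As.cj P⁻¹ g.1) *ᵥ fun i => (u i : F)) i,
    sum_mem fun j _ => mul_mem (h2 i j) (u j).2⟩, ?_⟩⟩, fun ⟨c, h1, h2⟩ => ⟨c⁻¹, inv_ne_zero h1, fun i j => ?_⟩⟩
  · rw [eq_inv_smul_iff₀ h1]; exact (e c _).symm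
  · obtain ⟨u, hu⟩ := h2 (Pi.single j 1)
    have := (gl P).injective (a₁ := (c⁻¹ • As.cj P⁻¹ g.1) *ᵥ Pi.single j 1) (a₂ := fun i => (u i : F)) (by
      rw [gl_apply, e, ← phiP_single, inv_smul_eq_iff₀ h1]; exact hu)
    have := congrFun this i
    rw [mulVec_single_one] at this
    exact (show (c⁻¹ • As.cj P⁻¹ g.1) i j = u i from this) ▸ (u i).2

theorem finrank_sub [Fintype F] {r : ℕ} (h : Fintype.card F = Nat.card F₀ ^ r) : finrank F₀ F = r := by
  rw [← Nat.card_eq_fintype_card, Module.natCard_eq_pow_finrank (K := F₀)] at h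
  exact Nat.pow_right_injective Finite.one_lt_card h

theorem sub_max [Fintype F] {r : ℕ} (hr : r.Prime) (h : Fintype.card F = Nat.card F₀ ^ r) (L : Subring F)
    (hL : ∀ a ∈ F₀, a ∈ L) : (∀ a ∈ L, a ∈ F₀) ∨ L = ⊤ := by
  have := Subalgebra.isSimpleOrder_of_finrank_prime F₀ F (finrank_sub h ▸ hr)
  let A : Subalgebra F₀ F := { L with algebraMap_mem' := fun a => hL a a.2 }
  refine (eq_bot_or_eq_top A).imp (fun e a ha => ?_) fun e => eq_top_iff.2 fun a _ => ?_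
  · obtain ⟨b, rfl⟩ := Algebra.mem_bot.1 (e ▸ show a ∈ A from ha)
    exact b.2
  · exact show a ∈ A from e ▸ Algebra.mem_top

theorem sub_ne [Fintype F] {r : ℕ} (hr : r.Prime) (h : Fintype.card F = Nat.card F₀ ^ r) : F₀ ≠ ⊤ := by
  rintro rfl
  rw [Nat.card_congr (Subfield.topEquiv (K := F)).toEquiv, Nat.card_eq_fintype_card] at h
  have := Nat.pow_right_injective (Fintype.one_lt_card (α := F)) ((pow_one _).trans h)
  exact hr.one_lt.ne this

variable {R : FP F} {f : CForm R (ι → F)} {ζ : F} {R₀ : FP F₀}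

theorem exists_Sf [Fintype F] {r : ℕ} (hr : r.Prime) (h : Fintype.card F = Nat.card F₀ ^ r) (hf : f.Nondeg)
    (hn : 9 ≤ Fintype.card ι) (hζ : ζ ≠ 0) (hP : ∀ u v, ζ * f.B (phiP F₀ P u) (phiP F₀ P v) ∈ F₀)
    (hσ : ∀ a : F₀, (R₀.σ a : F) = R.σ a) (hε : R.σ ζ * R.ε = (R₀.ε : F) * ζ) (Q₀ : (ι → F₀) → F₀)
    (h1 : ∀ u v, Q₀ (u + v) = Q₀ u + Q₀ v + R₀.t ⟨_, hP u v⟩) (h2 : ∀ a v, Q₀ (a • v) = a * R₀.σ a * Q₀ v)
    (h3 : ∀ v, ∃ c, R₀.t c = Q₀ v ∧ (⟨_, hP v v⟩ : F₀) = c + R₀.ε * R₀.σ c) (h4 : ∀ f₀ : CForm R₀ (ι → F₀), I3 f₀)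
    (h5 : ∀ b c, R₀.t c = Q₀ b → R.t (R.σ ζ * c) = f.Q (R.σ ζ • phiP F₀ P b))
    (h6 : ∀ b, f.Q (phiP F₀ P b) = 0 → Q₀ b = 0) : ∃ f₀ : CForm R₀ (ι → F₀), Sf f f₀ (phiP F₀ P) ζ := by
  refine ⟨⟨fun u v => ⟨_, hP u v⟩, Q₀, fun u v w => Subtype.ext (by simp [mul_add]), fun a u w => Subtype.ext (by
    simp [Subfield.smul_def, mul_left_comm]), fun u v => Subtype.ext ?_, h1, h2, h3⟩, hf, fun v hv => phiP_inj (P := P)
    (hf _ fun w => ?_), h4 _, by simpa using hn, hζ, fun u v => by simp [hζ], fun a ha => hσ ⟨a, ha⟩ ▸ Subtype.prop _,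
    hε, h5, h6, phiP_span, sub_max hr h⟩
  · have e : (R₀.ε : F) * R₀.ε = 1 := by rw [← Subfield.coe_mul, R₀.εε]; rfl
    simp only [Subfield.coe_mul, hσ, map_mul, f.B_symm (phiP F₀ P u)]
    linear_combination (- R₀.ε * R.ε * R.σ (f.B (phiP F₀ P u) (phiP F₀ P v))) * hε +
      (R₀.ε * R.σ ζ * R.σ (f.B (phiP F₀ P u) (phiP F₀ P v))) * R.εε -
      (ζ * R.ε * R.σ (f.B (phiP F₀ P u) (phiP F₀ P v))) * e
  · have : Submodule.span F (Set.range (phiP F₀ P)) ≤ LinearMap.ker (f.left (phiP F₀ P v)) := Submodule.span_le.2 (by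
      rintro _ ⟨u, rfl⟩; simpa [hζ] using congrArg Subtype.val (hv u))
    exact this (phiP_span (F₀ := F₀) (P := P) ▸ Submodule.mem_top)

theorem mi_sub_symp [Fintype F] {f : CForm (FP.symp F) (ι → F)} {r : ℕ} (hr : r.Prime)
    (h : Fintype.card F = Nat.card F₀ ^ r) (hf : f.Nondeg) (hn : 9 ≤ Fintype.card ι) (hζ : ζ ≠ 0)
    (hP : IsFormRationalStructure f.B F₀ ζ P) : MI f.E (ratS (phiP F₀ P)) := by
  obtain ⟨f₀, k⟩ := exists_Sf (R₀ := FP.symp F₀) hr h hf hn hζ (fun u v => hP _ _ (fun i => (u i).2) fun i => (v i).2)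
    (by simp) (by simp) 0 (by simp) (by simp) (fun v => ⟨0, by simp, Subtype.ext (by simp [f.symp_B_self])⟩)
    i3_symp (by simp) (by simp)
  refine k.mi (sub_ne hr h) (fun c _ => ?_) (.inl symp_ker)
  by_cases h2 : (2 : F) = 0
  · by_cases hc : c = 0
    · exact .inl ⟨0, by simp [hc]⟩
    obtain ⟨l, hl⟩ := exists_sq_of_two_eq_zero h2 (c / ζ)
    exact .inr ⟨l, 1, by rintro rfl; simp [eq_comm, hc, hζ] at hl, by simp, by simp [← sq, hl, hζ]⟩
  · exact .inl ⟨c / 2, by simp; field_simp; ring⟩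

theorem mi_sub_orth [Fintype F] {f : CForm (FP.orth F) (ι → F)} {r : ℕ} (hr : r.Prime)
    (h : Fintype.card F = Nat.card F₀ ^ r) (hf : f.Nondeg) (hn : 9 ≤ Fintype.card ι) (hζ : ζ ≠ 0)
    (hP : IsQuadFormRationalStructure (fun v => ζ * f.Q v) F₀ P) : MI f.E (ratS (phiP F₀ P)) := by
  have k1 : ∀ u, ζ * f.Q (phiP F₀ P u) ∈ F₀ := fun u => hP _ fun i => (u i).2
  obtain ⟨f₀, k⟩ := exists_Sf (R₀ := FP.orth F₀) hr h hf hn hζ (fun u v => by
      rw [orth_B, ← map_add, mul_sub, mul_sub]; exact sub_mem (sub_mem (k1 _) (k1 _)) (k1 _))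
    (by simp) (by simp) (fun u => ⟨_, k1 u⟩) (fun u v => Subtype.ext (by simp [f.Q_add, mul_add]))
    (fun a v => Subtype.ext (by simp [Subfield.smul_def, f.Q_smul, mul_left_comm]))
    (fun v => ⟨_, rfl, Subtype.ext (by simp [f.orth_B_self]; ring)⟩) i3_orth
    (fun b c e => by simp at e; simp [e, f.Q_smul, mul_assoc]) (fun b e => Subtype.ext (by simp [e]))
  exact k.mi (sub_ne hr h) (fun c hc => .inl ⟨0, by simpa using hc⟩) (.inr (.inl ⟨by simp, by simp⟩))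

variable {σ : F →+* F} {q : ℕ}

theorem unit_hZ (H : UF σ q) (c : F) (hc : (FP.unit σ H.invol).t c = 0) :
    ∃ b, c = b - (FP.unit σ H.invol).ε * (FP.unit σ H.invol).σ b := by
  obtain ⟨a, ha⟩ := exists_trace_eq H.ne_id H.invol (map_one σ)
  have : σ c = - c := eq_neg_of_add_eq_zero_right (by simpa using hc)
  exact ⟨a * c, by simp [this]; linear_combination (-c) * ha⟩

theorem fix_sub [Fintype F] (H : UF σ q) (h : Fintype.card F = Nat.card F₀ ^ 2) (a : F₀) : σ a = a := by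
  have := Fintype.ofFinite F₀
  rw [← Nat.card_eq_fintype_card, H.card] at h
  rw [H.pow, Nat.pow_left_injective two_ne_zero h, ← SubmonoidClass.coe_pow, Nat.card_eq_fintype_card,
    FiniteField.pow_card]

theorem mi_sub_unit [Fintype F] (H : UF σ q) {f : CForm (FP.unit σ H.invol) (ι → F)} {r : ℕ} (hr : r.Prime)
    (ho : Odd r) (h : Fintype.card F = Nat.card F₀ ^ r) (hf : f.Nondeg) (hn : 9 ≤ Fintype.card ι)
    (hP : IsFormRationalStructure f.B F₀ 1 P) : MI f.E (ratS (phiP F₀ P)) := by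
  have m : ∀ a : F₀, σ a ∈ F₀ := fun a => H.pow a ▸ pow_mem a.2 q
  let σ₀ : F₀ →+* F₀ := (σ.comp F₀.subtype).codRestrict F₀ m
  have e : ∀ a, (σ₀ a : F) = σ a := fun _ => rfl
  have i : ∀ a, σ₀ (σ₀ a) = a := fun a => Subtype.ext (H.invol a)
  have n : σ₀ ≠ RingHom.id _ := fun k => by
    have k1 : ∀ a ∈ F₀, σ a = a := fun a ha => congrArg Subtype.val (RingHom.congr_fun k ⟨a, ha⟩)
    let τ : F →ₐ[F₀] F := { σ with commutes' := fun a => k1 a a.2 }
    have k2 : AlgEquiv.ofBijective τ τ.bijective ^ 2 = 1 := AlgEquiv.ext fun a => H.invol a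
    have k3 : AlgEquiv.ofBijective τ τ.bijective ^ r = 1 := by
      rw [← finrank_sub h, ← IsGalois.card_aut_eq_finrank]; exact pow_card_eq_one'
    obtain ⟨s, rfl⟩ := ho
    rw [pow_succ, pow_mul, k2, one_pow, one_mul] at k3
    exact H.ne_id (RingHom.ext fun a => AlgEquiv.congr_fun k3 a)
  obtain ⟨q₀, H₀⟩ := exists_UF_of_invol n i
  have k1 : ∀ u v, 1 * f.B (phiP F₀ P u) (phiP F₀ P v) ∈ F₀ := fun u v => hP _ _ (fun i => (u i).2) fun i => (v i).2
  obtain ⟨f₀, k⟩ := exists_Sf (R₀ := FP.unit σ₀ i) hr h hf hn one_ne_zero k1 e (by simp) (fun u => ⟨_, k1 u u⟩)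
    (fun u v => Subtype.ext (by simp [← unit_Q, f.Q_add, e, -B_add_right, -CForm.B_add_left]))
    (fun a v => Subtype.ext (by simp [Subfield.smul_def, e, mul_left_comm, mul_assoc]))
    (fun v => by
      obtain ⟨c, hc⟩ := exists_trace_eq n i (b := ⟨_, k1 v v⟩) (Subtype.ext (by simp [e, ← unit_Q, unit_σ_Q]))
      exact ⟨c, hc, by simp [hc]⟩) (i3_unit H₀)
    (fun b c k => by simpa [e, unit_Q] using congrArg Subtype.val k) (fun b k => Subtype.ext (by simpa [unit_Q] using k))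
  exact k.mi (sub_ne hr h) (fun c hc => .inl (unit_hZ H c hc)) (.inl (unit_ker n))

theorem mi_sub_unit_symp [Fintype F] (H : UF σ q) {f : CForm (FP.unit σ H.invol) (ι → F)}
    (h : Fintype.card F = Nat.card F₀ ^ 2) (hf : f.Nondeg) (hn : 9 ≤ Fintype.card ι) (hζ : ζ ≠ 0) (hζ' : ζ + σ ζ = 0)
    (hP : IsFormRationalStructure f.B F₀ ζ P) (ha : ∀ u, f.Q (phiP F₀ P u) = 0) : MI f.E (ratS (phiP F₀ P)) := by
  have e := fix_sub H h
  obtain ⟨f₀, k⟩ := exists_Sf (R₀ := FP.symp F₀) Nat.prime_two h hf hn hζ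
    (fun u v => hP _ _ (fun i => (u i).2) fun i => (v i).2) (by simp [e]) (by simp; linear_combination hζ') 0 (by simp)
    (by simp) (fun v => ⟨0, by simp, Subtype.ext (by simp [← unit_Q, ha])⟩) i3_symp
    (fun b c _ => by simp [f.Q_smul, ha, e, H.invol]; linear_combination c * hζ') (by simp)
  exact k.mi (sub_ne Nat.prime_two h) (fun c hc => .inl (unit_hZ H c hc)) (.inl symp_ker)

theorem mi_sub_unit_orth [Fintype F] (H : UF σ q) {f : CForm (FP.unit σ H.invol) (ι → F)}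
    (h : Fintype.card F = Nat.card F₀ ^ 2) (hf : f.Nondeg) (hn : 9 ≤ Fintype.card ι) (h2 : (2 : F) ≠ 0)
    (hP : IsFormRationalStructure f.B F₀ 1 P) : MI f.E (ratS (phiP F₀ P)) := by
  have e := fix_sub H h
  have k1 : ∀ u v, 1 * f.B (phiP F₀ P u) (phiP F₀ P v) ∈ F₀ := fun u v => hP _ _ (fun i => (u i).2) fun i => (v i).2
  have k2 : ∀ u v, σ (f.B (phiP F₀ P u) (phiP F₀ P v)) = f.B (phiP F₀ P u) (phiP F₀ P v) := fun u v => by
    simpa using e ⟨_, k1 u v⟩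
  have c2 : ((2 : F₀) : F) = 2 := rfl
  obtain ⟨f₀, k⟩ := exists_Sf (R₀ := FP.orth F₀) Nat.prime_two h hf hn one_ne_zero k1 (by simp [e]) (by simp)
    (fun u => ⟨_, k1 u u⟩ / 2) (fun u v => Subtype.ext (by
      simp [f.unit_B_symm (phiP F₀ P u) (phiP F₀ P v), k2, c2]; field_simp; ring))
    (fun a v => Subtype.ext (by simp [Subfield.smul_def, e]; ring))
    (fun v => ⟨⟨_, k1 v v⟩ / 2, rfl, Subtype.ext (by simp [c2]; field_simp; ring)⟩) i3_orth
    (fun b c k => by simp at k; simp [e, k, unit_Q, c2, k2, map_ofNat]; field_simp; ring)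
    (fun b k => Subtype.ext (by simpa [unit_Q, c2, h2] using k))
  refine k.mi (sub_ne Nat.prime_two h) (fun c hc => .inl (unit_hZ H c hc)) (.inr (.inr fun x a => ?_))
  let ψ : (ι → F₀) →ₗ[F₀] F × F := (((f.left x).prod (f.left a)).restrictScalars F₀).comp (phiP F₀ P)
  have k3 := ψ.finrank_range_add_finrank_ker
  have k4 := (LinearMap.range ψ).finrank_le
  simp only [finrank_prod, finrank_sub h, finrank_fintype_fun_eq_card] at k3 k4
  obtain ⟨z, z1, z2, z3⟩ := k.i3 (LinearMap.ker ψ) (by omega)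
  exact ⟨z, z2, z3, congrArg Prod.fst z1, congrArg Prod.snd z1⟩

end CfsgH5.Mx
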