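import Cfsg.Agent.H5.Mx7

set_option autoImplicit false

/-!
Maximal subgroups of classical groups, part 8: transvections; reducible and classical subgroups of `SL`.
-/

namespace CfsgH5.Mx

open Module CForm Au Cfsg.Geo Matrix

universe u v

section
variable {F : Type u} [Field F] {V : Type v} [AddCommGroup V] [Module F V]

/-- `g` is the transvection with centre `x` and axis `φ` -/
structure IsT (g : V ≃ₗ[F] V) (x : V) (φ : V →ₗ[F] F) : Prop where
  hx : φ x = 0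
  app : ∀ v, g v = v + φ v • x

variable {K : Subgroup (V ≃ₗ[F] V)} {x y z : V} {φ ψ : V →ₗ[F] F} {g k : V ≃ₗ[F] V}

theorem exists_T (h : φ x = 0) : ∃ g, IsT g x φ := ⟨LinearEquiv.transvection h, h, fun _ => rfl⟩

theorem IsT.unique (h : IsT g x φ) (h' : IsT k x φ) : g = k := LinearEquiv.ext fun v => by rw [h.app, h'.app]

theorem IsT.det [FiniteDimensional F V] (h : IsT g x φ) : g ∈ LinearEquiv.det.ker := by
  rw [h.unique ⟨h.hx, fun _ => rfl⟩ (k := LinearEquiv.transvection h.hx)]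
  exact LinearEquiv.transvection.det_eq_one h.hx

theorem IsT.fix (h : IsT g x φ) {v : V} (hv : φ v = 0) : g v = v := by simp [h.app, hv]

theorem IsT.inv (h : IsT g x φ) : IsT g⁻¹ (-x) φ := ⟨by simp [h.hx], fun v => g.injective (by
  simp [h.app v, h.fix h.hx])⟩

theorem IsT.conj (h : IsT g x φ) (k : V ≃ₗ[F] V) : IsT (k * g * k⁻¹) (k x) (φ ∘ₗ k⁻¹.toLinearMap) :=
  ⟨by simp [h.hx], fun v => by simp [h.app]⟩

variable (K) in
/-- `K` contains the transvection with centre `x` and axis `φ` -/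
def TV (x : V) (φ : V →ₗ[F] F) : Prop := ∃ g ∈ K, IsT g x φ

theorem TV.hx (h : TV K x φ) : φ x = 0 := let ⟨_, _, h⟩ := h; h.hx

theorem tv_of (h : φ x = 0) (k : ∀ g, IsT g x φ → g ∈ K) : TV K x φ := let ⟨g, hg⟩ := exists_T h; ⟨g, k g hg, hg⟩

theorem TV.mem (h : TV K x φ) (hg : IsT g x φ) : g ∈ K := let ⟨_, h1, h2⟩ := h; h2.unique hg ▸ h1

theorem TV.add (h : TV K x φ) (h' : TV K y φ) : TV K (x + y) φ :=
  let ⟨a, h1, h2⟩ := h; let ⟨b, h3, h4⟩ := h'
  ⟨a * b, mul_mem h1 h3, by simp [h2.hx, h4.hx], fun v => by simp [h2.app, h4.app, h4.hx]; abel⟩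

theorem TV.add' (h : TV K x φ) (h' : TV K x ψ) : TV K x (φ + ψ) :=
  let ⟨a, h1, h2⟩ := h; let ⟨b, h3, h4⟩ := h'
  ⟨a * b, mul_mem h1 h3, by simp [h2.hx, h4.hx], fun v => by simp [h2.app, h4.app, h2.hx, add_smul]; abel⟩

theorem tv_zero (φ : V →ₗ[F] F) : TV K 0 φ := ⟨1, one_mem _, by simp, by simp⟩

theorem tv_zero' (x : V) : TV K x 0 := ⟨1, one_mem _, by simp, by simp⟩

theorem TV.neg (h : TV K x φ) : TV K (-x) φ := let ⟨_, h1, h2⟩ := h; ⟨_, inv_mem h1, h2.inv⟩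

theorem TV.smul {c : F} (h : TV K (c • x) φ) (hx : φ x = 0) : TV K x (c • φ) :=
  let ⟨g, h1, h2⟩ := h; ⟨g, h1, by simp [hx], fun v => by simp [h2.app, smul_smul, mul_comm]⟩

theorem TV.smul' {c : F} (h : TV K x (c • φ)) (hx : φ x = 0) : TV K (c • x) φ :=
  let ⟨g, h1, h2⟩ := h; ⟨g, h1, by simp [hx], fun v => by simp [h2.app, smul_smul, mul_comm]⟩

theorem TV.neg' (h : TV K x φ) : TV K x (-φ) := by
  rw [← neg_one_smul F φ]; exact TV.smul (by simpa using h.neg) h.hx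

theorem TV.sub (h : TV K x φ) (h' : TV K y φ) : TV K (x - y) φ := by simpa [sub_eq_add_neg] using h.add h'.neg

theorem TV.sub' (h : TV K x φ) (h' : TV K x ψ) : TV K x (φ - ψ) := by simpa [sub_eq_add_neg] using h.add' h'.neg'

theorem TV.conj (h : TV K x φ) (hk : k ∈ K) : TV K (k x) (φ ∘ₗ k⁻¹.toLinearMap) :=
  let ⟨_, h1, h2⟩ := h; ⟨_, mul_mem (mul_mem hk h1) (inv_mem hk), h2.conj k⟩

theorem TV.moveP (h : TV K x φ) (h' : TV K z ψ) (hx : ψ x = 0) : TV K x (φ z • ψ) := by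
  obtain ⟨t, h1, h2⟩ := h'
  have := h.conj h1
  rw [h2.fix hx] at this
  convert h.sub' this using 1
  ext v; simp [← LinearEquiv.coe_inv, h2.inv.app, mul_comm]

theorem TV.moveH (h : TV K x φ) (h' : TV K z ψ) (hz : φ z = 0) : TV K (ψ x • z) φ := by
  obtain ⟨t, h1, h2⟩ := h'
  have := h.conj h1
  rw [show φ ∘ₗ t⁻¹.toLinearMap = φ by ext v; simp [← LinearEquiv.coe_inv, h2.inv.app, hz], h2.app] at this
  simpa using this.sub h

theorem exists_fun {X : Submodule F V} (hx : x ∉ X) : ∃ φ : V →ₗ[F] F, φ x = 1 ∧ ∀ w ∈ X, φ w = 0 := by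
  obtain ⟨φ, h1, h2⟩ := Submodule.exists_le_ker_of_notMem hx
  exact ⟨(φ x)⁻¹ • φ, by simp [h1], fun w hw => by simp [show φ w = 0 from h2 hw]⟩

theorem exists_fun_line (hx : x ∉ F ∙ y) : ∃ φ : V →ₗ[F] F, φ x = 1 ∧ φ y = 0 :=
  let ⟨φ, h1, h2⟩ := exists_fun hx; ⟨φ, h1, h2 y (Submodule.mem_span_singleton_self y)⟩

theorem exists_smul_fun (h : ∀ v, ψ v = 0 → φ v = 0) : ∃ c : F, φ = c • ψ := by
  by_cases k : ψ = 0
  · exact ⟨0, by ext v; simp [h v (by simp [k])]⟩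
  obtain ⟨u, hu⟩ := DFunLike.ne_iff.1 k
  rw [LinearMap.zero_apply] at hu
  refine ⟨φ u / ψ u, LinearMap.ext fun v => ?_⟩
  have := h (ψ u • v - ψ v • u) (by simp [mul_comm])
  simp at this ⊢
  field_simp
  linear_combination this

theorem sp_map (h : ∀ φ : V →ₗ[F] F, φ x = 0 → TV K x φ) (hk : k ∈ K) (φ : V →ₗ[F] F) (hφ : φ (k x) = 0) :
    TV K (k x) φ := by
  convert (h (φ ∘ₗ k.toLinearMap) hφ).conj hk using 1
  ext; simp

theorem sh_map (h : ∀ x, φ x = 0 → TV K x φ) (hk : k ∈ K) (x : V) (hx : (φ ∘ₗ k⁻¹.toLinearMap) x = 0) :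
    TV K x (φ ∘ₗ k⁻¹.toLinearMap) := by simpa using (h _ hx).conj hk

variable (K) in
/-- the centres all of whose transvections lie in `K` -/
def SP : Submodule F V where
  carrier := {x | ∀ φ : V →ₗ[F] F, φ x = 0 → TV K x φ}
  zero_mem' φ _ := tv_zero φ
  smul_mem' c x h φ hφ := by
    by_cases hc : c = 0
    · simpa [hc] using tv_zero φ
    have : φ x = 0 := by simpa [hc] using hφ
    exact (h _ (by simp [this])).smul' this
  add_mem' {x y} h h' := by
    by_cases k : x ∈ F ∙ y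
    · obtain ⟨c, rfl⟩ := Submodule.mem_span_singleton.1 k
      intro φ hφ
      rw [← one_smul F y, smul_smul, ← add_smul] at hφ ⊢
      by_cases hc : c * 1 + 1 = 0
      · rw [hc, zero_smul]; exact tv_zero φ
      have : φ y = 0 := by simpa [-mul_one, hc] using hφ
      exact (h' _ (by simp [this])).smul' this
    · obtain ⟨ψ, h1, h2⟩ := exists_fun_line k
      obtain ⟨t, h3, h4⟩ := h' ψ h2
      simpa [h4.app, h1] using sp_map h h3

variable (K) in
/-- the axes all of whose transvections lie in `K` -/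
def SH : Submodule F (V →ₗ[F] F) where
  carrier := {φ | ∀ x, φ x = 0 → TV K x φ}
  zero_mem' x _ := tv_zero' x
  smul_mem' c φ h x hx := by
    by_cases hc : c = 0
    · simpa [hc] using tv_zero' x
    have : φ x = 0 := by simpa [hc] using hx
    exact (h _ (by simp [this])).smul this
  add_mem' {φ ψ} h h' := by
    by_cases k : ∀ v, ψ v = 0 → φ v = 0
    · obtain ⟨c, rfl⟩ := exists_smul_fun k
      intro x hx
      rw [← one_smul F ψ, smul_smul, ← add_smul] at hx ⊢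
      by_cases hc : c * 1 + 1 = 0
      · rw [hc, zero_smul]; exact tv_zero' x
      have : ψ x = 0 := by simpa [-mul_one, hc] using hx
      exact (h' _ (by simp [this])).smul this
    · push Not at k
      obtain ⟨u, h1, h2⟩ := k
      obtain ⟨t, h3, h4⟩ := h' (- (φ u)⁻¹ • u) (by simp [h1])
      have := sh_map h h3
      rwa [show φ ∘ₗ t⁻¹.toLinearMap = φ + ψ by ext v; simp [← LinearEquiv.coe_inv, h4.inv.app, h2]] at this

theorem IsT.stab [FiniteDimensional F V] (h : IsT g x φ) {W : Submodule F V} (k : x ∈ W ∨ ∀ w ∈ W, φ w = 0) :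
    g ∈ stabS F (W : Set V) := mem_stabS_of_le fun w hw =>
  k.elim (fun k => h.app w ▸ add_mem hw (W.smul_mem _ k)) fun k => (h.fix (k w hw)).symm ▸ hw

theorem SP_top [FiniteDimensional F V] {W : Submodule F V} (h0 : W ≠ ⊥)
    (hK : stabS F (W : Set V) ⊓ LinearEquiv.det.ker ≤ K) (hg : g ∈ K) (hn : g ∉ stabS F (W : Set V)) : SP K = ⊤ := by
  have h1 : W ≤ SP K := fun x hx φ h => tv_of h fun t ht => hK ⟨ht.stab (.inl hx), ht.det⟩
  obtain ⟨w, h2, h3⟩ : ∃ w ∈ W, g w ∉ W := by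
    by_contra c; push Not at c; exact hn (mem_stabS_of_le c)
  obtain ⟨ψ, h4, h5⟩ := exists_fun h3
  have h6 : g w ∈ SP K := sp_map (h1 h2) hg
  refine eq_top_iff.2 fun v _ => ?_
  obtain ⟨t, ht⟩ := exists_T (x := v - ψ v • g w) (φ := ψ) (by simp [h4])
  have : t (g w) ∈ SP K := sp_map h6 (hK ⟨ht.stab (.inr h5), ht.det⟩)
  rw [ht.app, h4, one_smul] at this
  simpa using add_mem (sub_mem this h6) ((SP K).smul_mem (ψ v) h6)

theorem SL_not_le [FiniteDimensional F V] {W : Submodule F V} (h0 : W ≠ ⊥) (h1 : W ≠ ⊤) :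
    ¬ LinearEquiv.det.ker ≤ stabS F (W : Set V) := fun k => by
  obtain ⟨w, h2, h3⟩ := (Submodule.ne_bot_iff W).1 h0
  obtain ⟨x, -, h4⟩ := SetLike.exists_of_lt (lt_top_iff_ne_top.2 h1)
  obtain ⟨φ, h5, h6⟩ := exists_fun_line (x := w) (y := x) fun e => h4 ((Submodule.span_singleton_le_iff_mem _ _).2 h2
    (line_symm h3 e))
  obtain ⟨t, ht⟩ := exists_T h6
  have := (mem_stabS.1 (k ht.det) w).1 h2
  rw [ht.app, h5, one_smul] at this
  exact h4 ((W.add_mem_iff_right h2).1 this)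

variable {P : FP F} (f : CForm P V)

/-- the similarities of the sesquilinear form -/
def simS : Subgroup (V ≃ₗ[F] V) where
  carrier := {g | ∃ c : Fˣ, ∀ u v, f.B (g u) (g v) = c * f.B u v}
  mul_mem' := fun ⟨c, h⟩ ⟨d, h'⟩ => ⟨c * d, fun u v => by simp [h, h', mul_assoc]⟩
  one_mem' := ⟨1, by simp⟩
  inv_mem' {g} := fun ⟨c, h⟩ => ⟨c⁻¹, fun u v => by
    have := h (g⁻¹ u) (g⁻¹ v)
    simp at this; simp [this]⟩

variable {f} [FiniteDimensional F V]

theorem sim_of_lines (h3 : I3 f) (hf : f.Nondeg) (hd : 7 ≤ finrank F V)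
    (h : ∀ x a, f.Q x = 0 → f.Q a = 0 → f.B x a = 0 → a ∉ F ∙ x →
      ∀ v, f.B (g v) (g x) = 0 → f.B (g v) (g a) = 0 → f.B v x = 0) : g ∈ simS f := by
  have k : ∀ x, f.Q x = 0 → ∃ m, ∀ v, f.B v x = m * f.B (g v) (g x) := fun x hx => by
    obtain ⟨m, hm⟩ := exists_smul_fun (φ := f.left x) (ψ := f.left (g x) ∘ₗ g.toLinearMap) fun v hv => by
      obtain ⟨y, hy⟩ := hf.riesz (f.left (g v) ∘ₗ g.toLinearMap)
      have := fr_line (F ∙ x) y
      have := finrank_line_le (F := F) x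
      obtain ⟨a, -, h1, h2, h4⟩ := h3.sing hf ⊤ ((F ∙ x) ⊔ F ∙ y) (F ∙ x) (by rw [finrank_top]; omega)
      simp only [perp_sup_line, perp_line] at h4
      exact h x a hx h2 h4.1 h1 v hv (f.B_zero_symm ((hy a).symm.trans (f.B_zero_symm h4.2)))
    exact ⟨m, fun v => LinearMap.congr_fun hm v⟩
  obtain ⟨x, y, hx, -⟩ := h3.hyp hf ⊥ (by rw [finrank_bot]; omega)
  obtain ⟨m, hm⟩ := k x hx.hx
  have h0 : m ≠ 0 := by rintro rfl; simpa [hx.hyx, P.ε_ne] using hm y
  let A : AddSubgroup V :=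
    { carrier := {x | ∀ v, f.B v x = m * f.B (g v) (g x)}
      add_mem' := fun ha hb v => by simp [ha v, hb v, mul_add]
      zero_mem' := by simp
      neg_mem' := fun ha v => by simp [ha v] }
  have := conn h3 hf ⊥ (by rw [finrank_bot]; omega) A hm (by simpa using hx.x_ne) fun u hu k1 z k2 _ k3 k4 => by
    have k1 : f.Q u = 0 := k1.elim (fun e => e ▸ hx.hx) id
    rw [bot_sup_eq] at k4
    obtain ⟨m', h1⟩ := k z k2
    obtain ⟨m'', h2⟩ := k (u + z) (by rw [f.Q_add_of_perp k3, k1, k2, add_zero])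
    obtain ⟨v, h4, h5⟩ := hf.exists_dual (x := g u) (W := F ∙ g z) fun e => k4 (by
      obtain ⟨c, e⟩ := Submodule.mem_span_singleton.1 e
      exact Submodule.mem_span_singleton.2 ⟨c, g.injective (by simp [e])⟩)
    obtain ⟨v, rfl⟩ := g.surjective v
    have h6 := h2 v
    simp only [map_add, B_add_right, hu v, h1 v, f.B_one_symm h4, f.B_zero_symm (perp_line.1 h5), mul_zero, add_zero,
      mul_eq_mul_right_iff, P.ε_ne, or_false] at h6
    intro w
    have := h2 w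
    simp only [map_add, B_add_right, hu w, ← h6] at this
    linear_combination this
  exact ⟨(Units.mk0 m h0)⁻¹, fun u v => by simp [this v (by simp) u, h0]⟩

theorem SH_top (h3 : I3 f) (hf : f.Nondeg) (hd : 13 ≤ finrank F V) (hK : f.E ≤ K) (hg : g ∈ K) (hn : g ∉ simS f) :
    SH K = ⊤ := by
  obtain ⟨x, a, h1, h2, h4, h5, v, h6, h7, h8⟩ : ∃ x a, f.Q x = 0 ∧ f.Q a = 0 ∧ f.B x a = 0 ∧ a ∉ F ∙ x ∧
      ∃ v, f.B (g v) (g x) = 0 ∧ f.B (g v) (g a) = 0 ∧ f.B v x ≠ 0 := by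
    by_contra c; push Not at c; exact hn (sim_of_lines h3 hf (by omega) c)
  obtain ⟨ρ, hρ⟩ := exists_eich h1 (f.B_zero_symm h4) (c := 0) (by simp [h2])
  obtain ⟨x', hx'⟩ := hf.riesz (f.left x ∘ₗ g⁻¹.toLinearMap)
  obtain ⟨a', ha'⟩ := hf.riesz (f.left a ∘ₗ g⁻¹.toLinearMap)
  let u := f.B v a • g x - (P.ε * f.B v x) • g a
  have hu : u ≠ 0 := fun e => h5 (Submodule.mem_span_singleton.2 ⟨f.B v a / (P.ε * f.B v x), g.injective (by
    rw [map_smul, div_eq_inv_mul, mul_smul, sub_eq_zero.1 e, inv_smul_smul₀ (mul_ne_zero P.ε_ne h8)])⟩)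
  have := finrank_line_le (F := F) u
  have := finrank_line_le (F := F) (g x)
  have := fr_line (F ∙ g x) (g a)
  have := fr_line ((F ∙ g x) ⊔ F ∙ g a) x'
  have := fr_line (((F ∙ g x) ⊔ F ∙ g a) ⊔ F ∙ x') a'
  have := fr_line ((((F ∙ g x) ⊔ F ∙ g a) ⊔ F ∙ x') ⊔ F ∙ a') (g v)
  obtain ⟨z, -, z1, z2, z3⟩ := h3.sing hf ⊤ (((((F ∙ g x) ⊔ F ∙ g a) ⊔ F ∙ x') ⊔ F ∙ a') ⊔ F ∙ g v) (F ∙ u)
    (by rw [finrank_top]; omega)
  simp only [perp_sup_line, perp_line] at z3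
  obtain ⟨⟨⟨⟨z3, z4⟩, z5⟩, z6⟩, z7⟩ := z3
  obtain ⟨c, hc⟩ := f.exists_t (g v)
  obtain ⟨t, ht⟩ := exists_eich z2 z7 hc
  have r1 : ∀ w, (g * ρ * g⁻¹) w = w + f.B w a' • g x - (P.ε * f.B w x') • g a := fun w => by
    simp [hρ.app, hx', ha']
  have r2 : ∀ w, (g * ρ * g⁻¹)⁻¹ w = w - f.B w a' • g x + (P.ε * f.B w x') • g a := fun w => by
    rw [show (g * ρ * g⁻¹)⁻¹ = g * ρ⁻¹ * g⁻¹ by group]
    simp only [LinearEquiv.mul_apply, hρ.inv.app]
    simp [hx', ha', sub_eq_add_neg]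
  have r3 := mul_mem (mul_mem hg (hK hρ.mem_E)) (inv_mem hg)
  generalize g * ρ * g⁻¹ = r at r1 r2 r3
  have r4 : r z = z := by simp [r1, f.B_zero_symm z5, f.B_zero_symm z6]
  have r5 : r (g v) = g v + u := by simp [r1, hx', ha', u, add_sub_assoc]
  have u1 : f.B u z = 0 := by simp [u, z3, z4]
  have k1 : TV K (- P.ε • u) (f.left z) := ⟨_, mul_mem (mul_mem (mul_mem r3 (hK ht.mem_E)) (inv_mem r3))
    (inv_mem (hK ht.mem_E)), by simp [u1], fun w => by
      obtain ⟨w, rfl⟩ := t.surjective w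
      have e1 : f.B (r⁻¹ w) z = f.B w z := by simp [r2, z3, z4]
      have e2 : f.B (r⁻¹ w) (g v) = f.B w (g v) := by simp [r2, f.B_zero_symm h6, f.B_zero_symm h7]
      have e3 : f.B (t w) z = f.B w z := by rw [← ht.fix_x, f.Isom_B ht.mem_Isom, ht.fix_x]
      simp only [LinearEquiv.mul_apply, LinearEquiv.coe_inv, LinearEquiv.symm_apply_apply, left_apply, e3]
      simp only [← LinearEquiv.coe_inv, ht.app, e1, e2, map_sub, map_add, map_smul, r4, r5]
      simp only [LinearEquiv.coe_inv, LinearEquiv.apply_symm_apply]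
      module⟩
  have iso : ∀ s ∈ f.Isom, ∀ a, f.left a ∘ₗ s⁻¹.toLinearMap = f.left (s a) := fun s hs a => by
    ext w; simpa using f.Isom_B_symm hs w a
  have := finrank_line_le (F := F) z
  have k2 : f.left z ∈ SH K := fun y hy => span_perp h3 hf (F ∙ z) (by omega)
    { carrier := {y | TV K y (f.left z)}, add_mem' := TV.add, zero_mem' := tv_zero _, neg_mem' := TV.neg } k1
    (fun e => z1 (line_symm hu ((Submodule.smul_mem_iff _ (neg_ne_zero.2 P.ε_ne)).1 e)))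
    (fun y hy s b c d hs k1 k2 => by
      have := TV.conj hy (hK hs.mem_E)
      rwa [iso s hs.mem_Isom, hs.fix (perp_line.1 k1) (perp_line.1 k2)] at this) y (perp_line.2 (f.B_zero_symm hy))
  refine eq_top_iff.2 fun ψ _ => ?_
  obtain ⟨b, hb⟩ := hf.riesz ψ
  rw [show ψ = f.left b from LinearMap.ext fun v => (hb v).symm]
  exact E_irred h3 hf (by omega)
    { carrier := {b | f.left b ∈ SH K}
      add_mem' := fun {a b} ha hb => by
        rw [Set.mem_setOf, show f.left (a + b) = f.left a + f.left b by ext; simp]; exact add_mem ha hb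
      zero_mem' := by rw [Set.mem_setOf, show f.left 0 = 0 by ext; simp]; exact zero_mem _
      neg_mem' := fun {a} ha => by
        rw [Set.mem_setOf, show f.left (-a) = - f.left a by ext; simp]; exact neg_mem ha } k2
    (fun e => z1 (by simp [e])) (fun s hs a ha => by
      have := sh_map ha (hK hs)
      rwa [iso s (E_le_Isom hs)] at this) b

theorem SL_not_le_sim (h3 : I3 f) (hf : f.Nondeg) (hd : 7 ≤ finrank F V) : ¬ LinearEquiv.det.ker ≤ simS f := fun k => by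
  obtain ⟨x, y, h, -⟩ := h3.hyp hf ⊥ (by rw [finrank_bot]; omega)
  obtain ⟨u, w, h', h1, h2⟩ := h3.hyp hf (Submodule.span F {x, y}) (by rw [h.finrank_span]; omega)
  have h1 := IsHyp.mem_perp.1 (f.mem_perp'.2 h1)
  have h2 := IsHyp.mem_perp.1 (f.mem_perp'.2 h2)
  obtain ⟨t, ht⟩ := exists_T (x := u) (φ := f.left y) h1.2
  obtain ⟨c, hc⟩ := k ht.det
  simpa [ht.app, h.hxy, h2.2, f.B_zero_symm h2.1, h'.hxy] using hc x w

end

variable {ι : Type} [Fintype ι] [DecidableEq ι] {F : Type u} [Field F] {K : Subgroup ((ι → F) ≃ₗ[F] (ι → F))}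

theorem SL_le (h : ∀ x φ, φ x = 0 → TV K x φ) : LinearEquiv.det.ker ≤ K := fun g hg => by
  have := SL_eq_top_of_transvections (K.comap ((SLV ι F).subtype.comp (slE ι F).toMonoidHom)) fun i j hij c =>
    (h (c • Pi.single i 1) (LinearMap.proj j) (by simp [hij.symm])).mem ⟨by simp [hij.symm], fun v => by
      change (transvection i j c) *ᵥ v = _
      simp [transvection, add_mulVec, single_mulVec_eq, smul_smul, mul_comm]⟩
  have k : (slE ι F).symm ⟨g, hg⟩ ∈ K.comap ((SLV ι F).subtype.comp (slE ι F).toMonoidHom) := this ▸ Subgroup.mem_top _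
  simpa using k

theorem mi_sub {W : Submodule F (ι → F)} (h0 : W ≠ ⊥) (h1 : W ≠ ⊤) : MI LinearEquiv.det.ker (stabS F (W : Set (ι → F))) :=
  ⟨SL_not_le h0 h1, fun _ k1 _ _ hg hn => SL_le fun x => show x ∈ SP _ from SP_top h0 k1 hg hn ▸ Submodule.mem_top⟩

theorem mi_sim {P : FP F} {f : CForm P (ι → F)} (h3 : I3 f) (hf : f.Nondeg) (hd : 13 ≤ Fintype.card ι) :
    MI LinearEquiv.det.ker (simS f) :=
  ⟨SL_not_le_sim h3 hf (by simp; omega), fun K k1 _ _ hg hn => SL_le fun x φ => (show φ ∈ SH K from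
    SH_top h3 hf (by simpa) (fun s hs => k1 ⟨⟨1, fun u v => by simp [f.Isom_B (E_le_Isom hs)]⟩,
      Units.ext (by simpa using E_det hs)⟩) hg hn ▸ Submodule.mem_top) x⟩

end CfsgH5.Mx
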