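import Cfsg.Agent.H3.Cnt
import Cfsg.Agent.L0.Count

/-! Counting lemmas for same-order element counts. -/

set_option autoImplicit false
open Subgroup CfsgCnt

namespace CfsgH5.Nse

variable {G : Type*} [Group G] [Finite G] {p k m : ℕ}

theorem syl_card [Fact p.Prime] (P : Sylow p G) (h1 : p ^ k ∣ Nat.card G)
    (h2 : ¬ p ^ (k + 1) ∣ Nat.card G) : Nat.card (P : Subgroup G) = p ^ k := by
  rw [P.card_eq_multiplicity]
  congr 1
  have hp : p.Prime := Fact.out
  have h0 : Nat.card G ≠ 0 := Nat.card_pos.ne'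
  have a := (hp.pow_dvd_iff_le_factorization h0).1 h1
  have b := mt (hp.pow_dvd_iff_le_factorization h0).2 h2
  omega

theorem exists_syl [Fact p.Prime] {x : G} (hx : orderOf x ∣ p ^ k) :
    ∃ P : Sylow p G, x ∈ (P : Subgroup G) := by
  have : IsPGroup p (zpowers x) := by
    obtain ⟨j, -, hj⟩ := (Nat.dvd_prime_pow (Fact.out : p.Prime)).1 hx
    exact IsPGroup.of_card (n := j) (by rw [Nat.card_zpowers, hj])
  obtain ⟨P, hP⟩ := this.exists_le_sylow
  exact ⟨P, hP (mem_zpowers x)⟩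

theorem syl_eq [Fact p.Prime] (P : Sylow p G) (h2 : ¬ p ^ (k + 1) ∣ Nat.card G) {z : G}
    (hz : orderOf z = p ^ k) (hzP : z ∈ (P : Subgroup G)) : zpowers z = (P : Subgroup G) := by
  refine Subgroup.eq_of_le_of_card_ge (zpowers_le_of_mem hzP) ?_
  rw [syl_card P (hz ▸ orderOf_dvd_natCard z) h2, Nat.card_zpowers, hz]

theorem syl_gen [Fact p.Prime] (P : Sylow p G) (h2 : ¬ p ^ (k + 1) ∣ Nat.card G) {z : G}
    (hz : orderOf z = p ^ k) : ∃ g : G, zpowers (g * z * g⁻¹) = (P : Subgroup G) := by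
  obtain ⟨Q, hQ⟩ := exists_syl (p := p) (x := z) hz.dvd
  obtain ⟨g, rfl⟩ := MulAction.exists_smul_eq G Q P
  refine ⟨g, syl_eq _ h2 (by rw [← hz]; exact (MulAut.conj g).orderOf_eq z) ?_⟩
  rw [Sylow.coe_subgroup_smul]
  exact Subgroup.smul_mem_pointwise_smul z (MulAut.conj g) _ hQ

theorem cyc (hp : p.Prime) (h2 : ¬ p ^ (k + 1) ∣ Nat.card G) (h : sO G (p ^ k) ≠ 0) :
    ∃ n, n ≡ 1 [MOD p] ∧ n ∣ Nat.card G ∧ sO G (p ^ k) = (p ^ k).totient * n ∧
      ∀ d, d ∣ p ^ k → sO G d ≤ d.totient * n := by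
  classical
  haveI := Fact.mk hp
  obtain ⟨z, hz⟩ := sO_ne_zero.1 h
  have h1 : p ^ k ∣ Nat.card G := hz ▸ orderOf_dvd_natCard z
  have hc : ∀ P : Sylow p G, IsCyclic (P : Subgroup G) := fun P => by
    obtain ⟨g, hg⟩ := syl_gen P h2 hz
    rw [← hg]; infer_instance
  have hT : ∀ d, d ∣ p ^ k → Nat.card (Σ P : Sylow p G, {g : (P : Subgroup G) // orderOf g = d}) =
      d.totient * Nat.card (Sylow p G) := fun d hd => by
    haveI := Fintype.ofFinite (Sylow p G)
    rw [Nat.card_sigma, Finset.sum_congr rfl (g := fun _ => d.totient), Finset.sum_const, smul_eq_mul,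
      Finset.card_univ, Nat.card_eq_fintype_card, mul_comm]
    intro P _
    haveI := hc P
    haveI := Fintype.ofFinite (P : Subgroup G)
    rw [Nat.card_eq_fintype_card, Fintype.card_subtype]
    exact IsCyclic.card_orderOf_eq_totient (by rw [← Nat.card_eq_fintype_card, syl_card P h1 h2]; exact hd)
  let f : ∀ d, (Σ P : Sylow p G, {g : (P : Subgroup G) // orderOf g = d}) → {g : G // orderOf g = d} :=
    fun d t => ⟨t.2.1.1, by rw [Subgroup.orderOf_coe]; exact t.2.2⟩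
  have hs : ∀ d, d ∣ p ^ k → Function.Surjective (f d) := fun d hd x => by
    obtain ⟨P, hP⟩ := exists_syl (p := p) (k := k) (x := x.1) (by rw [x.2]; exact hd)
    exact ⟨⟨P, ⟨x.1, hP⟩, by rw [← Subgroup.orderOf_coe]; exact x.2⟩, rfl⟩
  obtain ⟨P0⟩ : Nonempty (Sylow p G) := inferInstance
  refine ⟨Nat.card (Sylow p G), card_sylow_modEq_one p G, P0.card_dvd_index.trans (index_dvd_card _), ?_,
    fun d hd => ?_⟩
  · rw [← hT _ dvd_rfl]
    refine (Nat.card_eq_of_bijective (f _) ⟨?_, hs _ dvd_rfl⟩).symm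
    rintro ⟨P, ⟨x, hx⟩, ox⟩ ⟨Q, ⟨y, hy⟩, oy⟩ e
    have e : x = y := congrArg Subtype.val e
    subst e
    have o : orderOf x = p ^ k := by rw [← ox, ← Subgroup.orderOf_coe]
    have : P = Q := Sylow.ext ((syl_eq P h2 o hx).symm.trans (syl_eq Q h2 o hy))
    subst this
    rfl
  · rw [← hT d hd]
    exact Nat.card_le_card_of_surjective _ (hs d hd)

theorem le_mul (hp : p.Prime) (h2 : ¬ p ^ 2 ∣ Nat.card G) (c : p.Coprime m) (h : sO G (p * m) ≠ 0) :
    sO G p ≤ sO G (p * m) := by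
  haveI := Fact.mk hp
  obtain ⟨z, hz⟩ := sO_ne_zero.1 h
  have m0 : m ≠ 0 := by rintro rfl; exact (orderOf_pos z).ne' (by simpa using hz)
  have o1 : orderOf (z ^ m) = p ^ 1 := by
    rw [orderOf_pow' z m0, hz, pow_one, Nat.gcd_eq_right (dvd_mul_left _ _),
      Nat.mul_div_cancel _ (Nat.pos_of_ne_zero m0)]
  have o2 : orderOf (z ^ p) = m := by
    rw [orderOf_pow' z hp.ne_zero, hz, Nat.gcd_eq_right (dvd_mul_right _ _), Nat.mul_div_cancel_left _ hp.pos]
  have key : ∀ x : G, orderOf x = p → ∃ y, orderOf y = m ∧ Commute x y := fun x hx => by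
    obtain ⟨P, hP⟩ := exists_syl (p := p) (k := 1) (x := x) (by rw [hx, pow_one])
    obtain ⟨g, hg⟩ := syl_gen P h2 o1
    rw [← hg] at hP
    obtain ⟨j, rfl⟩ := mem_zpowers_iff.1 hP
    refine ⟨g * z ^ p * g⁻¹, by rw [← o2]; exact (MulAut.conj g).orderOf_eq _, Commute.zpow_left ?_ j⟩
    exact ((Commute.refl z).pow_pow m p).map (MulAut.conj g)
  have hm : ∀ {x y : G}, orderOf x = p → orderOf y = m → Commute x y → orderOf (x * y) = p * m ∧
      (x * y) ^ m = x ^ m := fun {x y} hx hy hc => ⟨by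
        rw [hc.orderOf_mul_eq_mul_orderOf_of_coprime (by rwa [hx, hy]), hx, hy], by
        rw [hc.mul_pow, ← hy, pow_orderOf_eq_one, mul_one]⟩
  have hs : {g : G | orderOf g = p} ⊆ (· ^ m) '' {g : G | orderOf g = p * m} := fun x hx => by
    have hx : orderOf x = p := hx
    obtain ⟨k, hk⟩ := exists_pow_eq_self_of_coprime (x := x) (n := m) (hx ▸ c.symm)
    have h3 : orderOf (x ^ k) = p := Nat.dvd_antisymm (hx ▸ orderOf_pow_dvd k) (by
      rw [← hx]; nth_rewrite 1 [← hk]; rw [← pow_mul, mul_comm, pow_mul]; exact orderOf_pow_dvd m)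
    obtain ⟨y, hy, hc⟩ := key _ h3
    exact ⟨_, (hm h3 hy hc).1, (hm h3 hy hc).2.trans (by rw [← pow_mul, mul_comm, pow_mul, hk])⟩
  exact (Set.ncard_le_ncard hs).trans (Set.ncard_image_le (Set.toFinite _))

theorem sum_le (N : Subgroup G) [N.Normal] (D : Finset ℕ) (h : ∀ d ∈ D, d.Coprime N.index) :
    ∑ d ∈ D, sO G d ≤ Nat.card N := by
  classical
  have : ∑ d ∈ D, sO G d = Nat.card (Σ d : D, {g : G // orderOf g = d.1}) := by
    rw [Nat.card_sigma, ← Finset.sum_coe_sort D]; rfl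
  rw [this]
  have hm : ∀ t : (Σ d : D, {g : G // orderOf g = d.1}), t.2.1 ∈ N := fun t => by
    obtain ⟨j, hj⟩ := exists_pow_eq_self_of_coprime (x := t.2.1) (n := N.index)
      (by rw [t.2.2]; exact (h _ t.1.2).symm)
    rw [← hj]
    exact pow_mem (N.pow_index_mem _) _
  refine Nat.card_le_card_of_injective (fun t => (⟨t.2.1, hm t⟩ : N)) ?_
  rintro ⟨⟨d, hd⟩, x, hx⟩ ⟨⟨e, he⟩, y, hy⟩ E
  have E : x = y := congrArg Subtype.val E
  subst E
  have : d = e := hx.symm.trans hy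
  subst this
  rfl

theorem sum_le_top (D : Finset ℕ) : ∑ d ∈ D, sO G d ≤ Nat.card G := by
  have := sum_le (⊤ : Subgroup G) D (fun d _ => by simp)
  rwa [card_top] at this

theorem vo_le (V : Finset ℕ) (h : ∀ v ∈ V, v ∈ VO G) : ∑ v ∈ V, v ≤ Nat.card G := by
  classical
  have : ∀ v, ∃ d, v ∈ V → sO G d = v := fun v => by
    by_cases hv : v ∈ V
    · obtain ⟨d, -, hd⟩ := h v hv
      exact ⟨d, fun _ => hd⟩
    · exact ⟨0, fun e => absurd e hv⟩
  choose f hf using this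
  refine le_trans (le_of_eq ?_) (sum_le_top (V.image f))
  rw [Finset.sum_image fun a ha b hb e => by rw [← hf a ha, ← hf b hb, e]]
  exact Finset.sum_congr rfl fun v hv => (hf v hv).symm

theorem dvd3 {n a b c : ℕ} (h : ∀ p, p.Prime → p ∣ n → p = 2 ∨ p = 3 ∨ p = 5) (h2 : ¬ 2 ^ (a + 1) ∣ n)
    (h3 : ¬ 3 ^ (b + 1) ∣ n) (h5 : ¬ 5 ^ (c + 1) ∣ n) : n ∣ 2 ^ a * 3 ^ b * 5 ^ c := by
  refine (Nat.dvd_iff_prime_pow_dvd_dvd _ _).2 fun p k hp hk => ?_
  rcases Nat.eq_zero_or_pos k with rfl | k0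
  · simp
  rcases h p hp ((dvd_pow_self p k0.ne').trans hk) with rfl | rfl | rfl
  · have : k ≤ a := by by_contra e; exact h2 ((pow_dvd_pow 2 (by omega)).trans hk)
    exact ((pow_dvd_pow 2 this).mul_right _).mul_right _
  · have : k ≤ b := by by_contra e; exact h3 ((pow_dvd_pow 3 (by omega)).trans hk)
    exact ((pow_dvd_pow 3 this).mul_left _).mul_right _
  · have : k ≤ c := by by_contra e; exact h5 ((pow_dvd_pow 5 (by omega)).trans hk)
    exact (pow_dvd_pow 5 this).mul_left _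

theorem sO_comm {x y : G} (c : Commute x y) (h : (orderOf x).Coprime (orderOf y)) :
    sO G (orderOf x * orderOf y) ≠ 0 :=
  sO_ne_zero.2 ⟨x * y, c.orderOf_mul_eq_mul_orderOf_of_coprime h⟩

/-- An element of prime order acting on a normal subgroup. -/
theorem norm_dvd (N : Subgroup G) [hN : N.Normal] (hp : p.Prime) {x : G} (hx : orderOf x = p)
    (c : p.Coprime m) (h : sO G (p * m) = 0) : p ∣ sO N m := by
  haveI := Fact.mk hp
  have hP : IsPGroup p (zpowers x) := IsPGroup.of_card (n := 1) (by rw [Nat.card_zpowers, hx, pow_one])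
  letI : MulAction (zpowers x) {g : N // orderOf g = m} :=
    { smul := fun a g => ⟨MulAut.conjNormal a.1 g.1, by rw [MulEquiv.orderOf_eq]; exact g.2⟩
      one_smul := fun g => Subtype.ext (by
        change MulAut.conjNormal (1 : G) g.1 = g.1
        simp)
      mul_smul := fun a b g => Subtype.ext (by
        change MulAut.conjNormal (a.1 * b.1) g.1 = MulAut.conjNormal a.1 (MulAut.conjNormal b.1 g.1)
        simp) }
  have := hP.card_modEq_card_fixedPoints {g : N // orderOf g = m}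
  have e : IsEmpty (MulAction.fixedPoints (zpowers x) {g : N // orderOf g = m}) := ⟨fun g => by
    have e1 : x * g.1.1.1 * x⁻¹ = g.1.1.1 :=
      congrArg (fun t : {g : N // orderOf g = m} => t.1.1) (g.2 ⟨x, mem_zpowers x⟩)
    have o : orderOf g.1.1.1 = m := by rw [Subgroup.orderOf_coe]; exact g.1.2
    have := sO_comm (x := x) (y := g.1.1.1) (mul_inv_eq_iff_eq_mul.1 e1) (by rwa [hx, o])
    rw [hx, o] at this
    exact this h⟩
  rw [@Nat.card_of_isEmpty _ e] at this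
  exact (Nat.modEq_zero_iff_dvd).1 this

theorem two_of_odd {v : ℕ} (h : v ∈ VO G) (h1 : v ≠ 1) (h2 : ¬ 2 ∣ v) : sO G 2 = v := by
  obtain ⟨_, ⟨g, rfl⟩, hg⟩ := h
  have := orderOf_pos g
  by_cases e : 2 < orderOf g
  · exact absurd (hg ▸ two_dvd e) h2
  · have : orderOf g ≠ 1 := fun e => h1 (by rw [← hg, e, sO_one])
    rw [← hg]; congr 1; omega

end CfsgH5.Nse
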