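import Cfsg.Agent.H5.Oe9

set_option autoImplicit false

/-!
Even-dimensional orthogonal groups, part 10: involutory graph-field automorphisms.
-/

namespace CfsgH5.Oe

open Module Au Au.Γ CForm Fm DihedralGroup

universe u

variable {F : Type u} [Field F] [Fintype F] {m : ℕ}

theorem invol_unique {σ τ : F ≃+* F} (h1 : orderOf σ = 2) (h2 : orderOf τ = 2) : σ = τ := by
  obtain ⟨q, a⟩ := gf_UF (σ := σ) (by rintro rfl; exact absurd (orderOf_one.symm.trans h1) (by decide))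
    (h1 ▸ pow_orderOf_eq_one σ)
  obtain ⟨q', b⟩ := gf_UF (σ := τ) (by rintro rfl; exact absurd (orderOf_one.symm.trans h2) (by decide))
    (h2 ▸ pow_orderOf_eq_one τ)
  obtain rfl : q = q' := Nat.pow_left_injective two_ne_zero (a.card.symm.trans b.card)
  exact RingEquiv.ext fun x => (a.pow x).trans (b.pow x).symm

theorem sqc_norm (h2 : (2 : F) ≠ 0) {σ : F →+* F} {s : ℕ} (U : UF σ (2 * s + 1)) {x : F} (hx : x ≠ 0) :
    ((sqc x : ℤ) : F) = (x * σ x) ^ s := by
  rw [← sqc_pow h2 hx, U.norm_eq, ← pow_mul, ← Nat.card_eq_fintype_card, U.card]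
  congr 1
  rw [show (2 * s + 1) ^ 2 = 1 + 2 * ((2 * s + 1 + 1) * s) by ring, Nat.add_mul_div_left _ _ two_pos]
  simp

theorem split_gf (h : 3 ≤ m) {S : Type*} [Group S] (e : S ≃* (ofQuad (plusQ F m)).E)
    (hs : Function.Surjective (ΨS cm_orth e)) {θ : Sim (ofQuad (plusQ F m)) cm_orth} (hσ : θ.1.σ ≠ 1)
    (k : orderOf (ΨS cm_orth e θ) = 2) (hp : (evP F h).par (plusQ_isPlus m) θ = -1) {F₀ : Type*} [Field F₀] [Fintype F₀]
    (hq : Fintype.card F₀ ^ 2 = Fintype.card F) (ho : Odd (Fintype.card F₀)) :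
    Cfsg.splitClassCount ((evP F h).dk.ker.map (πS cm_orth e)) (Cfsg.Inn _) (ΨS cm_orth e θ) =
      if Odd m ∧ Fintype.card F₀ % 4 = 1 then 4 else 2 := by
  have E := evP F h
  have o := E.ord_σ e hσ Nat.prime_two k
  set σ := θ.1.σ with hθ
  obtain ⟨q, U⟩ := gf_UF (σ := σ) hσ (o ▸ pow_orderOf_eq_one σ)
  obtain rfl : q = Fintype.card F₀ := Nat.pow_left_injective two_ne_zero
    (U.card.symm.trans (Nat.card_eq_fintype_card.trans hq.symm))
  have h2 := two_ne_of_odd (F := F) (hq ▸ ho.pow)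
  have hq' : Nat.card F₀ ^ 2 = Nat.card F := by simpa using hq
  obtain ⟨j, hj⟩ := exists_emb σ F₀ (o ▸ hq')
  let i₀ : Fin m := ⟨0, by omega⟩
  let d : Fin m ⊕ Fin m → F := Pi.single (.inl i₀) 1 - Pi.single (.inr i₀) 1
  have H := plus_hyp (F := F) m i₀
  have dq : (ofQuad (plusQ F m)).Q d = -1 := by
    simp only [d, sub_eq_add_neg, orth_Q_add, H.1, Q_neg, H.2, B_neg_right, H.3]; simp
  have r : ∀ v i, (ofQuad (plusQ F m)).rf d v i = v (Equiv.swap (.inl i₀) (.inr i₀) i) := fun v i => by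
    rw [rf_apply, dq]
    simp only [d, B_sub_right, plus_B_inr, plus_B_inl]
    by_cases a : i = .inl i₀
    · simp [a]
    by_cases b : i = .inr i₀
    · simp [b]
    simp [Equiv.swap_apply_of_ne_of_ne a b, a, b]
  let θ₁ := gs (iso (ri d)) * stP m σ
  have t0 : ∀ v i, θ₁.1 v i = σ (v (Equiv.swap (.inl i₀) (.inr i₀) i)) := fun v i => r _ i
  have s1 : θ₁.1.σ = σ := one_mul σ
  have s2 : θ₁ ^ 2 = 1 := Subtype.ext (Γ.ext (by rw [Subgroup.coe_pow, Γ.pow_σ, s1, ← o, pow_orderOf_eq_one]; rfl)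
    <| AddEquiv.ext fun v => funext fun i => by
      change (θ₁ ^ 2).1 v i = v i
      rw [pow_two, Subgroup.coe_mul, Γ.mul_apply, t0, t0]; simpa using U.invol _)
  have s3 : ΨS cm_orth e θ₁ ^ orderOf σ = 1 := by rw [o, ← _root_.map_pow, s2, _root_.map_one]
  obtain ⟨α, -, hα⟩ := E.lang e s1 (by rw [o, ← k, pow_orderOf_eq_one]) s3 fun _ => by
    rw [hp, _root_.map_mul, par_std h, E.par_gs, EV.dk_iso, dick_rf E.nd E.spl (by rw [dq]; simp)]; rfl
  have := E.DI_normal e hs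
  rw [split_conj (E.inn_le_DI e) hα.symm]
  obtain ⟨c, f₀, η, κ, Φ, E₀, D⟩ := exists_ds (j := j) E e θ₁ (s1 ▸ s3) (s1 ▸ hj)
  obtain ⟨l₁, hl₁⟩ := U.exists_norm (b := -1) (by simp)
  obtain ⟨x, hx⟩ : ∃ x, σ x ≠ x := by
    by_contra! c
    exact hσ (RingEquiv.ext c)
  have l0 : x - σ x ≠ 0 := sub_ne_zero.2 hx.symm
  have l1 : σ (x - σ x) = -(x - σ x) := by rw [_root_.map_sub]; simpa using U.invol x
  generalize x - σ x = l at l0 l1
  have l2 : l₁ ≠ 0 := by rintro rfl; simp at hl₁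
  have l3 : σ l₁ = -l₁⁻¹ := by field_simp; simpa [mul_comm] using hl₁
  obtain ⟨t, t1, t2, t3, t4⟩ := exists_diag h (fun i => if i = i₀ then l₁ else l) fun i => by
    split_ifs <;> assumption
  have := D.split_even e E₀ E (gs (sc _ c) * θ₁).2 hq' h2 ((sn_ng_plus (hq ▸ ho.pow) h).2 fun c => by
    have := pow_mod_four ho 2
    simp [hq, c.2] at this) t3 fun v => funext fun i => by
      have w : ∀ v i, (gs (sc _ c) * θ₁).1 v i = c * θ₁.1 v i := fun v i => rfl
      rcases i with i | i <;> by_cases a : i = i₀ <;>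
        simp [w, t0, t1, t2, a, Equiv.swap_apply_of_ne_of_ne, l1, l3, mul_left_comm]
  rw [Subtype.coe_eta, _root_.map_mul, EV.Ψ_gs, E.π_sc, one_mul] at this
  rw [this, t4]
  refine if_congr ?_ rfl rfl
  obtain ⟨s, hs⟩ := ho
  rw [hs] at U ⊢
  have a : sqc l₁ = (-1) ^ s := EV.units_cast_inj h2 (by rw [sqc_norm h2 U l2, hl₁]; simp)
  have b : sqc l = -(-1) ^ s := EV.units_cast_inj h2 (by
    have := U.pow l
    rw [sqc_norm h2 U l0]
    simp only [RingHom.coe_coe, l1] at this ⊢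
    rw [mul_neg, neg_pow, ← pow_two, ← pow_mul, mul_right_cancel₀ l0 (show l ^ (2 * s) * l = -1 * l by
      rw [← pow_succ, ← this]; simp)]
    simp)
  simp only [apply_ite sqc, a, b]
  rw [Finset.prod_eq_mul_prod_diff_singleton_of_mem (Finset.mem_univ i₀), if_pos rfl,
    Finset.prod_congr rfl fun i hi => if_neg (by simpa using hi), Finset.prod_const]
  obtain ⟨n, rfl⟩ : ∃ n, m = n + 1 := ⟨m - 1, by omega⟩
  simp only [Finset.card_univ_diff, Finset.card_singleton, Fintype.card_fin, Nat.add_sub_cancel, Nat.odd_add_one]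
  rcases Nat.even_or_odd s with c | c <;> rcases Nat.even_or_odd n with c' | c' <;>
    simp [c.neg_one_pow, c'.neg_one_pow, c'] <;> simp only [Nat.even_iff, Nat.odd_iff] at * <;> omega

end CfsgH5.Oe
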