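import Cfsg.Agent.H5.Oe8

set_option autoImplicit false

/-!
Even-dimensional orthogonal groups, part 9: involutory graph automorphisms for even `m`, graph-field automorphisms.
-/

namespace CfsgH5.Oe

open Module Au Au.Γ CForm Fm DihedralGroup

variable {F : Type*} [Field F] {V : Type*} [AddCommGroup V] [Module F V] {f : CForm (FP.orth F) V} {m : ℕ}
  [FiniteDimensional F V]

theorem isSquare_of_odd {W : Submodule F V} (hW : (f.res W).Nondeg) (ho : Odd (finrank F W)) {g : V ≃ₗ[F] V} {κ : F}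
    (h : IsSim f (lin g) κ) (k : ∀ v ∈ W, g v ∈ W) : IsSquare κ := by
  have e : W.map g.toLinearMap = W := Submodule.eq_of_le_of_finrank_eq (Submodule.map_le_iff_le_comap.2 k)
    (LinearEquiv.finrank_map_eq _ _)
  have := IsSim.det_sq hW (isSim_lin' (g := (g.submoduleMap W).trans (LinearEquiv.ofEq _ _ e)) h.ne
    fun v => h.lin_Q v)
  obtain ⟨n, hn⟩ := ho
  have k0 := h.ne
  rw [hn] at this
  obtain ⟨d, this⟩ : ∃ d, d * d = κ ^ (2 * n + 1) := ⟨_, this⟩
  refine ⟨d / κ ^ n, ?_⟩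
  field_simp
  rw [pow_two d, this]; ring

theorem finrank_fix_add (h2 : (2 : F) ≠ 0) {u : V ≃ₗ[F] V} (h : ∀ v, u (u v) = v) :
    finrank F (fixSp u) + finrank F (fixSp (LinearEquiv.neg F * u)) = finrank F V := by
  rw [← Submodule.finrank_sup_add_finrank_inf_eq]
  have a : fixSp u ⊔ fixSp (LinearEquiv.neg F * u) = ⊤ := eq_top_iff.2 fun v _ => Submodule.mem_sup.2
    ⟨(2 : F)⁻¹ • (v + u v), mem_fixSp.2 (by simp [h, add_comm]), (2 : F)⁻¹ • (v - u v),
      mem_fixSp.2 (by simp [h]), by match_scalars <;> field_simp <;> ring⟩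
  have b : fixSp u ⊓ fixSp (LinearEquiv.neg F * u) = ⊥ := eq_bot_iff.2 fun v ⟨x, y⟩ => by
    have := mem_fixSp.1 y
    simp [mem_fixSp.1 x] at this
    rw [neg_eq_iff_add_eq_zero, ← two_smul F] at this
    simpa [h2] using this
  rw [a, b]; simp

variable [Finite F] (E : EV f m) {S : Type*} [Group S] (e : S ≃* f.E)
include E

theorem EV.dk_skew (h2 : (2 : F) ≠ 0) {g : GO f} (h : ∀ v, g.1 (g.1 v) = -(E.mu g : F) • v) : E.dk g = 1 := by
  have G := E.mu_sim g
  by_cases k : IsSquare (-(E.mu g : F))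
  · obtain ⟨l, k⟩ := k
    have l0 : l ≠ 0 := by rintro rfl; simp at k
    obtain ⟨u, hu⟩ : ∃ u : V ≃ₗ[F] V, ∀ v, u v = l⁻¹ • g.1 v := ⟨scal V (Units.mk0 l l0)⁻¹ * g.1, fun v => by
      rw [LinearEquiv.mul_apply, scal_apply]; simp⟩
    have a := finrank_fix_add h2 (u := u) fun v => by simp [hu, h, k, smul_smul, l0]
    have t : ∀ u : V ≃ₗ[F] V, (∀ v, f.Q (u v) = -f.Q v) → f.TS (fixSp u) := fun u hu => TS_orth.2 fun v hv => by
      have := hu v
      rw [mem_fixSp.1 hv, eq_neg_iff_add_eq_zero, ← two_mul] at this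
      simpa [h2] using this
    have q : ∀ v, f.Q (u v) = -f.Q v := fun v => by
      simp only [hu, orth_Q_smul, G.lin_Q, neg_eq_iff_eq_neg.1 k]
      field_simp
    have b := t _ q
    have c := t (LinearEquiv.neg F * u) fun v => by simpa using q v
    have M : MT f m _ := ⟨b, by
      have := b.two_mul_finrank_le E.nd
      have := c.two_mul_finrank_le E.nd
      have := E.rk
      omega⟩
    rw [← E.par_gs (E.isPlus M)]
    exact E.par_of_inv _ M fun v hv => mem_fixSp.2 (by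
      simpa [hu] using congrArg g.1 (mem_fixSp.1 hv))
  · obtain ⟨n, a, b⟩ := det_of_sq k _ g.1.toLinearMap E.rk h
    obtain rfl : m = n := by omega
    have := (E.det_eq g).symm.trans b
    rw [neg_neg, mul_eq_right₀ (by simp)] at this
    exact units_cast_inj h2 (by simpa using this)

theorem EV.split_graph_even (h2 : (2 : F) ≠ 0) (he : Even m) {g : GO f} (h : E.dk g = -1)
    (k : orderOf (πS cm_orth e g) = 2) :
    Cfsg.splitClassCount (E.dk.ker.map (πS cm_orth e)) (Cfsg.Inn _) (πS cm_orth e g) = 2 := by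
  obtain ⟨c, hc⟩ := (E.π_eq_one e (g := g * g)).1 (by rw [_root_.map_mul, ← pow_two, ← k, pow_orderOf_eq_one])
  obtain ⟨s, s1, s2, s3⟩ := E.exists_comm h2 h hc
  refine E.split_two e h2 (fun a _ a2 => ?_) ⟨s, s1, s2, Subgroup.mem_centralizer_singleton_iff.2
    (by rw [← _root_.map_mul, ← _root_.map_mul, s3])⟩
  have q : ∀ v, g.1 (g.1 v) = (c : F) • v := fun v => congrArg (fun g : GO f => g.1 v) hc
  have l : E.sq g = 1 := (Int.units_eq_one_or _).resolve_right fun l => by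
    have : E.mu g * E.mu g = c * c := by rw [← _root_.map_mul, hc, EV.mu_sc]
    rcases mul_self_eq_mul_self_iff.1 (congrArg Units.val this) with b | b
    · rw [E.dk_gq ⟨E.mu_sim g, b ▸ q, sqc_eq_neg.1 l⟩, he.neg_one_pow] at h
      simp at h
    · rw [E.dk_skew h2 (by simpa [b] using q)] at h
      simp at h
  obtain ⟨d, u, rfl⟩ := E.sq_eq_one.1 l
  rw [_root_.map_mul, EV.dk_sc, one_mul, EV.dk_iso, dick_apply, E.rk, pow_add, pow_mul] at h
  have o : Odd (finrank F (fixSp u.1)) := Nat.not_even_iff_odd.1 fun o => by simp [o.neg_one_pow] at h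
  have b : sc f (d * d) * iso (u * u) = sc f c * iso 1 := by
    rw [_root_.map_one, mul_one, ← hc, _root_.map_mul, _root_.map_mul, mul_assoc, mul_assoc, ← mul_assoc (iso u),
      sc_comm, mul_assoc]
  have uu : ∀ v, u.1 (u.1 v) = v := by
    rcases E.sc_iso_inj b.symm with b | b
    · exact fun v => congrArg (fun g : f.Isom => g.1 v) b
    have : fixSp u.1 = ⊥ := eq_bot_iff.2 fun v hv => by
      have := congrArg (fun g : f.Isom => g.1 v) b
      simp [mem_fixSp.1 hv] at this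
      rw [eq_neg_iff_add_eq_zero, ← two_smul F] at this
      simpa [h2] using this
    rw [this] at o
    simp at o
  rw [_root_.map_mul, E.π_sc, one_mul] at a2
  obtain ⟨t, ht⟩ := (E.π_eq_one e (g := iso u * a * (iso u)⁻¹ * a⁻¹)).1 (by
    rw [_root_.map_mul, _root_.map_mul, _root_.map_mul, ← Subgroup.mem_centralizer_singleton_iff.1 a2]; simp)
  have t1 := congrArg (fun x => (E.mu x : F)) ht
  have t2 : ∀ v, u.1 (a.1 v) = (t : F) • a.1 (u.1 v) := fun v => by
    simpa using congrArg (fun g : GO f => g.1 (a.1 (u.1 v))) ht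
  simp at t1
  rcases mul_self_eq_one_iff.1 t1.symm with t1 | t1
  · exact sqc_eq_one.2 (isSquare_of_odd (E.fix_nondeg h2 u.2 uu) o (E.mu_sim a) fun v hv => mem_fixSp.2 (by
      rw [t2, t1, one_smul, mem_fixSp.1 hv]))
  have x := finrank_fix_add h2 uu
  have : (fixSp u.1).map a.1.toLinearMap = fixSp (LinearEquiv.neg F * u.1) := by
    ext v
    obtain ⟨v, rfl⟩ := a.1.surjective v
    simp [mem_fixSp, t2, t1]
  rw [← this, LinearEquiv.finrank_map_eq, E.rk] at x
  exact absurd o (Nat.not_odd_iff_even.2 (by convert he; omega))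

omit E

theorem EV.field_pack {F : Type*} [Field F] [Fintype F] {ι : Type} [Fintype ι] [DecidableEq ι]
    {f : CForm (FP.orth F) (ι → F)} (E : EV f m) {S : Type*} [Group S] (e : S ≃* f.E) {p n : ℕ} [Fact p.Prime]
    (hF : Fintype.card F = p ^ n) {θ : Sim f cm_orth} (h : θ.1.σ ≠ 1) {r : ℕ} (hr : r.Prime)
    (k : orderOf (ΨS cm_orth e θ) = r) {F₀ : Type*} [Field F₀] [Fintype F₀] (hF₀ : Fintype.card F₀ = p ^ (n / r))
    {V₀ : Type*} [AddCommGroup V₀] [Module F₀ V₀] {f₀ : CForm (FP.orth F₀) V₀} (E₀ : EV f₀ m)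
    [FiniteDimensional F₀ V₀] {S₀ : Type*} [Group S₀] (e₀ : S₀ ≃* f₀.E) (hp : f₀.IsPlus ↔ ∃ hp, E.par hp θ = 1) :
    r ∣ n ∧ Nonempty (↥(E.dk.ker.map (πS cm_orth e) ⊓ Subgroup.centralizer {ΨS cm_orth e θ}) ≃*
      E₀.dk.ker.map (πS cm_orth e₀)) ∧
    (Odd r → Cfsg.splitClassCount (E.dk.ker.map (πS cm_orth e)) (Cfsg.Inn _) (ΨS cm_orth e θ) = 1) := by
  have o := E.ord_σ e h hr k
  have d : r ∣ n := by rw [← o, ← card_ringAut hF]; exact orderOf_dvd_natCard _
  obtain ⟨j, hj⟩ := exists_emb' hF θ.1.σ F₀ (o ▸ hF₀)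
  obtain ⟨θ', η, k, Φ, l, D⟩ := E.cent_field e (orderOf_dvd_iff_pow_eq_one.1 (k.trans o.symm).dvd) hj E₀ hp
  rw [← l]
  exact ⟨d, D.cent_equiv e E₀ E θ'.2 e₀, D.split_odd e E₀ E θ'.2
    (by rw [Nat.card_eq_fintype_card, Nat.card_eq_fintype_card, hF, hF₀, ← pow_mul, Nat.div_mul_cancel d])⟩

end CfsgH5.Oe
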