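import Cfsg.Agent.H5.Au19
import Cfsg.Agent.H1.Cores

set_option autoImplicit false

/-!
The `p'`-core of the centralizer of an automorphism, part 1: the abstract reduction.
-/

namespace CfsgH5.Op

open Module Au Au.Γ CForm
open scoped commutatorElement

section Abs

variable {K : Type*} [Group K]

/-- the inner automorphisms centralizing `x` -/
abbrev NC (x : MulAut K) : Subgroup (MulAut K) := Cfsg.Inn K ⊓ Subgroup.centralizer {x}

theorem mem_NC {x n : MulAut K} : n ∈ NC x ↔ n ∈ Cfsg.Inn K ∧ Commute n x := by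
  rw [Subgroup.mem_inf, Subgroup.mem_centralizer_singleton_iff]; rfl

theorem card_fix (hZ : Subgroup.center K = ⊥) (x : MulAut K) :
    Nat.card (MonoidHom.eqLocus x.toMonoidHom (MonoidHom.id K)) = Nat.card (NC x) := by
  have i : Function.Injective (MulAut.conj : K →* MulAut K) := (injective_iff_map_eq_one _).2 fun g h =>
    hZ.le (Subgroup.mem_center_iff.2 fun k => (mul_inv_eq_iff_eq_mul.1 (DFunLike.congr_fun h k)).symm)
  have c : ∀ g, x * MulAut.conj g * x⁻¹ = MulAut.conj (x g) := fun g => by ext; simp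
  rw [← Subgroup.card_map_of_injective i]
  congr 2
  ext n
  rw [mem_NC]
  constructor
  · rintro ⟨g, h, rfl⟩
    exact ⟨⟨g, rfl⟩, (mul_inv_eq_iff_eq_mul.1 ((c g).trans (congrArg _ h))).symm⟩
  · rintro ⟨⟨g, rfl⟩, h⟩
    exact ⟨g, i ((c g).symm.trans (mul_inv_eq_iff_eq_mul.2 h.symm)), rfl⟩

/-- the `p'`-automorphisms centralizing `x` and its fixed points are trivial -/
def C1 (p : ℕ) (x : MulAut K) : Prop :=
  ∀ y, Commute y x → (∀ n ∈ NC x, Commute y n) → p.Coprime (orderOf y) → y = 1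

/-- the fixed point group has a nontrivial normal `p'`-subgroup only if it is a `p'`-group -/
def C2 (p : ℕ) (x : MulAut K) : Prop := NC x ≠ ⊥ ∧ ∀ M ≤ NC x, (∀ n ∈ NC x, ∀ m ∈ M, n * m * n⁻¹ ∈ M) →
  (Nat.card M).Coprime p → M ≠ ⊥ → p.Coprime (Nat.card (NC x))

theorem core_iff [Finite K] (hZ : Subgroup.center K = ⊥) {𝒢 : Subgroup (MulAut K)} (hi : ∀ k, MulAut.conj k ∈ 𝒢)
    {p : ℕ} {x : MulAut K} (h1 : C1 p x) (h2 : C2 p x) :
    Cfsg.pPrimeCore p ↥(𝒢 ⊓ Subgroup.centralizer {x}) ≠ ⊥ ↔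
      p.Coprime (Nat.card (MonoidHom.eqLocus x.toMonoidHom (MonoidHom.id K))) := by
  rw [card_fix hZ]
  have l : NC x ≤ 𝒢 ⊓ Subgroup.centralizer {x} := inf_le_inf_right _ (by rintro _ ⟨g, rfl⟩; exact hi g)
  have n : ∀ y ∈ 𝒢 ⊓ Subgroup.centralizer {x}, ∀ n ∈ NC x, y * n * y⁻¹ ∈ NC x := fun y a n b =>
    ⟨(Cfsg.innNormal K).1 _ b.1 y, mul_mem (mul_mem a.2 b.2) (Subgroup.inv_mem _ a.2)⟩
  set C := 𝒢 ⊓ Subgroup.centralizer {x}
  have c := CfsgH1.coprime_pPrimeCore (G := C) p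
  have o : ∀ y ∈ C, ∀ m ∈ (Cfsg.pPrimeCore p C).map C.subtype, y * m * y⁻¹ ∈ (Cfsg.pPrimeCore p C).map C.subtype := by
    rintro y a _ ⟨m, b, rfl⟩
    exact ⟨_, (inferInstance : (Cfsg.pPrimeCore p C).Normal).1 m b ⟨y, a⟩, rfl⟩
  constructor
  · intro h
    refine h2.2 ((Cfsg.pPrimeCore p C).map C.subtype ⊓ NC x) inf_le_right
      (fun y a m b => ⟨o y (l a) m b.1, n y (l a) m b.2⟩) (c.coprime_dvd_left
        ((Subgroup.card_dvd_of_le inf_le_left).trans (Subgroup.card_map_dvd _ _))) fun k => h (eq_bot_iff.2 fun y a => ?_)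
    refine Subtype.ext (h1 y (Subgroup.mem_centralizer_singleton_iff.1 y.2.2) (fun m b => ?_) ?_)
    · refine commutatorElement_eq_one_iff_commute.1 (k.le ⟨?_, (mul_mem (n y y.2 m b) (inv_mem b) : _ ∈ NC x)⟩)
      rw [commutatorElement_def, mul_assoc, mul_assoc, ← mul_assoc m]
      exact mul_mem ⟨y, a, rfl⟩ (o m (l b) _ (inv_mem ⟨y, a, rfl⟩))
    · rw [Subgroup.orderOf_coe]
      exact (c.coprime_dvd_left (Subgroup.orderOf_dvd_natCard _ a)).symm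
  · intro h k
    have := CfsgH1.le_map_pPrimeCore l (fun y a => Subgroup.mem_normalizer_fintype fun m b => n y a m b) h.symm
    rw [k, Subgroup.map_bot] at this
    exact h2.1 (eq_bot_iff.2 this)

theorem NC_conj {x φ α : MulAut K} (h : α * x * α⁻¹ = φ) {n : MulAut K} : α * n * α⁻¹ ∈ NC φ ↔ n ∈ NC x := by
  rw [mem_NC, mem_NC, (Cfsg.innNormal K).mem_comm_iff, inv_mul_cancel_left, ← h]
  exact and_congr_right fun _ => (MulAut.conj α).injective.eq_iff.symm.trans (by simp [Commute, SemiconjBy]) |>.symm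

theorem C1.conj {p : ℕ} {x φ α : MulAut K} (h : α * x * α⁻¹ = φ) (k : C1 p φ) : C1 p x := fun y a b c => by
  have := k (α * y * α⁻¹) (h ▸ a.map (MulAut.conj α)) (fun n d => by
    have := (b (α⁻¹ * n * α) ((NC_conj h).1 (by simpa [mul_assoc] using d))).map (MulAut.conj α)
    simpa [mul_assoc] using this) (by rwa [orderOf_conj_eq rfl])
  simpa using this

theorem C2.conj {p : ℕ} {x φ α : MulAut K} (h : α * x * α⁻¹ = φ) (k : C2 p φ) : C2 p x := by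
  have e : (NC x).map (MulAut.conj α).toMonoidHom = NC φ := map_conj_cent _ h
  have i := (MulAut.conj α).injective
  refine ⟨fun c => k.1 (by rw [← e, c, Subgroup.map_bot]), fun M a b c d => ?_⟩
  rw [← Subgroup.card_map_of_injective (f := (MulAut.conj α).toMonoidHom) i, e]
  refine k.2 (M.map (MulAut.conj α).toMonoidHom) (e ▸ Subgroup.map_mono a) ?_ (by rwa [Subgroup.card_map_of_injective i])
    (by rwa [Ne, Subgroup.map_eq_bot_iff_of_injective _ i])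
  rw [← e]
  rintro _ ⟨n, s, rfl⟩ _ ⟨m, t, rfl⟩
  exact ⟨_, b n s m t, by simp [mul_assoc]⟩

end Abs

variable {F : Type*} [Field F] {V : Type*} [AddCommGroup V] [Module F V]

theorem IsSc.mul {a b : V ≃ₗ[F] V} (h : IsSc a) (k : IsSc b) : IsSc (a * b) :=
  let ⟨l, h⟩ := h; let ⟨m, k⟩ := k; ⟨l * m, fun v => by simp [h, k, mul_smul]⟩

theorem isSc_scal (c : Fˣ) : IsSc (scal V c) := ⟨c, fun _ => rfl⟩

theorem isSc_scal_mul {c : Fˣ} {a : V ≃ₗ[F] V} : IsSc (scal V c * a) ↔ IsSc a :=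
  ⟨fun h => by simpa [← mul_assoc, ← _root_.map_mul] using IsSc.mul (isSc_scal c⁻¹) h, IsSc.mul (isSc_scal c)⟩

theorem scal_mul_pow' (c : Fˣ) (a : V ≃ₗ[F] V) (n : ℕ) : (scal V c * a) ^ n = scal V (c ^ n) * a ^ n := by
  rw [Commute.mul_pow ((isSc_scal c).comm a).symm, _root_.map_pow]

/-- every nonscalar normal subgroup has projective order divisible by `p` -/
def NP (p : ℕ) (E : Subgroup (V ≃ₗ[F] V)) : Prop :=
  ∀ N : Subgroup E, N.Normal → ∀ m, p.Coprime m → (∀ n ∈ N, IsSc (n.1 ^ m)) → ∀ n ∈ N, IsSc n.1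

/-- nonscalar normal subgroups have index a power of `r` -/
def IW (r : ℕ) (E : Subgroup (V ≃ₗ[F] V)) : Prop :=
  ∀ N : Subgroup E, N.Normal → (∃ n ∈ N, ¬ IsSc n.1) → ∀ b : E, ∃ k, b ^ r ^ k ∈ N

theorem IW.np {p r : ℕ} {E : Subgroup (V ≃ₗ[F] V)} (h : IW r E) (hr : p.Coprime r)
    (k : ∃ b ∈ E, ∀ m, p.Coprime m → ¬ IsSc (b ^ m)) : NP p E := fun N a m b c n d => by
  by_contra e
  obtain ⟨s, s1, s2⟩ := k
  obtain ⟨k, l⟩ := h N a ⟨n, d, e⟩ ⟨s, s1⟩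
  exact s2 _ ((hr.pow_right k).mul_right b) (by simpa [pow_mul] using c _ l)

theorem not_isSc_pow {p : ℕ} [Fact p.Prime] {b : V ≃ₗ[F] V} (h : ¬ IsSc b) (k : IsSc (b ^ p)) {m : ℕ} (c : p.Coprime m) :
    ¬ IsSc (b ^ m) := fun l => by
  obtain ⟨u, hu⟩ := Nat.exists_mul_mod_eq_one_of_coprime c.symm (Fact.out : p.Prime).one_lt
  have pw : ∀ {a : V ≃ₗ[F] V}, IsSc a → ∀ n, IsSc (a ^ n) := fun h n => by
    induction n with
    | zero => exact isSc_one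
    | succ n ih => exact pow_succ (M := V ≃ₗ[F] V) _ _ ▸ IsSc.mul ih h
  have := pw l u
  rw [← pow_mul, ← Nat.div_add_mod (m * u) p, hu.2, pow_succ, pow_mul] at this
  obtain ⟨x, hx⟩ := pw k (m * u / p)
  obtain ⟨y, hy⟩ := this
  refine h ⟨x⁻¹ * y, fun v => ?_⟩
  rcases eq_or_ne x 0 with rfl | x0
  · have : ∀ v : V, v = 0 := fun v => (LinearEquiv.map_eq_zero_iff _).1 ((hx v).trans (zero_smul _ _))
    rw [this (b v), this (_ • v)]
  rw [mul_smul, ← hy, LinearEquiv.mul_apply, hx, inv_smul_smul₀ x0]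

variable {S : Type*} [Group S] {E : Subgroup (V ≃ₗ[F] V)} (e : S ≃* E)

/-- the inner automorphisms -/
def ψ : E →* MulAut (S ⧸ Subgroup.center S) :=
  (Ψ e).comp ((lin.comp E.subtype).codRestrict _ fun s => lin_mem_NN s.2)

theorem ψ_range : (ψ e).range = Cfsg.Inn _ := by
  ext β
  constructor
  · rintro ⟨s, rfl⟩
    obtain ⟨s, rfl⟩ := e.surjective s
    exact ⟨_, (Ψ_lin e s).symm⟩
  · rintro ⟨s, rfl⟩
    obtain ⟨s, rfl⟩ := QuotientGroup.mk_surjective s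
    exact ⟨_, Ψ_lin e s⟩

theorem ψ_eq_one (hK : KS E) {s : E} : ψ e s = 1 ↔ IsSc s.1 := (hK.Ψ_eq_one e).trans (and_iff_right rfl)

theorem c2_of_model [Finite S] (hK : KS E) {x : MulAut (S ⧸ Subgroup.center S)} {p : ℕ} [Fact p.Prime] {F₀ : Type*}
    [Field F₀] {V₀ : Type*} [AddCommGroup V₀] [Module F₀ V₀] {G₀ E₀ : Subgroup (V₀ ≃ₗ[F₀] V₀)}
    (Φ : (V₀ ≃ₗ[F₀] V₀) →* (V ≃ₗ[F] V)) (b0 : ∀ a, IsSc (Φ a) ↔ IsSc a)
    (b1 : ∀ a ∈ E₀, ∃ h : Φ a ∈ E, Commute (ψ e ⟨_, h⟩) x)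
    (b2 : ∀ s, Commute (ψ e s) x → ∃ d, ∃ a ∈ G₀, s.1 = scal V d * Φ a)
    (b3 : ∀ a ∈ G₀, ∀ b ∈ E₀, a * b * a⁻¹ ∈ E₀) (b4 : KS E₀) (b5 : ∃ a ∈ E₀, ¬ IsSc a)
    (b6 : ∀ a ∈ G₀, ¬ IsSc a → IsSc (a ^ p) → NP p E₀) : C2 p x := by
  choose b1 b1' using b1
  let Φ' : E₀ →* E := (Φ.comp E₀.subtype).codRestrict _ fun a => b1 a a.2
  have m : ∀ a, ψ e (Φ' a) ∈ NC x := fun a => mem_NC.2 ⟨ψ_range e ▸ ⟨_, rfl⟩, b1' a a.2⟩
  have d : ∀ n ∈ NC x, ∃ s d, ∃ a ∈ G₀, n = ψ e s ∧ s.1 = scal V d * Φ a := fun n h => by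
    obtain ⟨s, rfl⟩ := (ψ_range e).ge (mem_NC.1 h).1
    obtain ⟨d, a, k, l⟩ := b2 s (mem_NC.1 h).2
    exact ⟨s, d, a, k, rfl, l⟩
  refine ⟨fun h => ?_, fun M h1 h2 h3 h4 => ?_⟩
  · obtain ⟨a, k, l⟩ := b5
    exact l ((b0 a).1 ((ψ_eq_one e hK).1 (h.le (m ⟨a, k⟩))))
  rw [(Fact.out : p.Prime).coprime_iff_not_dvd]
  intro c
  obtain ⟨⟨n, n1⟩, n2⟩ := exists_prime_orderOf_dvd_card' p c
  replace n2 : orderOf n = p := (Subgroup.orderOf_coe _).trans n2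
  obtain ⟨s, u, a, a1, rfl, a2⟩ := d n n1
  have := b6 a a1 (fun k => by
      rw [(ψ_eq_one e hK).2 (a2 ▸ isSc_scal_mul.2 ((b0 a).2 k)), orderOf_one] at n2
      exact (Fact.out : p.Prime).ne_one n2.symm) (by
      rw [← b0, _root_.map_pow, ← isSc_scal_mul (c := u ^ p), ← scal_mul_pow', ← a2, ← Subgroup.coe_pow, ← ψ_eq_one e hK,
        _root_.map_pow, ← n2, pow_orderOf_eq_one])
    (M.comap ((ψ e).comp Φ')) ⟨fun b k g => by simpa using h2 _ (m g) _ k⟩ _ h3.symm fun b k => by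
      rw [← b0, ← Subgroup.coe_pow]
      refine (ψ_eq_one e hK (s := Φ' (b ^ _))).1 ?_
      rw [_root_.map_pow, _root_.map_pow]
      exact congrArg Subtype.val (pow_card_eq_one' (x := (⟨_, k⟩ : M)))
  obtain ⟨n, n1, n3⟩ := (M.bot_or_exists_ne_one).resolve_left h4
  obtain ⟨s, u, a, a1, rfl, a2⟩ := d n (h1 n1)
  refine n3 ((ψ_eq_one e hK).2 (a2 ▸ isSc_scal_mul.2 ((b0 a).2 (b4 (lin a) fun b k => ?_).2)))
  obtain ⟨l, hl⟩ := this ⟨_, mul_mem (b3 a a1 b k) (inv_mem k)⟩ (by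
    have := mul_mem n1 (h2 _ (m ⟨b, k⟩) _ (inv_mem n1))
    rw [← _root_.map_inv, ← _root_.map_inv, ← _root_.map_mul, ← _root_.map_mul, ← _root_.map_mul] at this
    change ψ e _ ∈ M
    convert this using 2
    refine Subtype.ext (LinearEquiv.ext fun v => ?_)
    change Φ (a * b * a⁻¹ * b⁻¹) v = (s.1 * (Φ b * s.1⁻¹ * (Φ b)⁻¹)) v
    rw [a2, mul_inv_rev, ← _root_.map_inv (scal V)]
    simp [-_root_.map_inv, smul_smul, Φ.map_inv])
  exact ⟨l, fun v => by simpa using hl (b (a v))⟩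

end CfsgH5.Op
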