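import Cfsg.Agent.H5.Op1

set_option autoImplicit false

/-!
The `p'`-core of the centralizer of an automorphism, part 2: normal subgroups of classical groups.
-/

namespace CfsgH5.Op

open Module Au Au.Γ CForm

variable {F : Type*} [Field F] {V : Type*} [AddCommGroup V] [Module F V]

theorem IW.np_of {p r : ℕ} [Fact p.Prime] {E : Subgroup (V ≃ₗ[F] V)} (h : IW r E) (hr : p.Coprime r) {a s : V ≃ₗ[F] V}
    (h1 : ¬ IsSc a) (h2 : IsSc (a ^ p)) {k : ℕ} (hk : p.Coprime k) {c : Fˣ} (hs : s ∈ E) (e : a ^ k = scal V c * s) :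
    NP p E := by
  refine h.np hr ⟨s, hs, fun m => not_isSc_pow (fun l => not_isSc_pow h1 h2 hk (e ▸ isSc_scal_mul.2 l)) ?_⟩
  obtain ⟨l, hl⟩ := h2
  rw [← isSc_scal_mul (c := c ^ p), ← scal_mul_pow', ← e, ← pow_mul, mul_comm, pow_mul]
  generalize a ^ p = b at hl
  clear hk e
  induction k with
  | zero => exact isSc_one
  | succ n ih => exact pow_succ b n ▸ IsSc.mul ih ⟨l, hl⟩

theorem not_isSc_swap {b : V ≃ₗ[F] V} {x y : V} {c d : F} (h : y ∉ F ∙ x) (h1 : b x = c • y) (h2 : b y = d • x)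
    (m : ℕ) (hm : Nat.Coprime 2 m) : ¬ IsSc (b ^ m) := by
  obtain ⟨k, rfl⟩ := Nat.coprime_two_left.1 hm
  rintro ⟨l, hl⟩
  have x0 : x ≠ 0 := by rintro rfl; exact h (by simpa using h2)
  have : ∀ k, ∃ t : F, (b ^ (2 * k)) x = t • x := fun k => by
    induction k with
    | zero => exact ⟨1, by simp⟩
    | succ k ih =>
      obtain ⟨t, ht⟩ := ih
      exact ⟨c * d * t, by simp [mul_add, pow_succ, h1, h2, ht, mul_smul]⟩
  obtain ⟨t, ht⟩ := this k
  have e := hl x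
  rw [pow_succ', LinearEquiv.mul_apply, ht, _root_.map_smul, h1, smul_smul] at e
  have : t * c ≠ 0 := fun z => by
    have := hl x
    rw [← e, z, zero_smul] at this
    exact x0 ((LinearEquiv.map_eq_zero_iff _).1 this)
  exact h (Submodule.mem_span_singleton.2 ⟨(t * c)⁻¹ * l, by rw [mul_smul, ← e, inv_smul_smul₀ this]⟩)

variable {P : FP F} {f : CForm P V}

theorem exists_swap (hr : f.Rich) {x y : V} (h : f.IsHyp x y) : ∃ b ∈ f.E, ∀ m, Nat.Coprime 2 m → ¬ IsSc (b ^ m) := by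
  obtain ⟨b, hb, l, -, h1, h2⟩ := hr.exists_E_hyp h h.symm
  refine ⟨b, hb, not_isSc_swap (x := x) (c := P.ε⁻¹ * (P.σ l)⁻¹) (fun k => ?_)
    (by rw [mul_smul, ← h2, _root_.map_smul, inv_smul_smul₀ P.ε_ne]) h1⟩
  obtain ⟨a, k⟩ := Submodule.mem_span_singleton.1 k
  simpa [← k, h.hxx] using h.hxy

theorem iw_form [FiniteDimensional F V] (hf : f.Nondeg) (hr : f.Rich) (h2 : f.Rich2) {x y : V} (h : f.IsHyp x y)
    (r : ℕ) [CharP F r] : IW r f.E := by
  rintro N hN ⟨n, hn, hn'⟩ b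
  have hn'' : ¬ ∀ z, f.Q z = 0 → ∃ l : F, (n : V ≃ₗ[F] V) z = l • z := fun hh =>
    hn' (scalar_of_fix_lines hr h (E_le_Isom n.2) hh)
  push Not at hn''
  obtain ⟨z, hz, hzn⟩ := hn''
  let R : V → V → Prop := fun u v => ∃ m ∈ N, ∃ l : F, l ≠ 0 ∧ (m : V ≃ₗ[F] V) u = l • v
  have hr' : ∀ u v, f.Q u = 0 → u ≠ 0 → f.Q v = 0 → v ≠ 0 → R u v := by
    intro u v hu hu0 hv hv0
    refine prim_rel hf h2 R ?_ ?_ ?_ ?_ hz (y := (n : V ≃ₗ[F] V) z)
      (by rw [f.Isom_Q (E_le_Isom n.2), hz]) ?_ ⟨n, hn, 1, one_ne_zero, by simp⟩ u v hu hu0 hv hv0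
    · rintro a b ⟨m, hm, l, hl, e⟩
      refine ⟨m⁻¹, N.inv_mem hm, l⁻¹, inv_ne_zero hl, ?_⟩
      have : b = l⁻¹ • (m : V ≃ₗ[F] V) a := by rw [e, smul_smul, inv_mul_cancel₀ hl, one_smul]
      rw [this]; simp
    · rintro a b c ⟨m, hm, l, hl, e⟩ ⟨m', hm', l', hl', e'⟩
      exact ⟨m' * m, N.mul_mem hm' hm, l * l', mul_ne_zero hl hl', by simp [e, e', smul_smul]⟩
    · intro a l _ _ hl
      exact ⟨1, N.one_mem, l⁻¹, inv_ne_zero hl, by simp [smul_smul, hl]⟩
    · rintro g x a c hg u v ⟨m, hm, l, hl, e⟩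
      exact ⟨⟨g, hg.mem_E⟩ * m * ⟨g, hg.mem_E⟩⁻¹, hN.conj_mem m hm _, l, hl, by simp [e]⟩
    · intro hm
      obtain ⟨l, hl⟩ := Submodule.mem_span_singleton.1 hm
      exact hzn l hl.symm
  have : f.E ≤ (N ⊔ (f.Tx x h.hx).subgroupOf f.E).map f.E.subtype := by
    refine E_le fun g u a c hg => ?_
    by_cases hu0 : u = 0
    · have : g = 1 := by ext v; simp [hg.app, hu0]
      rw [this]; exact Subgroup.one_mem _
    obtain ⟨m, hm, l, hl, e⟩ := hr' u x hg.hx hu0 h.hx h.x_ne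
    have h1 := hg.conj (E_le_Isom m.2)
    rw [e] at h1
    have h3 := h1.smul h.hx (by simpa [hl] using h1.ha)
    refine ⟨m⁻¹ * (m * ⟨g, hg.mem_E⟩ * m⁻¹) * m, ?_, by simp [mul_assoc]⟩
    exact Subgroup.mul_mem _ (Subgroup.mul_mem _ (Subgroup.mem_sup_left (N.inv_mem hm))
      (Subgroup.mem_sup_right ⟨_, _, h3⟩)) (Subgroup.mem_sup_left hm)
  obtain ⟨m, hm, t, ⟨a, c, ht⟩, rfl⟩ := Subgroup.mem_sup_of_normal_left.1
    ((Subgroup.mem_map_iff_mem f.E.subtype_injective).1 (this b.2))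
  refine ⟨2, (QuotientGroup.eq_one_iff _).1 ?_⟩
  rw [QuotientGroup.mk_pow, QuotientGroup.mk_mul, (QuotientGroup.eq_one_iff _).2 hm, one_mul, ← QuotientGroup.mk_pow,
    show t ^ r ^ 2 = 1 from Subtype.ext (eich_pow_char ht), QuotientGroup.mk_one]

theorem np_form [FiniteDimensional F V] (hf : f.Nondeg) (hr : f.Rich) (h2 : f.Rich2) {x y : V} (h : f.IsHyp x y)
    {p r : ℕ} [Fact p.Prime] [CharP F r] (hp : p.Coprime r) {a : V ≃ₗ[F] V} {κ : F} (ha : IsSim f (lin a) κ)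
    (h1 : ¬ IsSc a) (h3 : IsSc (a ^ p)) (hσ : ∀ s ∈ f.Isom, s * s ∈ f.E) : NP p f.E := by
  obtain rfl | p2 := eq_or_ne p 2
  · exact (iw_form hf hr h2 h r).np hp (exists_swap hr h)
  have m : scal V (Units.mk0 κ ha.ne)⁻¹ * a ^ 2 ∈ f.Isom := ⟨fun u v => by
    simp [-_root_.map_inv, pow_two, ha.lin_B, ha.fix, ha.ne, map_inv₀], fun v => by simp [-_root_.map_inv, pow_two, ha.lin_Q, f.Q_smul, ha.fix, ha.ne, map_inv₀, mul_assoc]⟩
  refine (iw_form hf hr h2 h r).np_of hp h1 h3 (k := 2 * 2) (c := Units.mk0 κ ha.ne ^ 2)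
    (Nat.Coprime.mul_right ?_ ?_) (hσ _ m) ?_
  iterate 2 exact (Nat.coprime_primes Fact.out Nat.prime_two).2 p2
  rw [← pow_two (_ * _), scal_mul_pow', ← mul_assoc, ← _root_.map_mul, ← mul_pow, mul_inv_cancel, one_pow, _root_.map_one,
    one_mul, pow_mul]

theorem orth_sq_mem [Finite F] [FiniteDimensional F V] {f : CForm (FP.orth F) V} (hf : f.Nondeg) (hs : f.Split)
    (h4 : 4 ≤ finrank F V) : ∀ s ∈ f.Isom, s * s ∈ f.E := by
  rw [← comm_eq_E hf hs h4]
  intro s h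
  have := hom_ext_rf hf hs (φ := (powMonoidHom 2).comp Abelianization.of) (ψ := 1) fun d _ => by
    rw [MonoidHom.comp_apply, powMonoidHom_apply, ← _root_.map_pow, pow_two]
    exact congrArg _ (Subtype.ext (rf_mul_rf d))
  have k : (⟨s, h⟩ ^ 2 : f.Isom) ∈ commutator f.Isom :=
    (QuotientGroup.eq_one_iff _).1 ((map_pow Abelianization.of _ _).trans (DFunLike.congr_fun this ⟨s, h⟩))
  rw [← Subgroup.map_subtype_commutator]
  exact ⟨_, k, pow_two s⟩

open Matrix in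
open scoped LinearAlgebra.Projectivization in
theorem iw_SL {ι : Type} [Fintype ι] [DecidableEq ι] (h2 : 2 ≤ Fintype.card ι) (r : ℕ) [CharP F r] :
    IW r (SLV ι F) := by
  rintro N hN ⟨n, hn, hn'⟩ b
  have : Nontrivial ι := Fintype.one_lt_card_iff_nontrivial.1 h2
  let I : MulAction.IwasawaStructure (SpecialLinearGroup ι F) (ℙ F (ι → F)) :=
    { T p := SpecialLinearGroup.lineStab p.submodule
      is_comm p := by
        rw [← Projectivization.mk_rep p, Projectivization.submodule_mk]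
        exact SpecialLinearGroup.lineStab_isMulCommutative_of_span p.rep p.rep_nonzero
      is_conj g p := by rw [PSL.smul_submodule, Matrix.SpecialLinearGroup.lineStab_smul]
      is_generator := iSup_lineStab_eq_top }
  have k := I.commutator_le (N.comap (slE ι F).toMonoidHom) fun c => hn' (Γ.scal_of_lines (θ := lin n.1) (by simpa)
    fun v => by
      by_cases v0 : v = 0
      · simp [v0]
      obtain ⟨n, rfl⟩ := (slE ι F).surjective n
      obtain ⟨a, ha⟩ := (Projectivization.mk_eq_mk_iff' F _ _ _ v0).1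
        (c.ge (Set.mem_univ (Projectivization.mk F v v0)) ⟨n, hn⟩)
      exact Submodule.mem_span_singleton.2 ⟨a, ha⟩).2
  obtain ⟨b, rfl⟩ := (slE ι F).surjective b
  refine ⟨1, ?_⟩
  rw [← _root_.map_pow, pow_one]
  refine k ((QuotientGroup.eq_one_iff _).1 (?_ : Abelianization.of _ = 1))
  induction b using SL_transvection_induction with
  | ht i j h c =>
    have : ∀ k : ℕ, SpecialLinearGroup.transvection h c ^ k = SpecialLinearGroup.transvection h (k * c) := fun k => by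
      induction k with
      | zero => simp
      | succ k ih => rw [pow_succ, ih, ← SpecialLinearGroup.transvection_add]; push_cast; ring_nf
    simp [this]
  | hmul A B a b => rw [_root_.map_pow] at a b ⊢; rw [_root_.map_mul, mul_pow, a, b, one_mul]

end CfsgH5.Op
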