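import Cfsg.Agent.H5.Op2

set_option autoImplicit false

/-!
The `p'`-core of the centralizer of an automorphism, part 3: semilinear maps with a nontrivial field part.
-/

namespace CfsgH5.Op

open Module Au Au.Γ CForm

variable {F : Type*} [Field F] [Finite F] {F₀ : Type*} [Field F₀] {j : F₀ →+* F} {ρ : F ≃+* F}

theorem emb_pow (h : Emb j ρ) {τ : F ≃+* F} (k : ∀ a, τ (j a) = j a) : τ ^ orderOf ρ = 1 := by
  obtain ⟨⟨_, i, rfl⟩, l⟩ := FixedPoints.toAlgAut_surjective (Subgroup.zpowers ρ) F (AlgEquiv.ofRingEquiv (f := τ)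
    fun x => by
      obtain ⟨y, hy⟩ := (h x).1 (x.2 ⟨ρ, Subgroup.mem_zpowers ρ⟩)
      change τ x = x
      rw [← hy, k])
  rw [← show ρ ^ i = τ from RingEquiv.ext fun x => DFunLike.congr_fun l x, ← zpow_natCast, ← zpow_mul, mul_comm, zpow_mul,
    zpow_natCast, pow_orderOf_eq_one, one_zpow]

theorem emb_res (h : Emb j ρ) (τ : F ≃+* F) : ∃ τ₀ : F₀ ≃+* F₀, ∀ a, j (τ₀ a) = τ (j a) := by
  have : Finite F₀ := Finite.of_injective j j.injective
  choose t ht using fun a => (h (τ (j a))).1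
    ((DFunLike.congr_fun (ringAut_comm ρ τ) (j a)).trans (congrArg τ (h.fix a)))
  let t' : F₀ →+* F₀ :=
    { toFun := t
      map_one' := j.injective (by simp [ht])
      map_mul' a b := j.injective (by simp [ht])
      map_zero' := j.injective (by simp [ht])
      map_add' a b := j.injective (by simp [ht]) }
  exact ⟨RingEquiv.ofBijective t' (Finite.injective_iff_bijective.1 t'.injective), ht⟩

variable {ι : Type} [Fintype ι] [DecidableEq ι] [Nonempty ι] {E₀ G₀ : Subgroup ((ι → F₀) ≃ₗ[F₀] (ι → F₀))}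

omit [Finite F] [Nonempty ι] in
theorem exL_apply (a : (ι → F₀) ≃ₗ[F₀] (ι → F₀)) (v : ι → F₀) : exL j a (j ∘ v) = j ∘ a v := by
  obtain ⟨a, rfl⟩ := gl_surjective a
  rw [exL_gl, ex_apply]

theorem desc (h : Emb j ρ) (hK : KS E₀) {η : Γ F (ι → F)} {l : F} (h1 : ∀ v, std ι ρ (η v) = l • η (std ι ρ v))
    (h2 : ∀ a ∈ E₀, ∃ l : F, ∀ v, η (exL j a v) = l • exL j a (η v)) :
    (η ^ orderOf ρ).σ = 1 ∧ ∃ l : F, ∀ v, (η ^ orderOf ρ) v = l • v := by
  obtain ⟨g, hg⟩ := exists_lin (θ := η * (std ι η.σ)⁻¹) (by simp)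
  obtain ⟨c, a, rfl⟩ := h.exists_ex' (g := g) (l := l) fun v => by
    rw [← lin_apply, ← lin_apply, hg, Γ.mul_apply, h1, Γ.mul_apply, ← Γ.mul_apply (std ι ρ), ← Γ.mul_apply _ (std ι ρ),
      ← _root_.map_inv, ← _root_.map_mul, ← _root_.map_mul, ringAut_comm]
  obtain ⟨τ, hτ⟩ := emb_res h η.σ
  replace hg := eq_mul_of_mul_inv_eq hg.symm
  have k : ∀ v, η (j ∘ v) = (c : F) • j ∘ mkΓ a τ v := fun v => by
    rw [hg, mkΓ, Γ.mul_apply, Γ.mul_apply, lin_apply, lin_apply, ← ex_apply]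
    exact congrArg (fun w => (c : F) • ex j a w) (funext fun i => (hτ _).symm)
  obtain ⟨t1, m, t2⟩ := hK (mkΓ a τ) fun b hb => by
    obtain ⟨l, hl⟩ := h2 b hb
    have e : ∀ v i, j (mkΓ a τ (b v) i) = l * j (b (mkΓ a τ v) i) := fun v i => by
      have := congrFun (hl (j ∘ v)) i
      rw [exL_apply, k, k, _root_.map_smul, exL_apply] at this
      exact mul_left_cancel₀ c.ne_zero (by simpa [mul_left_comm] using this)
    obtain ⟨v, hv⟩ := (mkΓ a τ).surj (b.symm 1)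
    refine ⟨mkΓ a τ (b v) (Classical.arbitrary ι), fun w => funext fun i => j.injective ?_⟩
    simp [e, hv]
  obtain rfl : τ = 1 := t1
  obtain ⟨m, t3⟩ := (ex_isSc (j := j)).2 ⟨m, fun v => by simpa [mkΓ] using t2 v⟩
  have t4 := emb_pow h fun a => (hτ a).symm
  refine ⟨by rw [Γ.pow_σ, t4], ?_⟩
  have m0 : m ≠ 0 := by
    rintro rfl
    exact one_ne_zero ((LinearEquiv.map_eq_zero_iff _).1 ((t3 1).trans (zero_smul _ _)))
  rw [show η = lin (scal _ (c * Units.mk0 m m0)) * std ι η.σ from hg.trans (congrArg (fun z => lin z * _)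
    (LinearEquiv.ext fun v => by simp [t3, mul_smul]))]
  exact ⟨_, fun v => by rw [scal_mul_pow, ← _root_.map_pow, t4, _root_.map_one, Γ.one_apply]⟩

variable (j) in
/-- extension of scalars followed by a change of basis -/
noncomputable def exC (g : (ι → F) ≃ₗ[F] (ι → F)) : ((ι → F₀) ≃ₗ[F₀] (ι → F₀)) →* ((ι → F) ≃ₗ[F] (ι → F)) :=
  (MulAut.conj g).toMonoidHom.comp (exL j)

omit [Finite F] [Nonempty ι] in
theorem exC_apply (g : (ι → F) ≃ₗ[F] (ι → F)) (a : (ι → F₀) ≃ₗ[F₀] (ι → F₀)) (v : ι → F) :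
    exC j g a (g v) = g (exL j a v) := by simp [exC]

omit [Finite F] in
theorem exC_isSc (g : (ι → F) ≃ₗ[F] (ι → F)) (a : (ι → F₀) ≃ₗ[F₀] (ι → F₀)) : IsSc (exC j g a) ↔ IsSc a := by
  obtain ⟨a, rfl⟩ := gl_surjective a
  rw [← ex_isSc (j := j), ← exL_gl]
  refine exists_congr fun l => g.surjective.forall.trans (forall_congr' fun v => ?_)
  rw [exC_apply, ← _root_.map_smul, g.injective.eq_iff]

variable {S : Type*} [Group S] {E : Subgroup ((ι → F) ≃ₗ[F] (ι → F))} (e : S ≃* E) (hK : KS E)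
include hK

omit [Fintype ι] [DecidableEq ι] [Nonempty ι] in
theorem comm_iff {η θ : NN E} : Commute (Ψ e η) (Ψ e θ) ↔ ∃ l : F, ∀ v, η.1 (θ.1 v) = l • θ.1 (η.1 v) := by
  have : PJ (NN E).subtype (Ψ e) := fun _ => hK.Ψ_eq_one e
  rw [Commute, SemiconjBy, ← _root_.map_mul, ← _root_.map_mul, this.eq_iff]
  exact and_iff_right (ringAut_comm _ _)

variable (h : Emb j ρ) {θ : NN E} (hρ : θ.1.σ = ρ) {c : Fˣ} {g : (ι → F) ≃ₗ[F] (ι → F)}
  (hθ : ∀ v, (c : F) • θ.1 (g v) = g (std ι ρ v)) (a1 : ∀ a ∈ E₀, exC j g a ∈ E) (b4 : KS E₀)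
include h hθ a1

omit [Nonempty ι] in
theorem fld_comm (a : _) (k : a ∈ E₀) : Commute (ψ e ⟨_, a1 a k⟩) (Ψ e θ) :=
  (comm_iff e hK).2 ⟨1, fun v => by
    obtain ⟨v, rfl⟩ := g.surjective v
    obtain ⟨a, rfl⟩ := gl_surjective a
    change exC j g _ _ = (1 : F) • θ.1 (exC j g _ _)
    refine smul_right_injective _ c.ne_zero ?_
    simp only [one_smul, exC_apply, hθ, ← _root_.map_smul, exL_gl, h.ex_comm]⟩

include hρ b4

theorem fld_c1 {η : NN E} (h1 : Commute (Ψ e η) (Ψ e θ)) (h2 : ∀ n ∈ NC (Ψ e θ), Commute (Ψ e η) n) :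
    Ψ e η ^ orderOf ρ = 1 := by
  obtain ⟨l, hl⟩ := (comm_iff e hK).1 h1.symm
  obtain ⟨t, m, k⟩ := desc h b4 (η := (lin g)⁻¹ * η.1 * lin g) (l := c * l * (η.1.σ c)⁻¹) (fun v => g.injective (by
      rw [← hθ, _root_.map_smul]
      simp only [Γ.mul_apply, lin_apply, ← _root_.map_inv, ← hθ]
      simp [hl, smul_smul])) fun a k => by
    obtain ⟨l, hl⟩ := (comm_iff e hK).1 (h2 _ (mem_NC.2 ⟨ψ_range e ▸ ⟨_, rfl⟩, fld_comm e hK h hθ a1 a k⟩))
    refine ⟨l, fun v => g.injective ?_⟩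
    have : η.1 (exC j g a (g v)) = l • exC j g a (η.1 (g v)) := hl (g v)
    rw [_root_.map_smul, ← exC_apply]
    simpa [← _root_.map_inv, exC_apply] using this
  rw [← inv_inv (lin g), inv_inv (lin g)⁻¹, conj_pow] at t k
  rw [← _root_.map_pow, hK.Ψ_eq_one]
  refine ⟨by simpa using t, m, fun v => ?_⟩
  simpa [← _root_.map_inv, LinearEquiv.symm_apply_eq] using k (g.symm v)

theorem fld_c2 [Finite S] {p : ℕ} [Fact p.Prime] (a2 : ∀ d a, scal _ d * exC j g a ∈ E → a ∈ G₀)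
    (b3 : ∀ a ∈ G₀, ∀ b ∈ E₀, a * b * a⁻¹ ∈ E₀) (b5 : ∃ a ∈ E₀, ¬ IsSc a)
    (b6 : ∀ a ∈ G₀, ¬ IsSc a → IsSc (a ^ p) → NP p E₀) : C2 p (Ψ e θ) := by
  refine c2_of_model e hK (exC j g) (exC_isSc g) (fun a k => ⟨_, fld_comm e hK h hθ a1 a k⟩) (fun s k => ?_) b3 b4 b5 b6
  obtain ⟨l, hl⟩ := (comm_iff e hK).1 k.symm
  obtain ⟨d, a, k⟩ := h.exists_ex' (g := g⁻¹ * s.1 * g) (l := l) fun v => g.injective (by
    have : θ.1 (s.1 (g v)) = l • s.1 (θ.1 (g v)) := hl (g v)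
    rw [← hθ, _root_.map_smul]
    simp [← hθ, this, smul_comm l])
  have : s.1 = scal _ d * exC j g (gl a) := LinearEquiv.ext fun v => by
    obtain ⟨v, rfl⟩ := g.surjective v
    simpa [exC_apply, exL_gl, LinearEquiv.symm_apply_eq] using DFunLike.congr_fun k v
  exact ⟨d, _, a2 d _ (this ▸ s.2), this⟩

end CfsgH5.Op
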