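import Cfsg.Agent.H5.Op4

set_option autoImplicit false

/-!
The `p'`-core of the centralizer of an automorphism, part 5: orthogonal groups have no normal subgroups of odd order.
-/

namespace CfsgH5.Op

open Module Au Au.Γ CForm

variable {F : Type*} [Field F] {V : Type*} [AddCommGroup V] [Module F V]

theorem NP.of_le {p : ℕ} {E G : Subgroup (V ≃ₗ[F] V)} (h : NP p E) (hK : KS E) (l : E ≤ G)
    (k : ∀ a ∈ G, ∀ b ∈ E, a * b * a⁻¹ ∈ E) : NP p G := fun N a m b c n d => (hK (lin n.1) fun e he => by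
  obtain ⟨t, ht⟩ := h (N.comap (Subgroup.inclusion l)) inferInstance m b (fun x y => c _ y)
    ⟨_, mul_mem (k _ n.2 e he) (inv_mem he)⟩ (by
      have := mul_mem d (a.1 _ (inv_mem d) ⟨e, l he⟩)
      rwa [← mul_assoc, ← mul_assoc] at this)
  exact ⟨t, fun v => by simpa using ht (e (n.1 v))⟩).2

theorem NP.normal [Finite (V ≃ₗ[F] V)] {p : ℕ} [Fact p.Prime] {E G : Subgroup (V ≃ₗ[F] V)} (h : NP p G)
    (hZ : ∀ z ∈ G, (∀ g ∈ G, g * z = z * g) → IsSc z) (l : E ≤ G) (k : ∀ a ∈ G, ∀ b ∈ E, a * b * a⁻¹ ∈ E) : NP p E := by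
  intro N a m b c n d
  have z : ∀ g : G, QuotientGroup.mk' (Subgroup.center G) g = 1 ↔ IsSc g.1 := fun g =>
    (QuotientGroup.eq_one_iff _).trans ⟨fun h => hZ _ g.2 fun x y =>
      congrArg Subtype.val (Subgroup.mem_center_iff.1 h ⟨x, y⟩), fun h =>
        Subgroup.mem_center_iff.2 fun x => Subtype.ext (h.comm _)⟩
  let π := (QuotientGroup.mk' (Subgroup.center G)).comp (Subgroup.inclusion l)
  have : π.range.Normal := ⟨by
    rintro _ ⟨x, rfl⟩ g
    obtain ⟨g, rfl⟩ := QuotientGroup.mk_surjective g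
    exact ⟨⟨_, k _ g.2 _ x.2⟩, rfl⟩⟩
  have o := (CfsgH1.le_map_pPrimeCore (p := p) (N := N.map π) (Subgroup.map_le_range π N) (by
      rintro _ ⟨x, rfl⟩
      exact Subgroup.mem_normalizer_fintype (by
        rintro _ ⟨y, s, rfl⟩
        exact ⟨_, a.1 y s x, by simp⟩)) (((Fact.out : p.Prime).coprime_iff_not_dvd.2 fun e => by
      obtain ⟨⟨_, x, s, rfl⟩, t⟩ := exists_prime_orderOf_dvd_card' p e
      replace t : orderOf (π x) = p := (Subgroup.orderOf_coe _).trans t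
      have := orderOf_dvd_of_pow_eq_one (x := π x) (n := m) ((π.map_pow _ _).symm.trans ((z _).2 (c x s)))
      exact (Fact.out : p.Prime).ne_one (b.eq_one_of_dvd (t ▸ this))).symm)).trans
    (CfsgH1.map_pPrimeCore_le_of_normal p _)
  exact h ((Cfsg.pPrimeCore p _).comap (QuotientGroup.mk' (Subgroup.center G))) inferInstance _
    (CfsgH1.coprime_pPrimeCore p).symm (fun g s => (z (g ^ _)).1 (by
      rw [_root_.map_pow]; exact congrArg Subtype.val (pow_card_eq_one' (x := (⟨_, s⟩ : Cfsg.pPrimeCore p _)))))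
    (Subgroup.inclusion l n) (o ⟨n, d, rfl⟩)

variable [Finite F] [FiniteDimensional F V] {f : CForm (FP.orth F) V}

theorem np_of_rich2 (hf : f.Nondeg) (h2 : (2 : F) ≠ 0) (h3 : 3 ≤ finrank F V) (h : f.Rich2) : NP 2 f.Isom := by
  obtain ⟨x, y, k⟩ := orth_exists_hyp hf h3
  have hr := rich_of_finrank hf h3
  have r := CharP.char_is_prime F (ringChar F)
  exact ((iw_form hf hr h k (ringChar F)).np ((Nat.coprime_primes Nat.prime_two r).2 fun c => h2 (by
    simpa [← c] using CharP.cast_eq_zero F (ringChar F))) (exists_swap hr k)).of_le (KS_orth hf h3) E_le_Isom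
    fun a b _ => conj_mem_E b

omit [Finite F] in
theorem rich2_three (hf : f.Nondeg) (h3 : finrank F V = 3) : f.Rich2 := by
  intro x y u h hx h1 h2
  obtain ⟨a, c, c0, k, a1, a2⟩ := rich_of_finrank hf h3.ge y u h
  refine ⟨a, c, c0, k, ?_, a1, a2⟩
  have a0 : f.Q a ≠ 0 := fun e => c0 (k.trans e)
  obtain ⟨l, hl⟩ := (finrank_eq_one_iff_of_nonzero' (K := F) (⟨a, IsHyp.mem_perp.2 ⟨a1, a2⟩⟩ :
    f.perp (Submodule.span F {y, u})) (fun e => a0 (by rw [show a = 0 from congrArg Subtype.val e]; simp))).1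
    (by have := h.finrank_perp; omega) ⟨x, IsHyp.mem_perp.2 ⟨h1, h2⟩⟩
  obtain rfl : l • a = x := congrArg Subtype.val hl
  obtain rfl : l = 0 := by simpa [f.Q_smul, a0] using hx
  simp

theorem np_isom (hf : f.Nondeg) (h2 : (2 : F) ≠ 0) (h3 : 3 ≤ finrank F V) : NP 2 f.Isom := by
  obtain h | h | h : finrank F V = 3 ∨ 5 ≤ finrank F V ∨ finrank F V = 4 := by omega
  · exact np_of_rich2 hf h2 h3 (rich2_three hf h)
  · exact np_of_rich2 hf h2 h3 (rich2_of_finrank hf h)
  intro N hN m hm c n hn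
  refine (KS_orth hf h3).center fun g hg => Subgroup.mem_centralizer_singleton_iff.1
    (Isom_le_of_rf hf (split_of_two_ne h2) (fun a ha => ?_) (E_le_Isom hg))
  obtain ⟨d, hd, k, k0, hk⟩ := exists_datum_of_not_le_perp (f := f) (U := f.perp ((F ∙ a) ⊔ F ∙ n.1 a)) fun e => by
    rw [hf.perp_perp] at e
    have e1 := hf.finrank_perp ((F ∙ a) ⊔ F ∙ n.1 a)
    have e2 := Submodule.finrank_add_le_finrank_add_finrank (F ∙ a) (F ∙ n.1 a)
    have e3 : ∀ x : V, finrank F (F ∙ x) ≤ 1 := fun x => by simpa using finrank_span_le_card (R := F) ({x} : Set V)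
    have := Submodule.eq_of_le_of_finrank_le e (by have := e3 a; have := e3 (n.1 a); omega)
    have := (this.ge (Submodule.mem_sup_left (Submodule.mem_span_singleton_self a))) a
      (Submodule.mem_sup_left (Submodule.mem_span_singleton_self a))
    rw [orth_B_self] at this
    exact mul_ne_zero h2 ha this
  have d0 : f.Q d ≠ 0 := fun e => k0 (hk.trans e)
  rw [f.perp_sup, Submodule.mem_inf, mem_perp_single, mem_perp_single] at hd
  have i : (F ∙ d) ⊓ f.perp (F ∙ d) = ⊥ := eq_bot_iff.2 fun v ⟨s, t⟩ => by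
    obtain ⟨l, rfl⟩ := Submodule.mem_span_singleton.1 s
    obtain rfl : l = 0 := by simpa [orth_B_self, h2, d0] using mem_perp_single.1 t
    simp
  have C := hf.isCompl_perp i
  let χ : (f.res (f.perp (F ∙ d))).Isom →* f.Isom :=
    ((sumHom C).comp ((MonoidHom.inr _ _).comp (Subgroup.subtype _))).codRestrict _
      fun u => (sumHom_mem_Isom C).2 ⟨one_mem _, u.2⟩
  have χd : ∀ u, (χ u).1 d = d := fun u => sumHom_left C _ ⟨d, Submodule.mem_span_singleton_self d⟩
  have dd : d ≠ 0 := by rintro rfl; simp at d0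
  have r : finrank F (f.perp (F ∙ d)) = 3 := by
    have := hf.finrank_perp (F ∙ d)
    rw [finrank_span_singleton dd] at this
    omega
  have nd := hf.res_perp ((f.res_nondeg_iff _).2 i)
  have o : ∀ u ∈ N.comap χ, u.1 ^ m = 1 := fun u s => congrArg Subtype.val ((injective_iff_map_eq_one χ).1
    (fun a b e => Subtype.ext (congrArg Prod.snd (sumHom_injective C (congrArg Subtype.val e)))) (u ^ m)
    (Subtype.ext ((χ.map_pow _ _ ▸ c _ s : IsSc (χ (u ^ m)).1).eq_one dd (χd _))))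
  let t : f.Isom := n * ⟨_, rf_mem a⟩ * n⁻¹ * ⟨_, rf_mem a⟩⁻¹
  have t1 : t.1 d = d := by
    change (n.1 * f.rf a * n.1⁻¹ * (f.rf a)⁻¹) d = d
    rw [rf_conj n.2, rf_inv, LinearEquiv.mul_apply, rf_fix hd.1, rf_fix hd.2]
  obtain ⟨⟨u, w⟩, e⟩ := exists_sumHom_eq C t.2 (mem_stabS_of_le fun v s => by
    obtain ⟨l, rfl⟩ := Submodule.mem_span_singleton.1 s
    simpa [t1] using s)
  obtain rfl : u = 1 := LinearEquiv.ext fun ⟨v, s⟩ => Subtype.ext (by
    obtain ⟨l, rfl⟩ := Submodule.mem_span_singleton.1 s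
    rw [← sumHom_left C (u, w), e]; simp [t1])
  have w1 : χ ⟨w, ((sumHom_mem_Isom C).1 (e ▸ t.2)).2⟩ = t := Subtype.ext e
  have w2 : t ∈ N := by
    have := mul_mem hn (hN.1 _ (inv_mem hn) ⟨_, rf_mem a⟩)
    rwa [← mul_assoc, ← mul_assoc] at this
  obtain ⟨l, hl⟩ := np_of_rich2 nd h2 r.ge (rich2_three nd r) (N.comap χ) inferInstance m hm
    (fun u s => o u s ▸ isSc_one) _ (Subgroup.mem_comap.2 (w1 ▸ w2))
  have : Nontrivial (f.perp (F ∙ d)) := Module.nontrivial_of_finrank_pos (R := F) (by omega)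
  have l0 : l ≠ 0 := by
    rintro rfl
    obtain ⟨v, hv⟩ := exists_ne (0 : f.perp (F ∙ d))
    exact hv ((LinearEquiv.map_eq_zero_iff _).1 ((hl v).trans (zero_smul _ _)))
  obtain rfl : w = scal _ (Units.mk0 l l0) := LinearEquiv.ext hl
  suffices t.1 = 1 from Subgroup.mem_centralizer_singleton_iff.2
    (mul_inv_eq_iff_eq_mul.1 (mul_inv_eq_one.1 this)).symm
  rcases scal_isom_cases nd ((sumHom_mem_Isom C).1 (e ▸ t.2)).2 with s | s
  · rw [← e, s]; exact _root_.map_one _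
  obtain ⟨v, hv⟩ := exists_ne (0 : f.perp (F ∙ d))
  have := DFunLike.congr_fun (o _ (Subgroup.mem_comap.2 (w1 ▸ w2))) v
  obtain ⟨j, rfl⟩ := Nat.coprime_two_left.1 hm
  simp only [s, pow_succ, pow_mul, show (LinearEquiv.neg F : _ ≃ₗ[F] f.perp (F ∙ d)) ^ 2 = 1 from
    LinearEquiv.ext fun v => by simp [pow_two], one_pow] at this
  exact absurd (by simpa [neg_eq_iff_add_eq_zero, ← two_smul F, h2] using this) hv

theorem np_orth (hf : f.Nondeg) (h2 : (2 : F) ≠ 0) (h3 : 3 ≤ finrank F V) {E : Subgroup (V ≃ₗ[F] V)} (l : E ≤ f.Isom)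
    (k : ∀ a ∈ f.Isom, ∀ b ∈ E, a * b * a⁻¹ ∈ E) : NP 2 E :=
  have : Finite V := Module.finite_of_finite F
  have : Finite (V ≃ₗ[F] V) := DFunLike.finite _
  (np_isom hf h2 h3).normal (fun _ _ h => (KS_orth hf h3).center fun g s => h g (E_le_Isom s)) l k

end CfsgH5.Op
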