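import Cfsg.Agent.H5.Op5

set_option autoImplicit false

/-!
The `p'`-core of the centralizer of an automorphism, part 6: the linear groups.
-/

namespace CfsgH5.Op

open Module Au Au.Γ CForm Matrix

theorem coprime_fix {K : Type*} [Group K] [Finite K] {x : MulAut K} {p : ℕ} [Fact p.Prime] (h : orderOf x = p) :
    p.Coprime (Nat.card (MonoidHom.eqLocus x.toMonoidHom (MonoidHom.id K))) ↔ p.Coprime (Nat.card K) := by
  have := (IsPGroup.of_card (p := p) (n := 1) (G := Subgroup.zpowers x) (by simp [h])).card_modEq_card_fixedPoints K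
  rw [(Fact.out : p.Prime).coprime_iff_not_dvd, (Fact.out : p.Prime).coprime_iff_not_dvd, this.dvd_iff dvd_rfl]
  refine not_congr (iff_of_eq (congrArg _ (Nat.card_congr (Equiv.subtypeEquivRight fun k => ⟨fun e => ?_, fun e => ?_⟩))))
  · rintro ⟨_, i, rfl⟩
    exact (MulAction.stabilizer (MulAut K) k).zpow_mem e i
  · exact e ⟨x, Subgroup.mem_zpowers x⟩

variable {F : Type*} [Field F]

theorem exists_root [Finite F] {p : ℕ} [Fact p.Prime] (h : p ∣ Nat.card F - 1) : ∃ z : Fˣ, orderOf z = p :=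
  exists_prime_orderOf_dvd_card' p (by rwa [Nat.card_units])

theorem ne_inv_of_orderOf {G : Type*} [Group G] {z : G} {p : ℕ} [Fact p.Prime] (h : orderOf z = p) (p2 : p ≠ 2) :
    z ≠ z⁻¹ := fun e => p2 ((Nat.prime_dvd_prime_iff_eq Fact.out Nat.prime_two).1 (h ▸ orderOf_dvd_of_pow_eq_one (by
      rw [pow_two]; exact mul_eq_one_iff_eq_inv.2 e)))

theorem not_coprime_card {V : Type*} [AddCommGroup V] [Module F V] {S : Type*} [Group S] {E : Subgroup (V ≃ₗ[F] V)}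
    (e : S ≃* E) (hK : KS E) {p : ℕ} (k : ∃ b ∈ E, ∀ m, p.Coprime m → ¬ IsSc (b ^ m)) :
    ¬ p.Coprime (Nat.card (S ⧸ Subgroup.center S)) := fun c => by
  obtain ⟨b, h, k⟩ := k
  obtain ⟨s, l⟩ := (ψ_range e).le ⟨⟨b, h⟩, rfl⟩
  refine k _ c ((ψ_eq_one e hK (s := ⟨b, h⟩ ^ _)).1 ?_)
  rw [_root_.map_pow, ← l, ← _root_.map_pow, pow_card_eq_one', _root_.map_one]

variable {ι : Type} [Fintype ι] [DecidableEq ι]

theorem swap_SL (h2 : 2 ≤ Fintype.card ι) : ∃ b ∈ SLV ι F, ∀ m, Nat.Coprime 2 m → ¬ IsSc (b ^ m) := by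
  have : Nontrivial ι := Fintype.one_lt_card_iff_nontrivial.1 h2
  obtain ⟨i, k, h⟩ := exists_pair_ne ι
  obtain ⟨a, ha⟩ := exists_tv (F := F) (x := Pi.single i 1) (y := Pi.single k 1) (by simp [h.symm])
  obtain ⟨b, hb⟩ := exists_tv (F := F) (x := Pi.single k 1) (y := -Pi.single i 1) (by simp [h])
  refine ⟨a * b * a, mul_mem (mul_mem ha.mem hb.mem) ha.mem, not_isSc_swap (x := Pi.single i 1) (y := Pi.single k 1)
    (c := -1) (d := 1) (fun e => ?_) (by simp [ha.app, hb.app, h, h.symm]) (by simp [ha.app, hb.app, h, h.symm])⟩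
  obtain ⟨c, e⟩ := Submodule.mem_span_singleton.1 e
  simpa [h.symm] using congrFun e k

theorem np_SL [Finite F] (h2 : 2 ≤ Fintype.card ι) {p r : ℕ} [Fact p.Prime] [CharP F r] (hp : p.Coprime r)
    {a : (ι → F) ≃ₗ[F] (ι → F)} (h1 : ¬ IsSc a) (h3 : IsSc (a ^ p)) : NP p (SLV ι F) := by
  obtain rfl | p2 := eq_or_ne p 2
  · exact (iw_SL h2 r).np hp (swap_SL h2)
  by_cases h : p ∣ Nat.card F - 1
  swap
  · refine (iw_SL h2 r).np_of hp h1 h3 ((Fact.out : p.Prime).coprime_iff_not_dvd.2 h) (c := 1) (s := a ^ (Nat.card F - 1)) ?_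
      (by simp)
    rw [SLV, MonoidHom.mem_ker, _root_.map_pow, ← Nat.card_units, pow_card_eq_one']
  have : Nontrivial ι := Fintype.one_lt_card_iff_nontrivial.1 h2
  obtain ⟨i, k, e⟩ := exists_pair_ne ι
  obtain ⟨z, hz⟩ := exists_root h
  let D : (ι → Fˣ) →* ((ι → F) ≃ₗ[F] (ι → F)) := toLinHom ((diagonalRingHom ι F).toMonoidHom.comp
    (MonoidHom.compLeft (Units.coeHom F) ι))
  refine (iw_SL h2 r).np hp ⟨D (Pi.mulSingle i z * Pi.mulSingle k z⁻¹), ?_, fun m => not_isSc_pow ?_ ?_⟩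
  · rw [mem_SLV, toLinHom_det]
    simp [← Units.val_mul, Finset.prod_mul_distrib, ← Units.coe_prod]
  · rintro ⟨l, hl⟩
    have a := congrFun (hl 1) i
    have b := congrFun (hl 1) k
    refine ne_inv_of_orderOf hz p2 (Units.ext ?_)
    simp [D, mulVec_diagonal, e, e.symm] at a b
    exact a.trans (by simpa using b.symm)
  · rw [← _root_.map_pow, mul_pow, ← Pi.mulSingle_pow, ← Pi.mulSingle_pow, inv_pow, ← hz, pow_orderOf_eq_one]
    simpa using isSc_one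

theorem ψ_slE (s : SLV ι F) : ψ (slE ι F) s = ΨL ι F (lin s.1) := rfl

theorem comm_gr (h2 : 2 ≤ Fintype.card ι) {θ η ζ : Γ F (ι → F)} (h : IsDual η ζ) :
    Commute (ΨL ι F η) (ΨL ι F θ * grL ι F) ↔ η.σ * θ.σ = θ.σ * η.σ ∧ ∃ l : F, ∀ v, η (θ v) = l • θ (ζ v) := by
  rw [Commute, SemiconjBy, mul_assoc, h.gr_mul, ← mul_assoc, ← mul_assoc, mul_left_inj, ← _root_.map_mul,
    ← _root_.map_mul, (pj_ΨL h2).eq_iff]
  simp [h.1]

theorem tv_comm_gr (h3 : 3 ≤ Fintype.card ι) {θ : Γ F (ι → F)} {t : (ι → F) ≃ₗ[F] (ι → F)} {x y : ι → F}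
    (h : IsTv t x y) (hy : y ≠ 0) (k : Commute (ΨL ι F (lin t)) (ΨL ι F θ * grL ι F)) : x ∈ F ∙ θ y := by
  obtain ⟨-, l, hl⟩ := (comm_gr (by omega) (isDual_lin t)).1 k
  obtain ⟨η, hη⟩ := exists_isDual θ
  have a := hη.tv h.dl
  have b : ∀ v, t v = l • cj θ (dl t) v := fun v => by simpa [cj_apply] using hl (θ⁻¹ v)
  obtain ⟨w, w0, w1, w2⟩ := exists_perp_two h3 y (η x)
  obtain rfl : l = 1 := by
    have := b w
    rw [h.app, a.app, w1, w2] at this
    exact smul_left_injective F w0 (by simpa using this.symm)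
  rw [← show t = cj θ (dl t) from LinearEquiv.ext fun v => by simpa using b v] at a
  obtain ⟨c, hc⟩ := Submodule.mem_span_singleton.1 (h.line_left a hy)
  exact Submodule.mem_span_singleton.2 ⟨-c, by simpa using hc⟩

variable [Finite F]

theorem psl_field (h2 : 2 ≤ Fintype.card ι) {θ : Γ F (ι → F)} (h : θ.σ ≠ 1) {p r : ℕ} [Fact p.Prime] [Fact r.Prime]
    [CharP F r] (hp : p ≠ r) (ho : orderOf (ΨL ι F θ) = p) : C1 p (ΨL ι F θ) ∧ C2 p (ΨL ι F θ) := by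
  have : Nonempty ι := Fintype.card_pos_iff.1 (by omega)
  have o : orderOf θ.σ = p := orderOf_eq_prime (by
    rw [← Γ.pow_σ]
    exact ((pj_ΨL h2 (θ ^ p)).1 (by rw [_root_.map_pow, ← ho, pow_orderOf_eq_one])).1) h
  obtain ⟨K, _, _, j, E, -⟩ := exists_fix' θ.σ
  have := charP_emb j r
  obtain ⟨c, g, hg⟩ := (pj_ΨL h2).pow_desc (θ := θ) (by rw [MonoidHom.id_apply, o, ← ho, pow_orderOf_eq_one])
  have a1 : ∀ a ∈ SLV ι K, exC j g a ∈ SLV ι F := fun a k => by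
    obtain ⟨a, rfl⟩ := gl_surjective a
    rw [SLV, MonoidHom.mem_ker] at k ⊢
    rw [det_gl] at k
    simp [exC, exL_gl, det_ex, k]
  refine ⟨fun y a b d => ?_, fld_c2 (slE ι F) (KS_SLV h2) E (θ := ⟨θ, mem_NN_SLV θ⟩) rfl hg a1 (KS_SLV h2) (G₀ := ⊤)
    (fun _ _ _ => trivial) (fun a _ b k => (MonoidHom.normal_ker _).1 b k a) ?_
    fun a _ => np_SL h2 ((Nat.coprime_primes Fact.out Fact.out).2 hp)⟩
  swap
  · obtain ⟨b, k, l⟩ := swap_SL (F := K) h2
    exact ⟨b, k, by simpa using l 1 (by simp)⟩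
  obtain ⟨η, rfl | ⟨h3, rfl⟩⟩ := aut_PSL h2 y
  · exact eq_one_of_coprime (o ▸ fld_c1 (slE ι F) (KS_SLV h2) E (θ := ⟨θ, mem_NN_SLV θ⟩) rfl hg a1 (KS_SLV h2)
      (η := ⟨η, mem_NN_SLV η⟩) a b) d
  obtain ⟨i, k, l, ik, il, kl⟩ := Fintype.two_lt_card_iff.1 h3
  have key : ∀ i, i ≠ l → g (Pi.single i 1) ∈ F ∙ η (dl g (Pi.single l 1)) := fun i e => by
    obtain ⟨t, ht⟩ := exists_tv (F := K) (x := Pi.single i 1) (y := Pi.single l 1) (by simp [e.symm])
    obtain ⟨s, hs⟩ := exists_tv (F := F) (x := Pi.single i 1) (y := Pi.single l 1) (by simp [e.symm])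
    have := b _ (mem_NC.2 ⟨ψ_range (slE ι F) ▸ ⟨_, rfl⟩,
      fld_comm (slE ι F) (KS_SLV h2) E (θ := ⟨θ, mem_NN_SLV θ⟩) hg a1 t ht.mem⟩)
    rw [ψ_slE, Subtype.coe_mk, exC_eq (b := g * s * g⁻¹) fun v => ?_] at this
    · exact tv_comm_gr h3 (hs.conj g) (by simp) this.symm
    · simp only [LinearEquiv.mul_apply, hs.app, ht.app, LinearEquiv.coe_inv, LinearEquiv.symm_apply_apply]
      exact congrArg g (funext fun a => by simp [Pi.single_apply, apply_ite j])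
  obtain ⟨u, hu⟩ := Submodule.mem_span_singleton.1 (key i il)
  obtain ⟨w, hw⟩ := Submodule.mem_span_singleton.1 (key k kl)
  have : w • (Pi.single i 1 : ι → F) = u • Pi.single k 1 := g.injective (by simp [← hu, ← hw, smul_comm u])
  obtain rfl : w = 0 := by simpa [ik] using congrFun this i
  simpa using hw.symm

theorem isSim_of_B {F V : Type*} [Field F] [AddCommGroup V] [Module F V] [FiniteDimensional F V] [Nontrivial V] {P : FP F}
    {f : CForm P V} (hf : f.Nondeg) {α : F} (hQ : ∀ v, f.Q v = α * f.B v v) {g : V ≃ₗ[F] V} {κ : F}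
    (h : ∀ u v, f.B (g u) (g v) = κ * f.B u v) : IsSim f (lin g) κ := by
  obtain ⟨x, hx⟩ := exists_ne (0 : V)
  obtain ⟨y, hy⟩ := hf.exists_B_eq_one hx
  refine ⟨fun k => ?_, ?_, h, fun v => by simp [hQ, h, mul_left_comm]⟩
  · exact hx (g.map_eq_zero_iff.1 (hf _ fun u => by
      obtain ⟨u, rfl⟩ := g.surjective u
      simp [h, k]))
  · have := h y x
    rw [f.B_symm x y, f.B_symm (g x), h, hy] at this
    exact mul_left_cancel₀ P.ε_ne (by simpa [mul_comm] using this)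

theorem comm_L (h2 : 2 ≤ Fintype.card ι) {η θ : Γ F (ι → F)} :
    Commute (ΨL ι F η) (ΨL ι F θ) ↔ ∃ l : F, ∀ v, η (θ v) = l • θ (η v) :=
  comm_iff (slE ι F) (KS_SLV h2) (η := ⟨η, mem_NN_SLV η⟩) (θ := ⟨θ, mem_NN_SLV θ⟩)

theorem gr_core {P : FP F} (hP : Cm P) {f : CForm P (ι → F)} (hf : f.Nondeg) (h3 : 3 ≤ Fintype.card ι)
    {θ : Γ F (ι → F)} {μ : F} (hB : ∀ u v, f.B u (θ v) = μ * (u ⬝ᵥ v)) {α : F} (hQ : ∀ v, f.Q v = α * f.B v v)
    (hK : KS f.E) (b5 : ∃ a ∈ f.E, ¬ IsSc a) (b6 : NP 2 f.E) :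
    C1 2 (ΨL ι F θ * grL ι F) ∧ C2 2 (ΨL ι F θ * grL ι F) := by
  have h2 : 2 ≤ Fintype.card ι := by omega
  have : Nonempty ι := Fintype.card_pos_iff.1 (by omega)
  have b1 : ∀ a ∈ f.E, ∃ h : a ∈ SLV ι F, Commute (ψ (slE ι F) ⟨_, h⟩) (ΨL ι F θ * grL ι F) := fun a k =>
    ⟨mem_SLV.2 (E_det k), (comm_gr h2 (isDual_lin a)).2 ⟨by simp, 1, fun v => sub_eq_zero.1 (hf _ fun u => by
      obtain ⟨u, rfl⟩ := a.surjective u
      simp [f.Isom_B (E_le_Isom k), hB, dl_dot])⟩⟩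
  refine ⟨fun y _ b d => ?_, c2_of_model (slE ι F) (KS_SLV h2) (MonoidHom.id _) (fun _ => Iff.rfl) (G₀ := LS f hP) b1
    (fun s k => ⟨1, s, ?_, by simp⟩) (fun a k b l => cj_lin a b ▸ (Sim_le hP k b).1 l) hK b5 fun _ _ _ _ => b6⟩
  · obtain ⟨η, rfl | ⟨h3, rfl⟩⟩ := aut_PSL h2 y
    · refine (ΨL_eq_one h2).2 (hK η fun a k => ?_)
      obtain ⟨h, l⟩ := b1 a k
      exact (comm_L h2 (θ := lin a)).1 (b (ψ (slE ι F) ⟨a, h⟩) (mem_NC.2 ⟨(ψ_range (slE ι F)).le ⟨_, rfl⟩, l⟩))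
    · exact absurd (gf_order h3 (pow_orderOf_eq_one _)).2 (Nat.not_even_iff_odd.2 (Nat.coprime_two_left.1 d))
  obtain ⟨-, l, hl⟩ := (comm_gr h2 (isDual_lin s.1)).1 k
  refine ⟨P.σ l, isSim_of_B hf hQ fun u v => ?_⟩
  obtain ⟨v, rfl⟩ := θ.surj v
  rw [show s.1 (θ v) = _ from hl v]
  simp [hB, dl_dot]

theorem gr_refl (h2 : 2 ≤ Fintype.card ι) {θ : Γ F (ι → F)} (h : (ΨL _ F θ * grL _ F) ^ 2 = 1) (hσ : θ.σ = 1) :
    (∀ u v, u ⬝ᵥ θ⁻¹ v = v ⬝ᵥ θ⁻¹ u) ∨ ∀ u v, u ⬝ᵥ θ⁻¹ v = -(v ⬝ᵥ θ⁻¹ u) := by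
  have : Nonempty ι := Fintype.card_pos_iff.1 (by omega)
  obtain ⟨η, hη⟩ := exists_isDual θ
  rw [sq, mul_assoc, ← mul_assoc (grL _ F), hη.gr_mul, mul_assoc, grL_mul_grL, mul_one,
    ← _root_.map_mul, ΨL_eq_one h2] at h
  obtain ⟨-, l, hl⟩ := h
  have hs : ∀ u v, u ⬝ᵥ θ⁻¹ v = l * (v ⬝ᵥ θ⁻¹ u) := fun u v => by
    have : η u = θ⁻¹ (l • u) := by rw [← hl]; simp
    have e := hη.2 (θ⁻¹ v) u
    rw [apply_inv, this, Γ.map_smul] at e
    simpa [hσ, dotProduct_comm] using e.symm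
  obtain ⟨v, hv⟩ := exists_ne (0 : ι → F)
  obtain ⟨u, hu⟩ := exists_dot_one (x := θ⁻¹ v) (by simpa using hv)
  have := hs u v
  rw [hs v u, hu, mul_one, eq_comm, mul_self_eq_one_iff] at this
  rcases this with rfl | rfl
  · exact .inl fun u v => by simpa using hs u v
  · exact .inr fun u v => by simpa using hs u v

theorem psl_graph {n : ℕ} (h3 : 3 ≤ n) (h2 : (2 : F) ≠ 0) {θ : Γ F (Fin n → F)} (h : (ΨL _ F θ * grL _ F) ^ 2 = 1) :
    C1 2 (ΨL _ F θ * grL _ F) ∧ C2 2 (ΨL _ F θ * grL _ F) := by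
  have n3 : 3 ≤ Fintype.card (Fin n) := by simpa
  have d3 : 3 ≤ finrank F (Fin n → F) := by simpa
  have r := CharP.char_is_prime F (ringChar F)
  have c : Nat.Coprime 2 (ringChar F) := (Nat.coprime_primes Nat.prime_two r).2 fun c => h2 (by
    simpa [← c] using CharP.cast_eq_zero F (ringChar F))
  by_cases hσ : θ.σ = 1
  · obtain ⟨g, rfl⟩ := exists_lin hσ
    have nd : ∀ v, (∀ u, u ⬝ᵥ g⁻¹ v = 0) → v = 0 := fun v k =>
      g⁻¹.map_eq_zero_iff.1 (funext fun i => by simpa using k (Pi.single i 1))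
    rcases gr_refl (by omega) h rfl with k | k
    all_goals simp only [← _root_.map_inv, lin_apply] at k
    · let f : CForm (FP.orth F) (Fin n → F) :=
        { B u v := u ⬝ᵥ g⁻¹ v
          Q v := 2⁻¹ * (v ⬝ᵥ g⁻¹ v)
          B_add_left := by simp
          B_smul_left := by simp
          B_symm u v := by simpa using k v u
          Q_add u v := by have := k v u; simp at this ⊢; rw [this]; field_simp; ring
          Q_smul a v := by simp; ring
          Q_diag v := ⟨2⁻¹ * (v ⬝ᵥ g⁻¹ v), rfl, by simp; field_simp; ring⟩ }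
      replace nd : f.Nondeg := nd
      obtain ⟨x, y, e⟩ := orth_exists_hyp nd d3
      exact gr_core cm_orth (f := f) nd n3 (μ := 1) (by simp [f]) (fun _ => rfl) (KS_orth nd d3)
        (exists_nsc (rich_of_finrank nd d3) e) (np_orth nd h2 d3 E_le_Isom fun a b _ => conj_mem_E b)
    · let f : CForm (FP.symp F) (Fin n → F) :=
        { B u v := u ⬝ᵥ g⁻¹ v
          Q v := 0
          B_add_left := by simp
          B_smul_left := by simp
          B_symm u v := by simpa using k v u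
          Q_add u v := by simp
          Q_smul a v := by simp
          Q_diag v := ⟨0, rfl, by simpa [eq_neg_iff_add_eq_zero, ← two_mul, h2] using k v v⟩ }
      replace nd : f.Nondeg := nd
      obtain ⟨x, y, e⟩ := symp_exists_hyp nd (by omega)
      have hr : f.Rich := rich_of_ker symp_ker
      exact gr_core cm_symp (f := f) nd n3 (μ := 1) (α := 0) (by simp [f]) (by simp) (KS_E nd hr e d3) (exists_nsc hr e)
        ((iw_form nd hr (rich2_of_ker symp_ker) e _).np c (exists_swap hr e))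
  obtain ⟨q, H⟩ := gf_UF hσ (gf_order n3 h).1
  obtain ⟨α, -, e⟩ := herm_conj H (by omega) rfl h
  have hf := hermC_nondeg H n
  obtain ⟨x, y, k⟩ := unit_exists_hyp H hf (by omega)
  have hr : (hermC H n).Rich := rich_of_ker (unit_ker H.ne_id)
  obtain ⟨a, b⟩ := gr_core (cm_unit H) hf n3 (θ := std _ θ.σ) (μ := 1) (α := 1)
    (fun u v => by rw [herm_B_std, std_std H, one_mul]) (fun v => by rw [one_mul, unit_Q]) (KS_su H h3)
    (exists_nsc hr k) ((iw_form hf hr (rich2_of_ker (unit_ker H.ne_id)) k _).np c (exists_swap hr k))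
  replace e := (congrArg (fun z => α⁻¹ * z * α⁻¹⁻¹) e).trans (b := _) (c := ΨL _ F (std _ θ.σ) * grL _ F) (by group)
  exact ⟨a.conj e, b.conj e⟩

end CfsgH5.Op
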