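import Cfsg.Agent.H5.Op6

set_option autoImplicit false

/-!
The `p'`-core of the centralizer of an automorphism, part 7: the unitary groups.
-/

namespace CfsgH5.Op

open Module Au Au.Γ CForm

variable {F : Type*} [Field F]

theorem not_isSc_eig {V : Type*} [AddCommGroup V] [Module F V] {b : V ≃ₗ[F] V} {x y : V} {z : Fˣ} (hx : x ≠ 0) (hy : y ≠ 0)
    (h1 : b x = (z : F) • x) (h2 : b y = ((z⁻¹ : Fˣ) : F) • y) {p : ℕ} [Fact p.Prime] (hz : orderOf z = p) (p2 : p ≠ 2)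
    (m : ℕ) (hm : p.Coprime m) : ¬ IsSc (b ^ m) := by
  rintro ⟨l, hl⟩
  have k : ∀ {x : V} {z : Fˣ}, x ≠ 0 → b x = (z : F) • x → ((z ^ m : Fˣ) : F) = l := fun {x z} hx h =>
    smul_left_injective F hx (by
      simp only [← hl]
      clear hl hm
      induction m with
      | zero => simp
      | succ m ih => simp [pow_succ, h, ← ih, mul_smul, smul_comm (z : F)])
  refine ne_inv_of_orderOf (z := z ^ m) (p := p) (by rw [← hz] at hm ⊢; exact hm.orderOf_pow) p2 (Units.ext ?_)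
  rw [k hx h1, ← inv_pow, k hy h2]

variable {σ : F →+* F} {q : ℕ}

theorem np_unit (H : UF σ q) {V : Type*} [AddCommGroup V] [Module F V] [FiniteDimensional F V]
    {f : CForm (FP.unit σ H.invol) V} (hf : f.Nondeg) (h2 : 2 ≤ finrank F V) {p r : ℕ} [Fact p.Prime] [CharP F r]
    (hp : p.Coprime r) {a : V ≃ₗ[F] V} (ha : a ∈ LS f (cm_unit H)) (h1 : ¬ IsSc a) (h3 : IsSc (a ^ p)) : NP p f.E := by
  have := H.fin
  obtain ⟨x, y, k⟩ := unit_exists_hyp H hf h2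
  have hr : f.Rich := rich_of_ker (unit_ker H.ne_id)
  have iw := iw_form hf hr (rich2_of_ker (unit_ker H.ne_id)) k r
  have e := k.SIsom_eq_E hf (unit_ker H.ne_id)
  obtain rfl | p2 := eq_or_ne p 2
  · exact iw.np hp (exists_swap hr k)
  by_cases h : p ∣ q + 1
  swap
  · obtain ⟨κ, ha⟩ := ha
    obtain ⟨l, s, hs, rfl⟩ := unit_sim H ha
    refine iw.np_of hp h1 h3 ((Fact.out : p.Prime).coprime_iff_not_dvd.2 h) (e ▸ mem_SIsom.2 ⟨pow_mem hs (q + 1), ?_⟩)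
      (scal_mul_pow' _ _ _)
    rw [← LinearEquiv.coe_det, _root_.map_pow, Units.val_pow_eq_pow_val, ← H.norm_eq, LinearEquiv.coe_det]
    exact det_norm hf hs
  obtain ⟨⟨z, hz⟩, o⟩ := exists_prime_orderOf_dvd_card' (G := rootsOfUnity (q + 1) F) p (by rwa [H.card_roots_succ])
  have n : ∀ z ∈ rootsOfUnity (q + 1) F, (z : F) * σ z = 1 := fun z h => by rwa [H.norm_eq, ← mem_rootsOfUnity']
  obtain ⟨d, hd⟩ := unit_exists_Q_ne H.ne_id hf (by omega)
  have d0 : d ≠ 0 := by rintro rfl; simp at hd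
  obtain ⟨⟨c, c1⟩, hc⟩ := unit_exists_Q_ne H.ne_id (nondeg_perp_of_B_ne hf (unit_Q f d ▸ hd)).1 (by
    have := hf.finrank_perp (F ∙ d)
    rw [finrank_span_singleton d0] at this
    omega)
  replace hc : f.Q c ≠ 0 := hc
  rw [mem_perp_single] at c1
  obtain ⟨s, s1, s2, s3, s4⟩ := unit_exists_refl hd (n z hz)
  obtain ⟨t, t1, t2, t3, t4⟩ := unit_exists_refl hc (n _ (inv_mem hz))
  refine iw.np hp ⟨s * t, e ▸ mem_SIsom.2 ⟨mul_mem s1 t1, ?_⟩, not_isSc_eig d0 (y := c) (by rintro rfl; simp at hc)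
    (by simp [t3 d (by rw [unit_B_symm, c1, _root_.map_zero]), s2]) (by simp [t2, s3 c c1])
    ((Subgroup.orderOf_coe _).trans o) p2⟩
  rw [← LinearEquiv.coe_det, _root_.map_mul, Units.val_mul, LinearEquiv.coe_det, LinearEquiv.coe_det, s4, t4]
  simp

variable [Finite F] {F₀ : Type*} [Field F₀] {j : F₀ →+* F} {ρ : F ≃+* F} {ι : Type} [Fintype ι] [DecidableEq ι]
  [Nonempty ι]

omit [Finite F] [Nonempty ι] in
theorem unit_H (H : UF σ q) {p r : ℕ} [Fact p.Prime] [CharP F r] (hp : p.Coprime r) (h3 : 3 ≤ Fintype.card ι)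
    (f : CForm (FP.unit σ H.invol) (ι → F)) (hf : f.Nondeg) : KS f.E ∧ (∃ a ∈ f.E, ¬ IsSc a) ∧
      ∀ a ∈ LS f (cm_unit H), ¬ IsSc a → IsSc (a ^ p) → NP p f.E := by
  have n : 3 ≤ finrank F (ι → F) := by simpa
  have := H.fin
  obtain ⟨x, y, h⟩ := unit_exists_hyp H hf (by omega)
  have hr : f.Rich := rich_of_ker (unit_ker H.ne_id)
  exact ⟨KS_E hf hr h n, exists_nsc hr h, fun a => np_unit H hf (by omega) hp⟩

theorem unit_desc (H : UF σ q) {f : CForm (FP.unit σ H.invol) (ι → F)} (hE : f.SIsom = f.E) {S : Type*} [Group S]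
    [Finite S] (e : S ≃* f.E) (hK : KS f.E) (h : Emb j ρ) {θ : NN f.E} (hρ : θ.1.σ = ρ) {c : Fˣ}
    {g : (ι → F) ≃ₗ[F] (ι → F)} (hθ : ∀ v, (c : F) • θ.1 (g v) = g (std ι ρ v)) {P : FP F₀} (hP : Cm P)
    {f₀ : CForm P (ι → F₀)} (hf : f₀.Nondeg) {μ : F} (h0 : μ ≠ 0)
    (X : ∀ u v, j (f₀.B u v) = μ * f.B (g (j ∘ u)) (g (j ∘ v))) {α : F₀} (hQ : ∀ v, f₀.Q v = α * f₀.B v v)
    (b4 : KS f₀.E) (b5 : ∃ a ∈ f₀.E, ¬ IsSc a) (b6 : NP 2 f₀.E) : C2 2 (Ψ e θ) ∧ ∀ η, Commute (Ψ e η) (Ψ e θ) →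
      (∀ n ∈ NC (Ψ e θ), Commute (Ψ e η) n) → Ψ e η ^ orderOf ρ = 1 := by
  have a1 : ∀ a ∈ f₀.E, exC j g a ∈ f.E := fun a k => by
    have B : ∀ u v, f.B (g (exL j a (j ∘ u))) (g (exL j a (j ∘ v))) = f.B (g (j ∘ u)) (g (j ∘ v)) := fun u v =>
      mul_left_cancel₀ h0 (by rw [exL_apply, exL_apply, ← X, ← X, f₀.Isom_B (E_le_Isom k)])
    have := isSim_of_span (f := tw f g 1 (_root_.map_one _)) (g := exL j a) (span_emb (j := j)) one_ne_zero
      (_root_.map_one _) (by rintro _ ⟨u, rfl⟩ _ ⟨v, rfl⟩; simp [tw, B]) (by rintro _ ⟨u, rfl⟩; simp [tw, B, unit_Q])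
    refine hE ▸ mem_SIsom.2 ⟨mem_Isom_unit.2 fun u v => ?_, ?_⟩
    · obtain ⟨u, rfl⟩ := g.surjective u
      obtain ⟨v, rfl⟩ := g.surjective v
      simpa [tw, exC_apply] using this.lin_B u v
    · obtain ⟨a, rfl⟩ := gl_surjective a
      have k := E_det k
      rw [← LinearEquiv.coe_det] at k ⊢
      rw [det_gl] at k
      simp [exC, exL_gl, det_ex, Units.val_eq_one.1 k]
  refine ⟨fld_c2 e hK h hρ hθ a1 b4 (G₀ := LS f₀ hP) (fun d a k => ?_) (fun a k b l => cj_lin a b ▸ (Sim_le hP k b).1 l) b5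
    fun _ _ _ _ => b6, fun η => fld_c1 e hK h hρ hθ a1 b4⟩
  have B : ∀ u v, d * σ d * j (f₀.B (a u) (a v)) = j (f₀.B u v) := fun u v => by
    rw [X, X, ← f.Isom_B (E_le_Isom k) (g (j ∘ u))]
    simp [exC_apply, exL_apply]
    ring
  obtain ⟨x, hx⟩ := exists_ne (0 : ι → F₀)
  obtain ⟨y, hy⟩ := hf.exists_B_eq_one hx
  refine ⟨f₀.B (a x) (a y), isSim_of_B hf hQ fun u v => j.injective (mul_left_cancel₀ (a := d * σ d) (by simp) ?_)⟩
  rw [B, _root_.map_mul, ← mul_assoc, B, hy]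
  simp

theorem exists_refl_form {V : Type*} [AddCommGroup V] [Module F V] [FiniteDimensional F V] (h2 : (2 : F) ≠ 0)
    (h3 : 3 ≤ finrank F V) (B : V → V → F) (b1 : ∀ u v w, B (u + v) w = B u w + B v w)
    (b2 : ∀ (a : F) u w, B (a • u) w = a * B u w) (b3 : (∀ u v, B v u = B u v) ∨ ∀ u v, B v u = -B u v)
    (nd : ∀ v, (∀ u, B u v = 0) → v = 0) : ∃ P : FP F, Cm P ∧ ∃ f : CForm P V, f.B = B ∧ f.Nondeg ∧
      (∃ α, ∀ v, f.Q v = α * f.B v v) ∧ KS f.E ∧ (∃ a ∈ f.E, ¬ IsSc a) ∧ NP 2 f.E := by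
  have r := CharP.char_is_prime F (ringChar F)
  have c : Nat.Coprime 2 (ringChar F) := (Nat.coprime_primes Nat.prime_two r).2 fun c => h2 (by
    simpa [← c] using CharP.cast_eq_zero F (ringChar F))
  rcases b3 with k | k
  · let f : CForm (FP.orth F) V :=
      { B := B
        Q v := 2⁻¹ * B v v
        B_add_left := b1
        B_smul_left := b2
        B_symm u v := by simpa using k u v
        Q_add u v := by rw [b1, k (u + v), k (u + v), b1, b1, k u v]; simp; field_simp; ring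
        Q_smul a v := by rw [b2, k (a • v), b2]; simp; ring
        Q_diag v := ⟨2⁻¹ * B v v, rfl, by simp; field_simp; ring⟩ }
    replace nd : f.Nondeg := nd
    obtain ⟨x, y, e⟩ := orth_exists_hyp nd h3
    exact ⟨_, cm_orth, f, rfl, nd, ⟨_, fun _ => rfl⟩, KS_orth nd h3, exists_nsc (rich_of_finrank nd h3) e,
      np_orth nd h2 h3 E_le_Isom fun a b _ => conj_mem_E b⟩
  · let f : CForm (FP.symp F) V :=
      { B := B
        Q v := 0
        B_add_left := b1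
        B_smul_left := b2
        B_symm u v := by simpa using k u v
        Q_add u v := by simp
        Q_smul a v := by simp
        Q_diag v := ⟨0, rfl, by simpa [eq_neg_iff_add_eq_zero, ← two_mul, h2] using k v v⟩ }
    replace nd : f.Nondeg := nd
    obtain ⟨x, y, e⟩ := symp_exists_hyp nd (by omega)
    have hr : f.Rich := rich_of_ker symp_ker
    exact ⟨_, cm_symp, f, rfl, nd, ⟨0, by simp⟩, KS_E nd hr e h3, exists_nsc hr e,
      (iw_form nd hr (rich2_of_ker symp_ker) e _).np c (exists_swap hr e)⟩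

theorem eq_σ_of_two (H : UF σ q) (h : orderOf ρ = 2) (a : F) : ρ a = σ a := by
  obtain ⟨q', H'⟩ := gf_UF (σ := ρ) (fun e => by simp [show ρ = 1 from e] at h) (h ▸ pow_orderOf_eq_one ρ)
  rw [H.pow, ← Nat.pow_left_injective two_ne_zero (H'.card.symm.trans H.card)]
  exact H'.pow a

omit [Nonempty ι] in
theorem unit_core (H : UF σ q) {f : CForm (FP.unit σ H.invol) (ι → F)} (hf : f.Nondeg) (h3 : 3 ≤ Fintype.card ι)
    {S : Type*} [Group S] [Finite S] (e : S ≃* f.E) {θ : Sim f (cm_unit H)} (h : θ.1.σ ≠ 1) {p r : ℕ} [Fact p.Prime]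
    [Fact r.Prime] [CharP F r] (hp : p ≠ r) (ho : orderOf (ΨS _ e θ) = p) : C2 p (ΨS _ e θ) ∧
      ∀ η, Commute (ΨS (cm_unit H) e η) (ΨS _ e θ) → (∀ n ∈ NC (ΨS _ e θ), Commute (ΨS _ e η) n) → ΨS _ e η ^ p = 1 := by
  have : Nonempty ι := Fintype.card_pos_iff.1 (by omega)
  have pr := (Nat.coprime_primes Fact.out Fact.out).2 hp
  have hK := (unit_H H pr h3 f hf).1
  obtain ⟨K, _, _, j, E, hc⟩ := exists_fix' θ.1.σ
  have := charP_emb j r
  have o := ord_σ _ e hK h ho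
  obtain rfl | p2 := (Fact.out : p.Prime).eq_two_or_odd'
  swap
  · obtain ⟨σ₀, q₀, H₀, hq⟩ := exists_UF0 H p2 (o ▸ hc)
    exact form_co (fpe_unit H H₀ (compat_of_odd H H₀ p2 hq)) _ (cm_unit H₀) E hf e hK rfl o (ho ▸ pow_orderOf_eq_one _)
      (unit_H H₀ pr h3)
  obtain ⟨c, g, hg⟩ := (pj_ΨS _ e hK).pow_desc (θ := θ) (by rw [Subgroup.coe_subtype, o, ← ho, pow_orderOf_eq_one])
  simp only [Subgroup.coe_subtype] at hg
  obtain ⟨κ, hκ⟩ := θ.2
  have s := eq_σ_of_two H o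
  have B : ∀ u v : ι → K, f.B (g (j ∘ u)) (g (j ∘ v)) = c * σ c * κ * f.B (g (j ∘ v)) (g (j ∘ u)) := fun u v => by
    conv_lhs => rw [← E.std_fix u, ← E.std_fix v, ← hg, ← hg]
    simp only [B_smul_left, B_smul_right, hκ.B, s, ← unit_B_symm, FP.unit_σ]
    ring
  have nd : ∀ v : ι → K, (∀ u : ι → K, f.B (g (j ∘ u)) (g (j ∘ v)) = 0) → v = 0 := fun v k => by
    have : g (j ∘ v) = 0 := hf _ fun u => by
      obtain ⟨u, rfl⟩ := g.surjective u
      induction (span_emb (j := j)).ge (Submodule.mem_top (x := u)) using Submodule.span_induction with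
      | mem x h => obtain ⟨x, rfl⟩ := h; exact k x
      | zero => simp
      | add x y _ _ a b => simp [a, b]
      | smul a x _ b => simp [b]
    exact funext fun i => by simpa using congrFun (g.map_eq_zero_iff.1 this) i
  obtain ⟨u, hu⟩ := not_forall.1 (mt (nd 1) one_ne_zero)
  have k1 : (c * σ c * κ) * (c * σ c * κ) = 1 := mul_right_cancel₀ hu (by rw [mul_assoc, ← B, ← B, one_mul])
  obtain ⟨μ, h0, hμ⟩ : ∃ μ, μ ≠ 0 ∧ σ μ = c * σ c * κ * μ := by
    rcases mul_self_eq_one_iff.1 k1 with k | k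
    · exact ⟨1, one_ne_zero, by simp [k]⟩
    · obtain ⟨μ, a, b⟩ := unit_ker (h := H.invol) H.ne_id
      exact ⟨μ, a, by rw [k, FP.unit_t] at *; linear_combination b⟩
  choose B₀ X using fun u v : ι → K => (E (μ * f.B (g (j ∘ u)) (g (j ∘ v)))).1 (by
    rw [s, _root_.map_mul, hμ, ← unit_B_symm, B u v]; ring)
  obtain ⟨x, y, hxy⟩ := unit_exists_hyp H hf (by simp; omega)
  obtain ⟨P, hP, f₀, rfl, b1, ⟨α, b2⟩, b3, b4, b5⟩ := exists_refl_form (F := K) (fun z => hp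
    ((Nat.prime_dvd_prime_iff_eq Fact.out Nat.prime_two).1 ((CharP.cast_eq_zero_iff K r 2).1 z)).symm) (by simpa) B₀
    (fun u v w => j.injective (by simp [X, comp_add', mul_add])) (fun a u w => j.injective (by
      simp [X, comp_smul', mul_left_comm])) ((mul_self_eq_one_iff.1 k1).imp
      (fun k u v => j.injective (by rw [X, X, B, k, one_mul])) fun k u v => j.injective (by
        rw [_root_.map_neg, X, X, B, k]; ring))
    fun v k => nd v fun u => (mul_eq_zero.1 ((X u v).symm.trans (by simp [k]))).resolve_left h0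
  obtain ⟨a, b⟩ := unit_desc H (hxy.SIsom_eq_E hf (unit_ker H.ne_id)) e hK E (θ := ⟨_, Sim_le _ θ.2⟩) rfl hg hP b1 h0 X
    b2 b3 b4 b5
  exact ⟨a, fun η => o ▸ b ⟨_, Sim_le _ η.2⟩⟩

end CfsgH5.Op
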