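import Cfsg.Agent.H5.Op7
import Cfsg.Agent.H5.Gc7

set_option autoImplicit false

/-!
The `p'`-core of the centralizer of an automorphism, part 8: graph involutions of orthogonal groups.
-/

namespace CfsgH5.Op

open Module Au Au.Γ CForm Oe
open scoped commutatorElement

theorem c12_of {K : Type*} [Group K] [Finite K] {x : MulAut K} {ι : Type*} (L : ι → Subgroup (MulAut K))
    (h0 : ∃ i, L i ≠ ⊥) (h1 : ∀ i, L i ≤ NC x)
    (h2 : ∀ n ∈ NC x, Nat.Coprime 2 (orderOf n) → ∀ i, ∀ l ∈ L i, n * l * n⁻¹ ∈ L i)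
    (h3 : ∀ i, ∀ M ≤ L i, (∀ l ∈ L i, ∀ m ∈ M, l * m * l⁻¹ ∈ M) → (Nat.card M).Coprime 2 → M = ⊥)
    (h4 : ∀ y, Commute y x → Nat.Coprime 2 (orderOf y) → (∀ i, ∀ l ∈ L i, Commute y l) → y = 1) : C1 2 x ∧ C2 2 x := by
  refine ⟨fun y a b c => h4 y a c fun i l k => b l (h1 i k), fun k => ?_, fun M a b c d => (d (eq_bot_iff.2 fun n k => ?_)).elim⟩
  · obtain ⟨i, h⟩ := h0
    exact h (eq_bot_iff.2 (k ▸ h1 i))
  have o := (c.coprime_dvd_left (Subgroup.orderOf_dvd_natCard _ k)).symm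
  refine h4 n (mem_NC.1 (a k)).2 o fun i l s => commutatorElement_eq_one_iff_commute.1 ((h3 i (M ⊓ L i) inf_le_right
    (fun l s m t => ⟨b l (h1 i s) m t.1, mul_mem (mul_mem s t.2) ((L i).inv_mem s)⟩)
    (c.coprime_dvd_left (Subgroup.card_dvd_of_le inf_le_left))).le ⟨?_, mul_mem (h2 n (a k) o i l s) ((L i).inv_mem s)⟩)
  rw [commutatorElement_def, mul_assoc, mul_assoc, ← mul_assoc l]
  exact mul_mem k (b l (h1 i s) _ (inv_mem k))

variable {F : Type*} [Field F] [Finite F] {V : Type*} [AddCommGroup V] [Module F V] [FiniteDimensional F V]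
  {f : CForm (FP.orth F) V} {m : ℕ} {K : Type*} [Field K] [Finite K] {W : Type*} [AddCommGroup W] [Module K W]
  [FiniteDimensional K W] {f' : CForm (FP.orth K) W}

variable (f f') in
/-- an orthogonal group embedded in another one -/
structure Md (Φ : (W ≃ₗ[K] W) →* (V ≃ₗ[F] V)) : Prop where
  nd : f'.Nondeg
  two : (2 : K) ≠ 0
  dim : finrank K W = 1 ∨ 3 ≤ finrank K W
  isom : ∀ a ∈ f'.Isom, Φ a ∈ f.Isom
  sc : ∀ a, IsSc (Φ a) → IsSc a

variable {Φ : (W ≃ₗ[K] W) →* (V ≃ₗ[F] V)} (E : EV f m) (M : Md f f' Φ) {S : Type*} [Group S] (e : S ≃* f.E)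

omit [Finite K] [FiniteDimensional K W] in
theorem isSc_of_one (h : finrank K W = 1) (a : W ≃ₗ[K] W) : IsSc a := by
  obtain ⟨v, -, h⟩ := finrank_eq_one_iff'.1 h
  obtain ⟨c, hc⟩ := h (a v)
  exact ⟨c, fun w => by obtain ⟨d, rfl⟩ := h w; rw [_root_.map_smul, ← hc, smul_comm]⟩

include E M

omit [Finite K] in
theorem Md.mem (a : f'.E) : Φ a ∈ f.E := by
  rw [← comm_eq_E E.nd E.spl (by have := E.six; omega)]
  refine Subgroup.commutator_mono ?_ ?_ ((Subgroup.map_commutator _ _ Φ).le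
    ⟨a, E_le_comm M.nd (split_of_two_ne M.two) a.2, rfl⟩)
  all_goals rintro _ ⟨a, h, rfl⟩; exact M.isom a h

/-- the induced inner automorphisms -/
def Md.lam : f'.E →* MulAut (S ⧸ Subgroup.center S) :=
  (ψ e).comp ((Φ.comp f'.E.subtype).codRestrict _ (M.mem E))

omit [Finite K] in
theorem Md.lam_eq (a : f'.E) : M.lam E e a = πS cm_orth e (iso ⟨_, M.isom a (E_le_Isom a.2)⟩) := rfl

omit [Finite K] in
theorem Md.lam_one {a : f'.E} (h : M.lam E e a = 1) : IsSc a.1 := M.sc _ ((ψ_eq_one e E.KS).1 h)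

theorem Md.ne_bot (h : 3 ≤ finrank K W) : (M.lam E e).range ≠ ⊥ := fun k => by
  obtain ⟨x, y, l⟩ := orth_exists_hyp M.nd h
  obtain ⟨a, s, t⟩ := exists_nsc (rich_of_finrank M.nd h) l
  exact t (M.lam_one E e (a := ⟨a, s⟩) (k.le ⟨_, rfl⟩))

omit [Finite K] in
theorem Md.le_NC {g : GO f} (h : ∀ a, Commute (Φ a) g.1) : (M.lam E e).range ≤ NC (πS cm_orth e g) := by
  rintro _ ⟨a, rfl⟩
  refine mem_NC.2 ⟨(ψ_range e).le ⟨_, rfl⟩, ?_⟩
  rw [M.lam_eq]
  exact Commute.map (Subtype.ext (h a).eq) (πS cm_orth e)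

theorem Md.odd (N : Subgroup (MulAut (S ⧸ Subgroup.center S))) (h1 : N ≤ (M.lam E e).range)
    (h2 : ∀ l ∈ (M.lam E e).range, ∀ m ∈ N, l * m * l⁻¹ ∈ N) (h3 : (Nat.card N).Coprime 2) : N = ⊥ := by
  refine eq_bot_iff.2 fun n k => ?_
  obtain ⟨a, rfl⟩ := h1 k
  have : Nontrivial W := Module.nontrivial_of_finrank_pos (R := K) (by have := M.dim; omega)
  have s : IsSc a.1 := M.dim.elim (fun h => isSc_of_one h _) fun h =>
    np_orth M.nd M.two h E_le_Isom (fun a b _ => conj_mem_E b) (N.comap (M.lam E e))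
      ⟨fun b k g => by simpa using h2 _ ⟨g, rfl⟩ _ k⟩ _ h3.symm (fun b k => M.lam_one E e (a := b ^ _) (by
        rw [_root_.map_pow]; exact congrArg Subtype.val (pow_card_eq_one' (x := (⟨_, k⟩ : N))))) a k
  obtain ⟨l, s⟩ := s
  obtain ⟨c, -, s⟩ := exists_scal_of_smul s
  refine eq_one_of_coprime (p := 2) ?_ (h3.coprime_dvd_left (Subgroup.orderOf_dvd_natCard _ k)).symm
  rw [← _root_.map_pow, show a ^ 2 = 1 from Subtype.ext ?_, _root_.map_one]
  rcases scal_isom_cases M.nd (s ▸ E_le_Isom a.2) with t | t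
  · simp [s.trans t]
  · exact LinearEquiv.ext fun v => by simp [s.trans t, pow_two]

variable {η : Sim f cm_orth} {η' : Γ K W} (h : ∀ a, cj η.1 (Φ a) = Φ (cj η' a))
include h

omit [Finite K] in
theorem Md.conj (k : η' ∈ Sim f' cm_orth) : ∀ l ∈ (M.lam E e).range,
    ΨS cm_orth e η * l * (ΨS cm_orth e η)⁻¹ ∈ (M.lam E e).range := by
  rintro _ ⟨a, rfl⟩
  refine ⟨⟨_, (Sim_le _ k a).1 a.2⟩, ?_⟩
  rw [M.lam_eq, M.lam_eq, πS_def, πS_def, ← _root_.map_inv, ← _root_.map_mul, ← _root_.map_mul]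
  exact congrArg _ (Subtype.ext (Γ.ext' (by simp) fun v => by simp [← h, cj_apply]))

theorem Md.cent (k : ∀ l ∈ (M.lam E e).range, Commute (ΨS cm_orth e η) l) (h3 : 3 ≤ finrank K W) :
    η'.σ = 1 ∧ ∃ l : K, ∀ v, η' v = l • v := by
  refine KS_orth M.nd h3 η' fun a s => ?_
  have := k _ ⟨⟨a, s⟩, rfl⟩
  rw [M.lam_eq, πS_def, Commute, SemiconjBy, ← _root_.map_mul, ← _root_.map_mul, (pj_ΨS _ e E.KS).eq_iff] at this
  obtain ⟨-, l, hl⟩ := this
  obtain ⟨c, hc⟩ := M.sc (cj η' a * a⁻¹) ⟨l, fun v => by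
    simpa [← h, cj_apply, -_root_.map_inv, Φ.map_inv] using hl (η.1⁻¹ ((Φ a)⁻¹ v))⟩
  exact ⟨c, fun v => by simpa [cj_apply] using hc (a (η' v))⟩

omit h M

theorem md_fix (h2 : (2 : F) ≠ 0) {w : f.Isom} (hw : ∀ v, w.1 (w.1 v) = v) (hd : E.di w = -1) :
    ∃ Φ, Md f (f.res (fixSp w.1)) Φ ∧ (∀ a, Commute (Φ a) w.1) ∧ ∀ η : Sim f cm_orth, (∀ v, η.1 (w.1 v) = w.1 (η.1 v)) →
      ∃ η' ∈ Sim (f.res (fixSp w.1)) cm_orth, η'.σ = η.1.σ ∧ (∀ x, (η' x : V) = η.1 x) ∧
        ∀ a, cj η.1 (Φ a) = Φ (cj η' a) := by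
  have d : ∀ v, ∃ (x : fixSp w.1) (y : V), w.1 y = -y ∧ v = x + y := fun v =>
    ⟨⟨(2 : F)⁻¹ • (v + w.1 v), mem_fixSp.2 (by simp [hw, add_comm])⟩, (2 : F)⁻¹ • (v - w.1 v), by simp [hw, ← smul_neg],
      by simp only; match_scalars <;> field_simp <;> ring⟩
  have C : IsCompl (fixSp w.1) (fixSp (LinearEquiv.neg F * w.1)) := ⟨Submodule.disjoint_def.2 fun v a b => by
    have := mem_fixSp.1 b
    simpa [mem_fixSp.1 a, neg_eq_iff_add_eq_zero, ← two_smul F, h2] using this, codisjoint_iff.2 (eq_top_iff.2 fun v _ => by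
      obtain ⟨x, y, h, rfl⟩ := d v
      exact Submodule.add_mem_sup x.2 (mem_fixSp.2 (by simp [h])))⟩
  have k : ∀ a (x : fixSp w.1) y, w.1 y = -y → ((sumHom C).comp (MonoidHom.inl _ _)) a (x + y) = a x + y :=
    fun a x y h => sumHom_apply C (a, 1) x ⟨y, mem_fixSp.2 (by simp [h])⟩
  generalize (sumHom C).comp (MonoidHom.inl _ _) = Φ at k
  have o : ∀ (x : fixSp w.1) y, w.1 y = -y → f.B x y = 0 := fun x y h => by
    have := f.Isom_B w.2 x y
    simpa [mem_fixSp.1 x.2, h, neg_eq_iff_add_eq_zero, ← two_mul, h2] using this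
  refine ⟨Φ, ⟨E.fix_nondeg h2 w.2 hw, h2, ?_, fun a h => mem_Isom_orth.2 fun v => ?_, fun a ⟨l, h⟩ =>
    ⟨l, fun x => Subtype.ext (by simpa [h] using (k a x 0 (by simp)).symm)⟩⟩, fun a => LinearEquiv.ext fun v => ?_,
    fun η h => ?_⟩
  · rw [dick_apply, E.rk, pow_add, pow_mul] at hd
    obtain ⟨j, hj⟩ := (Nat.not_even_iff_odd (n := finrank F (fixSp w.1))).1 fun c => by simp [c.neg_one_pow] at hd
    omega
  · obtain ⟨x, y, h', rfl⟩ := d v
    rw [k _ _ _ h', orth_Q_add, orth_Q_add, o _ _ h', o _ _ h', ← res_Q, mem_Isom_orth.1 h, res_Q]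
  · obtain ⟨x, y, h', rfl⟩ := d v
    have := k a x (-y) (by simp [h'])
    simp only [LinearEquiv.mul_apply, k _ _ _ h']
    simpa [h', mem_fixSp.1 x.2, mem_fixSp.1 (a x).2] using this
  have h' : ∀ v, η.1⁻¹ (w.1 v) = w.1 (η.1⁻¹ v) := fun v => η.1.inj (by simp [h])
  let η' : Γ F (fixSp w.1) :=
    ⟨η.1.σ, { toFun x := ⟨η.1 x, mem_fixSp.2 (by rw [← h, mem_fixSp.1 x.2])⟩
              invFun x := ⟨η.1⁻¹ x, mem_fixSp.2 (by rw [← h', mem_fixSp.1 x.2])⟩
              left_inv x := by simp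
              right_inv x := by simp
              map_add' x y := by simp }, fun a x => Subtype.ext (η.1.smul a x)⟩
  obtain ⟨κ, hκ⟩ := η.2
  refine ⟨η', ⟨κ, isSim_orth hκ.ne fun x => hκ.Q x⟩, rfl, fun _ => rfl, fun a => LinearEquiv.ext fun v => ?_⟩
  obtain ⟨v, rfl⟩ := η.1.surj v
  obtain ⟨x, y, l, rfl⟩ := d v
  rw [cj_apply, inv_apply, k _ _ _ l, Γ.map_add, Γ.map_add]
  refine Eq.trans ?_ (k _ (η' x) _ (by rw [← h, l, Γ.map_neg])).symm
  rw [cj_apply, inv_apply]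
  rfl

theorem invol_core (hs : Function.Surjective (ΨS cm_orth e)) [Finite S] (h2 : (2 : F) ≠ 0) {u : f.Isom}
    (hu : ∀ v, u.1 (u.1 v) = v) (hd : E.di u = -1) :
    C1 2 (πS cm_orth e (iso u)) ∧ C2 2 (πS cm_orth e (iso u)) := by
  have := E.nt
  let w : Bool → f.Isom := fun b => if b then u else ng * u
  have w1 : ∀ b v, (w b).1 ((w b).1 v) = v := fun b v => by cases b <;> simp [w, hu]
  choose Φ M c R using fun b => md_fix E h2 (w1 b) (by cases b <;> simp [w, hd, E.di_ng])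
  have k : ∀ η : Sim f cm_orth, Commute (ΨS cm_orth e η) (πS cm_orth e (iso u)) → Nat.Coprime 2 (orderOf (ΨS cm_orth e η)) →
      ∀ b v, η.1 ((w b).1 v) = (w b).1 (η.1 v) := fun η a o => by
    rw [πS_def, Commute, SemiconjBy, ← _root_.map_mul, ← _root_.map_mul, (pj_ΨS _ e E.KS).eq_iff] at a
    obtain ⟨-, l, hl⟩ := a
    replace hl : ∀ v, η.1 (u.1 v) = l • u.1 (η.1 v) := hl
    obtain ⟨v, hv⟩ := exists_ne (0 : V)
    have l1 : l * l = 1 := smul_left_injective F (η.1.eq_zero.not.2 hv) (by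
      have := hl (u.1 v)
      rw [hu, hl, _root_.map_smul, hu, smul_smul] at this
      simpa using this.symm)
    suffices l = 1 from fun b v => by cases b <;> simp [w, hl, this]
    refine (mul_self_eq_one_iff.1 l1).resolve_right fun l2 => ?_
    have p : ∀ n v, (η.1 ^ n) (u.1 v) = (-1 : F) ^ n • u.1 ((η.1 ^ n) v) := fun n => by
      induction n with
      | zero => simp
      | succ n ih => simp [pow_succ', hl, ih, l2]
    obtain ⟨-, t, ht⟩ := (pj_ΨS _ e E.KS (η ^ _)).1 ((_root_.map_pow _ _ _).trans (pow_orderOf_eq_one _))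
    have := p (orderOf (ΨS cm_orth e η)) v
    rw [(Nat.coprime_two_left.1 o).neg_one_pow, show ∀ v, (η.1 ^ _) v = _ from ht, show ∀ v, (η.1 ^ _) v = _ from ht,
      ← _root_.map_smul, ← _root_.map_smul, u.1.injective.eq_iff, ← ht] at this
    simp [eq_neg_iff_add_eq_zero, ← two_smul F, h2, hv] at this
  have d : ∃ b, 3 ≤ finrank F (fixSp (w b).1) := by
    have := finrank_fix_add h2 hu
    have := E.six
    by_cases h : 3 ≤ finrank F (fixSp u.1)
    · exact ⟨true, h⟩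
    · exact ⟨false, show 3 ≤ finrank F (fixSp (LinearEquiv.neg F * u.1)) by omega⟩
  refine c12_of (fun b => ((M b).lam E e).range) (d.imp fun b => (M b).ne_bot E e) (fun b => (M b).le_NC E e fun a => ?_)
    (fun n a o b => ?_) (fun b => (M b).odd E e) fun y a o l => ?_
  · cases b
    · exact LinearEquiv.ext fun v => by simpa [w] using DFunLike.congr_fun (c false a) v
    · exact c true a
  · obtain ⟨η, rfl⟩ := hs n
    obtain ⟨η', a, -, -, b⟩ := R b η (k η (mem_NC.1 a).2 o b)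
    exact (M _).conj E e b a
  obtain ⟨η, rfl⟩ := hs y
  choose η' r1 r2 r3 r4 using fun b => R b η (k η a o b)
  obtain ⟨b, d⟩ := d
  have s := (r2 b).symm.trans ((M b).cent E e (r4 b) (l b) d).1
  obtain ⟨κ, hκ⟩ := η.2
  have q : ∀ b (x : fixSp (w b).1), η.1 (η.1 x) = κ • x := fun b x => by
    obtain ⟨t, ht⟩ : ∃ t : F, ∀ x, η' b x = t • x := (M b).dim.elim (fun h => by
      obtain ⟨g, hg⟩ := exists_lin ((r2 b).trans s)
      exact hg ▸ isSc_of_one h g) fun h => ((M b).cent E e (r4 b) (l b) h).2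
    obtain ⟨z, hz⟩ := orth_exists_Q_ne (M b).nd (by have := (M b).dim; omega)
    have := hκ.Q z
    rw [← r3, ht, s, Submodule.coe_smul, orth_Q_smul] at this
    rw [← r3, ← r3, ht, ht, smul_smul, ← mul_right_cancel₀ hz this, pow_two, Submodule.coe_smul]
  refine eq_one_of_coprime ((_root_.map_pow _ _ _).symm.trans ((pj_ΨS _ e E.KS _).2 ⟨by simp [pow_two, s], κ, fun v => ?_⟩)) o
  have := q true ⟨(2 : F)⁻¹ • (v + u.1 v), mem_fixSp.2 (by simp [w, hu, add_comm])⟩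
  have := congrArg₂ (· + ·) this (q false ⟨(2 : F)⁻¹ • (v - u.1 v), mem_fixSp.2 (by simp [w, hu, ← smul_neg])⟩)
  simp only [← Γ.map_add, ← smul_add] at this
  rwa [show (2 : F)⁻¹ • (v + u.1 v + (v - u.1 v)) = v by match_scalars <;> field_simp <;> ring] at this

open QuadraticAlgebra in
theorem gq_core (hs : Function.Surjective (ΨS cm_orth e)) [Finite S] (h2 : (2 : F) ≠ 0) {g : GO f} {μ : F}
    (G : Gq f g.1 μ) : C1 2 (πS cm_orth e g) ∧ C2 2 (πS cm_orth e g) := by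
  have := E.nt
  have μ0 := G.sim.ne
  have : Fact (∀ r : F, r ^ 2 ≠ μ + 0 * r) := ⟨fun r h => G.ns ⟨r, by simpa [pow_two] using h.symm⟩⟩
  let φ := QuadraticAlgebra.lift (R := F) (a := μ) (b := 0) (A := End F V)
    ⟨g.1.toLinearMap, LinearMap.ext fun v => by simp [G.sq]⟩
  let _ : Module (QuadraticAlgebra F μ 0) V := Module.compHom V φ.toRingHom
  have sm : ∀ (z : QuadraticAlgebra F μ 0) (v : V), z • v = z.re • v + z.im • g.1 v := fun z v => by
    change φ z v = _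
    simp [φ, QuadraticAlgebra.lift]
  clear_value φ
  have : IsScalarTower F (QuadraticAlgebra F μ 0) V := ⟨fun a z v => by simp [sm, mul_smul]⟩
  have : Module.Finite (QuadraticAlgebra F μ 0) V := Module.Finite.of_restrictScalars_finite F _ _
  have : Finite (QuadraticAlgebra F μ 0) := Module.finite_of_finite F
  have k2 : (2 : QuadraticAlgebra F μ 0) ≠ 0 := fun h => h2 (by simpa using congrArg re h)
  have ad : ∀ u v, f.B (g.1 u) v = f.B u (g.1 v) := fun u v => mul_left_cancel₀ μ0 (by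
    rw [← G.sim.lin_B (g.1 u), G.sq, B_smul_left])
  let f' : CForm (FP.orth (QuadraticAlgebra F μ 0)) V :=
    { B u v := ⟨f.B u v, μ⁻¹ * f.B (g.1 u) v⟩
      Q v := ⟨f.Q v, μ⁻¹ * (2⁻¹ * f.B (g.1 v) v)⟩
      B_add_left u v w := by ext <;> simp [mul_add]
      B_smul_left a u v := by ext <;> simp [sm, G.sq] <;> field_simp
      B_symm u v := by ext <;> simp [f.orth_B_symm u v, ad v u, f.orth_B_symm (g.1 u) v]
      Q_add u v := by
        ext
        · simp [f.Q_add]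
        · simp [ad v u, f.orth_B_symm (g.1 u) v]; field_simp; ring
      Q_smul a v := by
        have := G.sim.lin_Q v
        have := f.orth_B_self v
        have := f.orth_B_self (g.1 v)
        have := f.orth_B_symm (g.1 v) v
        clear ad
        ext
        · simp [sm, f.Q_add, f.Q_smul, *]; field_simp; ring
        · simp [sm, G.sq, *]; field_simp; ring
      Q_diag v := ⟨_, rfl, by ext <;> simp [f.orth_B_self] <;> field_simp <;> ring⟩ }
  let Φ : (V ≃ₗ[QuadraticAlgebra F μ 0] V) →* (V ≃ₗ[F] V) := MonoidHom.mk' (·.restrictScalars F) fun _ _ => rfl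
  have d3 : 3 ≤ finrank (QuadraticAlgebra F μ 0) V := by
    have := finrank_mul_finrank F (QuadraticAlgebra F μ 0) V
    rw [QuadraticAlgebra.finrank_eq_two, E.rk] at this
    have := E.h3
    omega
  have M : Md f f' Φ := ⟨fun v h => E.nd v fun u => congrArg re (h u), k2, .inr d3,
    fun a h => mem_Isom_orth.2 fun v => congrArg re (mem_Isom_orth.1 h v), fun a ⟨l, h⟩ =>
      ⟨⟨l, 0⟩, fun v => (h v).trans (by simp [sm])⟩⟩
  have R : ∀ η : Sim f cm_orth, Commute (ΨS cm_orth e η) (πS cm_orth e g) → ∃ η' ∈ Sim f' cm_orth,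
      (∀ a, η'.σ ⟨a, 0⟩ = ⟨η.1.σ a, 0⟩) ∧ (∀ x, η' x = η.1 x) ∧ ∀ a, cj η.1 (Φ a) = Φ (cj η' a) := fun η a => by
    rw [πS_def, Commute, SemiconjBy, ← _root_.map_mul, ← _root_.map_mul, (pj_ΨS _ e E.KS).eq_iff] at a
    obtain ⟨-, l, hl⟩ := a
    replace hl : ∀ v, η.1 (g.1 v) = l • g.1 (η.1 v) := hl
    obtain ⟨v, hv⟩ := exists_ne (0 : V)
    have l1 : η.1.σ μ = l * l * μ := smul_left_injective F (η.1.eq_zero.not.2 hv) (by
      have := hl (g.1 v)
      rw [G.sq, hl, LinearEquiv.map_smul, G.sq, smul_smul, smul_smul] at this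
      simpa using this)
    have l0 : l ≠ 0 := by rintro rfl; simp [μ0] at l1
    let τ : QuadraticAlgebra F μ 0 →+* QuadraticAlgebra F μ 0 :=
      { toFun z := ⟨η.1.σ z.re, η.1.σ z.im * l⟩
        map_one' := by ext <;> simp
        map_mul' a b := by ext <;> simp [l1] <;> ring
        map_zero' := by ext <;> simp
        map_add' a b := by ext <;> simp [add_mul] }
    obtain ⟨κ, hκ⟩ := η.2
    refine ⟨⟨RingEquiv.ofBijective τ (Finite.injective_iff_bijective.1 τ.injective), η.1.e, fun z v => by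
      simp [sm, hl, τ, mul_smul]⟩, ⟨⟨κ, 0⟩, isSim_orth (fun h => hκ.ne (congrArg re h)) fun v => ?_⟩,
      fun a => by simp [τ], fun _ => rfl, fun a => LinearEquiv.ext fun v => rfl⟩
    have := hκ.B (g.1 v) v
    rw [hl, B_smul_left] at this
    ext
    · simp [f', τ, hκ.Q]
    · simp [f', τ, l1, map_ofNat]
      field_simp
      linear_combination this
  refine c12_of (fun _ : Unit => (M.lam E e).range) ⟨(), M.ne_bot E e d3⟩ (fun _ => M.le_NC E e fun a =>
    LinearEquiv.ext fun v => show a (g.1 v) = g.1 (a v) by simpa [sm] using a.map_smul ω v) (fun n a _ _ => ?_) (fun _ => M.odd E e) fun y a o l => ?_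
  · obtain ⟨η, rfl⟩ := hs n
    obtain ⟨η', a, -, -, b⟩ := R η (mem_NC.1 a).2
    exact M.conj E e b a
  obtain ⟨η, rfl⟩ := hs y
  obtain ⟨η', -, r2, r3, r4⟩ := R η a
  obtain ⟨s, z, hz⟩ := M.cent E e r4 (l ()) d3
  have s' : η.1.σ = 1 := RingEquiv.ext fun a => by simpa [s] using congrArg re (r2 a).symm
  obtain ⟨κ, hκ⟩ := η.2
  refine eq_one_of_coprime ((_root_.map_pow _ _ _).symm.trans ((pj_ΨS _ e E.KS _).2 ⟨by simp [pow_two, s'], κ, fun v => ?_⟩)) o
  have a : ∀ u v, f.B (η.1 u) v = f.B u (η.1 v) := fun u v => by simp [← r3, hz, sm, ad]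
  refine sub_eq_zero.1 (E.nd _ fun u => ?_)
  have := hκ.B u v
  rw [a] at this
  simp [pow_two, this, s']

theorem graph_core (hs : Function.Surjective (ΨS cm_orth e)) [Finite S] (h2 : (2 : F) ≠ 0) {g : GO f}
    (hd : E.dk g = -1) (h : πS cm_orth e g ^ 2 = 1) : C1 2 (πS cm_orth e g) ∧ C2 2 (πS cm_orth e g) := by
  obtain ⟨c, k⟩ := (E.π_eq_one e).1 ((_root_.map_pow _ _ _).trans h)
  have q : ∀ v, g.1 (g.1 v) = (c : F) • v := fun v => congrArg (fun g : GO f => g.1 v) k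
  have : E.mu g * E.mu g = c * c := by rw [← _root_.map_mul, ← pow_two, k, EV.mu_sc]
  rcases mul_self_eq_mul_self_iff.1 (congrArg Units.val this) with b | b
  swap
  · simp [E.dk_skew h2 (g := g) fun v => by simp [q, b]] at hd
  rcases Int.units_eq_one_or (E.sq g) with l | l
  · obtain ⟨d, u, rfl⟩ := E.sq_eq_one.1 l
    rw [_root_.map_mul, E.π_sc, one_mul]
    refine invol_core E e hs h2 (fun v => smul_right_injective V (mul_ne_zero d.ne_zero d.ne_zero) ?_) (by simpa using hd)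
    simpa [← b, mul_smul] using q v
  · exact gq_core E e hs h2 ⟨E.mu_sim g, b ▸ q, sqc_eq_neg.1 l⟩

include e in
theorem even_card : ¬ Nat.Coprime 2 (Nat.card (S ⧸ Subgroup.center S)) := by
  have := E.six
  obtain ⟨x, y, h⟩ := orth_exists_hyp E.nd (by omega)
  exact not_coprime_card e E.KS (exists_swap (rich_of_finrank E.nd (by omega)) h)

theorem exists_transport {f' : CForm (FP.orth F) V} (E' : EV f' m) {S' : Type*} [Group S'] (e' : S' ≃* f'.E)
    {t : V ≃ₗ[F] V} (ht : f.IsIso f' t) : ∃ ψ : S ⧸ Subgroup.center S ≃* S' ⧸ Subgroup.center S',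
      ∀ θ' : Sim f' cm_orth, ∃ θ : Sim f cm_orth, θ.1 = (lin t)⁻¹ * θ' * lin t ∧
        ∀ y, ΨS cm_orth e' θ' (ψ y) = ψ (ΨS cm_orth e θ y) := by
  have key : ∀ {f f' : CForm (FP.orth F) V} (_ : EV f m) (_ : EV f' m) {t : V ≃ₗ[F] V}, f.IsIso f' t →
      ∀ g ∈ f.E, conjEquiv t g ∈ f'.E := fun E E' t h g hg => by
    have X := em_iso h
    have := (E.mem_E ⟨g, E_le_Isom hg⟩).1 hg
    exact (E'.mem_E (X.is ⟨g, E_le_Isom hg⟩)).2 ⟨(X.di E E' _).trans this.1, by rw [X.sn E E' (pow_one _), this.1, this.2]; simp⟩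
  let τ : f.E ≃* f'.E := ((conjEquiv t).subgroupMap f.E).trans (MulEquiv.subgroupCongr (le_antisymm
    (by rintro _ ⟨g, a, rfl⟩; exact key E E' ht g a)
    fun g a => ⟨_, key E' E ht.symm g a, LinearEquiv.ext fun v => by simp⟩))
  refine ⟨quotCenterEquiv ((e.trans τ).trans e'.symm), fun θ => ?_⟩
  obtain ⟨κ, hκ⟩ := θ.2
  have s : (lin t)⁻¹ * θ * lin t ∈ Sim f cm_orth := ⟨κ, isSim_orth hκ.ne fun v => by simp [← _root_.map_inv, ← ht.2, hκ.Q]⟩
  refine ⟨⟨_, s⟩, rfl, fun y => ?_⟩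
  obtain ⟨s, rfl⟩ := QuotientGroup.mk_surjective y
  obtain ⟨s', hs'⟩ := exists_cj e ⟨_, Sim_le _ ‹_›⟩ s
  rw [ΨS_def, ΨS_def, Ψ_mk e _ hs']
  refine Ψ_mk e' _ fun v => ?_
  have : ∀ s v, (e' (((e.trans τ).trans e'.symm) s)).1 v = t ((e s).1 (t.symm v)) := fun s v => by simp; rfl
  refine (this _ _).trans (Eq.trans ?_ (congrArg _ (this _ _).symm))
  simpa [← _root_.map_inv, LinearEquiv.eq_symm_apply] using hs' (t.symm v)

omit E in
theorem exists_an_fix {σ : F ≃+* F} (h : Odd (orderOf σ)) : ∃ a b, An a b ∧ σ a = a ∧ σ b = b := by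
  obtain ⟨K, _, _, j, E, -⟩ := exists_fix' σ
  obtain ⟨a, b, k⟩ := Gc.exists_quad_aniso (F := K)
  refine ⟨j a, j b, fun x y l => ?_, E.fix a, E.fix b⟩
  by_cases y0 : y = 0
  · simpa [y0] using l
  have r : (x / y) ^ 2 + j a * (x / y) + j b = 0 := by field_simp; linear_combination l
  generalize x / y = t at r
  have s := congrArg σ r
  simp only [_root_.map_add, _root_.map_mul, _root_.map_pow, E.fix, _root_.map_zero] at s
  have : σ t = t := by
    rcases mul_eq_zero.1 (show (σ t - t) * (σ t + t + j a) = 0 by linear_combination s - r) with c | c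
    · exact sub_eq_zero.1 c
    have d : (σ ^ 2) t = t := by
      have := congrArg σ c
      simp only [_root_.map_add, E.fix, _root_.map_zero] at this
      exact show σ (σ t) = t by linear_combination this - c
    obtain ⟨n, hn⟩ := h
    have := DFunLike.congr_fun (pow_orderOf_eq_one σ) t
    rw [hn, pow_succ', pow_mul] at this
    exact (congrArg σ ((MulAction.stabilizer (F ≃+* F) t).pow_mem d n)).symm.trans this
  obtain ⟨t, rfl⟩ := (E t).1 this
  exact absurd (k t 1 (j.injective (by simpa using r))).2 one_ne_zero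

end CfsgH5.Op
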