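import Cfsg.Agent.H5.Mx1
import Cfsg.Agent.H5.Au10
import Cfsg.Agent.H5.Au6
import Cfsg.Agent.H6.AutCh

/-! Automorphisms of order prime to `p` that centralize a large `p`-subgroup. -/

set_option autoImplicit false

namespace CfsgH5.Pa

open Subgroup CForm Au

universe u v

section Abs

variable {Γ : Type*} [Group Γ] {p : ℕ}

/-- every `p'`-automorphism centralizing `T` is trivial -/
def Rig (p : ℕ) (T : Subgroup Γ) : Prop := ∀ α : MulAut Γ, ¬ p ∣ orderOf α → (∀ x ∈ T, α x = x) → α = 1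

theorem Rig.transfer [Finite Γ] [Fact p.Prime] {T : Subgroup Γ} (hT : IsPGroup p T) (h : Rig p T) {H : Type*} [Group H]
    (e : H ≃* Γ) (U : Sylow p H) : Rig p U.1 := fun α hα hfix => by
  haveI := Finite.of_equiv _ e.symm.toEquiv
  obtain ⟨Q, hQ⟩ := (hT.map e.symm.toMonoidHom).exists_le_sylow
  obtain ⟨g, rfl⟩ := MulAction.exists_smul_eq H U Q
  have := h (MulAut.congr e (MulAut.conj g * α * (MulAut.conj g)⁻¹)) (by
    rwa [MulEquiv.orderOf_eq, ← MulAut.conj_apply, MulEquiv.orderOf_eq]) fun x hx => by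
    have h1 := hQ ⟨x, hx, rfl⟩
    rw [Sylow.coe_subgroup_smul, mem_pointwise_smul_iff_inv_smul_mem] at h1
    have h2 := hfix _ h1
    simp only [MulAut.smul_def, MulEquiv.coe_toMonoidHom] at h2
    simp only [MulAut.congr_apply, MulEquiv.trans_apply, MulAut.mul_apply, h2, MulAut.apply_inv_self,
      MulEquiv.apply_symm_apply]
  rwa [MulEquiv.map_eq_one_iff, mul_inv_eq_one, mul_eq_left] at this

theorem cop [Fact p.Prime] {T : Subgroup Γ} (hT : IsPGroup p T) {m : ℕ} (hm : ¬ p ∣ m) {u : Γ} (hu : u ∈ T)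
    (h : u ^ m = 1) : u = 1 := by
  obtain ⟨k, hk⟩ := hT ⟨u, hu⟩
  have h1 : u ^ p ^ k = 1 := congrArg Subtype.val hk
  have := Nat.dvd_gcd (orderOf_dvd_of_pow_eq_one h1) (orderOf_dvd_of_pow_eq_one h)
  rwa [(((Nat.Prime.coprime_iff_not_dvd Fact.out).2 hm).pow_left k).gcd_eq_one, Nat.dvd_one, orderOf_eq_one_iff] at this

theorem fix_of_cent [Fact p.Prime] {α : MulAut Γ} (hα : ¬ p ∣ orderOf α) {T : Subgroup Γ} (hT : IsPGroup p T)
    (hfix : ∀ x ∈ T, α x = x) (hC : ∀ c, (∀ t ∈ T, c * t = t * c) → c ∈ T) {g : Γ} (hg : ∀ t ∈ T, g * t * g⁻¹ ∈ T) :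
    α g = g := by
  have h1 : g⁻¹ * α g ∈ T := hC _ fun t ht => by
    have := hfix _ (hg t ht)
    rw [map_mul, map_mul, hfix t ht, map_inv] at this
    calc g⁻¹ * α g * t = g⁻¹ * (α g * t * (α g)⁻¹) * α g := by group
      _ = _ := by rw [this]; group
  have h2 : ∀ n : ℕ, (α ^ n) g = g * (g⁻¹ * α g) ^ n := fun n => by
    induction n with
    | zero => simp
    | succ n ih => rw [pow_succ', MulAut.mul_apply, ih, map_mul, hfix _ (pow_mem h1 n), pow_succ', ← mul_assoc,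
        mul_inv_cancel_left]
  have h3 := h2 (orderOf α)
  rw [pow_orderOf_eq_one, MulAut.one_apply, left_eq_mul] at h3
  exact (inv_mul_eq_one.1 (cop hT hα h1 h3)).symm

/-- `g T g⁻¹` is opposite to `T` -/
def Op (T : Subgroup Γ) (g : Γ) : Prop := ∀ u ∈ T, g⁻¹ * u * g ∈ normalizer (T : Set Γ) → u = 1

theorem rig_of_op [Fact p.Prime] {T : Subgroup Γ} (hT : IsPGroup p T)
    (hC : ∀ g g', Op T g → Op T g' → ∃ u ∈ T, g'⁻¹ * u * g ∈ normalizer (T : Set Γ)) {g s : Γ} (hg : Op T g)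
    (hg' : Op T g⁻¹) (hs : s ∈ T) (ht : Op T (g * s * g⁻¹))
    (gen : ∀ K : Subgroup Γ, T ≤ K → g * s * g⁻¹ ∈ K → K = ⊤) : Rig p T := fun α hα hfix => by
  have m1 : ∀ a, α a ∈ T ↔ a ∈ T := fun a =>
    ⟨fun h => α.injective (hfix _ h) ▸ h, fun h => (hfix _ h).symm ▸ h⟩
  have m2 : ∀ a, α a ∈ normalizer (T : Set Γ) ↔ a ∈ normalizer (T : Set Γ) := fun a => by
    simp only [mem_normalizer_iff]
    refine ⟨fun h b => ?_, fun h b => ?_⟩
    · rw [← m1, h, ← map_inv, ← map_mul, ← map_mul, m1]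
    · obtain ⟨b, rfl⟩ := α.surjective b
      rw [← map_inv, ← map_mul, ← map_mul, m1, m1, h]
  have key : ∀ a, Op T a → a⁻¹ * α a ∈ normalizer (T : Set Γ) := fun a ha => by
    obtain ⟨u, hu, h⟩ := hC a (α a) ha fun u hu h => ha u hu (by
      rwa [← hfix u hu, ← map_inv, ← map_mul, ← map_mul, m2] at h)
    have h2 : ∀ n : ℕ, ((α ^ n) a)⁻¹ * u ^ n * a ∈ normalizer (T : Set Γ) := fun n => by
      induction n with
      | zero => simp
      | succ n ih =>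
        have := mul_mem ((m2 _).2 ih) h
        rw [map_mul, map_mul, hfix _ (pow_mem hu n), map_inv] at this
        convert this using 1
        rw [pow_succ' α, MulAut.mul_apply, pow_succ]; group
    have h3 := h2 (orderOf α)
    rw [pow_orderOf_eq_one, MulAut.one_apply] at h3
    rw [cop hT hα hu (ha _ (pow_mem hu _) h3), mul_one] at h
    simpa using inv_mem h
  have h1 := hg' _ (mul_mem (inv_mem hs) ((mem_normalizer_iff.1 (key g hg) s).1 hs)) (by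
    convert key _ ht using 1
    rw [map_mul, map_mul, map_inv, hfix s hs]; group)
  have h2 : α (g * s * g⁻¹) = g * s * g⁻¹ := by
    rw [map_mul, map_mul, map_inv, hfix s hs]
    calc _ = g * s * (s⁻¹ * (g⁻¹ * α g * s * (g⁻¹ * α g)⁻¹)) * g⁻¹ := by group
      _ = _ := by rw [h1, mul_one]
  have := gen (α.toMonoidHom.eqLocus (MonoidHom.id _)) hfix h2
  exact MulEquiv.ext fun a => (show a ∈ α.toMonoidHom.eqLocus (MonoidHom.id _) from this ▸ mem_top a)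

end Abs

section Tw

open CfsgH6 Cfsg.Lie

variable {D : ChevalleyDatum} {G : CfsgH6.Good D} {F : Type*} [Field F] {Γ : Type*} [Group Γ] {C : Cover G F Γ}

theorem rig_tw {ι : Type} (T : Twist C ι) [Finite F] [Finite T.G1] (h3 : C.R3) (p : ℕ) [Fact p.Prime] [CharP F p]
    {H : Type*} [Group H] (e : H ≃* T.G1) (U : Sylow p H) : Rig p U.1 := by
  refine Rig.transfer (T.sylow h3 p).isPGroup' (fun α hα hfix => ?_) e U
  obtain ⟨⟨g, hg⟩, h⟩ := T.exists_A0 h3 α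
  obtain ⟨u, hu, hu', k, hk, hk', rfl⟩ := T.mem_B1 (T.mem_B_of_conj hg fun u hu hu' => C.U_le_B (by
    have := (h.1 ⟨u, hu'⟩).2 hu
    rwa [MulAut.mul_apply, hfix ⟨u, hu'⟩ hu] at this)) hg
  set w : T.G1 := ⟨k, hk'⟩⁻¹ * ⟨u, hu'⟩ * ⟨k, hk'⟩ with hw
  have w1 : (w : Γ) ∈ C.U := by simpa [hw] using C.B_conj (inv_mem (C.HH_le_B hk)) hu
  have h1 : MulAut.conj w * α ∈ C.A0 T.G1 := by
    have := mul_mem (inv_mem ((Twist.conj_mem_A0 (g := ⟨k, hk'⟩)).2 hk)) h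
    rwa [← mul_assoc, ← map_inv, ← map_mul, show (⟨u * k, hg⟩ : T.G1) = ⟨u, hu'⟩ * ⟨k, hk'⟩ from rfl, ← mul_assoc] at this
  have h2 : Commute (MulAut.conj w) α := MulEquiv.ext fun a => by
    simp [hfix w w1]
  have h4 := pow_mem h1 (orderOf α)
  rw [h2.mul_pow, pow_orderOf_eq_one, mul_one, ← map_pow] at h4
  have h5 : w ^ orderOf α = 1 := Subtype.ext (T.eq_one_of_conj_V (pow_mem w1 _) (w ^ orderOf α).2 fun v hv hv' =>
    (h4.2 ⟨v, hv'⟩).2 hv)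
  rw [cop (T.sylow h3 p).isPGroup' hα w1 h5, map_one, one_mul] at h1
  exact Twist.eq_one_of_fix h1 fun c a ha => hfix a (T.Sp_le_U c ha)

end Tw

section Im

variable {G : Type*} [Group G] {E : Subgroup G} {p : ℕ}

variable (E) in
/-- the image of `A` in the central quotient of `E` -/
def im (A : Subgroup G) : Subgroup (E ⧸ center E) := (A.subgroupOf E).map (QuotientGroup.mk' _)

theorem mem_im {A : Subgroup G} {y : E ⧸ center E} : y ∈ im E A ↔ ∃ a : E, a.1 ∈ A ∧ (a : E ⧸ center E) = y := Iff.rfl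

theorem im_pg {A : Subgroup G} (h : IsPGroup p A) : IsPGroup p (im E A) := h.comap_subtype.map _

theorem mk_inj (hZ : ∀ z ∈ E, (∀ x ∈ E, x * z = z * x) → ∀ k, z ^ p ^ k = 1 → z = 1) {A : Subgroup G}
    (h : IsPGroup p A) {a b g : E} (ha : a.1 ∈ A) (hb : b.1 ∈ A) (e : (a : E ⧸ center E) = ↑(g * b * g⁻¹)) :
    a = g * b * g⁻¹ := by
  obtain ⟨i, hi⟩ := h ⟨a, ha⟩
  obtain ⟨j, hj⟩ := h ⟨b, hb⟩
  exact Subtype.ext (Rel.uniq (β := 1) hZ (g := a.1) ⟨a.2, a.2, rfl⟩ ⟨a.2, (g * b * g⁻¹).2, e⟩ (congrArg Subtype.val hi)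
    (j := j) (by rw [coe_mul, coe_mul, coe_inv, conj_pow, show b.1 ^ p ^ j = 1 from congrArg Subtype.val hj]; simp))

theorem fix_im [Fact p.Prime] (hZ : ∀ z ∈ E, (∀ x ∈ E, x * z = z * x) → ∀ k, z ^ p ^ k = 1 → z = 1) {A : Subgroup G}
    (h : IsPGroup p A) (hA : A ≤ E) {α : MulAut (E ⧸ center E)} (hα : ¬ p ∣ orderOf α) (hfix : ∀ a ∈ A, Rel α a a)
    (hC : ∀ c, (∀ a ∈ A, c * a = a * c) → ∃ a ∈ A, ∀ g, g * (a⁻¹ * c) = a⁻¹ * c * g) {g : G} (hg : g ∈ E)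
    (hn : ∀ a ∈ A, g * a * g⁻¹ ∈ A) : Rel α g g := by
  refine ⟨hg, hg, fix_of_cent hα (im_pg h) ?_ (fun c hc => ?_) ?_⟩
  · rintro _ ⟨a, ha, rfl⟩
    exact (hfix a ha).2.2
  · obtain ⟨c, rfl⟩ := QuotientGroup.mk_surjective c
    obtain ⟨a, ha, e⟩ := hC c fun a ha => by
      have := congrArg Subtype.val (mk_inj hZ h (a := ⟨a, hA ha⟩) (b := ⟨a, hA ha⟩) (g := c) ha ha (by
        rw [QuotientGroup.mk_mul, QuotientGroup.mk_mul, hc _ (mem_im.2 ⟨⟨a, hA ha⟩, ha, rfl⟩)]; simp))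
      exact (eq_mul_inv_iff_mul_eq.1 this).symm
    exact ⟨⟨a, hA ha⟩, ha, QuotientGroup.eq.2 (mem_center_iff.2 fun g => Subtype.ext (e g))⟩
  · rintro _ ⟨a, ha, rfl⟩
    exact ⟨⟨g, hg⟩ * a * ⟨g, hg⟩⁻¹, hn a ha, rfl⟩

end Im

section Form

variable {F : Type u} [Field F] [Finite F] {P : FP F} {V : Type v} [AddCommGroup V] [Module F V]
  [FiniteDimensional F V] {f : CForm P V} {p : ℕ} [Fact p.Prime] [CharP F p] {x : V}

theorem conj_Tx (hx : f.Q x = 0) {g : V ≃ₗ[F] V} (hg : g ∈ f.Isom) (h : g x ∈ F ∙ x) (hx0 : x ≠ 0) {t : V ≃ₗ[F] V}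
    (ht : t ∈ f.Tx x hx) : g * t * g⁻¹ ∈ f.Tx x hx := by
  obtain ⟨a, c, ht⟩ := ht
  obtain ⟨l, hl⟩ := mem_line.1 h
  have := ht.conj hg
  rw [hl] at this
  have l0 : l ≠ 0 := by rintro rfl; simp [hx0] at hl
  exact ⟨_, _, this.smul hx (by simpa [l0] using this.ha)⟩

theorem norm_iff (hf : f.Nondeg) (hr : f.Rich) (hx : f.Q x = 0) (hx0 : x ≠ 0) (g : f.E) :
    (g : f.E ⧸ center f.E) ∈ normalizer (im f.E (f.Tx x hx) : Set _) ↔ g.1 x ∈ F ∙ x := by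
  haveI := finite_linearEquiv (F := F) (V := V)
  obtain ⟨p, hp⟩ := CharP.exists F
  haveI : Fact p.Prime := ⟨CharP.char_is_prime F p⟩
  refine ⟨fun h => mem_span_of_fixed hf hr hx hx0 fun t a c ht => ?_, fun h => mem_normalizer_fintype ?_⟩
  · obtain ⟨s, hs, e⟩ := (mem_normalizer_iff''.1 h _).1 (mem_im.2 ⟨⟨t, ht.mem_E⟩, ⟨a, c, ht⟩, rfl⟩)
    have := mk_inj (E_hZ hf hr hx hx0) (isPGroup_Tx (p := p) hx) (b := ⟨t, ht.mem_E⟩) (g := g⁻¹) hs ⟨a, c, ht⟩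
      (by rw [inv_inv]; exact e)
    obtain ⟨_, _, hs⟩ := hs
    have h2 := hs.fix_x
    rw [this] at h2
    simpa [LinearEquiv.symm_apply_eq] using h2
  · rintro _ ⟨t, ht, rfl⟩
    exact ⟨g * t * g⁻¹, conj_Tx hx (E_le_Isom g.2) h hx0 ht, rfl⟩

theorem op_iff (hf : f.Nondeg) (hr : f.Rich) (hx : f.Q x = 0) (hx0 : x ≠ 0) (g : f.E) :
    Op (im f.E (f.Tx x hx)) g ↔ f.B (g.1 x) x ≠ 0 := by
  obtain ⟨p, hp⟩ := CharP.exists F
  haveI : Fact p.Prime := ⟨CharP.char_is_prime F p⟩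
  have k : ∀ u : f.E, (g : f.E ⧸ center f.E)⁻¹ * u * g ∈ normalizer (im f.E (f.Tx x hx) : Set _) ↔
      u.1 (g.1 x) ∈ F ∙ g.1 x := fun u => by
    refine (norm_iff hf hr hx hx0 (g⁻¹ * u * g)).trans ?_
    simp [mem_line, LinearEquiv.symm_apply_eq]
  have hw : f.Q (g.1 x) = 0 := by rw [f.Isom_Q (E_le_Isom g.2), hx]
  refine ⟨fun h h0 => ?_, fun h => ?_⟩
  · obtain ⟨y, hy⟩ := hf.exists_hyp' hx hx0
    obtain ⟨u, a, c, hu, h1, h2⟩ : ∃ u a c, f.IsEich u x a c ∧ u y ≠ y ∧ u (g.1 x) ∈ F ∙ g.1 x := by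
      by_cases e : g.1 x ∈ F ∙ x
      · obtain ⟨a, c, h1, h2, h3, h4⟩ := hr x y hy
        obtain ⟨u, hu⟩ := exists_eich hx h3 h2
        obtain ⟨l, hl⟩ := mem_line.1 e
        refine ⟨u, a, c, hu, fun e => ?_, by rw [hl, map_smul, hu.fix_x]; exact Submodule.mem_span_singleton_self _⟩
        have := congrArg (f.B · y) e
        simp [hu.app, hy.hyx, hy.hxy, h4, f.B_zero_symm h4, h1, P.ε_ne] at this
      · obtain ⟨u, hu⟩ := exists_eich (c := 0) hx h0 (by rw [hw, map_zero])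
        refine ⟨u, _, _, hu, fun e' => e ?_, by
          rw [hu.fix h0 (f.B_self_of_Q_zero hw)]; exact Submodule.mem_span_singleton_self _⟩
        rw [hu.app, hy.hyx, P.εε] at e'
        exact mem_line.2 ⟨f.B y (g.1 x), (sub_eq_zero.1 (by simpa [add_sub_assoc] using e')).symm⟩
    have := mk_inj (E_hZ hf hr hx hx0) (isPGroup_Tx (p := p) hx) (a := ⟨u, hu.mem_E⟩) (b := 1) (g := 1) ⟨a, c, hu⟩
      (one_mem _) (by simpa using h _ (mem_im.2 ⟨⟨u, hu.mem_E⟩, ⟨a, c, hu⟩, rfl⟩) ((k _).2 h2))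
    exact h1 (by simp [show u = 1 by simpa using this])
  · rintro _ ⟨u, hu, rfl⟩ e
    obtain ⟨l, hl⟩ := mem_line.1 ((k u).1 e)
    obtain ⟨i, hi⟩ := isPGroup_Tx (p := p) hx ⟨u, hu⟩
    obtain rfl := eig_one (congrArg Subtype.val hi) (by simp [hx0]) hl
    obtain ⟨a, c, hu⟩ : ∃ a c, f.IsEich u.1 x a c := hu
    have hy := isHyp_of_B_ne hx hw (fun e => h (f.B_zero_symm e))
    set y := (P.σ (f.B x (g.1 x)))⁻¹ • g.1 x
    have h1 : u.1 y = y := by simp [y, hl]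
    obtain ⟨a', c', h2, h3⟩ := hu.exists_perp hy
    rw [h2.app, hy.hyx, f.B_zero_symm h3, P.εε, mul_right_comm, P.εε] at h1
    have h4 : a' + c' • x = 0 := by simpa [sub_sub] using h1
    have h5 : c' = 0 := by simpa [h3, hy.hxy] using congrArg (f.B · y) h4
    obtain rfl : a' = 0 := by simpa [h5] using h4
    rw [show u = 1 from Subtype.ext ((h5 ▸ h2).unique (isEich_one hx))]; rfl

omit [Finite F] in
theorem exists_mv (hr : f.Rich) (hx : f.Q x = 0) {w : V} (hw : f.Q w = 0) (h : f.B w x ≠ 0) :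
    ∃ s ∈ f.Tx x hx, f.B (s w) w ≠ 0 := by
  have hy := isHyp_of_B_ne hw hx h
  obtain ⟨a, c, h1, h2, h3, h4⟩ := hr _ _ hy
  obtain ⟨s, hs, h5⟩ := Mx.exists_move hy h1 h2 h3 h4
  exact ⟨s, ⟨_, _, hs.smul hx (by simpa [h] using h4)⟩, fun e => h5 (f.B_zero_symm e)⟩

theorem op_tr (hf : f.Nondeg) (hr : f.Rich) (hx : f.Q x = 0) (hx0 : x ≠ 0) (g g' : f.E ⧸ center f.E)
    (k : Op (im f.E (f.Tx x hx)) g) (k' : Op (im f.E (f.Tx x hx)) g') :
    ∃ u ∈ im f.E (f.Tx x hx), g'⁻¹ * u * g ∈ normalizer (im f.E (f.Tx x hx) : Set _) := by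
  obtain ⟨g, rfl⟩ := QuotientGroup.mk_surjective g
  obtain ⟨g', rfl⟩ := QuotientGroup.mk_surjective g'
  rw [op_iff hf hr hx hx0] at k k'
  obtain ⟨u, a, c, l, hu, -, h, -⟩ := exists_eich_line hx ((f.Isom_Q (E_le_Isom g'.2) x).trans hx)
    ((f.Isom_Q (E_le_Isom g.2) x).trans hx) (fun e => k' (f.B_zero_symm e)) fun e => k (f.B_zero_symm e)
  have := (norm_iff hf hr hx hx0 (g'⁻¹ * ⟨u, hu.mem_E⟩ * g)).2 (mem_line.2 ⟨l, by simp [h]⟩)
  rw [QuotientGroup.mk_mul, QuotientGroup.mk_mul, QuotientGroup.mk_inv] at this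
  exact ⟨_, mem_im.2 ⟨⟨u, hu.mem_E⟩, ⟨a, c, hu⟩, rfl⟩, this⟩

omit [Finite F] in
theorem gen_form (hf : f.Nondeg) (hx : f.Q x = 0) {t : f.E} (h4 : f.B (t.1 x) x ≠ 0) (K : Subgroup (f.E ⧸ center f.E))
    (k1 : im f.E (f.Tx x hx) ≤ K) (k2 : ↑t ∈ K) : K = ⊤ := by
  have t1 := E_le_Isom t.2
  have k3 : Mx.Full f ((K.comap (QuotientGroup.mk' _)).map f.E.subtype) x := fun t a c ht =>
    ⟨⟨t, ht.mem_E⟩, k1 (mem_im.2 ⟨_, ⟨a, c, ht⟩, rfl⟩), rfl⟩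
  have := Mx.E_le_of_full hf k3 (k3.map ⟨t, k2, rfl⟩ t1) hx ((f.Isom_Q t1 x).trans hx) fun e => h4 (f.B_zero_symm e)
  refine eq_top_iff.2 fun z _ => ?_
  obtain ⟨z, rfl⟩ := QuotientGroup.mk_surjective z
  obtain ⟨z', h, e⟩ := this z.2
  exact (Subtype.ext e : z' = z) ▸ h

theorem rig_form (hf : f.Nondeg) (hr : f.Rich) {y : V} (hy : f.IsHyp x y) {S : Type*} [Group S] (e : S ≃* f.E)
    {H : Type*} [Group H] (e' : H ≃* S ⧸ center S) (U : Sylow p H) : Rig p U.1 := by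
  haveI := finite_linearEquiv (F := F) (V := V)
  have hx := hy.hx
  have hx0 := hy.x_ne
  obtain ⟨g, ⟨_, _, hg⟩, h1⟩ := exists_mv hr hy.hy hx (by rw [hy.hxy]; exact one_ne_zero)
  have g1 := hg.mem_Isom
  have h2 : f.B (g⁻¹ x) x ≠ 0 := fun e => h1 (by rw [f.Isom_B_inv g1]; exact f.B_zero_symm e)
  obtain ⟨s, ⟨a, c, hs⟩, h3⟩ := exists_mv hr hx (by rw [f.Isom_Q (inv_mem g1), hx]) h2
  have h4 : f.B ((⟨g, hg.mem_E⟩ * ⟨s, hs.mem_E⟩ * ⟨g, hg.mem_E⟩⁻¹ : f.E).1 x) x ≠ 0 := by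
    rwa [← f.Isom_B_inv g1] at h3
  have h5 : IsPGroup p (im f.E (f.Tx x hx)) := im_pg (isPGroup_Tx hx)
  have h6 := (op_iff hf hr hx hx0 ⟨g, hg.mem_E⟩⁻¹).2 h2
  have h7 := (op_iff hf hr hx hx0 _).2 h4
  have h8 := gen_form hf hx h4
  rw [QuotientGroup.mk_mul, QuotientGroup.mk_mul] at h7 h8
  rw [QuotientGroup.mk_inv] at h6 h7 h8
  exact Rig.transfer h5 (rig_of_op h5 (op_tr hf hr hx hx0) ((op_iff hf hr hx hx0 ⟨g, hg.mem_E⟩).2 h1) h6
    (mem_im.2 ⟨⟨s, hs.mem_E⟩, ⟨a, c, hs⟩, rfl⟩) h7 h8) (e'.trans (quotCenterEquiv e)) U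

end Form

section SL

open Matrix

variable {ι : Type} [Fintype ι] [DecidableEq ι] {F : Type u} [Field F] {p : ℕ}

theorem cent_TH (h2 : 2 ≤ Fintype.card ι) {y : ι → F} (hy : y ≠ 0) (c : (ι → F) ≃ₗ[F] (ι → F))
    (h : ∀ a ∈ TH y, c * a = a * c) : ∃ a ∈ TH y, ∀ g, g * (a⁻¹ * c) = a⁻¹ * c * g := by
  obtain ⟨v, hv⟩ := exists_dot_one hy
  have h1 : ∀ x, x ⬝ᵥ y = 0 → c x = (c v ⬝ᵥ y) • x := fun x hx => by
    obtain ⟨t, ht⟩ := exists_tv hx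
    simpa [ht.app, hv] using congrArg (· v) (h t ⟨x, ht⟩)
  obtain ⟨x, x0, hx⟩ := exists_perp_ne h2 y
  have h3 : c v ⬝ᵥ y ≠ 0 := fun e => x0 (by simpa [e] using h1 x hx)
  obtain ⟨a, ha⟩ := exists_tv (x := (c v ⬝ᵥ y)⁻¹ • c v - v) (y := y) (by simp [hv, h3])
  refine ⟨a, ⟨_, ha⟩, IsSc.comm ⟨c v ⬝ᵥ y, fun w => ?_⟩⟩
  have := h1 (w - (w ⬝ᵥ y) • v) (by simp [hv])
  rw [map_sub, map_smul, sub_eq_iff_eq_add] at this
  rw [LinearEquiv.mul_apply, LinearEquiv.coe_inv, LinearEquiv.symm_apply_eq, map_smul, ha.app, this]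
  simp only [smul_add, smul_sub, smul_smul, mul_left_comm _ (w ⬝ᵥ y), mul_inv_cancel₀ h3, mul_one]
  abel

theorem dl_TH {x : ι → F} {a : (ι → F) ≃ₗ[F] (ι → F)} (h : a ∈ TH x) : dl a ∈ TP x := by
  obtain ⟨w, h⟩ := h
  exact ⟨_, IsTv.smul (c := -1) (by simpa using h.dl) (by rw [dotProduct_comm]; exact h.xy)⟩

theorem cent_TP (h2 : 2 ≤ Fintype.card ι) {x : ι → F} (hx : x ≠ 0) (c : (ι → F) ≃ₗ[F] (ι → F))
    (h : ∀ a ∈ TP x, c * a = a * c) : ∃ a ∈ TP x, ∀ g, g * (a⁻¹ * c) = a⁻¹ * c * g := by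
  obtain ⟨a, ha, e⟩ := cent_TH h2 hx (dl c) fun a ha => by simpa using congrArg dl (h _ (dl_TH ha))
  exact ⟨_, dl_TH ha, fun g => by simpa using congrArg dl (e (dl g))⟩

theorem rig_SL [Finite F] [Fact p.Prime] [CharP F p] (h3 : 3 ≤ Fintype.card ι) {H : Type*} [Group H]
    (e : H ≃* ProjectiveSpecialLinearGroup ι F) (U : Sylow p H) : Rig p U.1 := by
  haveI := finite_linearEquiv (F := F) (V := ι → F)
  have h2 : 2 ≤ Fintype.card ι := by omega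
  have p1 : ∀ y : ι → F, IsPGroup p (TH y) := fun y ⟨g, x, h⟩ => ⟨1, Subtype.ext h.pow_char⟩
  have p2 : ∀ y : ι → F, IsPGroup p (TP y) := fun y ⟨g, x, h⟩ => ⟨1, Subtype.ext h.pow_char⟩
  obtain ⟨y, y0, -⟩ := exists_perp_ne h2 (0 : ι → F)
  refine Rig.transfer (im_pg (E := SLV ι F) (p1 y)) (fun α hα hfix => ?_) (e.trans (quotCenterEquiv (slE ι F))) U
  have k : ∀ g x z, IsTv g x z → Rel α g g := fun g w z hg => by
    obtain ⟨x, x0, k1, k2⟩ := exists_perp_two h3 y z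
    refine fix_im (SLV_hZ h2) (p2 x) (fun _ ⟨_, h⟩ => h.mem) hα (fun a ⟨z, ha⟩ => ?_) (cent_TP h2 x0) hg.mem
      fun a ⟨z, ha⟩ => ⟨_, by simpa [hg.app, k2] using ha.conj g⟩
    exact fix_im (SLV_hZ h2) (p1 y) (fun _ ⟨_, h⟩ => h.mem) hα
      (fun a ⟨w, ha⟩ => ⟨ha.mem, ha.mem, hfix _ (mem_im.2 ⟨_, ⟨w, ha⟩, rfl⟩)⟩) (cent_TH h2 y0) ha.mem
      fun b ⟨w, hb⟩ => ⟨_, by simpa [ha.dl.app, dotProduct_comm y, k1] using hb.conj a⟩
  have := SL_eq_top_of_transvections (((α.toMonoidHom.eqLocus (MonoidHom.id _)).comap (QuotientGroup.mk' _)).comap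
    (slE ι F).toMonoidHom) fun i j h c => (k (slE ι F (SpecialLinearGroup.transvection h c)).1 (Pi.single i c) (Pi.single j 1)
      ⟨by simp [h], fun v => by
      rw [slE_apply]; ext l
      simp [SpecialLinearGroup.transvection, transvection, add_mulVec, single_mulVec, Function.update_apply,
        Pi.single_apply, mul_comm]⟩).2.2
  refine MulEquiv.ext fun z => ?_
  obtain ⟨z, rfl⟩ := QuotientGroup.mk_surjective z
  obtain ⟨z, rfl⟩ := (slE ι F).surjective z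
  exact (this ▸ mem_top z :
    z ∈ ((α.toMonoidHom.eqLocus (MonoidHom.id _)).comap (QuotientGroup.mk' _)).comap (slE ι F).toMonoidHom)

end SL

end CfsgH5.Pa
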