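import Cfsg.Agent.H5.Rk1
import Cfsg.Agent.H5.Unit2

set_option autoImplicit false

/-! Involutions of three-dimensional special unitary groups in odd characteristic. -/

namespace CfsgH5.Su

open Module CfsgH5 CfsgH5.CForm

universe u v

variable {F : Type u} [Field F] {σ : F →+* F} {q : ℕ} {hσ : ∀ a, σ (σ a) = a} {V : Type v} [AddCommGroup V] [Module F V]
  [FiniteDimensional F V] {f : CForm (FP.unit σ hσ) V} {S : Type*} [Group S]

theorem on_span (hf : f.Nondeg) (h3 : finrank F V = 3) {a b c : V} (ha : f.B a a = 1) (hb : f.B b b = 1)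
    (hc : f.B c c = 1) (ab : f.B a b = 0) (ac : f.B a c = 0) (bc : f.B b c = 0) (v : V) :
    v = f.B v a • a + f.B v b • b + f.B v c • c := by
  have ba := f.B_zero_symm ab
  have ca := f.B_zero_symm ac
  have cb := f.B_zero_symm bc
  have li : LinearIndependent F ![a, b, c] := Fintype.linearIndependent_iff.2 fun g hg i => by
    have := congrArg (f.B · (![a, b, c] i)) hg
    fin_cases i <;> simpa [Fin.sum_univ_three, ha, hb, hc, ab, ac, bc, ba, ca, cb] using this
  obtain ⟨g, rfl⟩ := (Submodule.mem_span_range_iff_exists_fun F).1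
    ((li.span_eq_top_of_card_eq_finrank' (by simp [h3])).ge (Submodule.mem_top (x := v)))
  simp [Fin.sum_univ_three, *]

theorem perp2 (hf : f.Nondeg) (h3 : finrank F V = 3) {d : V} (hd : f.B d d ≠ 0) :
    (f.res (f.perp (F ∙ d))).Nondeg ∧ finrank F (f.perp (F ∙ d)) = 2 := by
  have := hf.finrank_perp (F ∙ d)
  rw [finrank_span_singleton (by rintro rfl; simp at hd)] at this
  exact ⟨(nondeg_perp_of_B_ne hf hd).1, by omega⟩

theorem exists_perp (H : UF σ q) (hf : f.Nondeg) (h3 : finrank F V = 3) {d w : V} (hd : f.B d d ≠ 0) (h : f.B w d = 0)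
    (hw : f.B w w ≠ 0 ∨ w = 0) : ∃ z, f.B z z = 1 ∧ f.B z d = 0 ∧ f.B z w = 0 := by
  obtain ⟨h1, h2⟩ := perp2 hf h3 hd
  rcases hw with hw | rfl
  · let w' : f.perp (F ∙ d) := ⟨w, mem_perp_single.2 h⟩
    have := h1.finrank_perp (F ∙ w')
    rw [finrank_span_singleton (fun e => hw (by rw [show w = 0 from congrArg Subtype.val e, B_zero_left]))] at this
    obtain ⟨z, hz⟩ := unit_exists_Q_one H (nondeg_perp_of_B_ne h1 (v := w') hw).1 (by omega)
    exact ⟨z, (unit_Q _ _).symm.trans hz, mem_perp_single.1 z.1.2, (mem_perp_single (f := f.res _)).1 z.2⟩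
  · obtain ⟨z, hz⟩ := unit_exists_Q_one H h1 (by omega)
    exact ⟨z, (unit_Q _ _).symm.trans hz, mem_perp_single.1 z.2, by simp⟩

theorem exists_perp' (H : UF σ q) (hf : f.Nondeg) (h3 : finrank F V = 3) {d e : V} (hd : f.B d d = 1) (he : f.B e e = 1)
    (h : f.B e d * σ (f.B e d) ≠ 1 ∨ e = f.B e d • d) : ∃ z, f.B z z = 1 ∧ f.B z d = 0 ∧ f.B z e = 0 := by
  obtain ⟨z, h1, h2, h3⟩ := exists_perp H hf h3 (w := e - f.B e d • d) (hd ▸ one_ne_zero) (by simp [hd])
    (h.imp (fun h k => h (by simp [hd, he, unit_B_symm f e d] at k; linear_combination -k)) sub_eq_zero.2)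
  exact ⟨z, h1, h2, by simpa [h2] using h3⟩

theorem card_perp (H : UF σ q) (hf : f.Nondeg) (h3 : finrank F V = 3) {d : V} (hd : f.B d d ≠ 0) :
    Nat.card {w // f.B w w = 1 ∧ f.B w d = 0} = q * (q - 1) * (q + 1) ∧
    Nat.card {w // w ≠ 0 ∧ f.B w w = 0 ∧ f.B w d = 0} = (q + 1) * (q ^ 2 - 1) := by
  obtain ⟨h1, h2⟩ := perp2 hf h3 hd
  obtain ⟨k0, k1⟩ := unit_nQ H 2 h1 h2
  have := H.fin
  have : Finite V := Module.finite_of_finite F
  have q2 := H.two_le
  have a1 : Nat.card {w // f.B w w = 1 ∧ f.B w d = 0} = (f.res (f.perp (F ∙ d))).nQ 1 :=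
    Nat.card_congr ⟨fun w => ⟨⟨w, mem_perp_single.2 w.2.2⟩, (unit_Q _ _).trans w.2.1⟩,
      fun w => ⟨w, (unit_Q _ _).symm.trans w.2, mem_perp_single.1 w.1.2⟩, fun _ => rfl, fun _ => rfl⟩
  have a0 : Nat.card {w // w ≠ 0 ∧ f.B w w = 0 ∧ f.B w d = 0} + 1 = (f.res (f.perp (F ∙ d))).nQ 0 :=
    Eq.trans (congrArg (· + 1) (Nat.card_congr (β := {v | v ≠ 0 ∧ (f.res (f.perp (F ∙ d))).Q v = 0})
      ⟨fun w => ⟨⟨w, mem_perp_single.2 w.2.2.2⟩,
      fun e => w.2.1 (congrArg Subtype.val e), (unit_Q _ _).trans w.2.2.1⟩,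
      fun w => ⟨w, fun e => w.2.1 (Subtype.ext e), (unit_Q _ _).symm.trans w.2.2, mem_perp_single.1 w.1.2⟩,
      fun _ => rfl, fun _ => rfl⟩)) card_sing
  replace k1 := k1 1 (map_one σ) one_ne_zero
  rw [← a1] at k1
  rw [← a0] at k0
  have q1 : 1 ≤ q ^ 2 := Nat.one_le_pow _ _ (by omega)
  have q0 : (q : ℤ) ≠ 0 := by omega
  constructor
  · zify [show 1 ≤ q by omega]
    exact mul_left_cancel₀ q0 (by rw [k1]; ring)
  · zify [q1] at k0 ⊢
    exact mul_left_cancel₀ q0 (by linear_combination k0)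

variable (e : S ≃* f.SIsom)

/-- the involution `x` fixes the unit vector `d` and negates its orthogonal complement -/
def T (x : S) (d : V) : Prop := f.B d d = 1 ∧ ∀ v, (e x).1 v = (2 * f.B v d) • d - v

variable {e} {x y : S} {d w : V}

omit [FiniteDimensional F V] in
theorem ext (h : ∀ v, (e x).1 v = (e y).1 v) : x = y := e.injective (Subtype.ext (LinearEquiv.ext h))

omit [FiniteDimensional F V] in
theorem T.sq (h : T e x d) : x * x = 1 := ext (e := e) fun v => by
  simp only [map_mul, Subgroup.coe_mul, LinearEquiv.mul_apply, h.2, B_sub_left, B_smul_left, h.1, map_one]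
  simp; module

omit [FiniteDimensional F V] in
theorem T.smul (h : T e x d) {a : F} (ha : a * σ a = 1) : T e x (a • d) :=
  ⟨by simp [h.1, ha, mul_comm], fun v => by
    rw [h.2, smul_smul, B_smul_right]; congr 2; simp; linear_combination (-2 * f.B v d) * ha⟩

omit [FiniteDimensional F V] in
theorem T.uniq (h : T e x d) (k : T e y d) : x = y := ext (e := e) fun v => by rw [h.2, k.2]

omit [FiniteDimensional F V] in
theorem T.eq_iff (h2 : (2 : F) ≠ 0) (h : T e x d) (k : T e y w) : x = y ↔ w = f.B w d • d := by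
  constructor
  · rintro rfl
    have := (h.2 w).symm.trans (k.2 w)
    rw [k.1, sub_left_inj, mul_smul, mul_one] at this
    exact (smul_right_injective _ h2 this).symm
  · intro a
    have := k.1
    rw [a] at this k
    exact (h.smul (by simpa [h.1, mul_comm] using this)).uniq k

omit [FiniteDimensional F V] in
theorem T.conj (h : T e x d) (g : S) : T e (g * x * g⁻¹) ((e g).1 d) :=
  ⟨by rw [f.Isom_B (e g).2.1, h.1], fun v => by
    obtain ⟨v, rfl⟩ := (e g).1.surjective v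
    simp [h.2, f.Isom_B (e g).2.1]⟩

omit [FiniteDimensional F V] in
theorem T.comm_iff (h2 : (2 : F) ≠ 0) (h : T e x d) (k : T e y w) : Commute x y ↔ f.B w d = 0 ∨ x = y := by
  have : Commute x y ↔ y = x * y * x⁻¹ := by rw [eq_mul_inv_iff_mul_eq, eq_comm]; rfl
  rw [this, k.eq_iff h2 (k.conj x), h.2]
  constructor
  · intro a
    refine or_iff_not_imp_left.2 fun b => ((k.eq_iff h2 h).2 (smul_right_injective _ (mul_ne_zero h2 b) ?_)).symm
    simp only [B_sub_left, B_smul_left, k.1] at a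
    linear_combination (norm := module) a
  · rintro (a | a)
    · simp [a, k.1]
    · rw [(h.eq_iff h2 k).1 a]
      have := k.1
      rw [(h.eq_iff h2 k).1 a] at this
      simp only [B_smul_left, B_smul_right, B_sub_left, h.1, FP.unit_σ, smul_smul, ← sub_smul] at this ⊢
      congr 1; linear_combination (-f.B w d) * this

theorem T.ne (H : UF σ q) (hf : f.Nondeg) (h3 : finrank F V = 3) (h2 : (2 : F) ≠ 0) (h : T e x d) : x ≠ 1 := by
  rintro rfl
  obtain ⟨z, h1, h4, -⟩ := exists_perp H hf h3 (h.1 ▸ one_ne_zero) (w := 0) (by simp) (.inr rfl)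
  have := congrArg (f.B · z) (h.2 z)
  simp [h4, h1, eq_neg_iff_add_eq_zero, one_add_one_eq_two, h2] at this

variable (e)

theorem exists_T (H : UF σ q) (h3 : finrank F V = 3) (hd : f.B d d = 1) : ∃ x, T e x d := by
  obtain ⟨g, h1, h2, h4, h5⟩ := unit_exists_refl (f := f) (d := d) (by simp [unit_Q, hd]) (m := -1) (by simp)
  refine ⟨e.symm ⟨scal V (-1) * g, mem_SIsom.2 ⟨mem_Isom_unit.2 fun u v => by simp [f.Isom_B h1], ?_⟩⟩, hd, fun v => ?_⟩
  · rw [← LinearEquiv.coe_det, map_mul, Units.val_mul, LinearEquiv.coe_det, LinearEquiv.coe_det, scal_det, h5, h3]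
    norm_num
  · have := h4 (v - f.B v d • d) (by simp [hd])
    rw [map_sub, map_smul, h2, sub_eq_iff_eq_add] at this
    simp [this]; module

theorem exists_d (H : UF σ q) (hf : f.Nondeg) (h3 : finrank F V = 3) (h2 : (2 : F) ≠ 0) (h1 : x ≠ 1) (hx : x * x = 1) :
    ∃ d, T e x d := by
  have : Finite (Subgroup.zpowers x) := (isOfFinOrder_iff_pow_eq_one.2 ⟨2, two_pos, by rw [sq, hx]⟩).finite_zpowers
  obtain ⟨b, hb⟩ := Rk.exists_basis ((f.SIsom.subtype.comp e.toMonoidHom).comp (Subgroup.zpowers x).subtype) h2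
    mul_comm' fun ⟨a, k, hk⟩ => Subtype.ext (by
      simp only [← hk, SubmonoidClass.coe_pow, OneMemClass.coe_one]; rw [← zpow_natCast, ← zpow_mul, mul_comm, zpow_mul]
      rw [zpow_natCast, sq, hx, one_zpow])
  obtain ⟨s, hs⟩ := hb ⟨x, Subgroup.mem_zpowers x⟩
  replace hs : (e x).1 = _ := hs
  have hd := (mem_SIsom.1 (e x).2).2
  rw [hs, Rk.det_dg, ← map_one (Rk.sg F)] at hd
  have hp := Rk.sg_inj h2 hd
  have hn : s ≠ 1 := fun k => h1 (ext (e := e) fun v => by simp [hs, k])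
  obtain ⟨i, hi, hj⟩ : ∃ i, s i = 1 ∧ ∀ j, j ≠ i → s j = -1 := by
    clear hs hd hb b
    revert s
    rw [h3]
    decide
  have o : ∀ j, j ≠ i → f.B (b j) (b i) = 0 := fun j k => by
    have := f.Isom_B (e x).2.1 (b j) (b i)
    simpa [hs, Rk.dg_apply, hi, hj j k, neg_eq_iff_add_eq_zero, ← two_mul, h2] using this
  have n : f.Q (b i) ≠ 0 := fun k => b.ne_zero i (hf _ fun u => by
    have : f.left (b i) = 0 := b.ext fun j => by
      by_cases l : j = i
      exacts [by rw [l]; exact (unit_Q _ _).symm.trans k, o j l]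
    exact LinearMap.congr_fun this u)
  obtain ⟨a, ha⟩ := unit_exists_Q_eq H n (c := 1) (map_one σ)
  rw [unit_Q] at ha
  refine ⟨a • b i, ha, fun v => ?_⟩
  have : (e x).1.toLinearMap = ((2 : F) • f.left (a • b i)).smulRight (a • b i) - LinearMap.id := b.ext fun j => by
    by_cases l : j = i
    · subst l
      simp only [B_smul_left, B_smul_right, FP.unit_σ] at ha
      simp [hs, Rk.dg_apply, hi, smul_smul]
      match_scalars; linear_combination -2 * ha
    · simp [hs, Rk.dg_apply, hj j l, o j l]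
  simpa using LinearMap.congr_fun this v

theorem count (H : UF σ q) (hf : f.Nondeg) (h3 : finrank F V = 3) (h2 : (2 : F) ≠ 0) (p : S → Prop) (P : V → Prop)
    (h : ∀ x d, T e x d → (p x ↔ P d)) :
    Nat.card {x // x ≠ 1 ∧ x * x = 1 ∧ p x} * (q + 1) = Nat.card {d // f.B d d = 1 ∧ P d} := by
  choose D hD using fun x : {x // x ≠ 1 ∧ x * x = 1 ∧ p x} => exists_d e H hf h3 h2 x.2.1 x.2.2.1
  rw [← H.card_norm (b := 1) (map_one σ) one_ne_zero, ← Nat.card_prod]
  refine Nat.card_congr (Equiv.ofBijective (fun z => ⟨z.2.1 • D z.1, ((hD _).smul z.2.2).1,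
    (h _ _ ((hD _).smul z.2.2)).1 z.1.2.2.2⟩) ⟨?_, ?_⟩)
  · rintro ⟨x, a⟩ ⟨y, b⟩ k
    have k : a.1 • D x = b.1 • D y := congrArg Subtype.val k
    obtain rfl : x = y := Subtype.ext (((hD x).smul a.2).uniq (k ▸ (hD y).smul b.2))
    rw [Subtype.ext (smul_left_injective F (fun l => by simpa [l] using (hD x).1) k)]
  · rintro ⟨d, h1, h4⟩
    obtain ⟨x, hx⟩ := exists_T e H h3 h1
    let x' : {x // x ≠ 1 ∧ x * x = 1 ∧ p x} := ⟨x, hx.ne H hf h3 h2, hx.sq, (h _ _ hx).2 h4⟩
    have k := ((hD x').eq_iff h2 hx).1 rfl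
    exact ⟨(x', ⟨f.B d (D x'), by rw [k] at h1; simpa [(hD x').1, mul_comm] using h1⟩), Subtype.ext k.symm⟩

include e in
theorem card_inv (H : UF σ q) (hf : f.Nondeg) (h3 : finrank F V = 3) (h2 : (2 : F) ≠ 0) :
    Nat.card {x : S // x ≠ 1 ∧ x * x = 1} = q ^ 2 * (q ^ 2 - q + 1) := by
  have k := count e H hf h3 h2 (fun _ => True) (fun _ => True) fun _ _ _ => Iff.rfl
  have k1 := (unit_nQ H 3 hf h3).2 1 (map_one σ) one_ne_zero
  simp only [and_true, ← unit_Q] at k
  rw [nQ, ← k] at k1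
  have q2 := H.two_le
  zify [show q ≤ q ^ 2 from Nat.le_self_pow two_ne_zero q] at k1 ⊢
  exact mul_left_cancel₀ (a := (q : ℤ) * (q + 1)) (by positivity) (by linear_combination k1)

end CfsgH5.Su
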