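import Cfsg.Agent.H5.Au7
import Cfsg.Agent.H5.Wr1
import Cfsg.Agent.H5.CFormCount

/-! Maximal unipotent subgroups of isometry groups in characteristic two. -/

set_option autoImplicit false

namespace CfsgH5.Up

open Module CForm Au Wr Cfsg.Agent.S4623
open scoped commutatorElement

universe u v

variable {F : Type u} [Field F] {P : FP F} {V : Type v} [AddCommGroup V] [Module F V] {f : CForm P V}

/-- order of the unipotent subgroup -/
def uc (a b : ℕ) : ℕ → ℕ
  | 0 => 1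
  | 1 => 1
  | n + 2 => a ^ n * b * uc a b n

variable (f) in
/-- Eichler maps with parameter in a subspace -/
def R (x : V) (hx : f.Q x = 0) (W : Submodule F V) : Subgroup (V ≃ₗ[F] V) where
  carrier := {g | ∃ a ∈ W, ∃ c, f.IsEich g x a c}
  mul_mem' := fun ⟨_, ha, _, h⟩ ⟨_, hb, _, h'⟩ => ⟨_, add_mem ha hb, _, h.mul h'⟩
  one_mem' := ⟨_, zero_mem _, _, isEich_one hx⟩
  inv_mem' := fun ⟨_, ha, _, h⟩ => ⟨_, neg_mem ha, _, h.inv⟩

theorem good_R [CharP F 2] (hG : (∀ a, f.B a a = 0) ∨ ∃ l : F, l - P.σ l = 1) {x : V} (hx : f.Q x = 0)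
    {W : Submodule F V} (hW : ∀ a ∈ W, f.B a x = 0) : Good 2 (R f x hx W) := by
  rintro g ⟨a, ha, c, h⟩
  have h2 : (2 : F) = 0 := CharTwo.two_eq_zero
  have e : f.IsEich (g ^ 2) x 0 (f.B a a) := by
    have := h.mul h
    rwa [← two_smul F, h2, zero_smul, ← two_mul, h2, zero_mul, zero_add, ← sq] at this
  rcases hG with k | ⟨l, k⟩
  · rw [k] at e
    rw [e.unique (isEich_one hx)]; exact one_mem _
  obtain ⟨d, hd⟩ := f.exists_t (l • a)
  obtain ⟨g', h'⟩ := f.exists_eich hx (hW _ (W.smul_mem l ha)) hd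
  have := h.commutator h'
  rw [f.B_smul_left, f.B_smul_right, ← sub_mul, k, one_mul] at this
  rw [e.unique this]
  exact Subgroup.commutator_mem_commutator ⟨a, ha, c, h⟩ ⟨_, W.smul_mem l ha, d, h'⟩

theorem card_R [Finite F] [FiniteDimensional F V] {x y : V} (h : f.IsHyp x y) {W : Submodule F V}
    (hW : ∀ a ∈ W, f.B a x = 0 ∧ f.B a y = 0) : Nat.card F ^ finrank F W * P.τ ≤ Nat.card (R f x h.hx W) := by
  haveI := finite_linearEquiv (F := F) (V := V)
  haveI : Finite W := Module.finite_of_finite F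
  have k := fun p : Σ a : W, {c : F // P.t c = f.Q a} => f.exists_eich h.hx (hW _ p.1.2).1 p.2.2
  choose g hg using k
  rw [← card_submodule, ← natCard_sigma_const (β := fun a : W => {c : F // P.t c = f.Q a})
    (fun a => P.card_fiber (f.exists_t _)) fun _ => inferInstance]
  refine Nat.card_le_card_of_injective (fun p => ⟨g p, _, p.1.2, _, hg p⟩) ?_
  rintro ⟨a, c⟩ ⟨b, d⟩ e
  have e' : g ⟨a, c⟩ = g ⟨b, d⟩ := congrArg Subtype.val e
  obtain ⟨e1, e2⟩ := eich_param (hg ⟨a, c⟩) (e' ▸ hg ⟨b, d⟩) h (hW _ a.2).2 (hW _ b.2).2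
  obtain rfl : a = b := Subtype.ext e1
  obtain rfl : c = d := Subtype.ext e2
  rfl

theorem exists_U [Finite F] [CharP F 2] [FiniteDimensional F V] (hf : f.Nondeg)
    (hG : (∀ a, f.B a a = 0) ∨ ∃ l : F, l - P.σ l = 1)
    (hA : ∀ W : Submodule F V, (f.res W).Nondeg → 2 ≤ finrank F W →
      (∃ x y, (f.res W).IsHyp x y) ∨ finrank F W = 2 ∧ P.τ = 1) (n : ℕ) :
    ∀ W : Submodule F V, W ⊓ f.perp W = ⊥ → finrank F W = n → ∃ U : Subgroup (V ≃ₗ[F] V), U ≤ f.E ∧
      U ≤ fixS F (f.perp W : Set V) ∧ IsPGroup 2 U ∧ Good 2 U ∧ uc (Nat.card F) P.τ n ≤ Nat.card U := by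
  haveI := finite_linearEquiv (F := F) (V := V)
  haveI : Fact (Nat.Prime 2) := ⟨Nat.prime_two⟩
  have base : ∀ W : Submodule F V, ∀ n, uc (Nat.card F) P.τ n = 1 → ∃ U : Subgroup (V ≃ₗ[F] V), U ≤ f.E ∧
      U ≤ fixS F (f.perp W : Set V) ∧ IsPGroup 2 U ∧ Good 2 U ∧ uc (Nat.card F) P.τ n ≤ Nat.card U := fun W n h =>
    ⟨⊥, bot_le, bot_le, .of_bot, fun x hx => by simp [Subgroup.mem_bot.1 hx], by simp [h]⟩
  induction n using Nat.twoStepInduction with
  | zero => exact fun W _ _ => base W 0 rfl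
  | one => exact fun W _ _ => base W 1 rfl
  | more n ih _ =>
    intro W hW hn
    rcases hA W ((f.res_nondeg_iff W).2 hW) (by omega) with ⟨⟨x, hx⟩, ⟨y, hy⟩, h0⟩ | ⟨h1, h2⟩
    swap
    · obtain rfl : n = 0 := by omega
      exact base W 2 (by simp [uc, h2])
    have h : f.IsHyp x y := ⟨h0.hx, h0.hy, h0.hxy⟩
    let H := Submodule.span F {x, y}
    have HW : H ≤ W := Submodule.span_le.2 (by rintro _ (rfl | rfl) <;> assumption)
    let W' := W ⊓ f.perp H
    have m : ∀ a ∈ W', f.B a x = 0 ∧ f.B a y = 0 := fun a ha => IsHyp.mem_perp.1 ha.2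
    have p1 : f.perp W' = f.perp W ⊔ H := by rw [hf.perp_inf, hf.perp_perp]
    have n1 : W' ⊓ f.perp W' = ⊥ := by
      rw [p1, eq_bot_iff]
      rintro v ⟨⟨v1, v2⟩, v3⟩
      obtain ⟨a, ha, b, hb, rfl⟩ := Submodule.mem_sup.1 v3
      have a0 : a = 0 := (Submodule.mem_bot F).1 (hW.le ⟨by simpa using sub_mem v1 (HW hb), ha⟩)
      rw [a0, zero_add] at v2 ⊢
      exact h.isCompl.disjoint.le_bot ⟨hb, v2⟩
    have d1 : finrank F W' = n := by
      have a1 := hf.finrank_perp W'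
      have a2 := hf.finrank_perp W
      have a3 := Submodule.finrank_sup_add_finrank_inf_eq (f.perp W) H
      have a4 : f.perp W ⊓ H = ⊥ := eq_bot_iff.2 fun v hv => hW.le ⟨HW hv.2, hv.1⟩
      rw [a4, finrank_bot, ← p1, h.finrank_span] at a3
      omega
    obtain ⟨U, u1, u2, u3, u4, u5⟩ := ih W' n1 d1
    have xH : x ∈ f.perp W' := p1 ▸ Submodule.mem_sup_right (Submodule.subset_span (by simp))
    have yH : y ∈ f.perp W' := p1 ▸ Submodule.mem_sup_right (Submodule.subset_span (by simp))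
    have nm : U ≤ Subgroup.normalizer (R f x h.hx W' : Set (V ≃ₗ[F] V)) := fun s hs => by
      refine Subgroup.mem_normalizer_fintype ?_
      rintro g ⟨a, ha, c, k⟩
      have hs' := E_le_Isom (u1 hs)
      have := k.conj hs'
      rw [u2 hs x xH] at this
      refine ⟨_, ?_, _, this⟩
      rw [← hf.perp_perp W']
      intro w hw
      rw [← u2 hs w hw, (f.mem_Isom.1 hs').1]
      exact f.B_zero_symm (hw a ha)
    have dj : ∀ g ∈ R f x h.hx W', g ∈ U → g = 1 := by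
      rintro g ⟨a, ha, c, k⟩ hg
      have e := eich_app k h (m a ha).2
      rw [u2 hg y yH] at e
      have e1 : a + c • x = 0 := by linear_combination (norm := module) e
      have e2 := congrArg (f.B · y) e1
      simp only [B_add_left, B_smul_left, (m a ha).2, h.hxy, B_zero_left, mul_one, zero_add] at e2
      rw [e2, zero_smul, add_zero] at e1
      rw [e1, e2] at k
      exact k.unique (isEich_one h.hx)
    refine ⟨R f x h.hx W' ⊔ U, sup_le (fun g ⟨_, _, _, k⟩ => k.mem_E) u1, sup_le (fun g ⟨a, ha, _, k⟩ v hv =>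
      k.fix (hv x hx) (hv a ha.1)) fun g hg v hv => u2 hg v (f.perp_anti inf_le_left hv),
      .to_sup_of_normal_left' (fun ⟨g, _, _, _, k⟩ => ⟨2, Subtype.ext (eich_pow_char k)⟩) u3 nm,
      (good_R hG h.hx fun a ha => (m a ha).1).sup u4, ?_⟩
    refine (Nat.mul_le_mul (d1 ▸ card_R h m) u5).trans ?_
    rw [← Nat.card_prod]
    refine Nat.card_le_card_of_injective (fun p => ⟨_, Subgroup.mul_mem_sup p.1.2 p.2.2⟩) ?_
    rintro ⟨a, b⟩ ⟨a', b'⟩ e
    have e' : a.1 * b.1 = a'.1 * b'.1 := congrArg Subtype.val e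
    have e1 : a'.1⁻¹ * a.1 = b'.1 * b.1⁻¹ := by rw [inv_mul_eq_iff_eq_mul, ← mul_assoc, ← e', mul_inv_cancel_right]
    have e2 := dj _ (mul_mem (inv_mem a'.2) a.2) (e1 ▸ mul_mem b'.2 (inv_mem b.2))
    rw [e2, eq_comm, mul_inv_eq_one] at e1
    exact Prod.ext (Subtype.ext (inv_mul_eq_one.1 e2).symm) (Subtype.ext e1.symm)

theorem good_syl [Finite F] [CharP F 2] [FiniteDimensional F V] (hf : f.Nondeg) (h3 : 3 ≤ finrank F V)
    (hG : (∀ a, f.B a a = 0) ∨ ∃ l : F, l - P.σ l = 1)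
    (hA : ∀ W : Submodule F V, (f.res W).Nondeg → 2 ≤ finrank F W →
      (∃ x y, (f.res W).IsHyp x y) ∨ finrank F W = 2 ∧ P.τ = 1) {S : Subgroup (V ≃ₗ[F] V)} (h1 : f.E ≤ S)
    (h2 : S ≤ f.Isom) {H : Type*} [Group H] (e : H ≃* S) {N r d : ℕ}
    (hc : d * Nat.card (H ⧸ Subgroup.center H) = 2 ^ N * r) (hr : Odd r)
    (hN : 2 ^ N ≤ uc (Nat.card F) P.τ (finrank F V)) (Q : Sylow 2 (H ⧸ Subgroup.center H)) : Good 2 Q.1 := by
  haveI := finite_linearEquiv (F := F) (V := V)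
  haveI : Fact (Nat.Prime 2) := ⟨Nat.prime_two⟩
  haveI : Finite H := Finite.of_equiv _ e.symm.toEquiv
  have t : (⊤ : Submodule F V) ⊓ f.perp ⊤ = ⊥ := by rw [hf.perp_top, inf_bot_eq]
  obtain ⟨U, u1, -, u3, u4, u5⟩ := exists_U hf hG hA _ ⊤ t (finrank_top F V)
  obtain ⟨x, y, h0⟩ := (hA ⊤ ((f.res_nondeg_iff _).2 t) (by rw [finrank_top]; omega)).resolve_right
    (by rw [finrank_top]; omega)
  have h : f.IsHyp x.1 y.1 := ⟨h0.hx, h0.hy, h0.hxy⟩
  let φ : U →* H ⧸ Subgroup.center H :=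
    (QuotientGroup.mk' _).comp (e.symm.toMonoidHom.comp (Subgroup.inclusion (u1.trans h1)))
  have inj : Function.Injective φ := (injective_iff_map_eq_one _).2 fun g hg => by
    have k : Subgroup.inclusion (u1.trans h1) g ∈ Subgroup.center S :=
      (MulEquivClass.apply_mem_center_iff e.symm).1 ((QuotientGroup.eq_one_iff _).1 hg)
    obtain ⟨l, hl⟩ := (mem_center_iff_scalar hf (rich_of_finrank hf h3) h h1 h2).1 k
    obtain ⟨j, hj⟩ := u3 g
    have a1 : ∀ i : ℕ, (g.1 ^ i) x.1 = l ^ i • x.1 := fun i => by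
      induction i with
      | zero => simp
      | succ i ih => rw [pow_succ', LinearEquiv.mul_apply, ih, map_smul, show g.1 x.1 = _ from hl x.1, smul_smul, pow_succ]
    have a2 := congrArg (f.B · y.1) (a1 (2 ^ j))
    rw [show g.1 ^ 2 ^ j = 1 from congrArg Subtype.val hj] at a2
    simp only [LinearEquiv.coe_one, id, B_smul_left, h.hxy, mul_one] at a2
    have a3 : (l - 1) ^ 2 ^ j = 0 := by rw [sub_pow_char_pow, ← a2]; simp
    have a4 := sub_eq_zero.1 (pow_eq_zero_iff (by positivity) |>.1 a3)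
    exact Subtype.ext (LinearEquiv.ext fun v => by simpa [a4] using hl v)
  obtain ⟨k, hk⟩ := IsPGroup.iff_card.1 u3
  obtain ⟨ε⟩ := syl_equiv inj (L := ⊤) (u3.of_equiv Subgroup.topEquiv.symm) (by
    rw [Subgroup.card_top, hk, padicValNat.prime_pow]
    have a1 : N ≤ k := (Nat.pow_le_pow_iff_right one_lt_two).1 (hN.trans (hk ▸ u5))
    have r0 : r ≠ 0 := hr.pos.ne'
    have a2 : 2 ^ padicValNat 2 (Nat.card (H ⧸ Subgroup.center H)) ∣ 2 ^ N * r :=
      hc ▸ pow_padicValNat_dvd.mul_left d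
    have a3 := ((Nat.coprime_two_left.2 hr).pow_left _).dvd_of_dvd_mul_right a2
    exact ((Nat.pow_dvd_pow_iff_le_right one_lt_two).1 a3).trans a1) Q
  exact good_top.1 (good_equiv (Subgroup.topEquiv.symm.trans ε) (good_top.2 u4))

theorem uc_symp (q m : ℕ) : uc q q (2 * m) = q ^ m ^ 2 := by
  induction m with
  | zero => rfl
  | succ m ih => rw [mul_add, mul_one, uc, ih]; ring

theorem uc_orth (q m : ℕ) : uc q 1 (2 * (m + 1)) = q ^ ((m + 1) * m) := by
  induction m with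
  | zero => simp [uc]
  | succ m ih => rw [mul_add 2 (m + 1), mul_one, uc, ih]; ring

theorem uc_unit (q n : ℕ) : uc (q ^ 2) q n = q ^ (n * (n - 1) / 2) := by
  induction n using Nat.twoStepInduction with
  | zero => simp [uc]
  | one => simp [uc]
  | more n ih _ =>
    rw [uc, ih, ← Finset.sum_range_id, ← Finset.sum_range_id, Finset.sum_range_succ, Finset.sum_range_succ]; ring

end CfsgH5.Up
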