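import Cfsg.Agent.H5.Wr1
import Cfsg.Agent.H6.AutTw
import Cfsg.Agent.H6.TwF4
import Cfsg.Agent.H6.TwE6b
import Cfsg.Agent.H6.TwD4

/-! Maximal unipotent subgroups of exceptional groups in characteristic two. -/

set_option autoImplicit false

namespace CfsgH5.Up

open Wr Cfsg.Agent.S4623 Cfsg.Lie CfsgH6
open scoped commutatorElement

set_option maxRecDepth 100000

theorem good_inv {Γ : Type*} [Group Γ] {M : Subgroup Γ} (h : ∀ x ∈ M, x * x = 1) : Good 2 M := fun x hx => by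
  rw [sq, h x hx]; exact one_mem _

theorem good_sub {Γ : Type*} [Group Γ] {p : ℕ} {M N : Subgroup Γ} (h : Good p (M ⊓ N)) : Good p (M.subgroupOf N) := by
  rw [← Subgroup.inf_subgroupOf_right]
  exact good_top.1 (good_equiv (Subgroup.subgroupOfEquivOfLe inf_le_right).symm (good_top.2 h))

theorem good_any {Γ : Type*} [Group Γ] [Finite Γ] {p : ℕ} [Fact p.Prime] {Q : Sylow p Γ} (h : Good p Q.1)
    {H : Type*} [Group H] (e : H ≃* Γ) (R : Sylow p H) : Good p R.1 := by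
  haveI := Finite.of_equiv _ e.symm.toEquiv
  refine good_top.1 (good_equiv (Sylow.equiv (Q.mapSurjective (f := e.symm.toMonoidHom) e.symm.surjective) R)
    (good_top.2 (h.map _)))

variable {D : ChevalleyDatum} {G : CfsgH6.Good D} {F : Type*} [Field F] {Γ : Type*} [Group Γ] {C : Cover G F Γ}

theorem good_US [CharP F 2] (S : Set (Fin D.nroots)) : Good 2 (C.US S) :=
  good_of ((Subgroup.closure_le _).2 (by
    rintro _ ⟨r, hr, t, rfl⟩
    refine mem_pw.2 ⟨C.x_mem hr t, ?_⟩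
    rw [sq, ← C.add, CharTwo.add_self_eq_zero, C.x_zero]; exact one_mem _))

theorem good_tw {ι : Type} (T : Twist C ι) {p : ℕ} (h0 : ∀ c, Good p (C.US (T.Sp c) ⊓ T.Fix)) : Good p (C.U ⊓ T.G1) := by
  have key : ∀ w ∈ T.W1, Good p (C.US (G.invSet w) ⊓ T.Fix) := fun w hw => by
    refine T.W1_induction (p := fun w => Good p (C.US (G.invSet w) ⊓ T.Fix)) ?_ ?_ hw
    · rw [Twist.invSet_one, C.US_empty]; intro x hx; simp [Subgroup.mem_bot.1 hx.1]
    · intro c w hw h ih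
      refine good_of ?_
      rintro g ⟨hg, hf⟩
      have hS := Good.nil_invSet (Twist.lin_W1 (mul_mem hw (T.s_mem c)))
      obtain ⟨a, ha, b, hb, rfl⟩ := C.exists_mul hS (T.invSet_mul_s hw h) hg
      obtain ⟨h1, h2⟩ := T.fix_split hS (fun r e => (T.invSet_mul_s hw h r).2 (Or.inl e))
        (fun r e => (T.invSet_mul_s hw h r).2 (Or.inr e)) (G.nil_posJ _).closed
        ((Good.nil_invSet (Twist.lin_W1 hw)).closed.preimage (Twist.lin_W1 (T.s_mem c))) (T.disjoint_Sp w c) (T.ρ_Sp c)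
        (T.ρ_pre hw (T.s_mem c)) ha hb hf
      have h3 := T.G1_le_Fix (T.ν_G1 c)
      refine mul_mem (le_pw (h0 c) (inf_le_inf_right _ (C.US_mono fun r e => (T.invSet_mul_s hw h r).2 (Or.inl e)))
        ⟨ha, h1⟩) (le_pw (ih.map (MulAut.conj (T.ν c)⁻¹).toMonoidHom) ?_ ⟨_, ⟨(T.mon_ν c).conj_mem (fun _ hs => hs) hb,
          T.Fix.mul_mem (T.Fix.mul_mem h3 h2) (inv_mem h3)⟩, by simp [mul_assoc]⟩)
      rintro _ ⟨y, ⟨y1, y2⟩, rfl⟩
      have e : (MulAut.conj (T.ν c)⁻¹).toMonoidHom y = (T.ν c)⁻¹ * y * T.ν c := by simp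
      rw [e]
      exact ⟨C.US_mono (fun r e => (T.invSet_mul_s hw h r).2 (Or.inr e))
        ((T.mon_ν c).conj_mem' (fun _ hs => by simpa using hs) y1), T.Fix.mul_mem (T.Fix.mul_mem (inv_mem h3) y2) h3⟩
  obtain ⟨w, hw, h⟩ := T.exists_w0
  have := key w hw
  rwa [Twist.invSet_w0 h, ← Cover.U, ← T.U_inf_G1] at this

theorem good_tw' [Finite F] [CharP F 2] [Finite Γ] {ι : Type} (T : Twist C ι) (h3 : C.R3)
    (h0 : ∀ c, Good 2 (C.US (T.Sp c) ⊓ T.Fix)) {H : Type*} [Group H] (e : H ≃* T.G1) (R : Sylow 2 H) : Good 2 R.1 :=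
  haveI : Fact (Nat.Prime 2) := ⟨Nat.prime_two⟩
  good_any (Q := T.sylow h3 2) (good_sub (good_tw T h0)) e R

theorem w1 [CharP F 2] (r : ℕ) (t : F) : wordG C.x [(r, t)] * wordG C.x [(r, t)] = 1 := by
  have := C.xn_add r t t 1
  simpa [C.word_cons, C.wordG_nil, CharTwo.add_self_eq_zero, C.xn_zero] using this

theorem w2 [CharP F 2] {r s : ℕ} (h : SwOK D r s []) (t u : F) :
    wordG C.x [(r, t), (s, u)] * wordG C.x [(r, t), (s, u)] = 1 := by
  simp only [C.word_cons, mul_assoc, C.word_nil_mul, C.xn_comm h, C.xn_add, CharTwo.add_self_eq_zero, C.xn_zero,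
    one_mul, C.wordG_nil]

theorem w3 [CharP F 2] {r s k : ℕ} (h : SwOK D r s []) (h' : SwOK D r k []) (h'' : SwOK D s k []) (t u v : F) :
    wordG C.x [(r, t), (s, u), (k, v)] * wordG C.x [(r, t), (s, u), (k, v)] = 1 := by
  simp only [C.word_cons, mul_assoc, C.word_nil_mul, C.xn_comm h, C.xn_comm h', C.xn_comm h'', C.xn_add,
    CharTwo.add_self_eq_zero, C.xn_zero, one_mul, C.wordG_nil]

variable {K : Type*} [Field K] [Fintype K] [CharP K 2]

theorem good_E6 {q : ℕ} (hq : IsPrimePow q) (hK : Fintype.card K = q ^ 2) {H : Type*} [Group H]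
    (e : H ≃* twistedE6 K q) (R : Sylow 2 H) : Good 2 R.1 := by
  obtain ⟨φ, hφ⟩ := exists_frob hq hK
  refine good_tw' (TE6g hφ hK) (goodE6.gl_R3 K) (fun c => good_inv fun g hg => ?_)
    (e.trans (MulEquiv.subgroupCongr (twistedE6_eq hφ hK))) R
  set T := TE6g hφ hK
  fin_cases c
  · obtain ⟨t, -, rfl⟩ := (oneE6 hφ _ (XE6 φ).fn_gl (T.nil_Sp 0) (by simp) clsE6.1.1 g).1 hg
    exact w1 _ _
  · obtain ⟨t, -, rfl⟩ := (oneE6 hφ _ (XE6 φ).fn_gl (T.nil_Sp 1) (by simp) clsE6.2.1.1 g).1 hg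
    exact w1 _ _
  · obtain ⟨t, rfl⟩ := (twoE6 hφ hK _ (XE6 φ).fn_gl (T.nil_Sp 2) (by simp) clsE6.2.2.1.1 g).1 hg
    exact w2 (prE6 (42, 37) (by simp)).2 _ _
  · obtain ⟨t, rfl⟩ := (twoE6 hφ hK _ (XE6 φ).fn_gl (T.nil_Sp 3) (by simp) clsE6.2.2.2.1 g).1 hg
    exact w2 (prE6 (56, 36) (by simp)).2 _ _

theorem good_D4 {q : ℕ} (hq : IsPrimePow q) (hK : Fintype.card K = q ^ 3) {H : Type*} [Group H]
    (e : H ≃* twistedD4 K q) (R : Sylow 2 H) : Good 2 R.1 := by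
  obtain ⟨φ, hφ⟩ := exists_frob hq hK
  refine good_tw' (TD4g hφ hK) (goodD4.gl_R3 K) (fun c => good_inv fun g hg => ?_)
    (e.trans (MulEquiv.subgroupCongr (twistedD4_eq hφ hK))) R
  set T := TD4g hφ hK
  fin_cases c
  · obtain ⟨t, -, rfl⟩ := (oneD4 hφ _ (XD4 φ).fn_gl (T.nil_Sp 0) (by simp) clsD4.1.1 g).1 hg
    exact w1 _ _
  · obtain ⟨t, rfl⟩ := (threeD4 hφ hK _ (XD4 φ).fn_gl (T.nil_Sp 1) (by simp) clsD4.2.1 g).1 hg
    exact w3 (by decide +kernel) (by decide +kernel) (by decide +kernel) _ _ _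

theorem b2mul (C : Cover goodF4 K Γ) (a b c d a' b' c' d' : K) :
    wordG C.x [(27, a), (25, b), (28, c), (30, d)] * wordG C.x [(27, a'), (25, b'), (28, c'), (30, d')] =
      wordG C.x [(27, a + a'), (25, b + b'), (28, c + c' + a' * b), (30, d + d' + a' ^ 2 * b)] := by
  have h1 : SwOK chevF4 27 25 [(28, -1, 1, 1), (30, -1, 2, 1)] := by decide +kernel
  have h2 : SwOK chevF4 28 30 [] := by decide +kernel
  have h3 : SwOK chevF4 27 30 [] := by decide +kernel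
  have h4 : SwOK chevF4 25 30 [] := by decide +kernel
  have h5 : SwOK chevF4 25 28 [] := by decide +kernel
  obtain ⟨ε, h6, h7⟩ : ∃ ε : ℤ, SwOK chevF4 27 28 [(30, ε, 1, 1)] ∧ (ε = 2 ∨ ε = -2) := by
    by_cases k : SwOK chevF4 27 28 [(30, 2, 1, 1)]
    · exact ⟨_, k, .inl rfl⟩
    · exact ⟨-2, by revert k; decide +kernel, .inr rfl⟩
  have h8 := C.xn_comm' h6 (by rcases h7 with rfl | rfl <;> simp [CharTwo.two_eq_zero])
  simp [C.word_cons, mul_assoc, C.word_nil_mul, C.xn_comm h2, C.xn_comm h3, C.xn_comm h4, C.xn_comm h5, h8,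
    C.xn_swap h1, C.xn_add, CharTwo.neg_eq, add_comm (a' * b), add_comm (a' ^ 2 * b)]

theorem good_F4 {m : ℕ} (hm : 1 ≤ m) (hK : Fintype.card K = 2 ^ (2 * m + 1)) {H : Type*} [Group H]
    (e : H ≃* twistedF4 K (2 ^ m)) (R : Sylow 2 H) : Good 2 R.1 := by
  obtain ⟨-, φ, hφ⟩ := exists_theta (by norm_num) hK
  refine good_tw' (TF4g hφ hK) (goodF4.gl_R3 K) (fun c => ?_) (e.trans (MulEquiv.subgroupCongr (twistedF4_eq hφ hK))) R
  set T := TF4g hφ hK
  fin_cases c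
  · refine good_inv fun g hg => ?_
    obtain ⟨t, rfl⟩ := (twoF4 hφ hK _ (XF4 φ).fn_gl (T.nil_Sp 0) (by simp) clsF4.1.1 g).1 hg
    exact w2 (prF4 (33, 24) (by simp)).2.1 _ _
  have k : ∀ g, g ∈ (goodF4.gl K).US (T.Sp 1) ⊓ T.Fix ↔ ∃ t u, g = wordG (goodF4.gl K).x
      [(27, φ t), (25, t), (28, φ t * t + u), (30, φ u ^ 2)] := fun g => by
    refine (posF4 hφ hK _ (XF4 φ).fn_gl (T.nil_Sp 1) clsF4.2.1 g).trans ?_
    simp only [b2ClassWord, hφ, pow_succ _ (2 ^ m), mul_comm 2 (2 ^ m), pow_mul]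
    rfl
  have θ := theta_theta hφ hK
  have h2 : (2 : K) = 0 := CharTwo.two_eq_zero
  obtain ⟨s, hs⟩ : ∃ s, φ s + s ≠ 0 := by
    by_contra! h
    have h3 : ∀ s : K, s = 0 ∨ s = 1 := fun s => by
      have := θ s
      rw [CharTwo.add_eq_zero.1 (h _), CharTwo.add_eq_zero.1 (h _)] at this
      rw [← sub_eq_zero (a := s) (b := 1), ← mul_eq_zero]
      linear_combination this
    classical
    have := Finset.card_le_card (show Finset.univ ⊆ ({0, 1} : Finset K) from fun s _ => by simpa using h3 s)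
    have h4 := Finset.card_le_two (a := (0 : K)) (b := 1)
    rw [Finset.card_univ, hK] at this
    have : 2 ^ 3 ≤ 2 ^ (2 * m + 1) := Nat.pow_le_pow_right two_pos (by omega)
    omega
  have sur : ∀ y : K, ∃ c, φ c * c = y := fun y => by
    by_cases hy : y = 0
    · exact ⟨0, by simp [hy]⟩
    have := (map_ne_zero φ).2 hy
    refine ⟨y ^ 2 / φ y ^ 2, ?_⟩
    rw [map_div₀, map_pow, map_pow, θ]
    field_simp
  intro g hg
  obtain ⟨t, u, rfl⟩ := (k g).1 hg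
  obtain ⟨c, hc⟩ := sur (φ t * t / (φ s + s))
  have hc' : φ c * c * (φ s + s) = φ t * t := by rw [hc]; field_simp
  have hc2 : c * φ c ^ 2 * (s + φ s ^ 2) = t * φ t ^ 2 := by
    have := congrArg (fun z => φ z ^ 2) hc'
    simpa only [map_mul, map_add, mul_pow, CharTwo.add_sq, θ] using this
  refine (congrArg (· ∈ _) ?_).mpr
    (Subgroup.commutator_mem_commutator ((k _).2 ⟨c * s, 0, rfl⟩) ((k _).2 ⟨c, 0, rfl⟩))
  rw [commutatorElement_def, eq_mul_inv_iff_mul_eq, eq_mul_inv_iff_mul_eq, sq, b2mul, b2mul, b2mul, b2mul]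
  simp only [map_mul, map_zero]
  congr 3
  · linear_combination φ t * h2
  · congr 1; linear_combination t * h2
  · congr 1
    · congr 1
      linear_combination -hc' + (φ t * t + u + φ c * t + φ c * φ s * t + φ c * φ s * c) * h2
    · congr 2
      linear_combination -hc2 + (φ u ^ 2 + φ c ^ 2 * t + (φ c * φ s) ^ 2 * t + (φ c * φ s) ^ 2 * c) * h2

end CfsgH5.Up
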