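import Cfsg.Agent.H5.Au2
import Cfsg.Agent.H6.TwistW
import Cfsg.Agent.H6.Levi

/-! Subgroups of `U` normalized by a Borel subgroup of a Chevalley group. -/

set_option autoImplicit false

namespace CfsgH5.Wk

open CfsgH6 Cfsg.Lie

variable {D : ChevalleyDatum} {G : CfsgH6.Good D} {F : Type*} [Field F] {Γ : Type*} [Group Γ] (C : Cover G F Γ)

theorem fl_lt {r s : Fin D.nroots} : G.fn G.fl r < G.fn G.fl s ↔ r < s := G.fl_mono.lt_iff_lt

theorem fl_le {r s : Fin D.nroots} : G.fn G.fl r ≤ G.fn G.fl s ↔ r ≤ s := G.fl_mono.le_iff_le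

theorem fl_pos {r : Fin D.nroots} (h : G.Pos r) : 0 < G.fn G.fl r := by
  obtain ⟨i, hi⟩ := h.exists_pos
  exact Finset.sum_pos' (fun j _ => mul_nonneg (G.fl_pos j).le (h j)) ⟨i, Finset.mem_univ _, mul_pos (G.fl_pos i) hi⟩

theorem nil_fl : G.Nil G.fl {r | G.Pos r} := ⟨G.nil_pos.closed, fun _ => fl_pos⟩

theorem comb {r s k : Fin D.nroots} (hr : G.Pos r) (hs : G.Pos s) {i j : ℕ} (hi : 0 < i) (hj : 0 < j)
    (h : ∀ a, G.vec k a = i * G.vec r a + j * G.vec s a) : G.Pos k ∧ r < k ∧ s < k := by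
  have h1 := G.fn_comb G.fl h
  have h2 := fl_pos hr
  have h3 := fl_pos hs
  have h4 : (1 : ℤ) ≤ i := by omega
  have h5 : (1 : ℤ) ≤ j := by omega
  exact ⟨G.nil_pos.closed r hr s hs k i j hi hj h, fl_lt.1 (by nlinarith), fl_lt.1 (by nlinarith)⟩

/-- the root subgroups of the positive roots from index `m` on -/
def Y (m : ℕ) : Subgroup Γ := C.US {r | G.Pos r ∧ m ≤ r.1}

variable {C}

theorem Y_le (m : ℕ) : Y C m ≤ C.U := C.US_mono fun _ h => h.1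

theorem Y_anti {m n : ℕ} (h : m ≤ n) : Y C n ≤ Y C m := C.US_mono fun _ k => ⟨k.1, h.trans k.2⟩

theorem Y_zero : Y C 0 = C.U := by simp [Y, Cover.U]

theorem Y_top : Y C D.nroots = ⊥ := by
  rw [Y, ← C.US_empty]; congr 1; ext r; simp

theorem Y_conj {m : ℕ} {g v : Γ} (hg : g ∈ C.U) (hv : v ∈ Y C m) : g * v * g⁻¹ ∈ Y C m :=
  C.US_conj_mem (T := {r | G.Pos r ∧ m ≤ r.1}) (fun r hr h => G.pos_rev.1 h.1 hr) (fun r hr s hs k i j hi hj h =>
    ⟨(comb hr hs.1 hi hj h).1, hs.2.trans (comb hr hs.1 hi hj h).2.2.le⟩) hg v hv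

theorem Y_dec {m : ℕ} {g : Γ} (hg : g ∈ Y C m) :
    g ∈ Y C (m + 1) ∨ ∃ δ : Fin D.nroots, δ.1 = m ∧ G.Pos δ ∧ ∃ t, ∃ z ∈ Y C (m + 1), g = C.x δ t * z := by
  obtain ⟨a, ha, b, hb, rfl⟩ := C.exists_mul (nil_fl.subset (T := {r | G.Pos r ∧ m ≤ r.1}) (fun _ h => h.1)
    fun r hr s hs k i j hi hj h => ⟨(comb hr.1 hs.1 hi hj h).1, hs.2.trans (comb hr.1 hs.1 hi hj h).2.2.le⟩)
    (A := {r | G.Pos r ∧ r.1 = m}) (B := {r | G.Pos r ∧ m + 1 ≤ r.1}) (fun s => by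
      simp only [Set.mem_setOf_eq, ← and_or_left]; exact and_congr_right fun _ => by omega) hg
  by_cases h : ∃ δ : Fin D.nroots, δ.1 = m ∧ G.Pos δ
  · obtain ⟨δ, h1, h2⟩ := h
    obtain ⟨t, rfl⟩ := C.mem_US_single.1 (C.US_mono (T := {δ}) (fun r hr => Fin.ext (hr.2.trans h1.symm)) ha)
    exact .inr ⟨δ, h1, h2, t, b, hb, rfl⟩
  · have := C.US_mono (T := ∅) (fun r hr => h ⟨r, hr.2, hr.1⟩) ha
    rw [C.US_empty, Subgroup.mem_bot] at this
    exact .inl (by rwa [this, one_mul])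

theorem Y_comm (δ : Fin D.nroots) {g v : Γ} (hg : g ∈ C.U) (hv : v ∈ Y C δ) : g⁻¹ * v⁻¹ * g * v ∈ Y C (δ + 1) :=
  C.US_mono (fun r hr => And.intro hr.1 (fl_lt.1 hr.2)) (C.Um_central nil_fl (m := G.fn G.fl δ) hg
    (C.US_mono (fun r hr => And.intro hr.1 (fl_le.2 hr.2)) hv))

variable (C) in
/-- `K` is normalized by the Borel subgroup -/
structure BN (K : Subgroup Γ) : Prop where
  u : ∀ g ∈ C.U, ∀ a ∈ K, g * a * g⁻¹ ∈ K
  h : ∀ r τ, τ ≠ 0 → ∀ a ∈ K, C.h r τ * a * (C.h r τ)⁻¹ ∈ K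

variable (C) in
/-- some element of `K` is a nontrivial element of `X_γ` modulo `Y m` -/
def Ld (K : Subgroup Γ) (γ : Fin D.nroots) (m : ℕ) : Prop := ∃ t, t ≠ 0 ∧ ∃ z ∈ Y C m, C.x γ t * z ∈ K

variable (G F) in
/-- the torus separates two roots -/
def Sep (δ γ : Fin D.nroots) : Prop := ∃ r, ∃ τ : F, τ ≠ 0 ∧ τ ^ G.A r δ = 1 ∧ τ ^ G.A r γ ≠ 1

variable {K : Subgroup Γ} {γ : Fin D.nroots}

theorem BN.u' (h : BN C K) {g a : Γ} (hg : g ∈ C.U) (ha : a ∈ K) : g⁻¹ * a * g ∈ K := by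
  simpa using h.u _ (inv_mem hg) a ha

theorem Ld.step (hK : BN C K) (hγ : G.Pos γ) {m : ℕ} (h : Ld C K γ m)
    (hs : ∀ δ : Fin D.nroots, δ.1 = m → G.Pos δ → Sep G F δ γ ∨ ∀ t, C.x δ t ∈ K) : Ld C K γ (m + 1) := by
  obtain ⟨t, ht, y, hy, h⟩ := h
  rcases Y_dec hy with k | ⟨δ, h1, h2, s, z, hz, rfl⟩
  · exact ⟨t, ht, y, k, h⟩
  rcases hs δ h1 h2 with ⟨r, τ, h3, h4, h5⟩ | k
  · refine ⟨(τ ^ G.A r γ - 1) * t, mul_ne_zero (sub_ne_zero.2 h5) ht, _, Y_conj (C.x_mem_U hγ t) (Y_conj (C.x_mem_U h2 s)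
      (mul_mem (C.HH_conj (C.h_mem_HH r h3) hz) (inv_mem hz))), ?_⟩
    have e1 := C.h_conj r h3 γ t
    have e2 := C.h_conj r h3 δ s
    rw [h4, one_mul] at e2
    convert mul_mem (hK.h r τ h3 _ h) (inv_mem h) using 1
    rw [sub_mul, one_mul, sub_eq_add_neg, C.add, C.x_neg, ← e1]
    nth_rewrite 1 [← e2]
    group
  · exact ⟨t, ht, z, hz, by convert mul_mem h (hK.u' (Y_le _ hz) (inv_mem (k s))) using 1; group⟩

theorem Ld.kill (hK : BN C K) (hγ : G.Pos γ) {m n : ℕ} (h : Ld C K γ m) (hn : m ≤ n)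
    (hs : ∀ δ : Fin D.nroots, m ≤ δ.1 → δ.1 < n → G.Pos δ → Sep G F δ γ ∨ ∀ t, C.x δ t ∈ K) : Ld C K γ n := by
  induction n, hn using Nat.le_induction with
  | base => exact h
  | succ n hn ih => exact (ih fun δ a b => hs δ a (by omega)).step hK hγ fun δ e => hs δ (by omega) (by omega)

theorem Ld.fin [Finite F] (hK : BN C K) (h : Ld C K γ D.nroots) (t : F) : C.x γ t ∈ K := by
  obtain ⟨s, hs, z, hz, h⟩ := h
  rw [Y_top, Subgroup.mem_bot] at hz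
  rw [hz, mul_one] at h
  let R : Subring F :=
    { carrier := {c | ∀ u, C.x γ u ∈ K → C.x γ (c * u) ∈ K}
      mul_mem' := fun ha hb u hu => by rw [mul_assoc]; exact ha _ (hb u hu)
      one_mem' := fun u hu => by rwa [one_mul]
      add_mem' := fun ha hb u hu => by rw [add_mul, C.add]; exact mul_mem (ha u hu) (hb u hu)
      zero_mem' := fun u _ => by rw [zero_mul, C.x_zero]; exact one_mem _
      neg_mem' := fun ha u hu => by rw [neg_mul, C.x_neg]; exact inv_mem (ha u hu) }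
  have : (⊤ : Subring F) ≤ R := (Au.closure_sq (F := F)) ▸ Subring.closure_le.2 (by
    rintro _ ⟨l, hl, rfl⟩ u hu
    have := hK.h γ l hl _ hu
    rwa [C.h_conj γ hl, G.A_self, zpow_ofNat] at this)
  simpa [hs] using this (Subring.mem_top (t * s⁻¹)) s h

variable (C) in
/-- leading terms give root subgroups -/
def TP (K : Subgroup Γ) (γ : Fin D.nroots) : Prop := Ld C K γ (γ + 1) → ∀ t, C.x γ t ∈ K

theorem tp_of [Finite F] (hK : BN C K) (hγ : G.Pos γ)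
    (hs : Ld C K γ (γ + 1) → ∀ δ : Fin D.nroots, γ < δ → G.Pos δ → Sep G F δ γ ∨ ∀ t, C.x δ t ∈ K) : TP C K γ :=
  fun h => (h.kill hK hγ γ.2 fun δ a _ => hs h δ a).fin hK

theorem le_US (hT : ∀ γ, G.Pos γ → TP C K γ) (hU : K ≤ C.U) : K ≤ C.US {γ | G.Pos γ ∧ ∀ t, C.x γ t ∈ K} := by
  have : ∀ m ≤ D.nroots, ∀ g ∈ K, g ∈ Y C m → g ∈ C.US {γ | G.Pos γ ∧ ∀ t, C.x γ t ∈ K} := fun m hm => by
    induction hm using Nat.decreasingInduction with
    | self => intro g _ h; rw [Y_top, Subgroup.mem_bot] at h; exact h ▸ one_mem _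
    | of_succ m _ ih =>
      intro g hg h
      rcases Y_dec h with k | ⟨δ, rfl, h2, s, z, hz, rfl⟩
      · exact ih g hg k
      by_cases hs : s = 0
      · rw [hs, C.x_zero, one_mul] at hg ⊢
        exact ih z hg hz
      · have := hT δ h2 ⟨s, hs, z, hz, hg⟩
        exact mul_mem (C.x_mem (And.intro h2 this) s) (ih z ((K.mul_mem_cancel_left (this s)).1 hg) hz)
  exact fun g hg => this 0 (Nat.zero_le _) g hg (Y_zero (C := C) ▸ hU hg)

theorem word_mem {m : ℕ} {w : List (ℕ × F)} (h : ∀ p ∈ w, ∃ k : Fin D.nroots, k.1 = p.1 ∧ G.Pos k ∧ m ≤ k.1) :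
    wordG C.x w ∈ Y C m := by
  induction w with
  | nil => exact one_mem _
  | cons p w ih =>
    obtain ⟨k, e, h1⟩ := h p (by simp)
    rw [show p = (k.1, p.2) from Prod.ext e.symm rfl, C.word_cons, C.xn_coe]
    exact mul_mem (C.x_mem h1 _) (ih fun q hq => h q (by simp [hq]))

theorem word_filter (hK : BN C K) {w : List (ℕ × F)} (h : ∀ p ∈ w, ∃ k : Fin D.nroots, k.1 = p.1 ∧ G.Pos k)
    (P : ℕ × F → Bool) (hP : ∀ p ∈ w, P p = false → C.xn p.1 p.2 ∈ K) :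
    (wordG C.x w)⁻¹ * wordG C.x (w.filter P) ∈ K := by
  induction w with
  | nil => simp
  | cons p w ih =>
    have h1 := ih (fun q hq => h q (by simp [hq])) fun q hq => hP q (by simp [hq])
    have h2 : wordG C.x w ∈ C.U := Y_le 0 (word_mem fun q hq => by simpa using h q (by simp [hq]))
    obtain ⟨r, t⟩ := p
    cases e : P (r, t)
    · rw [List.filter_cons_of_neg (by simp [e]), C.word_cons]
      convert mul_mem (hK.u' h2 (inv_mem (hP _ (by simp) e))) h1 using 1; group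
    · rw [List.filter_cons_of_pos e, C.word_cons, C.word_cons]
      convert h1 using 1; group

theorem word_split (hK : BN C K) {w : List (ℕ × F)} (hn : (w.map Prod.fst).Nodup)
    (h : ∀ p ∈ w, ∃ k : Fin D.nroots, k.1 = p.1 ∧ G.Pos k ∧ TP C K k) {m : ℕ} {z : Γ} (hz : z ∈ Y C m)
    (hw : wordG C.x w * z ∈ K) (γ : Fin D.nroots) :
    ∀ c, (γ.1, c) ∈ w → c ≠ 0 → γ.1 < m → ∀ t, C.x γ t ∈ K := by
  induction γ using WellFoundedLT.induction with
  | ind γ ih =>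
  intro c hc c0 hm
  have h1 := word_filter hK (fun p hp => (h p hp).imp fun k e => ⟨e.1, e.2.1⟩) (fun p => γ.1 ≤ p.1) fun p hp e => by
    obtain ⟨k, e1, -⟩ := h p hp
    rw [← e1, C.xn_coe]
    by_cases p0 : p.2 = 0
    · rw [p0, C.x_zero]; exact one_mem _
    · have : k.1 < γ.1 := by simpa [e1] using e
      exact ih k this p.2 (by rwa [e1]) p0 (by omega) _
  have h2 : wordG C.x (w.filter fun p => γ.1 ≤ p.1) * z ∈ K := by
    convert mul_mem hw (hK.u' (Y_le _ hz) h1) using 1; group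
  have h3 := (hn.sublist ((List.filter_sublist (p := fun p => γ.1 ≤ p.1)).map _))
  have h4 : ∀ p ∈ w.filter fun p => γ.1 ≤ p.1, p ∈ w ∧ γ.1 ≤ p.1 := fun p hp => by simpa using hp
  obtain ⟨w1, w2, e⟩ := List.append_of_mem (show (γ.1, c) ∈ w.filter fun p => γ.1 ≤ p.1 by simp [hc])
  rw [e] at h2 h3 h4
  obtain ⟨k, e1, h5, h6⟩ := h _ hc
  obtain rfl : k = γ := Fin.ext e1
  have key : ∀ v : List (ℕ × F), (∀ p ∈ v, p ∈ w1 ++ (k.1, c) :: w2 ∧ p.1 ≠ k.1) → wordG C.x v ∈ Y C (k + 1) :=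
    fun v hv => word_mem fun p hp => by
      obtain ⟨l, e1, e2, -⟩ := h p (h4 p (hv p hp).1).1
      exact ⟨l, e1, e2, by have := (h4 p (hv p hp).1).2; have := (hv p hp).2; omega⟩
  rw [List.map_append, List.map_cons, List.nodup_append] at h3
  have k1 := key w1 fun p hp => ⟨by simp [hp], h3.2.2 _ (List.mem_map_of_mem hp) _ (by simp)⟩
  have k2 := key w2 fun p hp => ⟨by simp [hp], fun e => (List.nodup_cons.1 h3.2.1).1 (List.mem_map.2 ⟨p, hp, e⟩)⟩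
  refine h6 ⟨c, c0, _, mul_mem (mul_mem (Y_conj (inv_mem (C.x_mem_U h5 c)) k1) k2) (Y_anti hm hz), ?_⟩
  convert h2 using 1
  simp [wordG, mul_assoc]

theorem comm_split (hK : BN C K) {d g a : Fin D.nroots} (hd : G.Pos d) (hg : G.Pos g) {j : ℕ}
    (ha : D.chainRoot d g (j + 1) = some a.1) (hM : D.chainM d g (j + 1) = 1 ∨ D.chainM d g (j + 1) = -1)
    (hT : ∀ k, G.Pos k → g < k → TP C K k) {m : ℕ} {z : Γ} (hz : z ∈ Y C m) (hm : a.1 < m) {t u : F} (ht : t ≠ 0)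
    (hu : u ≠ 0) (hw : wordG C.x (D.commWord F d g t u) * z ∈ K) (s : F) : C.x a s ∈ K := by
  have hj : j < 3 := by
    by_contra e
    rw [G.chainRoot_big d g (by omega)] at ha
    cases ha
  refine word_split hK ?_ (fun p hp => ?_) hz hw a _ (List.mem_map_of_mem (Good.mem_commTerms hj ha)) ?_ hm s
  · rw [ChevalleyDatum.commWord, List.map_map]
    refine List.Nodup.map_on (fun p hp q hq e => List.inj_on_of_nodup_map (Good.commTerms_nodup d g) hp hq ?_)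
      (Good.commTerms_nodup (D := D) d g).of_map
    obtain ⟨k, h1, -, -, h2⟩ := G.comm_vec hp
    obtain ⟨l, h3, -, -, h4⟩ := G.comm_vec hq
    obtain rfl : k = l := Fin.ext (h1.trans (e.trans h3.symm))
    by_cases e1 : (p.2.2.2 : ℤ) - q.2.2.2 = 0
    · obtain ⟨b, hb⟩ := G.vec_ne_zero d
      have h7 := h2 b
      rw [h4 b, show (q.2.2.2 : ℤ) = p.2.2.2 by omega] at h7
      have : (q.2.2.1 : ℤ) = p.2.2.1 := mul_right_cancel₀ hb (by linarith)
      exact Prod.ext (by omega) (by omega)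
    · exfalso
      rcases G.eq_or_rev_of_smul (a := g) (d := d) (y := (q.2.2.1 : ℤ) - p.2.2.1) e1
        (fun b => by linear_combination h4 b - h2 b) with e | e
      · exact G.ne_of_some ha e
      · exact G.ne_rev_of_some ha e
  · obtain ⟨q, hq, rfl⟩ := List.mem_map.1 hp
    obtain ⟨k, h1, h2, h3, h4⟩ := G.comm_vec hq
    exact ⟨k, h1, (comb hd hg h2 h3 h4).1, hT k (comb hd hg h2 h3 h4).1 (comb hd hg h2 h3 h4).2.2⟩
  · rcases hM with h | h <;> simp [h, ht, hu]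

theorem Ld.comm (hK : BN C K) {d g a : Fin D.nroots} (hd : G.Pos d) (hg : G.Pos g) {j : ℕ}
    (ha : D.chainRoot d g (j + 1) = some a.1) (hM : D.chainM d g (j + 1) = 1 ∨ D.chainM d g (j + 1) = -1)
    (hT : ∀ k, G.Pos k → g < k → TP C K k) (h : Ld C K g a) (s : F) : C.x a s ∈ K := by
  obtain ⟨u, hu, z, hz, h⟩ := h
  have e := C.comm d g (G.ne_of_some ha) (G.ne_rev_of_some ha) 1 u
  have h1 := C.x_mem_U hd 1
  have h2 : wordG C.x (D.commWord F d g 1 u) ∈ C.U := C.commWord_mem d g 1 u fun k i j hi hj h => (comb hd hg hi hj h).1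
  refine comm_split hK hd hg ha hM hT (mul_mem (Y_comm a h2 hz) (inv_mem (Y_comm a h1 hz))) (Nat.lt_succ_self _)
    one_ne_zero hu ?_ s
  convert mul_mem (inv_mem h) (hK.u' h1 h) using 1
  rw [← inv_mul_eq_iff_eq_mul.2 e]; group

variable (G) in
/-- every positive root is the end of a chain with coefficient `±1` -/
def CC : Prop := ∀ i γ, G.Pos γ → 0 < G.A (G.sm i) γ → γ ≠ G.sm i → ∃ β j, G.Pos β ∧
  D.chainRoot (G.sm i) β (j + 1) = some γ.1 ∧ (D.chainM (G.sm i) β (j + 1) = 1 ∨ D.chainM (G.sm i) β (j + 1) = -1)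

theorem eq_rad (hK : BN C K) (hU : K ≤ C.U) (hT : ∀ γ, G.Pos γ → TP C K γ) (hC : CC G)
    (hn : ∀ i, K ≤ C.US {r | G.Pos r ∧ r ≠ G.sm i} → ∀ a ∈ K, C.ν i * a * (C.ν i)⁻¹ ∈ K) :
    ∃ J, K = C.US (G.radJ J) := by
  set J := {i | K ≤ C.US {r | G.Pos r ∧ r ≠ G.sm i}}
  have h1 := le_US hT hU
  have h2 : ∀ i ∉ J, ∀ t, C.x (G.sm i) t ∈ K := fun i hi => by
    by_contra e
    exact hi (h1.trans (C.US_mono fun r hr => ⟨hr.1, fun e' => e (e' ▸ hr.2)⟩))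
  have h3 : ∀ i ∈ J, ∀ r, (∀ t, C.x r t ∈ K) → ∀ t, C.x (G.σ i r) t ∈ K := fun i hi r hr t => by
    obtain ⟨c, h, -⟩ := (C.mon_n_sm i one_ne_zero).conj_n r
    have := hn i hi _ (hr (c⁻¹ * t))
    rwa [Cover.ν, h, ← mul_assoc, Units.val_inv_eq_inv_val, mul_inv_cancel₀ c.ne_zero, one_mul] at this
  refine ⟨J, le_antisymm (h1.trans (C.US_mono fun r hr => ⟨hr.1, fun h => ?_⟩)) (C.US_le.2 fun r hr => ?_)⟩
  · obtain ⟨w, hw, h4⟩ := G.exists_longest J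
    have : ∀ t, C.x (w r) t ∈ K := G.WJ_induction (p := fun w => ∀ t, C.x (w r) t ∈ K) hr.2
      (fun i hi w _ ih => h3 i hi _ ih) hw
    exact h4 r hr.1 h (C.mem_of_x_mem G.nil_pos one_ne_zero (hU (this 1)) rfl)
  · refine G.pos_induction (p := fun r => ¬ G.InJ J r → ∀ t, C.x r t ∈ K) (fun i hi => h2 i (G.inJ_sm.not.1 hi))
      (fun i r h4 _ h5 h6 ih h7 => ?_) hr.1 hr.2
    by_cases hi : i ∈ J
    · simpa [G.σ_σ] using h3 i hi _ (ih (mt (Good.inJ_WJ (G.σ_mem_WJ hi)).1 h7))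
    · obtain ⟨β, j, k1, k2, k3⟩ := hC i r h4 h5 (by rintro rfl; exact G.not_pos_sm_rev i (G.σ_sm i ▸ h6))
      refine comm_split hK (G.pos_sm i) k1 k2 k3 (fun k hk _ => hT k hk) (one_mem (Y C D.nroots)) r.2 one_ne_zero
        one_ne_zero ?_
      convert mul_mem (hK.u' (C.x_mem_U k1 1) (inv_mem (h2 i hi 1))) (h2 i hi 1) using 1
      rw [← inv_mul_eq_iff_eq_mul.2 (C.comm _ β (G.ne_of_some k2) (G.ne_rev_of_some k2) 1 1)]; group

end CfsgH5.Wk
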